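import Mathlib
import Cfsg.Prelude.Def_GeometricClasses

set_option autoImplicit false

namespace Cfsg.Agent.Helper8.FS

variable {F : Type*} [Field F] [Fintype F] {n : ℕ}

/-- The module structure on `F^n` over a field `E` mapping into the matrix algebra. -/
@[reducible] def modE {E : Type*} [Field E] [Algebra F E]
    (φ : E →ₐ[F] Matrix (Fin n) (Fin n) F) : Module E (Fin n → F) where
  smul e x := (φ e).mulVec x
  one_smul x := by
    show (φ 1).mulVec x = x
    rw [map_one, Matrix.one_mulVec]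
  mul_smul a b x := by
    show (φ (a * b)).mulVec x = (φ a).mulVec ((φ b).mulVec x)
    rw [map_mul, Matrix.mulVec_mulVec]
  smul_zero a := Matrix.mulVec_zero _
  smul_add a x y := Matrix.mulVec_add _ _ _
  add_smul a b x := by
    show (φ (a + b)).mulVec x = (φ a).mulVec x + (φ b).mulVec x
    rw [map_add, Matrix.add_mulVec]
  zero_smul x := by
    show (φ 0).mulVec x = 0
    rw [map_zero, Matrix.zero_mulVec]

/-- Key lemma: if `φ : E → M_n(F)` is a field inside a subalgebra `M` of small dimension all of whose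
nonzero elements are invertible, and `θ ∈ M` is not in the image of `φ`, then some element of `SL_n(F)`
centralises the image of `φ` but does not conjugate `θ` into `M`. -/
theorem key {E : Type*} [Field E] [Algebra F E] (φ : E →ₐ[F] Matrix (Fin n) (Fin n) F)
    (M : Subalgebra F (Matrix (Fin n) (Fin n) F)) (hφM : ∀ e, φ e ∈ M)
    (hMinv : ∀ x ∈ M, x ≠ 0 → ∃ y ∈ M, x * y = 1)
    (hMdim : Module.finrank F M < n)
    (θ : Matrix (Fin n) (Fin n) F) (hθM : θ ∈ M) (hθ : ∀ e, φ e ≠ θ) :
    ∃ g : GL (Fin n) F, g ∈ Cfsg.Geo.specialLinear (Fin n) F ∧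
      (∀ e, (g : Matrix (Fin n) (Fin n) F) * φ e = φ e * (g : Matrix (Fin n) (Fin n) F)) ∧
      (g : Matrix (Fin n) (Fin n) F) * θ * ((g⁻¹ : GL (Fin n) F) : Matrix (Fin n) (Fin n) F) ∉ M := by
  classical
  have hn : 0 < n := lt_of_le_of_lt (Nat.zero_le _) hMdim
  let v : Fin n → F := Pi.single ⟨0, hn⟩ 1
  have hv : v ≠ 0 := by
    intro h
    have := congrFun h ⟨0, hn⟩
    simp [v] at this
  let ev : ↥M →ₗ[F] (Fin n → F) :=
    { toFun := fun x => (x : Matrix (Fin n) (Fin n) F).mulVec v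
      map_add' := fun x y => by
        show ((x + y : ↥M) : Matrix (Fin n) (Fin n) F).mulVec v = _
        rw [Subalgebra.coe_add, Matrix.add_mulVec]
      map_smul' := fun a x => by
        show ((a • x : ↥M) : Matrix (Fin n) (Fin n) F).mulVec v = _
        rw [Subalgebra.coe_smul, Matrix.smul_mulVec]
        rfl }
  have hrange : LinearMap.range ev ≠ ⊤ := by
    intro h
    have h1 : Module.finrank F (LinearMap.range ev) ≤ Module.finrank F M :=
      LinearMap.finrank_range_le ev
    rw [h, finrank_top, Module.finrank_fin_fun] at h1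
    omega
  obtain ⟨w, hw⟩ : ∃ w, w ∉ LinearMap.range ev := by
    by_contra hcon
    push_neg at hcon
    exact hrange (eq_top_iff.2 fun x _ => hcon x)
  have hwM : ∀ m ∈ M, m.mulVec v ≠ w := fun m hm h => hw ⟨⟨m, hm⟩, h⟩
  letI : Module E (Fin n → F) := modE φ
  have hsm : ∀ (e : E) (x : Fin n → F), e • x = (φ e).mulVec x := fun _ _ => rfl
  have hx : θ.mulVec v ∉ Submodule.span E ({v, w} : Set (Fin n → F)) := by
    intro hmem
    rw [Submodule.mem_span_pair] at hmem
    obtain ⟨c, d, hcd⟩ := hmem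
    rw [hsm, hsm] at hcd
    by_cases hd : d = 0
    · rw [hd, map_zero, Matrix.zero_mulVec, add_zero] at hcd
      have hne : θ - φ c ≠ 0 := fun h => hθ c (sub_eq_zero.1 h).symm
      obtain ⟨y, hyM, hy⟩ := hMinv _ (M.sub_mem hθM (hφM c)) hne
      have hy' : y * (θ - φ c) = 1 := mul_eq_one_comm.1 hy
      have h0 : (θ - φ c).mulVec v = 0 := by rw [Matrix.sub_mulVec, hcd, sub_self]
      apply hv
      calc v = (y * (θ - φ c)).mulVec v := by rw [hy', Matrix.one_mulVec]
        _ = 0 := by rw [← Matrix.mulVec_mulVec, h0, Matrix.mulVec_zero]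
    · apply hwM (φ d⁻¹ * (θ - φ c)) (M.mul_mem (hφM _) (M.sub_mem hθM (hφM c)))
      rw [← Matrix.mulVec_mulVec, Matrix.sub_mulVec, ← hcd, add_sub_cancel_left,
        Matrix.mulVec_mulVec, ← map_mul, inv_mul_cancel₀ hd, map_one, Matrix.one_mulVec]
  obtain ⟨f, hf1, hf2⟩ := Submodule.exists_dual_map_eq_bot_of_notMem hx inferInstance
  have hfv : f v = 0 := by
    have : f v ∈ (Submodule.span E ({v, w} : Set (Fin n → F))).map f :=
      Submodule.mem_map_of_mem (Submodule.subset_span (by simp))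
    exact (Submodule.eq_bot_iff _).1 hf2 (f v) this
  have hfw : f w = 0 := by
    have : f w ∈ (Submodule.span E ({v, w} : Set (Fin n → F))).map f :=
      Submodule.mem_map_of_mem (Submodule.subset_span (by simp))
    exact (Submodule.eq_bot_iff _).1 hf2 (f w) this
  have hfsm : ∀ (e : E) (x : Fin n → F), f ((φ e).mulVec x) = e * f x := by
    intro e x
    rw [← hsm, map_smul, smul_eq_mul]
  let N : (Fin n → F) →ₗ[F] (Fin n → F) :=
    { toFun := fun x => (φ (f x)).mulVec w
      map_add' := fun x y => by rw [map_add, map_add, Matrix.add_mulVec]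
      map_smul' := fun a x => by
        have h1 : a • x = (φ (algebraMap F E a)).mulVec x := by
          rw [AlgHom.commutes, Algebra.algebraMap_eq_smul_one, Matrix.smul_mulVec,
            Matrix.one_mulVec]
        rw [h1, hfsm, map_mul, AlgHom.commutes, Algebra.algebraMap_eq_smul_one, smul_mul_assoc,
          one_mul, Matrix.smul_mulVec]
        rfl }
  have hNdef : ∀ x, N x = (φ (f x)).mulVec w := fun _ => rfl
  have hNv : N v = 0 := by rw [hNdef, hfv, map_zero, Matrix.zero_mulVec]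
  have hNN : ∀ x, N (N x) = 0 := by
    intro x
    rw [hNdef, hNdef, hfsm, hfw, mul_zero, map_zero, Matrix.zero_mulVec]
  let Nm : Matrix (Fin n) (Fin n) F := LinearMap.toMatrix' N
  have hNm : ∀ x, Nm.mulVec x = N x := fun x => by
    rw [← Matrix.toLin'_apply, Matrix.toLin'_toMatrix']
  have hNm2 : Nm * Nm = 0 := by
    apply Matrix.toLin'.injective
    apply LinearMap.ext
    intro x
    rw [Matrix.toLin'_apply, ← Matrix.mulVec_mulVec, hNm, hNm, hNN]
    simp
  have hcomm : ∀ e, Nm * φ e = φ e * Nm := by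
    intro e
    apply Matrix.toLin'.injective
    apply LinearMap.ext
    intro x
    rw [Matrix.toLin'_apply, Matrix.toLin'_apply, ← Matrix.mulVec_mulVec, ← Matrix.mulVec_mulVec,
      hNm, hNm, hNdef, hNdef, hfsm, map_mul, Matrix.mulVec_mulVec]
  have h1 : (1 + Nm) * (1 - Nm) = 1 := by
    rw [mul_sub, mul_one, add_mul, one_mul, hNm2, add_zero, add_sub_cancel_right]
  have h2 : (1 - Nm) * (1 + Nm) = 1 := by
    rw [mul_add, mul_one, sub_mul, one_mul, hNm2, sub_zero, sub_add_cancel]
  let g : GL (Fin n) F := ⟨1 + Nm, 1 - Nm, h1, h2⟩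
  refine ⟨g, ?_, ?_, ?_⟩
  · rw [Cfsg.Geo.specialLinear, MonoidHom.mem_ker]
    apply Units.ext
    rw [Matrix.GeneralLinearGroup.val_det_apply]
    show (1 + Nm).det = 1
    obtain ⟨p, hp⟩ := CharP.exists F
    have := hp
    have : Fact p.Prime := ⟨CharP.char_is_prime F p⟩
    have : Nonempty (Fin n) := ⟨⟨0, hn⟩⟩
    have : CharP (Matrix (Fin n) (Fin n) F) p := inferInstance
    have hpow : (1 + Nm) ^ p = 1 := by
      rw [add_pow_char_of_commute _ (Commute.one_left Nm)]
      have h0 : Nm ^ p = 0 := by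
        have h2p : 2 ≤ p := (Fact.out : p.Prime).two_le
        obtain ⟨k, rfl⟩ := Nat.exists_eq_add_of_le h2p
        rw [pow_add, pow_two, hNm2, zero_mul]
      rw [one_pow, h0, add_zero]
    have hd : (1 + Nm).det ^ p = 1 := by rw [← Matrix.det_pow, hpow, Matrix.det_one]
    have h0 : ((1 + Nm).det - 1) ^ p = 0 := by rw [sub_pow_char, hd, one_pow, sub_self]
    exact sub_eq_zero.1 ((pow_eq_zero_iff (Fact.out : p.Prime).ne_zero).1 h0)
  · intro e
    show (1 + Nm) * φ e = φ e * (1 + Nm)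
    rw [add_mul, mul_add, one_mul, mul_one, hcomm]
  · intro hmem
    obtain ⟨θ', hθ'⟩ : ∃ θ' : Matrix (Fin n) (Fin n) F, θ' = (g : Matrix (Fin n) (Fin n) F) * θ *
        ((g⁻¹ : GL (Fin n) F) : Matrix (Fin n) (Fin n) F) := ⟨_, rfl⟩
    rw [← hθ'] at hmem
    have e1 : θ' * (1 + Nm) = (1 + Nm) * θ := by
      rw [hθ']
      show (1 + Nm) * θ * (1 - Nm) * (1 + Nm) = _
      rw [mul_assoc, h2, mul_one]
    have hv1 : (1 + Nm).mulVec v = v := by
      rw [Matrix.add_mulVec, Matrix.one_mulVec, hNm, hNv, add_zero]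
    have e2 : θ'.mulVec v = θ.mulVec v + (φ (f (θ.mulVec v))).mulVec w := by
      calc θ'.mulVec v = θ'.mulVec ((1 + Nm).mulVec v) := by rw [hv1]
        _ = (θ' * (1 + Nm)).mulVec v := by rw [Matrix.mulVec_mulVec]
        _ = ((1 + Nm) * θ).mulVec v := by rw [e1]
        _ = _ := by
          rw [← Matrix.mulVec_mulVec, Matrix.add_mulVec, Matrix.one_mulVec, hNm, hNdef]
    apply hwM (φ (f (θ.mulVec v))⁻¹ * (θ' - θ)) (M.mul_mem (hφM _) (M.sub_mem hmem hθM))
    rw [← Matrix.mulVec_mulVec, Matrix.sub_mulVec, e2, add_sub_cancel_left, Matrix.mulVec_mulVec,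
      ← map_mul, inv_mul_cancel₀ hf1, map_one, Matrix.one_mulVec]

end Cfsg.Agent.Helper8.FS
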