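import Mathlib
import Cfsg.Prelude.Def_GeometricClasses
import Cfsg.Agent.Helper8.FieldSub1

set_option autoImplicit false

namespace Cfsg.Agent.Helper8.FS

variable {F : Type*} [Field F] [Fintype F] {n : ℕ}

theorem isField_of (hn : 0 < n) (K : Subalgebra F (Matrix (Fin n) (Fin n) F))
    (hcomm : ∀ x ∈ K, ∀ y ∈ K, x * y = y * x)
    (hinv : ∀ x ∈ K, x ≠ 0 → ∃ y ∈ K, x * y = 1) : IsField ↥K := by
  haveI : Nonempty (Fin n) := ⟨⟨0, hn⟩⟩
  refine ⟨⟨0, 1, ?_⟩, ?_, ?_⟩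
  · intro h
    have h1 : ((0 : ↥K) : Matrix (Fin n) (Fin n) F) = ((1 : ↥K) : Matrix (Fin n) (Fin n) F) := by
      rw [h]
    rw [Subalgebra.coe_zero, Subalgebra.coe_one] at h1
    exact zero_ne_one h1
  · intro x y
    exact Subtype.ext (hcomm x.1 x.2 y.1 y.2)
  · intro a ha
    obtain ⟨y, hy, hxy⟩ := hinv a.1 a.2 (fun h => ha (Subtype.ext h))
    exact ⟨⟨y, hy⟩, Subtype.ext hxy⟩

theorem mem_norm_iff (K : Subalgebra F (Matrix (Fin n) (Fin n) F)) (g : GL (Fin n) F) :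
    g ∈ Cfsg.Geo.subalgebraNormalizer K ↔ ∀ k : Matrix (Fin n) (Fin n) F,
      k ∈ K ↔ (g : Matrix (Fin n) (Fin n) F) * k *
        ((g⁻¹ : GL (Fin n) F) : Matrix (Fin n) (Fin n) F) ∈ K := Iff.rfl

theorem conj_cancel (g : GL (Fin n) F) (X : Matrix (Fin n) (Fin n) F) :
    ((g⁻¹ : GL (Fin n) F) : Matrix (Fin n) (Fin n) F) * ((g : Matrix (Fin n) (Fin n) F) * X *
      ((g⁻¹ : GL (Fin n) F) : Matrix (Fin n) (Fin n) F)) * (g : Matrix (Fin n) (Fin n) F) = X := by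
  rw [mul_assoc, mul_assoc, Units.inv_mul, mul_one, ← mul_assoc, Units.inv_mul, one_mul]

/-- The elements of a field subalgebra: a generator-like element and a non-scalar element fixed by the
`q^a`-power map. -/
theorem exists_elts (r a : ℕ) (ha2 : 2 ≤ a) (har : a ∣ r) (halt : a < r) (hn : 0 < n)
    (K : Subalgebra F (Matrix (Fin n) (Fin n) F)) (hK : Cfsg.Geo.IsFieldSubalgebra r K) :
    ∃ z ∈ K, z ^ (Fintype.card F ^ a) ≠ z ∧ ∃ y ∈ K, y ^ (Fintype.card F ^ a) = y ∧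
      ∀ c : F, algebraMap F (Matrix (Fin n) (Fin n) F) c ≠ y := by
  classical
  obtain ⟨q, hq⟩ : ∃ q, q = Fintype.card F := ⟨_, rfl⟩
  rw [← hq]
  have hq1 : 1 < q := hq ▸ Fintype.one_lt_card
  have hqa_lt : q ^ a < q ^ r := Nat.pow_lt_pow_right hq1 halt
  have hqa_gt : q < q ^ a := by
    calc q = q ^ 1 := (pow_one q).symm
      _ < q ^ a := Nat.pow_lt_pow_right hq1 (by omega)
  have hqa1 : 1 ≤ q ^ a := by omega
  have hdvd : q ^ a - 1 ∣ q ^ r - 1 := by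
    obtain ⟨b, rfl⟩ := har
    have := Nat.sub_dvd_pow_sub_pow (q ^ a) 1 b
    rwa [one_pow, ← pow_mul] at this
  have hcardK : Nat.card ↥K = q ^ r := by
    have : Fintype ↥K := Fintype.ofFinite _
    rw [Nat.card_eq_fintype_card, Module.card_eq_pow_finrank (K := F) (V := ↥K), hK.finrank_eq, hq]
  letI : Field ↥K := (isField_of hn K hK.comm hK.inv).toField
  obtain ⟨ζ, hζ⟩ := IsCyclic.exists_generator (α := (↥K)ˣ)
  have hordζ : orderOf ζ = q ^ r - 1 := by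
    rw [orderOf_eq_card_of_forall_mem_zpowers hζ, Nat.card_units, hcardK]
  refine ⟨((ζ : ↥K) : Matrix (Fin n) (Fin n) F), (ζ : ↥K).2, ?_, ?_⟩
  · intro h
    have h1 : (ζ : ↥K) ^ (q ^ a) = (ζ : ↥K) := Subtype.ext h
    have h2 : ζ ^ (q ^ a - 1) = 1 := by
      apply Units.ext
      rw [Units.val_pow_eq_pow_val, Units.val_one]
      have h3 : (ζ : ↥K) ^ (q ^ a - 1) * (ζ : ↥K) = 1 * (ζ : ↥K) := by
        rw [← pow_succ, Nat.sub_add_cancel hqa1, h1, one_mul]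
      exact mul_right_cancel₀ ζ.ne_zero h3
    have h4 := orderOf_dvd_of_pow_eq_one h2
    rw [hordζ] at h4
    have := Nat.le_of_dvd (by omega) h4
    omega
  · obtain ⟨j, hj⟩ : ∃ j, j * (q ^ a - 1) = q ^ r - 1 := ⟨_, Nat.div_mul_cancel hdvd⟩
    have hjpos : 0 < j := by
      rcases Nat.eq_zero_or_pos j with h | h
      · rw [h, zero_mul] at hj
        omega
      · exact h
    obtain ⟨η, hη⟩ : ∃ η : (↥K)ˣ, η = ζ ^ j := ⟨_, rfl⟩
    have hη1 : η ^ (q ^ a - 1) = 1 := by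
      rw [hη, ← pow_mul, hj, ← hordζ, pow_orderOf_eq_one]
    have hηpow : (η : ↥K) ^ (q ^ a) = (η : ↥K) := by
      have h1 : (η : ↥K) ^ (q ^ a - 1) = 1 := by
        rw [← Units.val_pow_eq_pow_val, hη1, Units.val_one]
      calc (η : ↥K) ^ (q ^ a) = (η : ↥K) ^ (q ^ a - 1) * (η : ↥K) := by
            rw [← pow_succ, Nat.sub_add_cancel hqa1]
        _ = _ := by rw [h1, one_mul]
    refine ⟨((η : ↥K) : Matrix (Fin n) (Fin n) F), (η : ↥K).2, congrArg Subtype.val hηpow, ?_⟩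
    intro c hc
    have hc0 : c ≠ 0 := by
      rintro rfl
      rw [map_zero] at hc
      exact η.ne_zero (Subtype.ext hc.symm)
    have h1 : (η : ↥K) ^ (q - 1) = 1 := by
      apply Subtype.ext
      show ((η : ↥K) : Matrix (Fin n) (Fin n) F) ^ (q - 1) = 1
      rw [← hc, ← map_pow, hq, FiniteField.pow_card_sub_one_eq_one c hc0, map_one]
    have h2 : η ^ (q - 1) = 1 := Units.ext (by rw [Units.val_pow_eq_pow_val, h1, Units.val_one])
    have h3 : ζ ^ (j * (q - 1)) = 1 := by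
      rw [pow_mul, ← hη]
      exact h2
    have h4 := orderOf_dvd_of_pow_eq_one h3
    rw [hordζ, ← hj] at h4
    have h5 : q ^ a - 1 ∣ q - 1 := Nat.dvd_of_mul_dvd_mul_left hjpos h4
    have := Nat.le_of_dvd (by omega) h5
    omega

theorem main (n r : ℕ) (hr1 : 1 < r) (hrp : ¬ r.Prime) (hlt : r < n)
    (K : Subalgebra F (Matrix (Fin n) (Fin n) F)) (hK : Cfsg.Geo.IsFieldSubalgebra r K) :
    ∃ (K₀ : Subalgebra F (Matrix (Fin n) (Fin n) F)) (g₁ g₂ : GL (Fin n) F),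
      Cfsg.Geo.subalgebraNormalizer K ≤ Cfsg.Geo.subalgebraNormalizer K₀ ∧
      g₁ ∈ Cfsg.Geo.specialLinear (Fin n) F ∧ g₁ ∈ Cfsg.Geo.subalgebraNormalizer K₀ ∧
      g₁ ∉ Cfsg.Geo.subalgebraNormalizer K ∧
      g₂ ∈ Cfsg.Geo.specialLinear (Fin n) F ∧ g₂ ∉ Cfsg.Geo.subalgebraNormalizer K₀ := by
  classical
  have hn : 0 < n := by omega
  haveI : Nonempty (Fin n) := ⟨⟨0, hn⟩⟩
  obtain ⟨a, ha2, har, halt⟩ : ∃ a, 2 ≤ a ∧ a ∣ r ∧ a < r := by
    have hpr : r.minFac.Prime := Nat.minFac_prime (by omega)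
    refine ⟨r.minFac, hpr.two_le, Nat.minFac_dvd r, ?_⟩
    rcases lt_or_eq_of_le (Nat.minFac_le (by omega : 0 < r)) with h | h
    · exact h
    · rw [h] at hpr
      exact absurd hpr hrp
  obtain ⟨z, hzK, hzpow, y, hyK, hy_pow, hy_ns⟩ := exists_elts r a ha2 har halt hn K hK
  obtain ⟨q, hq⟩ : ∃ q, q = Fintype.card F := ⟨_, rfl⟩
  rw [← hq] at hzpow hy_pow
  obtain ⟨p, hp⟩ := CharP.exists F
  haveI := hp
  haveI : Fact p.Prime := ⟨CharP.char_is_prime F p⟩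
  obtain ⟨f, -, hqf⟩ := FiniteField.card F p
  have hm : q ^ a = p ^ ((f : ℕ) * a) := by rw [hq, hqf, pow_mul]
  have hqa0 : q ^ a ≠ 0 := by
    have h1 : 0 < q := hq ▸ Fintype.card_pos
    exact (Nat.pow_pos h1).ne'
  haveI : CharP (Matrix (Fin n) (Fin n) F) p := inferInstance
  let K₀ : Subalgebra F (Matrix (Fin n) (Fin n) F) :=
    { carrier := {x | x ∈ K ∧ x ^ (q ^ a) = x}
      mul_mem' := fun {x y} hx hy => ⟨K.mul_mem hx.1 hy.1, by
        rw [(show Commute x y from hK.comm x hx.1 y hy.1).mul_pow, hx.2, hy.2]⟩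
      one_mem' := ⟨K.one_mem, one_pow _⟩
      add_mem' := fun {x y} hx hy => ⟨K.add_mem hx.1 hy.1, by
        rw [hm, add_pow_char_pow_of_commute p _ (show Commute x y from hK.comm x hx.1 y hy.1), ← hm,
          hx.2, hy.2]⟩
      zero_mem' := ⟨K.zero_mem, zero_pow hqa0⟩
      algebraMap_mem' := fun c => ⟨K.algebraMap_mem c, by
        rw [← map_pow, hq, FiniteField.pow_card_pow]⟩ }
  have hK₀mem : ∀ x, x ∈ K₀ ↔ x ∈ K ∧ x ^ (q ^ a) = x := fun x => Iff.rfl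
  have hK₀comm : ∀ x ∈ K₀, ∀ y ∈ K₀, x * y = y * x := fun x hx y hy => hK.comm x hx.1 y hy.1
  have hK₀inv : ∀ x ∈ K₀, x ≠ 0 → ∃ y ∈ K₀, x * y = 1 := by
    intro x hx hx0
    obtain ⟨y, hyK, hxy⟩ := hK.inv x hx.1 hx0
    have hyx : y * x = 1 := by rw [← hK.comm x hx.1 y hyK]; exact hxy
    refine ⟨y, ⟨hyK, ?_⟩, hxy⟩
    have h1 : x * y ^ (q ^ a) = 1 := by
      have := (show Commute x y from hK.comm x hx.1 y hyK).mul_pow (q ^ a)
      rw [hxy, one_pow, hx.2] at this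
      exact this.symm
    calc y ^ (q ^ a) = (y * x) * y ^ (q ^ a) := by rw [hyx, one_mul]
      _ = y * (x * y ^ (q ^ a)) := mul_assoc _ _ _
      _ = y := by rw [h1, mul_one]
  have hK₀le : K₀ ≤ K := fun x hx => hx.1
  have hK₀dim : Module.finrank F ↥K₀ < n := by
    have := LinearMap.finrank_le_finrank_of_injective
      (f := (Subalgebra.inclusion hK₀le).toLinearMap) (Subalgebra.inclusion_injective hK₀le)
    rw [hK.finrank_eq] at this
    omega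
  have hle : Cfsg.Geo.subalgebraNormalizer K ≤ Cfsg.Geo.subalgebraNormalizer K₀ := by
    intro g hg
    rw [mem_norm_iff] at hg ⊢
    intro k
    rw [hK₀mem, hK₀mem, ← hg k, Units.conj_pow]
    constructor
    · rintro ⟨h1, h2⟩
      exact ⟨h1, by rw [h2]⟩
    · rintro ⟨h1, h2⟩
      refine ⟨h1, ?_⟩
      rw [← conj_cancel g (k ^ (q ^ a)), h2, conj_cancel]
  obtain ⟨g₁, hg₁S, hg₁c, hg₁n⟩ : ∃ g : GL (Fin n) F, g ∈ Cfsg.Geo.specialLinear (Fin n) F ∧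
      (∀ e ∈ K₀, (g : Matrix (Fin n) (Fin n) F) * e = e * (g : Matrix (Fin n) (Fin n) F)) ∧
      (g : Matrix (Fin n) (Fin n) F) * z *
        ((g⁻¹ : GL (Fin n) F) : Matrix (Fin n) (Fin n) F) ∉ K := by
    letI : Field ↥K₀ := (isField_of hn K₀ hK₀comm hK₀inv).toField
    obtain ⟨g, h1, h2, h3⟩ := key (E := ↥K₀) K₀.val K (fun e => e.2.1) hK.inv
      (by rw [hK.finrank_eq]; exact hlt) z hzK (fun e he => hzpow (by rw [← he]; exact e.2.2))
    exact ⟨g, h1, fun e he => h2 ⟨e, he⟩, h3⟩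
  obtain ⟨g₂, hg₂S, -, hg₂n⟩ := key (E := F) (Algebra.ofId F (Matrix (Fin n) (Fin n) F)) K₀
    (fun c => K₀.algebraMap_mem c) hK₀inv hK₀dim y ⟨hyK, hy_pow⟩ hy_ns
  refine ⟨K₀, g₁, g₂, hle, hg₁S, ?_, ?_, hg₂S, ?_⟩
  · rw [mem_norm_iff]
    intro k
    constructor
    · intro hk
      rw [hg₁c k hk, mul_assoc, Units.mul_inv, mul_one]
      exact hk
    · intro hk
      have h := hg₁c _ hk
      have h' : (g₁ : Matrix (Fin n) (Fin n) F) * ((g₁ : Matrix (Fin n) (Fin n) F) * k *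
          ((g₁⁻¹ : GL (Fin n) F) : Matrix (Fin n) (Fin n) F)) = (g₁ : Matrix (Fin n) (Fin n) F) * k := by
        rw [h, mul_assoc, Units.inv_mul, mul_one]
      have h'' : (g₁ : Matrix (Fin n) (Fin n) F) * k *
          ((g₁⁻¹ : GL (Fin n) F) : Matrix (Fin n) (Fin n) F) = k := (Units.mul_right_inj g₁).1 h'
      rw [← h'']
      exact hk
  · intro h
    rw [mem_norm_iff] at h
    exact hg₁n ((h z).1 hzK)
  · intro h
    rw [mem_norm_iff] at h
    exact hg₂n ((h y).1 ⟨hyK, hy_pow⟩)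

end Cfsg.Agent.Helper8.FS
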