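import Mathlib
import Cfsg.Agent.Helper8.Metacyclic
import Cfsg.Agent.Helper8.Metacyclic2
import Cfsg.Agent.Helper8.Metacyclic3

set_option autoImplicit false
open Cfsg
open scoped commutatorElement

/-! # Metacyclic `p`-groups for odd `p`: factorisation into two cyclic subgroups -/

namespace Cfsg.Agent.Helper8.Meta

/-! ## Number theory in `ℤ` -/

theorem gs_mul (t : ℤ) (N M : ℕ) :
    ∑ i ∈ Finset.range (N * M), t ^ i =
      (∑ i ∈ Finset.range N, t ^ i) * ∑ j ∈ Finset.range M, (t ^ N) ^ j := by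
  induction M with
  | zero => simp
  | succ M ih =>
    rw [Nat.mul_succ, Finset.sum_range_add, ih, Finset.sum_range_succ, mul_add]
    congr 1
    rw [Finset.sum_mul]
    apply Finset.sum_congr rfl
    intro x _
    rw [pow_add, ← pow_mul, mul_comm]

theorem dvd_gs_one {p : ℕ} [Fact p.Prime] (u : ℤ) (hu : (p : ℤ) ∣ u - 1) :
    (p : ℤ) ∣ ∑ i ∈ Finset.range p, u ^ i := by
  rw [← ZMod.intCast_zmod_eq_zero_iff_dvd]
  have hu1 : ((u : ℤ) : ZMod p) = 1 := by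
    have := (ZMod.intCast_zmod_eq_zero_iff_dvd (u - 1) p).mpr hu
    push_cast at this
    exact sub_eq_zero.mp this
  push_cast
  simp [hu1]

theorem dvd_gs {p : ℕ} [Fact p.Prime] (t : ℤ) (ht : (p : ℤ) ∣ t - 1) (s : ℕ) :
    (p : ℤ) ^ s ∣ ∑ i ∈ Finset.range (p ^ s), t ^ i := by
  induction s with
  | zero => simp
  | succ s ih =>
    rw [show p ^ (s + 1) = p ^ s * p from pow_succ p s, gs_mul, pow_succ]
    apply mul_dvd_mul ih
    apply dvd_gs_one
    have := sub_dvd_pow_sub_pow t 1 (p ^ s)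
    rw [one_pow] at this
    exact dvd_trans ht this

theorem pow_sub_one_dvd {p : ℕ} [Fact p.Prime] (t : ℤ) (ht : (p : ℤ) ∣ t - 1) (j M : ℕ) :
    (p : ℤ) ^ (j + 1) ∣ t ^ (p ^ j * M) - 1 := by
  have h1 : t ^ (p ^ j * M) - 1 = (∑ i ∈ Finset.range (p ^ j * M), t ^ i) * (t - 1) :=
    (geom_sum_mul t _).symm
  rw [h1, gs_mul, pow_succ]
  exact mul_dvd_mul (Dvd.dvd.mul_right (dvd_gs t ht j) _) ht

theorem E1 {p : ℕ} [Fact p.Prime] (hp : p ≠ 2) (u u' : ℤ) (d : ℕ) (hu : (p : ℤ) ∣ u - 1)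
    (hu' : (p : ℤ) ∣ u' - 1) (hd : (p : ℤ) ^ d ∣ u' - u) :
    (p : ℤ) ^ (d + 1) ∣ (∑ i ∈ Finset.range p, u' ^ i) - ∑ i ∈ Finset.range p, u ^ i := by
  have hpp : p.Prime := Fact.out
  have h1 : (∑ i ∈ Finset.range p, u' ^ i) - ∑ i ∈ Finset.range p, u ^ i =
      (u' - u) * ∑ i ∈ Finset.range p, ∑ j ∈ Finset.range i, u' ^ j * u ^ (i - 1 - j) := by
    rw [← Finset.sum_sub_distrib, Finset.mul_sum]
    apply Finset.sum_congr rfl
    intro i _
    rw [mul_comm, geom_sum₂_mul]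
  rw [h1, pow_succ]
  apply mul_dvd_mul hd
  rw [← ZMod.intCast_zmod_eq_zero_iff_dvd]
  have hu1 : ((u : ℤ) : ZMod p) = 1 := by
    have := (ZMod.intCast_zmod_eq_zero_iff_dvd (u - 1) p).mpr hu
    push_cast at this
    exact sub_eq_zero.mp this
  have hu1' : ((u' : ℤ) : ZMod p) = 1 := by
    have := (ZMod.intCast_zmod_eq_zero_iff_dvd (u' - 1) p).mpr hu'
    push_cast at this
    exact sub_eq_zero.mp this
  push_cast
  simp only [hu1, hu1', one_pow, mul_one, Finset.sum_const, Finset.card_range, nsmul_eq_mul]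
  rw [← Nat.cast_sum]
  obtain ⟨q, hq⟩ := hpp.odd_of_ne_two hp
  have h2 : ∑ i ∈ Finset.range p, i = p * q := by
    have h3 := Finset.sum_range_id_mul_two p
    have h4 : p - 1 = 2 * q := by omega
    rw [h4] at h3
    have h5 : (∑ i ∈ Finset.range p, i) * 2 = (p * q) * 2 := by rw [h3]; ring
    exact Nat.eq_of_mul_eq_mul_right (by norm_num) h5
  rw [h2, Nat.cast_mul, ZMod.natCast_self, zero_mul]

theorem E {p : ℕ} [Fact p.Prime] (hp : p ≠ 2) (t t' : ℤ) (d : ℕ) (hd1 : 1 ≤ d)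
    (ht : (p : ℤ) ∣ t - 1) (hd : (p : ℤ) ^ d ∣ t' - t) (s : ℕ) :
    (p : ℤ) ^ (s + d) ∣
      (∑ i ∈ Finset.range (p ^ s), t' ^ i) - ∑ i ∈ Finset.range (p ^ s), t ^ i := by
  have ht' : (p : ℤ) ∣ t' - 1 := by
    have h1 : t' - 1 = (t' - t) + (t - 1) := by ring
    rw [h1]
    exact dvd_add (dvd_trans (dvd_pow_self _ (by omega)) hd) ht
  induction s with
  | zero => simp
  | succ s ih =>
    rw [show p ^ (s + 1) = p ^ s * p from pow_succ p s, gs_mul, gs_mul]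
    have hpow : ∀ x : ℤ, (p : ℤ) ∣ x - 1 → (p : ℤ) ∣ x ^ p ^ s - 1 := by
      intro x hx
      have := sub_dvd_pow_sub_pow x 1 (p ^ s)
      rw [one_pow] at this
      exact dvd_trans hx this
    have hY : (p : ℤ) ^ (d + 1) ∣ (∑ j ∈ Finset.range p, (t' ^ p ^ s) ^ j) -
        ∑ j ∈ Finset.range p, (t ^ p ^ s) ^ j :=
      E1 hp _ _ d (hpow t ht) (hpow t' ht') (dvd_trans hd (sub_dvd_pow_sub_pow t' t (p ^ s)))
    have hY' : (p : ℤ) ∣ ∑ j ∈ Finset.range p, (t' ^ p ^ s) ^ j := dvd_gs_one _ (hpow t' ht')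
    have hX : (p : ℤ) ^ s ∣ ∑ i ∈ Finset.range (p ^ s), t ^ i := dvd_gs t ht s
    have key : ∀ X X' Y Y' : ℤ, X' * Y' - X * Y = (X' - X) * Y' + X * (Y' - Y) := by
      intros; ring
    rw [key]
    apply dvd_add
    · have h1 : s + 1 + d = (s + d) + 1 := by omega
      rw [h1, pow_succ]; exact mul_dvd_mul ih hY'
    · have h1 : s + 1 + d = s + (d + 1) := by omega
      rw [h1, pow_add]; exact mul_dvd_mul hX hY

theorem gs_factor {p : ℕ} [Fact p.Prime] (hp : p ≠ 2) {T : ℕ} (hT1 : 1 < T) (hT : p ∣ T - 1)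
    (ν : ℕ) : ∃ f, ¬ p ∣ f ∧ ∑ i ∈ Finset.range (p ^ ν), T ^ i = p ^ ν * f := by
  have hpp : p.Prime := Fact.out
  obtain ⟨hS0, hSv⟩ := geom_val hp hT1 hT (pow_pos hpp.pos ν).ne'
  obtain ⟨e, f, hnd, hS⟩ := Nat.exists_eq_pow_mul_and_not_dvd hS0 p hpp.ne_one
  refine ⟨f, hnd, ?_⟩
  have hf0 : f ≠ 0 := by rintro rfl; exact hnd (dvd_zero p)
  rw [hS, padicValNat.mul (pow_pos hpp.pos e).ne' hf0, padicValNat.prime_pow,
    padicValNat.prime_pow, padicValNat.eq_zero_of_not_dvd hnd, add_zero] at hSv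
  rw [hS, hSv]

/-! ## Group theory -/

variable {G : Type*} [Group G]

theorem conj_pow_iter {a x : G} {t : ℕ} (h : x * a * x⁻¹ = a ^ t) (k : ℕ) :
    x ^ k * a * (x ^ k)⁻¹ = a ^ (t ^ k) := by
  induction k with
  | zero => simp
  | succ k ih =>
    have h1 : x ^ (k + 1) * a * (x ^ (k + 1))⁻¹ = x * (x ^ k * a * (x ^ k)⁻¹) * x⁻¹ := by
      rw [pow_succ']; group
    rw [h1, ih, ← conj_pow, h, ← pow_mul, pow_succ']

theorem pow_mul_formula (u w : G) (T : ℕ) (h : w * u * w⁻¹ = u ^ T) (N : ℕ) :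
    (u * w) ^ N = u ^ (∑ i ∈ Finset.range N, T ^ i) * w ^ N := by
  induction N with
  | zero => simp
  | succ N ih =>
    have h1 : ∀ j : ℕ, w * u ^ j * w⁻¹ = u ^ (T * j) := by
      intro j; rw [← conj_pow, h, ← pow_mul]
    have h2 : (∑ i ∈ Finset.range (N + 1), T ^ i) =
        1 + T * (∑ i ∈ Finset.range N, T ^ i) := by
      rw [Finset.sum_range_succ', Finset.mul_sum]; simp [pow_succ', add_comm]
    rw [pow_succ' (u * w) N, ih, h2, pow_add u 1, pow_one, pow_succ' w N, ← h1]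
    group

theorem mem_of_pow_mem [Finite G] {p : ℕ} [Fact p.Prime] (hG : IsPGroup p G) (R : Subgroup G)
    (x : G) {f : ℕ} (hf : ¬ p ∣ f) (h : x ^ f ∈ R) : x ∈ R := by
  have hpp : p.Prime := Fact.out
  obtain ⟨m, hm⟩ := hG x
  have h1 : Nat.Coprime f (p ^ m) :=
    Nat.Coprime.pow_right m ((Nat.Prime.coprime_iff_not_dvd hpp).mpr hf).symm
  have hcop : Nat.Coprime f (orderOf x) :=
    Nat.Coprime.coprime_dvd_right (orderOf_dvd_of_pow_eq_one hm) h1
  obtain ⟨m', hm'⟩ := exists_pow_eq_self_of_coprime hcop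
  rw [← hm']; exact pow_mem h m'

theorem pow_mem_zpowers_pow {x c : G} (h : x ∈ Subgroup.zpowers c) (N : ℕ) :
    x ^ N ∈ Subgroup.zpowers (c ^ N) := by
  obtain ⟨z, rfl⟩ := h
  refine ⟨z, ?_⟩
  show (c ^ N) ^ z = (c ^ z) ^ N
  rw [← zpow_natCast (c ^ z) N, ← zpow_natCast c N, ← zpow_mul, ← zpow_mul, mul_comm]

section fact
variable [Finite G] {p : ℕ} [Fact p.Prime]

theorem exists_pow_eq_one_case1 (hp : p ≠ 2) (hG : IsPGroup p G) {a b : G}
    (hn : (Subgroup.zpowers a).Normal) (k : ℕ)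
    (hD : b ^ (p ^ k) ∈ Subgroup.zpowers (a ^ (p ^ k))) :
    ∃ x : ℕ, (a ^ x * b) ^ (p ^ k) = 1 := by
  have hpp : p.Prime := Fact.out
  obtain ⟨t, ht1, ht, hta⟩ := exists_t hG hn b
  obtain ⟨f, hnd, hS⟩ := gs_factor hp ht1 ht k
  have h1 : a ^ (p ^ k) ∈ Subgroup.zpowers (a ^ (∑ i ∈ Finset.range (p ^ k), t ^ i)) := by
    apply mem_of_pow_mem hG _ _ hnd
    rw [← pow_mul, ← hS]
    exact Subgroup.mem_zpowers _
  have h2 : (b ^ (p ^ k))⁻¹ ∈ Subgroup.zpowers (a ^ (∑ i ∈ Finset.range (p ^ k), t ^ i)) :=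
    (Subgroup.zpowers_le.mpr h1) (inv_mem hD)
  obtain ⟨x, hx⟩ := exists_pow_of_mem_zpowers h2
  refine ⟨x, ?_⟩
  have hc : b * a ^ x * b⁻¹ = (a ^ x) ^ t :=
    conj_of_mem hta (pow_mem (Subgroup.mem_zpowers a) x)
  rw [pow_mul_formula (a ^ x) b t hc, ← pow_mul, mul_comm x, pow_mul, hx, inv_mul_cancel]

theorem exists_pow_eq_one_case2 (hp : p ≠ 2) (hG : IsPGroup p G) {a b : G}
    (hn : (Subgroup.zpowers a).Normal) (lam : ℕ)
    (hD : a ^ (p ^ lam) ∈ Subgroup.zpowers (b ^ (p ^ (lam + 1)))) :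
    ∃ y : ℕ, 0 < y ∧ (a * b ^ y) ^ (p ^ lam) = 1 := by
  have hpp : p.Prime := Fact.out
  obtain ⟨t, ht1, ht, hta⟩ := exists_t hG hn b
  have hint : (p : ℤ) ∣ (t : ℤ) - 1 := by
    obtain ⟨q, hq⟩ := ht
    refine ⟨q, ?_⟩
    have h1 : t = p * q + 1 := by omega
    rw [h1]; push_cast; ring
  have hF : ∀ y : ℕ, (a * b ^ y) ^ (p ^ lam) =
      a ^ (∑ i ∈ Finset.range (p ^ lam), (t ^ y) ^ i) * b ^ (y * p ^ lam) := by
    intro y
    rw [pow_mul_formula a (b ^ y) (t ^ y) (conj_pow_iter hta y), ← pow_mul]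
  have hβ : 0 < orderOf b := orderOf_pos b
  have main : ∀ j : ℕ, ∃ y : ℕ,
      (a * b ^ y) ^ (p ^ lam) ∈ Subgroup.zpowers (b ^ (p ^ (lam + j))) := by
    intro j
    induction j with
    | zero =>
      refine ⟨0, ?_⟩
      rw [pow_zero, mul_one, add_zero]
      have h1 : b ^ (p ^ (lam + 1)) ∈ Subgroup.zpowers (b ^ (p ^ lam)) := by
        rw [pow_succ, pow_mul]; exact Subgroup.npow_mem_zpowers _ _
      exact (Subgroup.zpowers_le.mpr h1) hD
    | succ j ih =>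
      obtain ⟨y, hy⟩ := ih
      obtain ⟨g', hg'⟩ := exists_pow_of_mem_zpowers hy
      have hFβ : ((a * b ^ y) ^ (p ^ lam)) ^ orderOf b = 1 := by
        rw [← hg', ← pow_mul, ← pow_mul, ← mul_assoc, mul_comm (p ^ (lam + j) * g') (orderOf b),
          pow_mul, pow_orderOf_eq_one, one_pow]
      have hFinv : ((a * b ^ y) ^ (p ^ lam)) ^ (orderOf b - 1) = ((a * b ^ y) ^ (p ^ lam))⁻¹ := by
        apply eq_inv_of_mul_eq_one_left
        rw [← pow_succ, Nat.sub_add_cancel hβ, hFβ]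
      refine ⟨y + p ^ j * (g' * (orderOf b - 1)), ?_⟩
      have hb' : b ^ ((y + p ^ j * (g' * (orderOf b - 1))) * p ^ lam) =
          b ^ (y * p ^ lam) * ((a * b ^ y) ^ (p ^ lam))⁻¹ := by
        have e : (y + p ^ j * (g' * (orderOf b - 1))) * p ^ lam =
            y * p ^ lam + (p ^ (lam + j) * g') * (orderOf b - 1) := by
          rw [pow_add]; ring
        rw [e, pow_add, pow_mul b (p ^ (lam + j) * g'), pow_mul b (p ^ (lam + j)) g', hg', hFinv]
      have h3 : (a * b ^ (y + p ^ j * (g' * (orderOf b - 1)))) ^ (p ^ lam) =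
          a ^ (∑ i ∈ Finset.range (p ^ lam), (t ^ (y + p ^ j * (g' * (orderOf b - 1)))) ^ i) *
            (a ^ (∑ i ∈ Finset.range (p ^ lam), (t ^ y) ^ i))⁻¹ := by
        rw [hF (y + p ^ j * (g' * (orderOf b - 1))), hb', hF y]
        group
      rw [h3]
      -- the divisibility
      have hE := E hp ((t : ℤ) ^ y) ((t : ℤ) ^ (y + p ^ j * (g' * (orderOf b - 1)))) (j + 1)
        (by omega)
        (by
          have := sub_dvd_pow_sub_pow (t : ℤ) 1 y
          rw [one_pow] at this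
          exact dvd_trans hint this)
        (by
          have h4 : (t : ℤ) ^ (y + p ^ j * (g' * (orderOf b - 1))) - (t : ℤ) ^ y =
              (t : ℤ) ^ y * ((t : ℤ) ^ (p ^ j * (g' * (orderOf b - 1))) - 1) := by
            rw [pow_add]; ring
          rw [h4]
          exact Dvd.dvd.mul_left (pow_sub_one_dvd (t : ℤ) hint j _) _)
        lam
      obtain ⟨q, hq⟩ := hE
      have h5 : a ^ (∑ i ∈ Finset.range (p ^ lam), (t ^ (y + p ^ j * (g' * (orderOf b - 1)))) ^ i) *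
            (a ^ (∑ i ∈ Finset.range (p ^ lam), (t ^ y) ^ i))⁻¹ =
          (a ^ (p ^ (lam + (j + 1)))) ^ q := by
        rw [← zpow_natCast a (p ^ (lam + (j + 1))), ← zpow_mul, ← zpow_natCast, ← zpow_natCast,
          ← zpow_sub]
        congr 1
        push_cast
        push_cast at hq
        exact hq
      rw [h5]
      apply zpow_mem
      -- a ^ p ^ (lam + (j+1)) ∈ zpowers (b ^ p ^ (lam + (j+1)))
      have h6 := pow_mem_zpowers_pow hD (p ^ (j + 1))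
      rw [← pow_mul, ← pow_add, ← pow_mul, ← pow_add] at h6
      have h7 : b ^ (p ^ (lam + 1 + (j + 1))) ∈ Subgroup.zpowers (b ^ (p ^ (lam + (j + 1)))) := by
        have e : lam + 1 + (j + 1) = lam + (j + 1) + 1 := by omega
        rw [e, pow_succ, pow_mul]; exact Subgroup.npow_mem_zpowers _ _
      exact (Subgroup.zpowers_le.mpr h7) h6
  obtain ⟨K, hK⟩ := hG b
  obtain ⟨y, hy⟩ := main K
  have h8 : b ^ (p ^ (lam + K)) = 1 := by
    rw [pow_add, mul_comm, pow_mul, hK, one_pow]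
  rw [h8, Subgroup.zpowers_one_eq_bot, Subgroup.mem_bot] at hy
  refine ⟨y + orderOf b, by omega, ?_⟩
  rw [pow_add, pow_orderOf_eq_one, mul_one]
  exact hy

end fact

end Cfsg.Agent.Helper8.Meta
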