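import Mathlib
import Cfsg.Prelude.Def_GeometricClasses
import Cfsg.Agent.Helper2.SpDecomp2

/-!
# Unitary transvections and short root elements for the standard Hermitian form

For a field `F` with `q ^ 2` elements and the form `h(x, y) = Σ x_i y_i ^ q`:
the automorphism `frob`, the transvections `tvU a c : x ↦ x + c h(x,a) a`, the short root
elements `RU a b l : x ↦ x + l h(x,a) b - l^q h(x,b) a`, and the closure rules for the sets
`TK K`, `SK K` of vectors/pairs whose root elements lie in a subgroup `K`.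
-/

set_option autoImplicit false

namespace Cfsg.Agent.Helper8.SULag

open Matrix Cfsg.Agent.Helper2

/-- The facts about `x ↦ x ^ q` on a field with `q ^ 2` elements. -/
structure QF (F : Type*) [Field F] (q : ℕ) : Prop where
  q0 : q ≠ 0
  add : ∀ a b : F, (a + b) ^ q = a ^ q + b ^ q
  inv : ∀ a : F, (a ^ q) ^ q = a
  ex : ∃ η : F, η ^ q ≠ η

theorem qf_of_card {F : Type*} [Field F] [Fintype F] {q : ℕ} (hF : Fintype.card F = q ^ 2) :
    QF F q := by
  classical
  obtain ⟨p, hp⟩ := CharP.exists F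
  haveI := hp
  haveI hpp : Fact p.Prime := ⟨CharP.char_is_prime F p⟩
  obtain ⟨n', -, hn'⟩ := FiniteField.card F p
  obtain ⟨m, -, hm⟩ := (Nat.dvd_prime_pow hpp.out).mp
    (show q ∣ p ^ (n' : ℕ) by rw [← hn', hF]; exact Dvd.intro_left q (by ring))
  have hq0 : q ≠ 0 := by
    rintro rfl
    rw [zero_pow (by norm_num)] at hF
    exact Fintype.card_ne_zero hF
  have hq1 : q ≠ 1 := by
    rintro rfl
    rw [one_pow] at hF
    have := Fintype.one_lt_card (α := F)
    omega
  have hq2 : 2 ≤ q := by omega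
  refine ⟨hq0, fun a b => by rw [hm]; exact add_pow_char_pow a b p m, fun a => by
    rw [← pow_mul, ← sq, ← hF]; exact FiniteField.pow_card a, ?_⟩
  by_contra hcon
  have hall : ∀ η : F, η ^ q = η := fun η => by
    by_contra h
    exact hcon ⟨η, h⟩
  obtain ⟨g, hg⟩ := IsCyclic.exists_generator (α := Fˣ)
  have hord : orderOf g = Nat.card Fˣ := orderOf_eq_card_of_forall_mem_zpowers hg
  have hcard : Nat.card Fˣ = q ^ 2 - 1 := by
    rw [Nat.card_eq_fintype_card, Fintype.card_units, hF]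
  have h1 : g ^ (q - 1) = 1 := by
    apply Units.ext
    rw [Units.val_pow_eq_pow_val, Units.val_one]
    have h2 := hall (g : F)
    have h3 : (g : F) ^ q = (g : F) ^ (q - 1) * (g : F) := by
      rw [← pow_succ, Nat.sub_add_cancel (Nat.one_le_iff_ne_zero.mpr hq0)]
    rw [h3] at h2
    exact mul_right_cancel₀ (Units.ne_zero g) (by rw [h2, one_mul])
  have h4 : orderOf g ∣ q - 1 := orderOf_dvd_of_pow_eq_one h1
  rw [hord, hcard] at h4
  have h5 : q ^ 2 - 1 ≤ q - 1 := Nat.le_of_dvd (by omega) h4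
  have h6 : q < q ^ 2 := by nlinarith
  omega

/-- The automorphism `x ↦ x ^ q`. -/
def frob {F : Type*} [Field F] {q : ℕ} (hq : QF F q) : F →+* F where
  toFun a := a ^ q
  map_one' := one_pow q
  map_mul' a b := mul_pow a b q
  map_zero' := zero_pow hq.q0
  map_add' := hq.add

variable {F : Type*} [Field F] {n q : ℕ}

local notation "VV" => (Fin n → F)
local notation "MM" => Matrix (Fin n) (Fin n) F
local notation "GG" => Matrix.GeneralLinearGroup (Fin n) F
local notation "hh" => Cfsg.hermForm n F q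

theorem frob_apply (hq : QF F q) (a : F) : frob hq a = a ^ q := rfl

theorem frob_frob (hq : QF F q) (a : F) : frob hq (frob hq a) = a := hq.inv a

/-! ## The Hermitian form -/

theorem h_add_left (x x' y : VV) : hh (x + x') y = hh x y + hh x' y := by
  unfold Cfsg.hermForm
  simp only [Pi.add_apply, add_mul, Finset.sum_add_distrib]

theorem h_smul_left (a : F) (x y : VV) : hh (a • x) y = a * hh x y := by
  unfold Cfsg.hermForm
  simp only [Pi.smul_apply, smul_eq_mul, Finset.mul_sum, mul_assoc]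

theorem h_add_right (hq : QF F q) (x y y' : VV) : hh x (y + y') = hh x y + hh x y' := by
  unfold Cfsg.hermForm
  simp only [Pi.add_apply, hq.add, mul_add, Finset.sum_add_distrib]

theorem h_smul_right (hq : QF F q) (a : F) (x y : VV) : hh x (a • y) = frob hq a * hh x y := by
  unfold Cfsg.hermForm
  simp only [Pi.smul_apply, smul_eq_mul, mul_pow, Finset.mul_sum]
  refine Finset.sum_congr rfl (fun i _ => ?_)
  rw [frob_apply]
  ring

theorem h_conj (hq : QF F q) (x y : VV) : frob hq (hh x y) = hh y x := by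
  unfold Cfsg.hermForm
  rw [map_sum]
  refine Finset.sum_congr rfl (fun i _ => ?_)
  rw [map_mul, frob_apply, frob_apply, hq.inv, mul_comm]

theorem h_zero_left (y : VV) : hh 0 y = 0 := by
  have h := h_smul_left (q := q) (0 : F) 0 y
  rw [zero_smul, zero_mul] at h
  exact h

theorem h_zero_right (hq : QF F q) (x : VV) : hh x 0 = 0 := by
  have h := h_smul_right hq 0 x 0
  rw [zero_smul, map_zero, zero_mul] at h
  exact h

theorem h_neg_left (x y : VV) : hh (-x) y = - hh x y := by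
  have h := h_smul_left (q := q) (-1 : F) x y
  rw [neg_one_smul, neg_one_mul] at h
  exact h

theorem h_neg_right (hq : QF F q) (x y : VV) : hh x (-y) = - hh x y := by
  have h := h_smul_right hq (-1) x y
  rw [neg_one_smul, map_neg, map_one, neg_one_mul] at h
  exact h

theorem h_sub_left (x x' y : VV) : hh (x - x') y = hh x y - hh x' y := by
  rw [sub_eq_add_neg, h_add_left, h_neg_left, ← sub_eq_add_neg]

theorem h_sub_right (hq : QF F q) (x y y' : VV) : hh x (y - y') = hh x y - hh x y' := by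
  rw [sub_eq_add_neg, h_add_right hq, h_neg_right hq, ← sub_eq_add_neg]

theorem h_single (hq : QF F q) (x : VV) (i : Fin n) : hh x (Pi.single i 1) = x i := by
  unfold Cfsg.hermForm
  rw [Finset.sum_eq_single i]
  · simp
  · intro j _ hji
    simp [Pi.single_eq_of_ne hji, hq.q0]
  · intro h
    exact absurd (Finset.mem_univ i) h

theorem h_nondeg (hq : QF F q) (x : VV) (hx : ∀ y : VV, hh x y = 0) : x = 0 := by
  funext i
  have h := hx (Pi.single i 1)
  rw [h_single hq] at h
  exact h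

theorem h_symm0 (hq : QF F q) {a b : VV} (h : hh a b = 0) : hh b a = 0 := by
  rw [← h_conj hq a b, h, map_zero]

/-! ## Skew elements -/

theorem exists_skew (hq : QF F q) : ∃ c : F, c ≠ 0 ∧ frob hq c = -c := by
  obtain ⟨η, hη⟩ := hq.ex
  refine ⟨η - frob hq η, ?_, ?_⟩
  · intro h
    apply hη
    rw [← frob_apply hq]
    exact (sub_eq_zero.1 h).symm
  · rw [map_sub, frob_frob]
    ring

theorem exists_sub_frob (hq : QF F q) (c : F) (hc : frob hq c = -c) :
    ∃ z : F, z - frob hq z = c := by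
  obtain ⟨η, hη⟩ := hq.ex
  have hη' : frob hq η ≠ η := hη
  have hd : η - frob hq η ≠ 0 := sub_ne_zero.2 (Ne.symm hη')
  have hd' : frob hq η - η ≠ 0 := sub_ne_zero.2 hη'
  refine ⟨c * η / (η - frob hq η), ?_⟩
  rw [map_div₀, map_mul, map_sub, frob_frob, hc]
  field_simp
  ring

/-- A fixed non-zero skew element. -/
noncomputable def skew0 (hq : QF F q) : F := Classical.choose (exists_skew hq)

theorem skew0_ne (hq : QF F q) : skew0 hq ≠ 0 := (Classical.choose_spec (exists_skew hq)).1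

theorem skew0_frob (hq : QF F q) : frob hq (skew0 hq) = - skew0 hq :=
  (Classical.choose_spec (exists_skew hq)).2

/-! ## Elements of `GL` -/

theorem gl_ext (g h : GG) (H : ∀ x : VV, (g : MM) *ᵥ x = (h : MM) *ᵥ x) : g = h := by
  apply Units.ext
  apply Matrix.toLin'.injective
  apply LinearMap.ext
  intro x
  rw [Matrix.toLin'_apply, Matrix.toLin'_apply]
  exact H x

theorem mem_gu_iff (g : GG) :
    g ∈ Cfsg.GU n F q ↔ ∀ u v : VV, hh ((g : MM) *ᵥ u) ((g : MM) *ᵥ v) = hh u v :=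
  Iff.rfl

theorem h_map {k : GG} (hk : k ∈ Cfsg.GU n F q) (u v : VV) :
    hh ((k : MM) *ᵥ u) ((k : MM) *ᵥ v) = hh u v :=
  (mem_gu_iff k).1 hk u v

theorem dot_eq (a x : VV) : (fun j => a j ^ q) ⬝ᵥ x = hh x a := by
  unfold Cfsg.hermForm dotProduct
  exact Finset.sum_congr rfl (fun i _ => mul_comm _ _)

open Classical in
/-- The unitary transvection `x ↦ x + c h(x,a) a` as an element of `GL` (the identity when
`a` is not isotropic). -/
noncomputable def tvU (n : ℕ) {F : Type*} [Field F] (q : ℕ) (a : Fin n → F) (c : F) :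
    Matrix.GeneralLinearGroup (Fin n) F :=
  if h : Cfsg.hermForm n F q a a = 0 then
    Parab.tgl (c • a) (fun j => a j ^ q) (by
      rw [dot_eq, h_smul_left, h, mul_zero, add_zero]
      exact one_ne_zero)
  else 1

theorem tvU_mulVec (a : VV) (ha : hh a a = 0) (c : F) (x : VV) :
    ((tvU n q a c : GG) : MM) *ᵥ x = x + (c * hh x a) • a := by
  unfold tvU
  rw [dif_pos ha, Parab.tgl_val, Parab.tmat_mulVec, dot_eq, smul_smul, mul_comm (hh x a) c]

theorem tvU_not (a : VV) (ha : ¬ hh a a = 0) (c : F) : tvU n q a c = 1 := by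
  unfold tvU
  rw [dif_neg ha]

theorem tvU_mem_sl (a : VV) (c : F) : tvU n q a c ∈ Cfsg.Geo.specialLinear (Fin n) F := by
  by_cases ha : hh a a = 0
  · rw [Parab.mem_sl_iff]
    unfold tvU
    rw [dif_pos ha, Parab.tgl_val, Parab.tmat_det, dot_eq, h_smul_left, ha, mul_zero, add_zero]
  · rw [tvU_not a ha]
    exact Subgroup.one_mem _

theorem tvU_mem_gu (hq : QF F q) (a : VV) (c : F) (hc : frob hq c = -c) :
    tvU n q a c ∈ Cfsg.GU n F q := by
  by_cases ha : hh a a = 0
  · rw [mem_gu_iff]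
    intro u v
    rw [tvU_mulVec a ha, tvU_mulVec a ha]
    simp only [h_add_left, h_add_right hq, h_smul_left, h_smul_right hq, map_mul, h_conj hq, ha,
      hc, mul_zero, add_zero]
    ring
  · rw [tvU_not a ha]
    exact Subgroup.one_mem _

theorem tvU_conj (k : GG) (hk : k ∈ Cfsg.GU n F q) (a : VV) (c : F) :
    tvU n q ((k : MM) *ᵥ a) c = k * tvU n q a c * k⁻¹ := by
  have hka : hh ((k : MM) *ᵥ a) ((k : MM) *ᵥ a) = hh a a := h_map hk a a
  by_cases ha : hh a a = 0
  · apply gl_ext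
    intro x
    have h1 : hh (((k⁻¹ : GG) : MM) *ᵥ x) a = hh x ((k : MM) *ᵥ a) := by
      have h2 := h_map hk (((k⁻¹ : GG) : MM) *ᵥ x) a
      rw [Parab.mulVec_inv_mulVec] at h2
      exact h2.symm
    rw [tvU_mulVec _ (hka.trans ha), Units.val_mul, Units.val_mul, ← Matrix.mulVec_mulVec,
      ← Matrix.mulVec_mulVec, tvU_mulVec a ha, Matrix.mulVec_add, Matrix.mulVec_smul,
      Parab.mulVec_inv_mulVec, h1]
  · rw [tvU_not a ha, tvU_not _ (by rw [hka]; exact ha), mul_one, mul_inv_cancel]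

theorem tvU_smul (hq : QF F q) (ν : F) (a : VV) (ha : hh a a = 0) (c : F) :
    tvU n q (ν • a) c = tvU n q a (c * ν * frob hq ν) := by
  have h1 : hh (ν • a) (ν • a) = 0 := by
    rw [h_smul_left, h_smul_right hq, ha, mul_zero, mul_zero]
  apply gl_ext
  intro x
  rw [tvU_mulVec _ h1, tvU_mulVec _ ha, h_smul_right hq, smul_smul]
  have e : c * (frob hq ν * hh x a) * ν = c * ν * frob hq ν * hh x a := by ring
  rw [e]

/-! ## Short root elements -/

/-- The product of three transvections giving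
`x ↦ x + c μ h(x,a) b + c μ^q h(x,b) a`. -/
noncomputable def rhoU (n : ℕ) {F : Type*} [Field F] (q : ℕ) (a b : Fin n → F) (c μ : F) :
    Matrix.GeneralLinearGroup (Fin n) F :=
  tvU n q (a + μ • b) c * tvU n q a (-c) * tvU n q (μ • b) (-c)

theorem rhoU_apply (hq : QF F q) (a b : VV) (ha : hh a a = 0) (hb : hh b b = 0)
    (hab : hh a b = 0) (c μ : F) (x : VV) :
    ((rhoU n q a b c μ : GG) : MM) *ᵥ x
      = x + (c * μ * hh x a) • b + (c * frob hq μ * hh x b) • a := by
  have hba : hh b a = 0 := h_symm0 hq hab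
  have h1 : hh (μ • b) (μ • b) = 0 := by
    rw [h_smul_left, h_smul_right hq, hb, mul_zero, mul_zero]
  have h2 : hh (a + μ • b) (a + μ • b) = 0 := by
    simp only [h_add_left, h_add_right hq, h_smul_left, h_smul_right hq, ha, hb, hab, hba,
      mul_zero, add_zero]
  unfold rhoU
  rw [Units.val_mul, Units.val_mul, ← Matrix.mulVec_mulVec, ← Matrix.mulVec_mulVec,
    tvU_mulVec _ h1, tvU_mulVec _ ha, tvU_mulVec _ h2]
  simp only [h_add_left, h_add_right hq, h_smul_left, h_smul_right hq, ha, hb, hab, hba,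
    mul_zero, zero_mul, add_zero, zero_add]
  module

theorem rhoU_mem_gu (hq : QF F q) (a b : VV) (c μ : F) (hc : frob hq c = -c) :
    rhoU n q a b c μ ∈ Cfsg.GU n F q := by
  have hc' : frob hq (-c) = -(-c) := by rw [map_neg, hc]
  exact Subgroup.mul_mem _ (Subgroup.mul_mem _ (tvU_mem_gu hq _ _ hc) (tvU_mem_gu hq _ _ hc'))
    (tvU_mem_gu hq _ _ hc')

theorem rhoU_mem_sl (a b : VV) (c μ : F) :
    rhoU n q a b c μ ∈ Cfsg.Geo.specialLinear (Fin n) F :=
  Subgroup.mul_mem _ (Subgroup.mul_mem _ (tvU_mem_sl _ _) (tvU_mem_sl _ _)) (tvU_mem_sl _ _)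

/-- The short root element `x ↦ x + l h(x,a) b - l^q h(x,b) a`. -/
noncomputable def RU (hq : QF F q) (n : ℕ) (a b : Fin n → F) (l : F) :
    Matrix.GeneralLinearGroup (Fin n) F :=
  rhoU n q a b (skew0 hq) (l / skew0 hq)

theorem RU_mem_gu (hq : QF F q) (a b : VV) (l : F) : RU hq n a b l ∈ Cfsg.GU n F q :=
  rhoU_mem_gu hq _ _ _ _ (skew0_frob hq)

theorem RU_mem_sl (hq : QF F q) (a b : VV) (l : F) :
    RU hq n a b l ∈ Cfsg.Geo.specialLinear (Fin n) F :=
  rhoU_mem_sl _ _ _ _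

theorem RU_apply (hq : QF F q) (a b : VV) (ha : hh a a = 0) (hb : hh b b = 0)
    (hab : hh a b = 0) (l : F) (x : VV) :
    ((RU hq n a b l : GG) : MM) *ᵥ x = x + (l * hh x a) • b - (frob hq l * hh x b) • a := by
  have hc0 := skew0_ne hq
  have e1 : skew0 hq * (l / skew0 hq) = l := by field_simp
  have e2 : skew0 hq * frob hq (l / skew0 hq) = - frob hq l := by
    rw [map_div₀, skew0_frob]
    field_simp
  unfold RU
  rw [rhoU_apply hq a b ha hb hab, e1, e2, neg_mul, neg_smul, ← sub_eq_add_neg]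

theorem RU_conj (hq : QF F q) (k : GG) (hk : k ∈ Cfsg.GU n F q) (a b : VV) (l : F) :
    RU hq n ((k : MM) *ᵥ a) ((k : MM) *ᵥ b) l = k * RU hq n a b l * k⁻¹ := by
  unfold RU rhoU
  rw [← Matrix.mulVec_smul, ← Matrix.mulVec_add, tvU_conj k hk, tvU_conj k hk, tvU_conj k hk]
  group

theorem RU_symm (hq : QF F q) (a b : VV) (ha : hh a a = 0) (hb : hh b b = 0)
    (hab : hh a b = 0) (l : F) : RU hq n b a l = RU hq n a b (- frob hq l) := by
  have hba := h_symm0 hq hab
  apply gl_ext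
  intro x
  rw [RU_apply hq b a hb ha hba, RU_apply hq a b ha hb hab, map_neg, frob_frob]
  module

theorem RU_smul (hq : QF F q) (a b : VV) (ha : hh a a = 0) (hb : hh b b = 0)
    (hab : hh a b = 0) (ν l : F) : RU hq n a (ν • b) l = RU hq n a b (l * ν) := by
  have h1 : hh (ν • b) (ν • b) = 0 := by
    rw [h_smul_left, h_smul_right hq, hb, mul_zero, mul_zero]
  have h2 : hh a (ν • b) = 0 := by rw [h_smul_right hq, hab, mul_zero]
  apply gl_ext
  intro x
  rw [RU_apply hq a (ν • b) ha h1 h2, RU_apply hq a b ha hb hab, h_smul_right hq, map_mul]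
  module

theorem RU_add (hq : QF F q) (a b b' : VV) (ha : hh a a = 0) (hb : hh b b = 0)
    (hb' : hh b' b' = 0) (h1 : hh a b = 0) (h2 : hh a b' = 0) (h3 : hh b b' = 0) (l : F) :
    RU hq n a b l * RU hq n a b' l = RU hq n a (b + b') l := by
  have h1' := h_symm0 hq h1
  have h2' := h_symm0 hq h2
  have h3' := h_symm0 hq h3
  have h4 : hh (b + b') (b + b') = 0 := by
    simp only [h_add_left, h_add_right hq, hb, hb', h3, h3', add_zero]
  have h5 : hh a (b + b') = 0 := by rw [h_add_right hq, h1, h2, add_zero]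
  apply gl_ext
  intro x
  simp only [Units.val_mul, ← Matrix.mulVec_mulVec, RU_apply hq a b ha hb h1,
    RU_apply hq a b' ha hb' h2, RU_apply hq a (b + b') ha h4 h5, h_add_left, h_sub_left,
    h_add_right hq, h_smul_left, ha, h1, h2, h1', h2', h3, h3', mul_zero, zero_mul, add_zero,
    zero_add, sub_zero]
  module

theorem RU_self (hq : QF F q) (a : VV) (ha : hh a a = 0) (ν l : F) :
    RU hq n a (ν • a) l = tvU n q a (l * ν - frob hq (l * ν)) := by
  have h1 : hh (ν • a) (ν • a) = 0 := by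
    rw [h_smul_left, h_smul_right hq, ha, mul_zero, mul_zero]
  have h2 : hh a (ν • a) = 0 := by rw [h_smul_right hq, ha, mul_zero]
  apply gl_ext
  intro x
  rw [RU_apply hq a (ν • a) ha h1 h2, tvU_mulVec a ha, h_smul_right hq, map_mul]
  module

theorem RU_comm_tv (hq : QF F q) (a b b' : VV) (ha : hh a a = 0) (hb : hh b b = 0)
    (hb' : hh b' b' = 0) (h1 : hh a b = 0) (h2 : hh a b' = 0) (l l' : F) :
    RU hq n a b l * RU hq n a b' l' =
      tvU n q a (l * frob hq l' * hh b b' - frob hq (l * frob hq l' * hh b b')) *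
        (RU hq n a b' l' * RU hq n a b l) := by
  have h1' := h_symm0 hq h1
  have h2' := h_symm0 hq h2
  apply gl_ext
  intro x
  simp only [Units.val_mul, ← Matrix.mulVec_mulVec, RU_apply hq a b ha hb h1,
    RU_apply hq a b' ha hb' h2, tvU_mulVec a ha, h_add_left, h_sub_left, h_smul_left, map_mul,
    frob_frob, h_conj hq, ha, h1, h2, h1', h2', mul_zero, zero_mul, add_zero, zero_add, sub_zero]
  module

theorem RU_comm (hq : QF F q) (a b c d : VV) (ha : hh a a = 0) (hb : hh b b = 0)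
    (hc : hh c c = 0) (hd : hh d d = 0) (hab : hh a b = 0) (hcd : hh c d = 0)
    (hca : hh c a = 0) (hcb : hh c b = 0) (hdb : hh d b = 0) (l l' : F) :
    RU hq n a b l * RU hq n c d l' =
      RU hq n c b (l * l' * hh d a) * (RU hq n c d l' * RU hq n a b l) := by
  have hba := h_symm0 hq hab
  have hdc := h_symm0 hq hcd
  have hac := h_symm0 hq hca
  have hbc := h_symm0 hq hcb
  have hbd := h_symm0 hq hdb
  apply gl_ext
  intro x
  simp only [Units.val_mul, ← Matrix.mulVec_mulVec, RU_apply hq a b ha hb hab,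
    RU_apply hq c d hc hd hcd, RU_apply hq c b hc hb hcb, h_add_left, h_sub_left, h_smul_left,
    map_mul, h_conj hq, ha, hb, hc, hd, hab, hcd, hca, hcb, hdb, hba, hdc, hac, hbc, hbd,
    mul_zero, zero_mul, add_zero, zero_add, sub_zero]
  module

/-! ## The sets `TK K` and `SK K` -/

/-- The isotropic vectors all of whose transvections lie in `K`. -/
def TK (hq : QF F q) (K : Subgroup (Matrix.GeneralLinearGroup (Fin n) F)) : Set (Fin n → F) :=
  {a | Cfsg.hermForm n F q a a = 0 ∧ ∀ c : F, frob hq c = -c → tvU n q a c ∈ K}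

theorem TK_map (hq : QF F q) {K : Subgroup GG} {k : GG} (hkK : k ∈ K)
    (hk : k ∈ Cfsg.GU n F q) {a : VV} (ha : a ∈ TK hq K) : (k : MM) *ᵥ a ∈ TK hq K := by
  refine ⟨by rw [h_map hk]; exact ha.1, fun c hc => ?_⟩
  rw [tvU_conj k hk]
  exact K.mul_mem (K.mul_mem hkK (ha.2 c hc)) (K.inv_mem hkK)

theorem TK_smul (hq : QF F q) {K : Subgroup GG} {a : VV} (ha : a ∈ TK hq K) (ν : F) :
    ν • a ∈ TK hq K := by
  refine ⟨by rw [h_smul_left, h_smul_right hq, ha.1, mul_zero, mul_zero], fun c hc => ?_⟩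
  rw [tvU_smul hq ν a ha.1]
  apply ha.2
  rw [map_mul, map_mul, frob_frob, hc]
  ring

theorem TK_tv (hq : QF F q) {K : Subgroup GG} {y t : VV} (hy : y ∈ TK hq K)
    (ht : t ∈ TK hq K) (c : F) (hc : frob hq c = -c) : y + (c * hh y t) • t ∈ TK hq K := by
  rw [← tvU_mulVec t ht.1 c y]
  exact TK_map hq (ht.2 c hc) (tvU_mem_gu hq t c hc) hy

/-- Pairs of orthogonal isotropic vectors all of whose short root elements lie in `K`. -/
def SK (hq : QF F q) (K : Subgroup (Matrix.GeneralLinearGroup (Fin n) F)) :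
    Set ((Fin n → F) × (Fin n → F)) :=
  {p | Cfsg.hermForm n F q p.1 p.1 = 0 ∧ Cfsg.hermForm n F q p.2 p.2 = 0 ∧
    Cfsg.hermForm n F q p.1 p.2 = 0 ∧ ∀ l : F, RU hq n p.1 p.2 l ∈ K}

theorem mem_SK (hq : QF F q) (K : Subgroup GG) (a b : VV) :
    (a, b) ∈ SK hq K ↔ hh a a = 0 ∧ hh b b = 0 ∧ hh a b = 0 ∧ ∀ l : F, RU hq n a b l ∈ K :=
  Iff.rfl

theorem SK_symm (hq : QF F q) {K : Subgroup GG} {a b : VV} (h : (a, b) ∈ SK hq K) :
    (b, a) ∈ SK hq K := by
  obtain ⟨ha, hb, hab, h1⟩ := (mem_SK hq K a b).1 h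
  refine (mem_SK hq K b a).2 ⟨hb, ha, h_symm0 hq hab, fun l => ?_⟩
  rw [RU_symm hq a b ha hb hab]
  exact h1 _

theorem SK_conj (hq : QF F q) {K : Subgroup GG} {k : GG} (hkK : k ∈ K)
    (hk : k ∈ Cfsg.GU n F q) {a b : VV} (h : (a, b) ∈ SK hq K) :
    ((k : MM) *ᵥ a, (k : MM) *ᵥ b) ∈ SK hq K := by
  obtain ⟨ha, hb, hab, h1⟩ := (mem_SK hq K a b).1 h
  refine (mem_SK hq K _ _).2 ⟨by rw [h_map hk]; exact ha, by rw [h_map hk]; exact hb,
    by rw [h_map hk]; exact hab, fun l => ?_⟩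
  rw [RU_conj hq k hk]
  exact K.mul_mem (K.mul_mem hkK (h1 l)) (K.inv_mem hkK)

theorem SK_smul (hq : QF F q) {K : Subgroup GG} {a b : VV} (h : (a, b) ∈ SK hq K) (ν : F) :
    (a, ν • b) ∈ SK hq K := by
  obtain ⟨ha, hb, hab, h1⟩ := (mem_SK hq K a b).1 h
  refine (mem_SK hq K _ _).2 ⟨ha, by rw [h_smul_left, h_smul_right hq, hb, mul_zero, mul_zero],
    by rw [h_smul_right hq, hab, mul_zero], fun l => ?_⟩
  rw [RU_smul hq a b ha hb hab]
  exact h1 _

theorem SK_add (hq : QF F q) {K : Subgroup GG} {a b b' : VV} (h : (a, b) ∈ SK hq K)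
    (h' : (a, b') ∈ SK hq K) (hbb : hh b b' = 0) : (a, b + b') ∈ SK hq K := by
  obtain ⟨ha, hb, hab, h1⟩ := (mem_SK hq K a b).1 h
  obtain ⟨-, hb', hab', h1'⟩ := (mem_SK hq K a b').1 h'
  have hbb' := h_symm0 hq hbb
  refine (mem_SK hq K _ _).2 ⟨ha, by
    simp only [h_add_left, h_add_right hq, hb, hb', hbb, hbb', add_zero],
    by rw [h_add_right hq, hab, hab', add_zero], fun l => ?_⟩
  rw [← RU_add hq a b b' ha hb hb' hab hab' hbb]
  exact K.mul_mem (h1 l) (h1' l)

theorem SK_tv (hq : QF F q) {K : Subgroup GG} {a b b' : VV} (h : (a, b) ∈ SK hq K)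
    (h' : (a, b') ∈ SK hq K) (hbb : hh b b' ≠ 0) : a ∈ TK hq K := by
  obtain ⟨ha, hb, hab, h1⟩ := (mem_SK hq K a b).1 h
  obtain ⟨-, hb', hab', h1'⟩ := (mem_SK hq K a b').1 h'
  refine ⟨ha, fun c hc => ?_⟩
  obtain ⟨z, hz⟩ := exists_sub_frob hq c hc
  have key := RU_comm_tv hq a b b' ha hb hb' hab hab' (z / hh b b') 1
  have e : z / hh b b' * frob hq 1 * hh b b' = z := by
    rw [map_one, mul_one, div_mul_cancel₀ z hbb]
  rw [e, hz] at key
  have e3 : tvU n q a c = RU hq n a b (z / hh b b') * RU hq n a b' 1 *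
      (RU hq n a b' 1 * RU hq n a b (z / hh b b'))⁻¹ := by
    rw [key]
    group
  rw [e3]
  exact K.mul_mem (K.mul_mem (h1 _) (h1' _)) (K.inv_mem (K.mul_mem (h1' _) (h1 _)))

theorem SK_self (hq : QF F q) {K : Subgroup GG} {a : VV} {ν : F} (hν : ν ≠ 0)
    (h : (a, ν • a) ∈ SK hq K) : a ∈ TK hq K := by
  obtain ⟨ha, -, -, h1⟩ := (mem_SK hq K a (ν • a)).1 h
  refine ⟨ha, fun c hc => ?_⟩
  obtain ⟨z, hz⟩ := exists_sub_frob hq c hc
  have h3 := h1 (z / ν)
  rw [RU_self hq a ha, div_mul_cancel₀ z hν, hz] at h3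
  exact h3

theorem SK_comm (hq : QF F q) {K : Subgroup GG} {a b c d : VV} (h : (a, b) ∈ SK hq K)
    (h' : (c, d) ∈ SK hq K) (hca : hh c a = 0) (hcb : hh c b = 0) (hdb : hh d b = 0)
    (hda : hh d a ≠ 0) : (c, b) ∈ SK hq K := by
  obtain ⟨ha, hb, hab, h1⟩ := (mem_SK hq K a b).1 h
  obtain ⟨hc, hd, hcd, h1'⟩ := (mem_SK hq K c d).1 h'
  refine (mem_SK hq K _ _).2 ⟨hc, hb, hcb, fun κ => ?_⟩
  have key := RU_comm hq a b c d ha hb hc hd hab hcd hca hcb hdb (κ / hh d a) 1
  have e : κ / hh d a * 1 * hh d a = κ := by rw [mul_one, div_mul_cancel₀ κ hda]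
  rw [e] at key
  have e5 : RU hq n c b κ = RU hq n a b (κ / hh d a) * RU hq n c d 1 *
      (RU hq n c d 1 * RU hq n a b (κ / hh d a))⁻¹ := by
    rw [key]
    group
  rw [e5]
  exact K.mul_mem (K.mul_mem (h1 _) (h1' _)) (K.inv_mem (K.mul_mem (h1' _) (h1 _)))

end Cfsg.Agent.Helper8.SULag
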