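import Mathlib
import Cfsg.Prelude.Def_GeometricClasses
import Cfsg.Agent.Helper2.SpParab
import Cfsg.Agent.Helper2.SpParab2
import Cfsg.Agent.Helper2.SpDecomp
import Cfsg.Agent.Helper2.SpDecomp2
import Cfsg.Agent.Helper2.SpDarboux

/-!
# Overgroups of the stabiliser of a pair of complementary Lagrangians in `Sp_2m(F)`

Short root elements `rho a b : x ↦ x + B(x,a) b + B(x,b) a` (for `B(a,b) = 0`), the set `SK K`
of pairs whose short root elements lie in `K`, and the closure rules between `SK K` and the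
set `TK K` of vectors whose transvections lie in `K`.
-/

set_option autoImplicit false

namespace Cfsg.Agent.Helper8.SpLag

open Matrix Cfsg.Agent.Helper2

variable {F : Type*} [Field F] {m : ℕ}

local notation "VV" => (Fin m ⊕ Fin m → F)
local notation "MM" => Matrix (Fin m ⊕ Fin m) (Fin m ⊕ Fin m) F
local notation "GG" => Matrix.GeneralLinearGroup (Fin m ⊕ Fin m) F
local notation "Bs" => S0766.sB m F

theorem gl_ext (g h : GG) (H : ∀ x : VV, (g : MM) *ᵥ x = (h : MM) *ᵥ x) : g = h := by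
  apply Units.ext
  apply Matrix.toLin'.injective
  apply LinearMap.ext
  intro x
  rw [Matrix.toLin'_apply, Matrix.toLin'_apply]
  exact H x

theorem sk0 {a b : VV} (h : Bs a b = 0) : Bs b a = 0 := by
  rw [SpParab.sB_skew, h, neg_zero]

theorem self0 (a : VV) : Bs a a = 0 := (S0766.sB_alt m F).self_eq_zero a

theorem sB_map (k : GG) (hk : k ∈ Cfsg.spGL m F) (u v : VV) :
    Bs ((k : MM) *ᵥ u) ((k : MM) *ᵥ v) = Bs u v := by
  rw [S0766.sB_apply, S0766.sB_apply]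
  exact (SpParab.mem_spGL_iff k).1 hk u v

/-- The short root element `x ↦ x + B(x,w) u + B(x,u) w`. -/
noncomputable def rho (m : ℕ) {F : Type*} [Field F] (w u : Fin m ⊕ Fin m → F) :
    Matrix.GeneralLinearGroup (Fin m ⊕ Fin m) F :=
  SpParab.tv m (w + u) 1 * SpParab.tv m w (-1) * SpParab.tv m u (-1)

theorem rho_mem (w u : VV) : rho m w u ∈ Cfsg.spGL m F :=
  Subgroup.mul_mem _ (Subgroup.mul_mem _ (SpParab.tv_mem _ _) (SpParab.tv_mem _ _))
    (SpParab.tv_mem _ _)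

theorem rho_apply (w u : VV) (hwu : Bs w u = 0) (x : VV) :
    ((rho m w u : GG) : MM) *ᵥ x = x + Bs x w • u + Bs x u • w :=
  SpParab.rho_mulVec w u hwu x

theorem rho_conj (k : GG) (hk : k ∈ Cfsg.spGL m F) (w u : VV) :
    rho m ((k : MM) *ᵥ w) ((k : MM) *ᵥ u) = k * rho m w u * k⁻¹ := by
  unfold rho
  rw [← Matrix.mulVec_add, SpParab.tv_conj k hk, SpParab.tv_conj k hk, SpParab.tv_conj k hk]
  group

theorem rho_symm (w u : VV) (hwu : Bs w u = 0) : rho m w u = rho m u w := by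
  apply gl_ext
  intro x
  rw [rho_apply w u hwu, rho_apply u w (sk0 hwu)]
  abel

theorem rho_smul_swap (s : F) (w u : VV) (hwu : Bs w u = 0) :
    rho m (s • w) u = rho m w (s • u) := by
  have h1 : Bs (s • w) u = 0 := by
    simp only [map_smul, LinearMap.smul_apply, smul_eq_mul, hwu, mul_zero]
  have h2 : Bs w (s • u) = 0 := by
    simp only [map_smul, smul_eq_mul, hwu, mul_zero]
  apply gl_ext
  intro x
  rw [rho_apply _ _ h1, rho_apply _ _ h2]
  simp only [map_smul, smul_eq_mul]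
  module

theorem rho_add (a b b' : VV) (h1 : Bs a b = 0) (h2 : Bs a b' = 0) (h3 : Bs b b' = 0) :
    rho m a b * rho m a b' = rho m a (b + b') := by
  have h4 : Bs a (b + b') = 0 := by rw [map_add, h1, h2, add_zero]
  have h5 : Bs b' a = 0 := sk0 h2
  have h6 : Bs b' b = 0 := sk0 h3
  have h7 : Bs a a = 0 := self0 a
  apply gl_ext
  intro x
  simp only [Units.val_mul, ← Matrix.mulVec_mulVec, rho_apply a b h1, rho_apply a b' h2,
    rho_apply a (b + b') h4, map_add, map_smul, LinearMap.add_apply, LinearMap.smul_apply,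
    smul_eq_mul, h1, h2, h5, h6, h7, mul_zero, add_zero]
  module

theorem rho_self (a : VV) (μ : F) : rho m a (μ • a) = SpParab.tv m a (2 * μ) := by
  have h1 : Bs a (μ • a) = 0 := by
    simp only [map_smul, smul_eq_mul, self0 a, mul_zero]
  apply gl_ext
  intro x
  rw [rho_apply a (μ • a) h1, SpParab.tv_mulVec]
  simp only [map_smul, smul_eq_mul]
  module

theorem rho_comm_tv (a b b' : VV) (h1 : Bs a b = 0) (h2 : Bs a b' = 0) :
    rho m a b * rho m a b' = SpParab.tv m a (2 * Bs b' b) * (rho m a b' * rho m a b) := by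
  have h5 : Bs b' a = 0 := sk0 h2
  have h6 : Bs b a = 0 := sk0 h1
  have h7 : Bs a a = 0 := self0 a
  have h8 : Bs b b' = - Bs b' b := SpParab.sB_skew b b'
  apply gl_ext
  intro x
  simp only [Units.val_mul, ← Matrix.mulVec_mulVec, rho_apply a b h1, rho_apply a b' h2,
    SpParab.tv_mulVec, map_add, map_smul, LinearMap.add_apply, LinearMap.smul_apply,
    smul_eq_mul, h1, h2, h5, h6, h7, h8, mul_zero, add_zero]
  module

theorem rho_comm_rho (a b c d : VV) (hab : Bs a b = 0) (hcd : Bs c d = 0) (hca : Bs c a = 0)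
    (hcb : Bs c b = 0) (hdb : Bs d b = 0) :
    rho m a b * rho m c d = rho m b (Bs d a • c) * (rho m c d * rho m a b) := by
  have hbc : Bs b c = 0 := sk0 hcb
  have hac : Bs a c = 0 := sk0 hca
  have hbd : Bs b d = 0 := sk0 hdb
  have hba : Bs b a = 0 := sk0 hab
  have hdc : Bs d c = 0 := sk0 hcd
  have had : Bs a d = - Bs d a := SpParab.sB_skew a d
  have hbb : Bs b b = 0 := self0 b
  have hcc : Bs c c = 0 := self0 c
  have hb' : Bs b (Bs d a • c) = 0 := by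
    simp only [map_smul, smul_eq_mul, hbc, mul_zero]
  apply gl_ext
  intro x
  simp only [Units.val_mul, ← Matrix.mulVec_mulVec, rho_apply a b hab, rho_apply c d hcd,
    rho_apply b (Bs d a • c) hb', map_add, map_smul, LinearMap.add_apply, LinearMap.smul_apply,
    smul_eq_mul, hab, hca, hcb, hdb, hbc, hac, hbd, hba, hdc, had, hbb, hcc, mul_zero,
    add_zero, zero_add]
  module

/-! ## The set of pairs whose short root elements lie in `K` -/

/-- Pairs `(a, b)` with `B(a,b) = 0` all of whose short root elements `rho a (c • b)` lie in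
`K`. -/
def SK (K : Subgroup (Matrix.GeneralLinearGroup (Fin m ⊕ Fin m) F)) :
    Set ((Fin m ⊕ Fin m → F) × (Fin m ⊕ Fin m → F)) :=
  {p | S0766.sB m F p.1 p.2 = 0 ∧ ∀ c : F, rho m p.1 (c • p.2) ∈ K}

theorem mem_SK (K : Subgroup GG) (a b : VV) :
    (a, b) ∈ SK K ↔ Bs a b = 0 ∧ ∀ c : F, rho m a (c • b) ∈ K := Iff.rfl

theorem SK_symm {K : Subgroup GG} {a b : VV} (h : (a, b) ∈ SK K) : (b, a) ∈ SK K := by
  rw [mem_SK] at h ⊢
  obtain ⟨h0, h1⟩ := h
  have h0' : Bs b a = 0 := sk0 h0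
  refine ⟨h0', fun c => ?_⟩
  have h2 : Bs b (c • a) = 0 := by simp only [map_smul, smul_eq_mul, h0', mul_zero]
  rw [rho_symm b (c • a) h2, rho_smul_swap c a b h0]
  exact h1 c

theorem SK_conj {K : Subgroup GG} {k : GG} (hkK : k ∈ K) (hk : k ∈ Cfsg.spGL m F) {a b : VV}
    (h : (a, b) ∈ SK K) : ((k : MM) *ᵥ a, (k : MM) *ᵥ b) ∈ SK K := by
  rw [mem_SK] at h ⊢
  obtain ⟨h0, h1⟩ := h
  refine ⟨by rw [sB_map k hk, h0], fun c => ?_⟩
  rw [← Matrix.mulVec_smul, rho_conj k hk]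
  exact K.mul_mem (K.mul_mem hkK (h1 c)) (K.inv_mem hkK)

theorem SK_smul {K : Subgroup GG} {a b : VV} (h : (a, b) ∈ SK K) (μ : F) :
    (a, μ • b) ∈ SK K := by
  rw [mem_SK] at h ⊢
  obtain ⟨h0, h1⟩ := h
  refine ⟨by simp only [map_smul, smul_eq_mul, h0, mul_zero], fun c => ?_⟩
  rw [smul_smul]
  exact h1 _

theorem SK_add {K : Subgroup GG} {a b b' : VV} (h : (a, b) ∈ SK K) (h' : (a, b') ∈ SK K)
    (hbb : Bs b b' = 0) : (a, b + b') ∈ SK K := by
  rw [mem_SK] at h h' ⊢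
  obtain ⟨h0, h1⟩ := h
  obtain ⟨h0', h1'⟩ := h'
  refine ⟨by rw [map_add, h0, h0', add_zero], fun c => ?_⟩
  have e1 : Bs a (c • b) = 0 := by simp only [map_smul, smul_eq_mul, h0, mul_zero]
  have e2 : Bs a (c • b') = 0 := by simp only [map_smul, smul_eq_mul, h0', mul_zero]
  have e3 : Bs (c • b) (c • b') = 0 := by
    simp only [map_smul, LinearMap.smul_apply, smul_eq_mul, hbb, mul_zero]
  rw [smul_add, ← rho_add a (c • b) (c • b') e1 e2 e3]
  exact K.mul_mem (h1 c) (h1' c)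

theorem SK_tv {K : Subgroup GG} (h2 : (2 : F) ≠ 0) {a b b' : VV} (h : (a, b) ∈ SK K)
    (h' : (a, b') ∈ SK K) (hbb : Bs b' b ≠ 0) : a ∈ SpParab.TK K := by
  rw [mem_SK] at h h'
  obtain ⟨h0, h1⟩ := h
  obtain ⟨h0', h1'⟩ := h'
  rw [SpParab.mem_TK]
  intro c
  have e1 : Bs a ((c / (2 * Bs b' b)) • b) = 0 := by
    simp only [map_smul, smul_eq_mul, h0, mul_zero]
  have key := rho_comm_tv a ((c / (2 * Bs b' b)) • b) b' e1 h0'
  have e : 2 * Bs b' ((c / (2 * Bs b' b)) • b) = c := by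
    rw [map_smul, smul_eq_mul]
    field_simp
  rw [e] at key
  have hb' : rho m a b' ∈ K := by
    have := h1' 1
    rwa [one_smul] at this
  have hb := h1 (c / (2 * Bs b' b))
  have e3 : SpParab.tv m a c = rho m a ((c / (2 * Bs b' b)) • b) * rho m a b' *
      (rho m a b' * rho m a ((c / (2 * Bs b' b)) • b))⁻¹ := by
    rw [key]
    group
  rw [e3]
  exact K.mul_mem (K.mul_mem hb hb') (K.inv_mem (K.mul_mem hb' hb))

theorem SK_self {K : Subgroup GG} (h2 : (2 : F) ≠ 0) {a : VV} {μ : F} (hμ : μ ≠ 0)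
    (h : (a, μ • a) ∈ SK K) : a ∈ SpParab.TK K := by
  rw [mem_SK] at h
  obtain ⟨-, h1⟩ := h
  rw [SpParab.mem_TK]
  intro c
  have h3 := h1 (c / (2 * μ))
  rw [smul_smul, rho_self] at h3
  have e : 2 * (c / (2 * μ) * μ) = c := by field_simp
  rw [e] at h3
  exact h3

theorem SK_comm {K : Subgroup GG} {a b c d : VV} (h : (a, b) ∈ SK K) (h' : (c, d) ∈ SK K)
    (hca : Bs c a = 0) (hcb : Bs c b = 0) (hdb : Bs d b = 0) (hda : Bs d a ≠ 0) :
    (b, c) ∈ SK K := by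
  rw [mem_SK] at h h' ⊢
  obtain ⟨h0, h1⟩ := h
  obtain ⟨h0', h1'⟩ := h'
  have hbc : Bs b c = 0 := sk0 hcb
  refine ⟨hbc, fun γ => ?_⟩
  have e1 : Bs a ((γ / Bs d a) • b) = 0 := by simp only [map_smul, smul_eq_mul, h0, mul_zero]
  have e2 : Bs c ((γ / Bs d a) • b) = 0 := by simp only [map_smul, smul_eq_mul, hcb, mul_zero]
  have e3 : Bs d ((γ / Bs d a) • b) = 0 := by simp only [map_smul, smul_eq_mul, hdb, mul_zero]
  have key := rho_comm_rho a ((γ / Bs d a) • b) c d e1 h0' hca e2 e3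
  have e4 : Bs b (Bs d a • c) = 0 := by simp only [map_smul, smul_eq_mul, hbc, mul_zero]
  have e : rho m ((γ / Bs d a) • b) (Bs d a • c) = rho m b (γ • c) := by
    rw [rho_smul_swap _ b (Bs d a • c) e4, smul_smul, div_mul_cancel₀ γ hda]
  rw [e] at key
  have hcd : rho m c d ∈ K := by
    have := h1' 1
    rwa [one_smul] at this
  have hab := h1 (γ / Bs d a)
  have e5 : rho m b (γ • c) = rho m a ((γ / Bs d a) • b) * rho m c d *
      (rho m c d * rho m a ((γ / Bs d a) • b))⁻¹ := by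
    rw [key]
    group
  rw [e5]
  exact K.mul_mem (K.mul_mem hab hcd) (K.inv_mem (K.mul_mem hcd hab))

/-! ## Pairs of complementary Lagrangians -/

/-- `E`, `E'` are totally isotropic and span the whole space. -/
structure LagPair (E E' : Submodule F (Fin m ⊕ Fin m → F)) : Prop where
  iso : ∀ u ∈ E, ∀ v ∈ E, S0766.sB m F u v = 0
  iso' : ∀ u ∈ E', ∀ v ∈ E', S0766.sB m F u v = 0
  span : ∀ x : Fin m ⊕ Fin m → F, ∃ p ∈ E, ∃ r ∈ E', x = p + r

theorem LagPair.symm {E E' : Submodule F VV} (h : LagPair E E') : LagPair E' E :=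
  ⟨h.iso', h.iso, fun x => by
    obtain ⟨p, hp, r, hr, rfl⟩ := h.span x
    exact ⟨r, hr, p, hp, add_comm p r⟩⟩

theorem LagPair.eq_zero {E E' : Submodule F VV} (h : LagPair E E') {x : VV}
    (h1 : ∀ u ∈ E, Bs x u = 0) (h2 : ∀ u ∈ E', Bs x u = 0) : x = 0 := by
  apply (S0766.sB_nondeg m F).1 x
  intro y
  obtain ⟨p, hp, r, hr, rfl⟩ := h.span y
  rw [map_add, h1 p hp, h2 r hr, add_zero]

theorem LagPair.perp_mem {E E' : Submodule F VV} (h : LagPair E E') {x : VV}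
    (hx : ∀ u ∈ E, Bs x u = 0) : x ∈ E := by
  obtain ⟨p, hp, r, hr, rfl⟩ := h.span x
  have hr0 : r = 0 := by
    apply h.eq_zero
    · intro u hu
      have h3 := hx u hu
      rw [map_add, LinearMap.add_apply, h.iso p hp u hu, zero_add] at h3
      exact h3
    · intro u hu
      exact h.iso' r hr u hu
  rw [hr0, add_zero]
  exact hp

theorem LagPair.exists_one {E E' : Submodule F VV} (h : LagPair E E') {a : VV} (ha : a ∈ E)
    (ha0 : a ≠ 0) : ∃ b ∈ E', Bs a b = 1 := by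
  by_contra hcon
  apply ha0
  apply h.eq_zero
  · intro u hu
    exact h.iso a ha u hu
  · intro u hu
    by_contra hne
    apply hcon
    refine ⟨(Bs a u)⁻¹ • u, E'.smul_mem _ hu, ?_⟩
    rw [map_smul, smul_eq_mul, inv_mul_cancel₀ hne]

theorem LagPair.exists_sep {E E' : Submodule F VV} (h : LagPair E E') {a x : VV} (ha : a ∈ E)
    (hx : x ∈ E) (hne : ∀ μ : F, x ≠ μ • a) : ∃ b ∈ E', Bs a b = 0 ∧ Bs x b = 1 := by
  by_contra hcon
  have hall : ∀ b ∈ E', Bs a b = 0 → Bs x b = 0 := by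
    intro b hb hab
    by_contra hxb
    apply hcon
    refine ⟨(Bs x b)⁻¹ • b, E'.smul_mem _ hb, ?_, ?_⟩
    · rw [map_smul, smul_eq_mul, hab, mul_zero]
    · rw [map_smul, smul_eq_mul, inv_mul_cancel₀ hxb]
  by_cases ha0 : a = 0
  · apply hne 0
    rw [zero_smul]
    apply h.eq_zero
    · intro u hu
      exact h.iso x hx u hu
    · intro u hu
      apply hall u hu
      rw [ha0, map_zero, LinearMap.zero_apply]
  · obtain ⟨bs, hbs, habs⟩ := h.exists_one ha ha0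
    apply hne (Bs x bs)
    have h5 : x - Bs x bs • a = 0 := by
      apply h.eq_zero
      · intro u hu
        simp only [map_sub, map_smul, LinearMap.sub_apply, LinearMap.smul_apply, smul_eq_mul,
          h.iso x hx u hu, h.iso a ha u hu, mul_zero, sub_zero]
      · intro u hu
        have h1 := hall (u - Bs a u • bs) (E'.sub_mem hu (E'.smul_mem _ hbs)) (by
          simp only [map_sub, map_smul, smul_eq_mul, habs, mul_one, sub_self])
        simp only [map_sub, map_smul, smul_eq_mul] at h1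
        simp only [map_sub, map_smul, LinearMap.sub_apply, LinearMap.smul_apply, smul_eq_mul]
        linear_combination h1
    exact sub_eq_zero.1 h5

/-- A subspace of dimension more than `r` has a non-zero vector orthogonal to `r` given
vectors. -/
theorem exists_perp (W : Submodule F VV) (r : ℕ) (v : Fin r → VV)
    (h : r < Module.finrank F W) : ∃ w ∈ W, w ≠ 0 ∧ ∀ i, Bs w (v i) = 0 := by
  let f : W →ₗ[F] (Fin r → F) :=
    LinearMap.pi (fun i => ((S0766.sB m F).flip (v i)).comp W.subtype)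
  have hker : LinearMap.ker f ≠ ⊥ := by
    apply LinearMap.ker_ne_bot_of_finrank_lt
    rw [Module.finrank_fin_fun]
    exact h
  obtain ⟨w, hw, hw0⟩ := Submodule.exists_mem_ne_zero_of_ne_bot hker
  refine ⟨(w : VV), w.2, fun h0 => hw0 (Subtype.ext h0), fun i => ?_⟩
  have h1 : f w = 0 := hw
  have h2 := congrFun h1 i
  exact h2

/-! ## The decomposition into two Lagrangians -/

theorem fin2_eq {i j l : Fin 2} (hij : i ≠ j) (hl : l ≠ i) : l = j := by
  have h1 : (l : ℕ) ≠ i := fun h => hl (Fin.ext h)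
  have h2 : (i : ℕ) ≠ j := fun h => hij (Fin.ext h)
  apply Fin.ext
  have := l.2
  have := i.2
  have := j.2
  omega

theorem fin2_cases {i j : Fin 2} (hij : i ≠ j) : (i = 0 ∧ j = 1) ∨ (i = 1 ∧ j = 0) := by
  have hi := i.2
  have hj := j.2
  have h2 : (i : ℕ) ≠ j := fun h => hij (Fin.ext h)
  rcases Nat.lt_or_ge (i : ℕ) 1 with h | h
  · left
    exact ⟨Fin.ext (by show (i : ℕ) = 0; omega), Fin.ext (by show (j : ℕ) = 1; omega)⟩
  · right
    exact ⟨Fin.ext (by show (i : ℕ) = 1; omega), Fin.ext (by show (j : ℕ) = 0; omega)⟩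

theorem exists_ne (i : Fin 2) : ∃ i' : Fin 2, i ≠ i' := by
  by_cases h : i = 0
  · exact ⟨1, by rw [h]; exact Fin.zero_ne_one⟩
  · exact ⟨0, h⟩

section decomp

variable {D : Fin 2 → Submodule F (Fin m ⊕ Fin m → F)}

theorem lag (hD : Cfsg.Geo.IsMDecomposition m D)
    (hts : ∀ i, Cfsg.Geo.IsTotallySingularFor (Cfsg.sympForm m F) (D i)) {i j : Fin 2}
    (hij : i ≠ j) : LagPair (D i) (D j) := by
  refine ⟨fun u hu v hv => ?_, fun u hu v hv => ?_, fun x => ?_⟩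
  · rw [S0766.sB_apply]
    exact hts i u hu v hv
  · rw [S0766.sB_apply]
    exact hts j u hu v hv
  · obtain ⟨μ, hμ, hx⟩ := SpDecomp.exists_sum D hD.iSup_eq_top x
    rw [Fin.sum_univ_two] at hx
    rcases fin2_cases hij with ⟨rfl, rfl⟩ | ⟨rfl, rfl⟩
    · exact ⟨μ 0, hμ 0, μ 1, hμ 1, hx⟩
    · exact ⟨μ 1, hμ 1, μ 0, hμ 0, by rw [hx, add_comm]⟩

theorem rho_mem_stab (hD : Cfsg.Geo.IsMDecomposition m D)
    (hts : ∀ i, Cfsg.Geo.IsTotallySingularFor (Cfsg.sympForm m F) (D i)) {i j : Fin 2}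
    (hij : i ≠ j) {a b : VV} (ha : a ∈ D i) (hb : b ∈ D j) (hab : Bs a b = 0) :
    rho m a b ∈ Cfsg.Geo.decompositionStabilizer D := by
  have hl := lag hD hts hij
  show ∃ σ : Equiv.Perm (Fin 2), ∀ l, (D l).map (Matrix.toLin' ((rho m a b : GG) : MM)) = D (σ l)
  refine ⟨1, fun l => ?_⟩
  rw [Equiv.Perm.one_apply]
  apply SpDecomp.map_eq_of_maps _ _ _ _ rfl
  intro x hx
  rw [rho_apply a b hab]
  by_cases hli : l = i
  · rw [hli] at hx ⊢
    rw [hl.iso x hx a ha, zero_smul, add_zero]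
    exact (D i).add_mem hx ((D i).smul_mem _ ha)
  · have hlj : l = j := fin2_eq hij hli
    rw [hlj] at hx ⊢
    rw [hl.iso' x hx b hb, zero_smul, add_zero]
    exact (D j).add_mem hx ((D j).smul_mem _ hb)

theorem S0_mem (hD : Cfsg.Geo.IsMDecomposition m D)
    (hts : ∀ i, Cfsg.Geo.IsTotallySingularFor (Cfsg.sympForm m F) (D i))
    {K : Subgroup GG} (hK : Cfsg.Geo.decompositionStabilizer D ⊓ Cfsg.spGL m F ≤ K)
    {i j : Fin 2} (hij : i ≠ j) {a b : VV} (ha : a ∈ D i) (hb : b ∈ D j) (hab : Bs a b = 0) :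
    (a, b) ∈ SK K := by
  rw [mem_SK]
  refine ⟨hab, fun c => hK (Subgroup.mem_inf.2 ⟨rho_mem_stab hD hts hij ha
    ((D j).smul_mem c hb) (by simp only [map_smul, smul_eq_mul, hab, mul_zero]), rho_mem _ _⟩)⟩

/-- If no non-zero vector of the two Lagrangians has all its transvections in `K`, then a pair
`(a, b')` of `SK K` with `a` in one Lagrangian has `b'` in the other. -/
theorem SK_right_mem (hD : Cfsg.Geo.IsMDecomposition m D)
    (hts : ∀ i, Cfsg.Geo.IsTotallySingularFor (Cfsg.sympForm m F) (D i))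
    {K : Subgroup GG} (hK : Cfsg.Geo.decompositionStabilizer D ⊓ Cfsg.spGL m F ≤ K)
    (h2 : (2 : F) ≠ 0) (hT : ∀ l, ∀ y ∈ D l, y ∈ SpParab.TK K → y = 0)
    {i j : Fin 2} (hij : i ≠ j) {a b' : VV} (ha : a ∈ D i) (ha0 : a ≠ 0)
    (h : (a, b') ∈ SK K) : b' ∈ D j := by
  have hl := lag hD hts hij
  obtain ⟨p, hp, r, hr, rfl⟩ := hl.span b'
  have hab' : Bs a (p + r) = 0 := ((mem_SK K a (p + r)).1 h).1
  have har : Bs a r = 0 := by
    rw [map_add, hl.iso a ha p hp, zero_add] at hab'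
    exact hab'
  have h1 : ∀ b ∈ D j, Bs a b = 0 → Bs p b = 0 := by
    intro b hb hab
    by_contra hne
    apply ha0
    apply hT i a ha
    apply SK_tv h2 (S0_mem hD hts hK hij ha hb hab) h
    rw [map_add, LinearMap.add_apply, hl.iso' r hr b hb, add_zero]
    exact hne
  obtain ⟨bs, hbs, habs⟩ := hl.exists_one ha ha0
  have hp' : p = Bs p bs • a := by
    have h5 : p - Bs p bs • a = 0 := by
      apply hl.eq_zero
      · intro u hu
        simp only [map_sub, map_smul, LinearMap.sub_apply, LinearMap.smul_apply, smul_eq_mul,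
          hl.iso p hp u hu, hl.iso a ha u hu, mul_zero, sub_zero]
      · intro u hu
        have h3 := h1 (u - Bs a u • bs) ((D j).sub_mem hu ((D j).smul_mem _ hbs)) (by
          simp only [map_sub, map_smul, smul_eq_mul, habs, mul_one, sub_self])
        simp only [map_sub, map_smul, smul_eq_mul] at h3
        simp only [map_sub, map_smul, LinearMap.sub_apply, LinearMap.smul_apply, smul_eq_mul]
        linear_combination h3
    exact sub_eq_zero.1 h5
  have hneg : (a, -r) ∈ SK K := by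
    have h6 := SK_smul (S0_mem hD hts hK hij ha hr har) (-1)
    rwa [neg_one_smul] at h6
  have hsum : (a, (p + r) + -r) ∈ SK K := by
    apply SK_add h hneg
    simp only [map_add, map_neg, LinearMap.add_apply, h1 r hr har, hl.iso' r hr r hr, add_zero,
      neg_zero]
  have e : (p + r) + -r = Bs p bs • a := by
    rw [add_neg_cancel_right]
    exact hp'
  rw [e] at hsum
  by_cases hμ : Bs p bs = 0
  · rw [hp', hμ, zero_smul, zero_add]
    exact hr
  · exact absurd (hT i a ha (SK_self h2 hμ hsum)) ha0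

theorem map_mem_of_inter (hD : Cfsg.Geo.IsMDecomposition m D)
    (hts : ∀ i, Cfsg.Geo.IsTotallySingularFor (Cfsg.sympForm m F) (D i))
    {K : Subgroup GG} (hK : Cfsg.Geo.decompositionStabilizer D ⊓ Cfsg.spGL m F ≤ K)
    (h2 : (2 : F) ≠ 0) (hT : ∀ l, ∀ y ∈ D l, y ∈ SpParab.TK K → y = 0) (hm : 3 ≤ m)
    {k : GG} (hkK : k ∈ K) (hk : k ∈ Cfsg.spGL m F) {i i' j j' : Fin 2} (hii : i ≠ i')
    (hjj : j ≠ j') {a₀ : VV} (ha₀ : a₀ ∈ D i) (ha₀0 : a₀ ≠ 0) (hka : (k : MM) *ᵥ a₀ ∈ D j) :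
    (∀ x ∈ D i, (k : MM) *ᵥ x ∈ D j) ∧ ∃ b₀ ∈ D i', b₀ ≠ 0 ∧ (k : MM) *ᵥ b₀ ∈ D j' := by
  have hl := lag hD hts hii
  have hl' := hl.symm
  have hinj : ∀ y : VV, (k : MM) *ᵥ y = 0 → y = 0 := fun y h =>
    Parab.gl_mulVec_inj k (by rw [h, Matrix.mulVec_zero])
  have hka0 : (k : MM) *ᵥ a₀ ≠ 0 := fun h => ha₀0 (hinj _ h)
  have s1 : ∀ b ∈ D i', Bs a₀ b = 0 → (k : MM) *ᵥ b ∈ D j' := by
    intro b hb hab
    exact SK_right_mem hD hts hK h2 hT hjj hka hka0
      (SK_conj hkK hk (S0_mem hD hts hK hii ha₀ hb hab))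
  obtain ⟨b₀, hb₀, hb₀0, hb₀a⟩ := exists_perp (D i') 1 (fun _ => a₀)
    (by rw [hD.finrank_eq]; omega)
  have hb₀a' : Bs a₀ b₀ = 0 := sk0 (hb₀a 0)
  obtain ⟨u, hu, hbu⟩ := hl'.exists_one hb₀ hb₀0
  obtain ⟨b₁, hb₁, hb₁0, hb₁p⟩ := exists_perp (D i') 2 ![a₀, u]
    (by rw [hD.finrank_eq]; omega)
  have hb₁a : Bs b₁ a₀ = 0 := hb₁p 0
  have hb₁u : Bs b₁ u = 0 := hb₁p 1
  have hb₁a' : Bs a₀ b₁ = 0 := sk0 hb₁a
  have hkb₀ := s1 b₀ hb₀ hb₀a'
  have hkb₁ := s1 b₁ hb₁ hb₁a'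
  have s3 : ∀ b ∈ D i', b ≠ 0 → (k : MM) *ᵥ b ∈ D j' → ∀ a' ∈ D i, Bs b a' = 0 →
      (k : MM) *ᵥ a' ∈ D j := by
    intro b hb hb0 hkb a' ha' hba'
    exact SK_right_mem hD hts hK h2 hT hjj.symm hkb (fun h => hb0 (hinj _ h))
      (SK_conj hkK hk (S0_mem hD hts hK hii.symm hb ha' hba'))
  have hnm : ∀ μ : F, b₁ ≠ μ • b₀ := by
    intro μ h
    have h3 : Bs b₁ u = μ := by
      rw [h, map_smul, LinearMap.smul_apply, hbu, smul_eq_mul, mul_one]
    rw [hb₁u] at h3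
    apply hb₁0
    rw [h, ← h3, zero_smul]
  obtain ⟨u', hu', hb₀u', hb₁u'⟩ := hl'.exists_sep hb₀ hb₁ hnm
  refine ⟨fun x hx => ?_, b₀, hb₀, hb₀0, hkb₀⟩
  have hx' : (k : MM) *ᵥ (x - Bs b₁ x • u') ∈ D j := by
    apply s3 b₁ hb₁ hb₁0 hkb₁ _ ((D i).sub_mem hx ((D i).smul_mem _ hu'))
    simp only [map_sub, map_smul, smul_eq_mul, hb₁u', mul_one, sub_self]
  have hu'' : (k : MM) *ᵥ u' ∈ D j := s3 b₀ hb₀ hb₀0 hkb₀ u' hu' hb₀u'
  have e : (k : MM) *ᵥ x = (k : MM) *ᵥ (x - Bs b₁ x • u') + Bs b₁ x • ((k : MM) *ᵥ u') := by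
    rw [← Matrix.mulVec_smul, ← Matrix.mulVec_add, sub_add_cancel]
  rw [e]
  exact (D j).add_mem hx' ((D j).smul_mem _ hu'')

theorem mem_stab_of_inter (hD : Cfsg.Geo.IsMDecomposition m D)
    (hts : ∀ i, Cfsg.Geo.IsTotallySingularFor (Cfsg.sympForm m F) (D i))
    {K : Subgroup GG} (hK : Cfsg.Geo.decompositionStabilizer D ⊓ Cfsg.spGL m F ≤ K)
    (h2 : (2 : F) ≠ 0) (hT : ∀ l, ∀ y ∈ D l, y ∈ SpParab.TK K → y = 0) (hm : 3 ≤ m)
    {k : GG} (hkK : k ∈ K) (hk : k ∈ Cfsg.spGL m F) {i j : Fin 2} {a₀ : VV} (ha₀ : a₀ ∈ D i)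
    (ha₀0 : a₀ ≠ 0) (hka : (k : MM) *ᵥ a₀ ∈ D j) :
    k ∈ Cfsg.Geo.decompositionStabilizer D := by
  obtain ⟨i', hii⟩ := exists_ne i
  obtain ⟨j', hjj⟩ := exists_ne j
  obtain ⟨h1, b₀, hb₀, hb₀0, hkb₀⟩ :=
    map_mem_of_inter hD hts hK h2 hT hm hkK hk hii hjj ha₀ ha₀0 hka
  obtain ⟨h1', -⟩ :=
    map_mem_of_inter hD hts hK h2 hT hm hkK hk hii.symm hjj.symm hb₀ hb₀0 hkb₀
  have hfr : ∀ a b : Fin 2, Module.finrank F (D a) = Module.finrank F (D b) := fun a b =>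
    (hD.finrank_eq a).trans (hD.finrank_eq b).symm
  show ∃ σ : Equiv.Perm (Fin 2), ∀ l, (D l).map (Matrix.toLin' (k : MM)) = D (σ l)
  refine ⟨Equiv.swap i j, fun l => ?_⟩
  by_cases hli : l = i
  · rw [hli, Equiv.swap_apply_left]
    exact SpDecomp.map_eq_of_maps k _ _ h1 (hfr i j)
  · have hli' : l = i' := fin2_eq hii hli
    rw [hli']
    by_cases hij : i = j
    · subst hij
      have e1 : i' = j' := fin2_eq hjj hii.symm
      subst e1
      rw [Equiv.swap_self, Equiv.refl_apply]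
      exact SpDecomp.map_eq_of_maps k _ _ h1' (hfr _ _)
    · have e1 : i' = j := (fin2_eq hii (Ne.symm hij)).symm
      have e2 : j' = i := fin2_eq (Ne.symm hij) hjj.symm
      subst e1 e2
      rw [Equiv.swap_apply_right]
      exact SpDecomp.map_eq_of_maps k _ _ h1' (hfr _ _)

theorem generic_false (hD : Cfsg.Geo.IsMDecomposition m D)
    (hts : ∀ i, Cfsg.Geo.IsTotallySingularFor (Cfsg.sympForm m F) (D i))
    {K : Subgroup GG} (hK : Cfsg.Geo.decompositionStabilizer D ⊓ Cfsg.spGL m F ≤ K)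
    (h2 : (2 : F) ≠ 0) (hT : ∀ l, ∀ y ∈ D l, y ∈ SpParab.TK K → y = 0) (hm : 4 ≤ m)
    {g : GG} (hgK : g ∈ K) (hg : g ∈ Cfsg.spGL m F)
    (hgen : ∀ i j : Fin 2, ∀ x ∈ D i, x ≠ 0 → (g : MM) *ᵥ x ∉ D j) : False := by
  have h01 : (0 : Fin 2) ≠ 1 := Fin.zero_ne_one
  have hl := lag hD hts h01
  have hl' := hl.symm
  obtain ⟨d₀, hd₀, hd₀0, -⟩ := exists_perp (D 1) 0 Fin.elim0 (by rw [hD.finrank_eq]; omega)
  obtain ⟨p, hp, r, hr, hd⟩ := hl.span ((g : MM) *ᵥ d₀)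
  have hr0 : r ≠ 0 := by
    intro h
    apply hgen 1 0 d₀ hd₀ hd₀0
    rw [hd, h, add_zero]
    exact hp
  obtain ⟨a, ha, hra⟩ := hl'.exists_one hr hr0
  have hda : Bs ((g : MM) *ᵥ d₀) a = 1 := by
    rw [hd, map_add, LinearMap.add_apply, hl.iso p hp a ha, zero_add, hra]
  obtain ⟨b, hb, hb0, hbp⟩ := exists_perp (D 1) 2 ![(g : MM) *ᵥ d₀, a]
    (by rw [hD.finrank_eq]; omega)
  have hbd : Bs b ((g : MM) *ᵥ d₀) = 0 := hbp 0
  have hba : Bs b a = 0 := hbp 1
  obtain ⟨c₀, hc₀, hc₀0, hcp⟩ := exists_perp (D 0) 3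
    ![((g⁻¹ : GG) : MM) *ᵥ a, ((g⁻¹ : GG) : MM) *ᵥ b, d₀] (by rw [hD.finrank_eq]; omega)
  have hca : Bs ((g : MM) *ᵥ c₀) a = 0 := by
    have h3 : Bs c₀ (((g⁻¹ : GG) : MM) *ᵥ a) = 0 := hcp 0
    rw [← sB_map g hg, Parab.mulVec_inv_mulVec] at h3
    exact h3
  have hcb : Bs ((g : MM) *ᵥ c₀) b = 0 := by
    have h3 : Bs c₀ (((g⁻¹ : GG) : MM) *ᵥ b) = 0 := hcp 1
    rw [← sB_map g hg, Parab.mulVec_inv_mulVec] at h3
    exact h3
  have hcd : Bs c₀ d₀ = 0 := hcp 2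
  have hab : Bs a b = 0 := sk0 hba
  have hS1 : (a, b) ∈ SK K := S0_mem hD hts hK h01 ha hb hab
  have hS2 : ((g : MM) *ᵥ c₀, (g : MM) *ᵥ d₀) ∈ SK K :=
    SK_conj hgK hg (S0_mem hD hts hK h01 hc₀ hd₀ hcd)
  have hdb : Bs ((g : MM) *ᵥ d₀) b = 0 := sk0 hbd
  have hS3 : (b, (g : MM) *ᵥ c₀) ∈ SK K :=
    SK_comm hS1 hS2 hca hcb hdb (by rw [hda]; exact one_ne_zero)
  have hc : (g : MM) *ᵥ c₀ ∈ D 0 := SK_right_mem hD hts hK h2 hT h01.symm hb hb0 hS3
  exact hgen 0 0 c₀ hc₀ hc₀0 hc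

theorem TK_univ (hD : Cfsg.Geo.IsMDecomposition m D)
    (hts : ∀ i, Cfsg.Geo.IsTotallySingularFor (Cfsg.sympForm m F) (D i))
    {K : Subgroup GG} (hK : Cfsg.Geo.decompositionStabilizer D ⊓ Cfsg.spGL m F ≤ K)
    (hsw : ∃ s ∈ K, s ∈ Cfsg.spGL m F ∧ (∀ x ∈ D 0, (s : MM) *ᵥ x ∈ D 1) ∧
      (∀ x ∈ D 1, (s : MM) *ᵥ x ∈ D 0))
    {j : Fin 2} {a : VV} (ha : a ∈ D j) (ha0 : a ≠ 0) (haT : a ∈ SpParab.TK K) :
    ∀ z, z ∈ SpParab.TK K := by
  obtain ⟨j', hjj⟩ := exists_ne j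
  have hl := lag hD hts hjj
  have hsm : ∀ y ∈ SpParab.TK K, ∀ μ : F, μ • y ∈ SpParab.TK K := by
    intro y hy μ
    rw [SpParab.mem_TK] at hy ⊢
    intro c
    rw [SpParab.tv_smul]
    exact hy _
  have s1 : ∀ x ∈ D j, x ∈ SpParab.TK K := by
    intro x hx
    by_cases hx' : ∃ μ : F, x = μ • a
    · obtain ⟨μ, rfl⟩ := hx'
      exact hsm a haT μ
    · have hx'' : ∀ μ : F, x ≠ μ • a := fun μ h => hx' ⟨μ, h⟩
      have hax : ∀ μ : F, a ≠ μ • x := by
        intro μ h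
        by_cases hμ : μ = 0
        · apply ha0
          rw [h, hμ, zero_smul]
        · apply hx'' μ⁻¹
          rw [h, smul_smul, inv_mul_cancel₀ hμ, one_smul]
      obtain ⟨b₁, hb₁, hab₁, hxb₁⟩ := hl.exists_sep ha hx hx''
      obtain ⟨b₂, hb₂, hxb₂, hab₂⟩ := hl.exists_sep hx ha hax
      have hwb : Bs (x - a) (b₁ + b₂) = 0 := by
        simp only [map_sub, map_add, LinearMap.sub_apply]
        linear_combination hxb₁ + hxb₂ - hab₁ - hab₂
      have hρK : rho m (x - a) (b₁ + b₂) ∈ K :=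
        hK (Subgroup.mem_inf.2 ⟨rho_mem_stab hD hts hjj ((D j).sub_mem hx ha)
          ((D j').add_mem hb₁ hb₂) hwb, rho_mem _ _⟩)
      have h3 := SpParab.TK_smul_mem K _ hρK (rho_mem _ _) a haT
      rw [rho_apply _ _ hwb] at h3
      have h4 : Bs a (x - a) = 0 := by
        rw [map_sub, hl.iso a ha x hx, hl.iso a ha a ha, sub_zero]
      have h5 : Bs a (b₁ + b₂) = 1 := by rw [map_add, hab₁, hab₂, zero_add]
      rw [h4, h5, zero_smul, one_smul, add_zero, add_sub_cancel] at h3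
      exact h3
  have s2 : ∀ y ∈ D j', y ∈ SpParab.TK K := by
    obtain ⟨s, hsK, hs, hs01, hs10⟩ := hsw
    intro y hy
    have hmap : (D j).map (Matrix.toLin' (s : MM)) = D j' := by
      apply SpDecomp.map_eq_of_maps s _ _ _ ((hD.finrank_eq j).trans (hD.finrank_eq j').symm)
      rcases fin2_cases hjj with ⟨rfl, rfl⟩ | ⟨rfl, rfl⟩
      · exact hs01
      · exact hs10
    rw [← hmap] at hy
    obtain ⟨x, hx, rfl⟩ := Submodule.mem_map.1 hy
    rw [Matrix.toLin'_apply]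
    exact SpParab.TK_smul_mem K s hsK hs x (s1 x hx)
  intro z
  obtain ⟨p, hp, r, hr, rfl⟩ := hl.span z
  by_cases hpr : Bs p r = 0
  · by_cases hp0 : p = 0
    · rw [hp0, zero_add]
      exact s2 r hr
    · obtain ⟨r', hr', hpr'⟩ := hl.exists_one hp hp0
      have hy : p + r' ∈ SpParab.TK K := by
        have h3 := SpParab.TK_transv K p (s1 p hp) r' (s2 r' hr') 1
        rw [hpr', mul_one, one_smul] at h3
        exact h3
      have ht : r - r' ∈ SpParab.TK K := s2 _ ((D j').sub_mem hr hr')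
      have h4 := SpParab.TK_transv K (p + r') hy (r - r') ht (-1)
      have e : Bs (p + r') (r - r') = -1 := by
        have h5 : Bs r' r = 0 := hl.iso' r' hr' r hr
        have h6 : Bs r' r' = 0 := hl.iso' r' hr' r' hr'
        simp only [map_add, map_sub, LinearMap.add_apply]
        linear_combination hpr - hpr' + h5 - h6
      rw [e, neg_one_mul, neg_neg, one_smul] at h4
      have e2 : p + r' + (r - r') = p + r := by abel
      rw [e2] at h4
      exact h4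
  · have h3 := SpParab.TK_transv K p (s1 p hp) r (s2 r hr) (Bs p r)⁻¹
    rw [inv_mul_cancel₀ hpr, one_smul] at h3
    exact h3

theorem exists_swap_lag (hD : Cfsg.Geo.IsMDecomposition m D)
    (hts : ∀ i, Cfsg.Geo.IsTotallySingularFor (Cfsg.sympForm m F) (D i)) :
    ∃ s ∈ Cfsg.spGL m F, (∀ x ∈ D 0, (s : MM) *ᵥ x ∈ D 1) ∧
      (∀ x ∈ D 1, (s : MM) *ᵥ x ∈ D 0) := by
  classical
  have h01 : (0 : Fin 2) ≠ 1 := Fin.zero_ne_one
  have hl := lag hD hts h01
  let L : (D 1) →ₗ[F] Module.Dual F (D 0) := ((S0766.sB m F).flip).domRestrict₁₂ (D 1) (D 0)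
  have hL : ∀ (y : D 1) (x : D 0), L y x = Bs (x : VV) (y : VV) := fun y x => rfl
  have hinj : Function.Injective L := by
    rw [injective_iff_map_eq_zero]
    intro y hy
    apply Subtype.ext
    show (y : VV) = 0
    apply hl.symm.eq_zero
    · intro u hu
      exact hl.iso' y y.2 u hu
    · intro u hu
      have h1 : L y ⟨u, hu⟩ = 0 := by rw [hy]; rfl
      rw [hL] at h1
      exact sk0 h1
  have hsurj : Function.Surjective L := by
    apply (LinearMap.injective_iff_surjective_of_finrank_eq_finrank ?_).1 hinj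
    rw [Subspace.dual_finrank_eq, hD.finrank_eq, hD.finrank_eq]
  let e := Module.finBasisOfFinrankEq F (D 0) (hD.finrank_eq 0)
  choose f hf using fun i => hsurj (e.coord i)
  have hef : ∀ i l, Bs (e i : VV) (f l : VV) = if i = l then 1 else 0 := by
    intro i l
    have h1 : L (f l) (e i) = e.coord l (e i) := by rw [hf l]
    rw [hL] at h1
    rw [h1, Module.Basis.coord_apply, Module.Basis.repr_self, Finsupp.single_apply]
  let p : Fin m → VV := fun i => (e i : VV)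
  let q : Fin m → VV := fun i => (f i : VV)
  have hH : SpDecomp.Hyp (S0766.sB m F) p q :=
    ⟨fun i l => hl.iso _ (e i).2 _ (e l).2, fun i l => hl.iso' _ (f i).2 _ (f l).2, hef⟩
  have hH' : SpDecomp.Hyp (S0766.sB m F) q (fun i => - p i) := by
    refine ⟨fun i l => hl.iso' _ (f i).2 _ (f l).2, fun i l => ?_, fun i l => ?_⟩
    · show Bs (-(e i : VV)) (-(e l : VV)) = 0
      rw [map_neg, map_neg, LinearMap.neg_apply, neg_neg]
      exact hl.iso _ (e i).2 _ (e l).2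
    · show Bs (f i : VV) (-(e l : VV)) = if i = l then 1 else 0
      rw [map_neg, ← SpParab.sB_skew, hef l i]
      by_cases h : i = l
      · rw [if_pos h, if_pos h.symm]
      · rw [if_neg h, if_neg (Ne.symm h)]
  obtain ⟨g, hgT, hiso, hmap⟩ := SpDecomp.witt_fintype (S0766.sB m F) (S0766.sB_nondeg m F)
    (S0766.sB_alt m F) (SpDecomp.spMaps m F) SpDecomp.spMaps_one SpDecomp.spMaps_mul
    SpDecomp.spMaps_tv (Sum.elim p q) (Sum.elim q (fun i => - p i))
    (SpDecomp.hyp_li _ p q hH) (SpDecomp.hyp_li _ q _ hH')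
    (fun i j => SpDecomp.gram_std _ (S0766.sB_alt m F) p q q (fun i => - p i) hH hH' i j)
  obtain ⟨s, hs, hgs⟩ : ∃ h ∈ Cfsg.spGL m F, ∀ x, g x = (h : MM) *ᵥ x := hgT
  have hgp : ∀ i, g (p i) = q i := fun i => hmap (Sum.inl i)
  have hgq : ∀ i, g (q i) = - p i := fun i => hmap (Sum.inr i)
  have hrep : ∀ x ∈ D 0, ∃ c : Fin m → F, x = ∑ i, c i • p i := by
    intro x hx
    refine ⟨fun i => e.repr ⟨x, hx⟩ i, ?_⟩
    have h1 := e.sum_repr ⟨x, hx⟩
    have h2 : ((∑ i, e.repr ⟨x, hx⟩ i • e i : D 0) : VV) = x := congrArg Subtype.val h1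
    rw [Submodule.coe_sum] at h2
    exact h2.symm
  refine ⟨s, hs, fun x hx => ?_, fun y hy => ?_⟩
  · obtain ⟨c, rfl⟩ := hrep x hx
    rw [← hgs, map_sum]
    apply Submodule.sum_mem
    intro i _
    rw [map_smul, hgp]
    exact (D 1).smul_mem _ (f i).2
  · rw [← hgs]
    apply hl.perp_mem
    intro u hu
    obtain ⟨c, rfl⟩ := hrep u hu
    rw [map_sum]
    apply Finset.sum_eq_zero
    intro i _
    have h3 : p i = - g (q i) := by rw [hgq, neg_neg]
    rw [map_smul, smul_eq_mul, h3, map_neg, hiso, hl.iso' y hy (q i) (f i).2, neg_zero, mul_zero]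

theorem exists_sp_not_stab_lag (hD : Cfsg.Geo.IsMDecomposition m D)
    (hts : ∀ i, Cfsg.Geo.IsTotallySingularFor (Cfsg.sympForm m F) (D i)) :
    ∃ g ∈ Cfsg.spGL m F, g ∉ Cfsg.Geo.decompositionStabilizer D := by
  have h01 : (0 : Fin 2) ≠ 1 := Fin.zero_ne_one
  have hl := lag hD hts h01
  obtain ⟨a, ha, ha0, -⟩ := exists_perp (D 0) 0 Fin.elim0
    (by rw [hD.finrank_eq]; exact hD.pos)
  obtain ⟨x, hx, hax⟩ := hl.exists_one ha ha0
  refine ⟨SpParab.tv m a 1, SpParab.tv_mem _ _, ?_⟩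
  intro hmem
  obtain ⟨σ, hσ⟩ : ∃ σ : Equiv.Perm (Fin 2), ∀ l, (D l).map (Matrix.toLin'
    ((SpParab.tv m a 1 : GG) : MM)) = D (σ l) := hmem
  have h1 : ((SpParab.tv m a 1 : GG) : MM) *ᵥ x ∈ D (σ 1) := by
    rw [← hσ 1]
    exact ⟨x, hx, by rw [Matrix.toLin'_apply]⟩
  have hxa : Bs x a = -1 := by rw [SpParab.sB_skew, hax]
  rw [SpParab.tv_mulVec, hxa, one_mul, neg_one_smul] at h1
  by_cases hσ1 : σ 1 = 1
  · rw [hσ1] at h1
    have h3 : a ∈ D 1 := by
      have h4 := (D 1).sub_mem hx h1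
      rwa [show x - (x + -a) = a by abel] at h4
    exact ha0 (hl.eq_zero (fun u hu => hl.iso a ha u hu) (fun u hu => hl.iso' a h3 u hu))
  · have hσ0 : σ 1 = 0 := fin2_eq h01.symm hσ1
    rw [hσ0] at h1
    have h3 : x ∈ D 0 := by
      have h4 := (D 0).add_mem h1 ha
      rwa [show x + -a + a = x by abel] at h4
    have h5 : Bs a x = 0 := hl.iso a ha x h3
    rw [hax] at h5
    exact one_ne_zero h5

/-- **Key lemma**: a subgroup of `Sp` containing the stabiliser of a pair of complementary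
Lagrangians and an element not stabilising the pair is all of `Sp` (odd characteristic). -/
theorem sp_le_of_lag (hm : 4 ≤ m) (h2 : (2 : F) ≠ 0) (hD : Cfsg.Geo.IsMDecomposition m D)
    (hts : ∀ i, Cfsg.Geo.IsTotallySingularFor (Cfsg.sympForm m F) (D i))
    (K : Subgroup GG) (hK : Cfsg.Geo.decompositionStabilizer D ⊓ Cfsg.spGL m F ≤ K)
    (hK2 : K ≤ Cfsg.spGL m F) (hg : ∃ g ∈ K, g ∉ Cfsg.Geo.decompositionStabilizer D) :
    Cfsg.spGL m F ≤ K := by
  apply SpParab.sp_le_of_TK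
  by_cases hT : ∃ l, ∃ y ∈ D l, y ≠ 0 ∧ y ∈ SpParab.TK K
  · obtain ⟨l, y, hy, hy0, hyT⟩ := hT
    obtain ⟨s, hs, hs01, hs10⟩ := exists_swap_lag hD hts
    have hfr : ∀ a b : Fin 2, Module.finrank F (D a) = Module.finrank F (D b) := fun a b =>
      (hD.finrank_eq a).trans (hD.finrank_eq b).symm
    have hsStab : s ∈ Cfsg.Geo.decompositionStabilizer D := by
      show ∃ σ : Equiv.Perm (Fin 2), ∀ l, (D l).map (Matrix.toLin' (s : MM)) = D (σ l)
      refine ⟨Equiv.swap 0 1, fun l => ?_⟩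
      by_cases hl0 : l = 0
      · rw [hl0, Equiv.swap_apply_left]
        exact SpDecomp.map_eq_of_maps s _ _ hs01 (hfr _ _)
      · have hl1 : l = 1 := fin2_eq Fin.zero_ne_one hl0
        rw [hl1, Equiv.swap_apply_right]
        exact SpDecomp.map_eq_of_maps s _ _ hs10 (hfr _ _)
    exact TK_univ hD hts hK ⟨s, hK (Subgroup.mem_inf.2 ⟨hsStab, hs⟩), hs, hs01, hs10⟩ hy hy0 hyT
  · exfalso
    have hT' : ∀ l, ∀ y ∈ D l, y ∈ SpParab.TK K → y = 0 := by
      intro l y hy hyT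
      by_contra hy0
      exact hT ⟨l, y, hy, hy0, hyT⟩
    obtain ⟨g, hgK, hgS⟩ := hg
    have hgsp := hK2 hgK
    by_cases hgen : ∃ i j : Fin 2, ∃ x ∈ D i, x ≠ 0 ∧ (g : MM) *ᵥ x ∈ D j
    · obtain ⟨i, j, x, hx, hx0, hgx⟩ := hgen
      exact hgS (mem_stab_of_inter hD hts hK h2 hT' (by omega) hgK hgsp hx hx0 hgx)
    · apply generic_false hD hts hK h2 hT' hm hgK hgsp
      intro i j x hx hx0 hgx
      exact hgen ⟨i, j, x, hx, hx0, hgx⟩

end decomp

end Cfsg.Agent.Helper8.SpLag
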