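import Mathlib
import Cfsg.Prelude.Def_GeometricClasses
import Cfsg.Agent.Helper2.SpDecomp2
import Cfsg.Agent.Helper8.SpLag
import Cfsg.Agent.Helper8.SUBasic

/-!
# Overgroups of the stabiliser of a pair of complementary totally isotropic subspaces in `SU`

The unitary analogue of `Helper8/SpLag.lean`.  Instead of a generation theorem for `SU` we use
two reductions by transvections (`stage1`, `stage2`), which also produce an element of `SU`
interchanging the two subspaces.
-/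

set_option autoImplicit false

namespace Cfsg.Agent.Helper8.SULag

open Matrix Cfsg.Agent.Helper2

variable {F : Type*} [Field F] {n q : ℕ}

local notation "VV" => (Fin n → F)
local notation "MM" => Matrix (Fin n) (Fin n) F
local notation "GG" => Matrix.GeneralLinearGroup (Fin n) F
local notation "hh" => Cfsg.hermForm n F q

/-! ## Pairs of complementary totally isotropic subspaces -/

/-- `E`, `E'` are totally isotropic and span the whole space. -/
structure UPair (q : ℕ) (E E' : Submodule F (Fin n → F)) : Prop where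
  iso : ∀ u ∈ E, ∀ v ∈ E, Cfsg.hermForm n F q u v = 0
  iso' : ∀ u ∈ E', ∀ v ∈ E', Cfsg.hermForm n F q u v = 0
  span : ∀ x : Fin n → F, ∃ p ∈ E, ∃ r ∈ E', x = p + r

theorem UPair.symm {E E' : Submodule F VV} (h : UPair q E E') : UPair q E' E :=
  ⟨h.iso', h.iso, fun x => by
    obtain ⟨p, hp, r, hr, rfl⟩ := h.span x
    exact ⟨r, hr, p, hp, add_comm p r⟩⟩

theorem UPair.eq_zero (hq : QF F q) {E E' : Submodule F VV} (h : UPair q E E') {x : VV}
    (h1 : ∀ u ∈ E, hh x u = 0) (h2 : ∀ u ∈ E', hh x u = 0) : x = 0 := by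
  apply h_nondeg hq x
  intro y
  obtain ⟨p, hp, r, hr, rfl⟩ := h.span y
  rw [h_add_right hq, h1 p hp, h2 r hr, add_zero]

theorem UPair.perp_mem (hq : QF F q) {E E' : Submodule F VV} (h : UPair q E E') {x : VV}
    (hx : ∀ u ∈ E, hh x u = 0) : x ∈ E := by
  obtain ⟨p, hp, r, hr, rfl⟩ := h.span x
  have hr0 : r = 0 := by
    apply h.eq_zero hq
    · intro u hu
      have h3 := hx u hu
      rw [h_add_left, h.iso p hp u hu, zero_add] at h3
      exact h3
    · intro u hu
      exact h.iso' r hr u hu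
  rw [hr0, add_zero]
  exact hp

theorem UPair.exists_one (hq : QF F q) {E E' : Submodule F VV} (h : UPair q E E') {a : VV}
    (ha : a ∈ E) (ha0 : a ≠ 0) : ∃ b ∈ E', hh a b = 1 := by
  by_contra hcon
  apply ha0
  apply h.eq_zero hq
  · intro u hu
    exact h.iso a ha u hu
  · intro u hu
    by_contra hne
    apply hcon
    refine ⟨frob hq (hh a u)⁻¹ • u, E'.smul_mem _ hu, ?_⟩
    rw [h_smul_right hq, frob_frob, inv_mul_cancel₀ hne]

theorem UPair.exists_sep (hq : QF F q) {E E' : Submodule F VV} (h : UPair q E E') {a x : VV}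
    (ha : a ∈ E) (hx : x ∈ E) (hne : ∀ μ : F, x ≠ μ • a) :
    ∃ b ∈ E', hh a b = 0 ∧ hh x b = 1 := by
  by_contra hcon
  have hall : ∀ b ∈ E', hh a b = 0 → hh x b = 0 := by
    intro b hb hab
    by_contra hxb
    apply hcon
    refine ⟨frob hq (hh x b)⁻¹ • b, E'.smul_mem _ hb, ?_, ?_⟩
    · rw [h_smul_right hq, hab, mul_zero]
    · rw [h_smul_right hq, frob_frob, inv_mul_cancel₀ hxb]
  by_cases ha0 : a = 0
  · apply hne 0
    rw [zero_smul]
    apply h.eq_zero hq
    · intro u hu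
      exact h.iso x hx u hu
    · intro u hu
      apply hall u hu
      rw [ha0, h_zero_left]
  · obtain ⟨bs, hbs, habs⟩ := h.exists_one hq ha ha0
    apply hne (hh x bs)
    have h5 : x - hh x bs • a = 0 := by
      apply h.eq_zero hq
      · intro u hu
        rw [h_sub_left, h_smul_left, h.iso x hx u hu, h.iso a ha u hu, mul_zero, sub_zero]
      · intro u hu
        have h1 := hall (u - frob hq (hh a u) • bs) (E'.sub_mem hu (E'.smul_mem _ hbs)) (by
          rw [h_sub_right hq, h_smul_right hq, frob_frob, habs, mul_one, sub_self])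
        rw [h_sub_right hq, h_smul_right hq, frob_frob] at h1
        rw [h_sub_left, h_smul_left]
        linear_combination h1
    exact sub_eq_zero.1 h5

/-- The linear functional `x ↦ h(x, y)`. -/
def hL (n : ℕ) (F : Type*) [Field F] (q : ℕ) (y : Fin n → F) : (Fin n → F) →ₗ[F] F where
  toFun x := Cfsg.hermForm n F q x y
  map_add' x x' := h_add_left x x' y
  map_smul' a x := by rw [h_smul_left, RingHom.id_apply, smul_eq_mul]

/-- A subspace of dimension more than `r` has a non-zero vector orthogonal to `r` given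
vectors. -/
theorem exists_perp (W : Submodule F VV) (r : ℕ) (v : Fin r → VV)
    (h : r < Module.finrank F W) : ∃ w ∈ W, w ≠ 0 ∧ ∀ i, hh w (v i) = 0 := by
  let f : W →ₗ[F] (Fin r → F) :=
    LinearMap.pi (fun i => (hL n F q (v i)).comp W.subtype)
  have hker : LinearMap.ker f ≠ ⊥ := by
    apply LinearMap.ker_ne_bot_of_finrank_lt
    rw [Module.finrank_fin_fun]
    exact h
  obtain ⟨w, hw, hw0⟩ := Submodule.exists_mem_ne_zero_of_ne_bot hker
  refine ⟨(w : VV), w.2, fun h0 => hw0 (Subtype.ext h0), fun i => ?_⟩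
  have h1 : f w = 0 := hw
  have h2 := congrFun h1 i
  exact h2

/-! ## Two reductions by transvections -/

/-- Every totally isotropic subspace can be moved into `E` by a product of transvections. -/
theorem stage1 (hq : QF F q) {E E' : Submodule F VV} (hl : UPair q E E') (T : Subgroup GG)
    (hT : ∀ (a : VV) (c : F), hh a a = 0 → frob hq c = -c → tvU n q a c ∈ T)
    (hTG : T ≤ Cfsg.GU n F q) (W : Submodule F VV) (hW : ∀ u ∈ W, ∀ v ∈ W, hh u v = 0) :
    ∃ x ∈ T, ∀ w ∈ W, (x : MM) *ᵥ w ∈ E := by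
  have key : ∀ d : ℕ, ∀ x ∈ T,
      Module.finrank F W ≤ Module.finrank F ↥(W ⊓ E.comap (Matrix.toLin' (x : MM))) + d →
      ∃ x' ∈ T, ∀ w ∈ W, (x' : MM) *ᵥ w ∈ E := by
    intro d
    induction d with
    | zero =>
      intro x hx hle
      refine ⟨x, hx, fun w hw => ?_⟩
      have heq : W ⊓ E.comap (Matrix.toLin' (x : MM)) = W :=
        Submodule.eq_of_le_of_finrank_le inf_le_left (by rw [add_zero] at hle; exact hle)
      have hw' : w ∈ W ⊓ E.comap (Matrix.toLin' (x : MM)) := by rw [heq]; exact hw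
      have h2 := (Submodule.mem_inf.1 hw').2
      rw [Submodule.mem_comap, Matrix.toLin'_apply] at h2
      exact h2
    | succ d ih =>
      intro x hx hle
      by_cases hall : ∀ w ∈ W, (x : MM) *ᵥ w ∈ E
      · exact ⟨x, hx, hall⟩
      · obtain ⟨w, hw⟩ := not_forall.1 hall
        obtain ⟨hwW, hwE⟩ := Classical.not_imp.1 hw
        have xGU := hTG hx
        obtain ⟨y, hydef⟩ : ∃ y : VV, y = (x : MM) *ᵥ w := ⟨_, rfl⟩
        have hyy : hh y y = 0 := by
          rw [hydef, h_map xGU]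
          exact hW w hwW w hwW
        obtain ⟨p, hp, r, hr, hy⟩ := hl.span y
        have hr0 : r ≠ 0 := by
          intro h
          apply hwE
          rw [← hydef, hy, h, add_zero]
          exact hp
        have hyy' : hh p r + hh r p = 0 := by
          rw [hy] at hyy
          simp only [h_add_left, h_add_right hq, hl.iso p hp p hp, hl.iso' r hr r hr, zero_add,
            add_zero] at hyy
          linear_combination hyy
        obtain ⟨d', hd', hs, hsk⟩ : ∃ d' ∈ E, hh p r + hh r d' ≠ 0 ∧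
            frob hq (hh r d') = - hh r d' := by
          by_cases h0 : hh p r = 0
          · obtain ⟨d₀, hd₀, hrd₀⟩ := hl.symm.exists_one hq hr hr0
            refine ⟨skew0 hq • d₀, E.smul_mem _ hd₀, ?_, ?_⟩
            · rw [h0, zero_add, h_smul_right hq, hrd₀, mul_one, skew0_frob]
              exact neg_ne_zero.2 (skew0_ne hq)
            · rw [h_smul_right hq, hrd₀, mul_one, frob_frob, skew0_frob, neg_neg]
          · refine ⟨0, E.zero_mem, ?_, ?_⟩
            · rw [h_zero_right hq, add_zero]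
              exact h0
            · rw [h_zero_right hq, map_zero, neg_zero]
        have hdr : hh d' r = - hh r d' := by rw [← h_conj hq r d', hsk]
        have haa : hh (r + d') (r + d') = 0 := by
          simp only [h_add_left, h_add_right hq, hl.iso' r hr r hr, hl.iso d' hd' d' hd',
            zero_add, add_zero]
          rw [hdr]; ring
        have hya : hh y (r + d') = hh p r + hh r d' := by
          rw [hy]
          simp only [h_add_left, h_add_right hq, hl.iso' r hr r hr, hl.iso p hp d' hd', zero_add,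
            add_zero]
        have hrp : hh r p = - hh p r := by linear_combination hyy'
        have hssk : frob hq (hh p r + hh r d') = -(hh p r + hh r d') := by
          rw [map_add, h_conj hq, hsk, hrp]
          ring
        obtain ⟨c, hc⟩ : ∃ c : F, c = -(hh p r + hh r d')⁻¹ := ⟨_, rfl⟩
        have hcsk : frob hq c = -c := by rw [hc, map_neg, map_inv₀, hssk, inv_neg]
        have hcs : c * (hh p r + hh r d') = -1 := by rw [hc, neg_mul, inv_mul_cancel₀ hs]
        have hτT : tvU n q (r + d') c ∈ T := hT _ _ haa hcsk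
        have hτy : ((tvU n q (r + d') c : GG) : MM) *ᵥ y = p - d' := by
          rw [tvU_mulVec _ haa, hya, hcs, hy]
          module
        have hfix : ∀ w' ∈ W, (x : MM) *ᵥ w' ∈ E →
            ((tvU n q (r + d') c : GG) : MM) *ᵥ ((x : MM) *ᵥ w') = (x : MM) *ᵥ w' := by
          intro w' hw' hxw'
          have h1 : hh ((x : MM) *ᵥ w') y = 0 := by
            rw [hydef, h_map xGU]
            exact hW w' hw' w hwW
          rw [hy, h_add_right hq, hl.iso _ hxw' p hp, zero_add] at h1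
          rw [tvU_mulVec _ haa, h_add_right hq, h1, hl.iso _ hxw' d' hd', add_zero, mul_zero,
            zero_smul, add_zero]
        have hlt : W ⊓ E.comap (Matrix.toLin' (x : MM)) <
            W ⊓ E.comap (Matrix.toLin' ((tvU n q (r + d') c * x : GG) : MM)) := by
          apply lt_of_le_of_ne
          · intro w' hw'
            obtain ⟨h1, h2⟩ := Submodule.mem_inf.1 hw'
            rw [Submodule.mem_comap, Matrix.toLin'_apply] at h2
            refine Submodule.mem_inf.2 ⟨h1, ?_⟩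
            rw [Submodule.mem_comap, Matrix.toLin'_apply, Units.val_mul, ← Matrix.mulVec_mulVec,
              hfix w' h1 h2]
            exact h2
          · intro heq
            have h3 : w ∈ W ⊓ E.comap (Matrix.toLin' ((tvU n q (r + d') c * x : GG) : MM)) := by
              refine Submodule.mem_inf.2 ⟨hwW, ?_⟩
              rw [Submodule.mem_comap, Matrix.toLin'_apply, Units.val_mul,
                ← Matrix.mulVec_mulVec, ← hydef, hτy]
              exact E.sub_mem hp hd'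
            rw [← heq] at h3
            have h4 := (Submodule.mem_inf.1 h3).2
            rw [Submodule.mem_comap, Matrix.toLin'_apply] at h4
            exact hwE h4
        apply ih (tvU n q (r + d') c * x) (T.mul_mem hτT hx)
        have h5 := Submodule.finrank_lt_finrank_of_lt hlt
        omega
  exact key (Module.finrank F W) 1 T.one_mem (Nat.le_add_left _ _)

/-- A totally isotropic complement of `E` can be moved onto `E'` by a product of
transvections fixing `E` pointwise. -/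
theorem stage2 (hq : QF F q) {E E' : Submodule F VV} (hl : UPair q E E') (T : Subgroup GG)
    (hT : ∀ (a : VV) (c : F), hh a a = 0 → frob hq c = -c → tvU n q a c ∈ T)
    (hTG : T ≤ Cfsg.GU n F q) (W : Submodule F VV) (hW : ∀ u ∈ W, ∀ v ∈ W, hh u v = 0)
    (hsp : ∀ v : VV, ∃ w ∈ W, ∃ e ∈ E, v = w + e) :
    ∃ x ∈ T, (∀ e ∈ E, (x : MM) *ᵥ e = e) ∧ ∀ w ∈ W, (x : MM) *ᵥ w ∈ E' := by
  have key : ∀ d : ℕ, ∀ x ∈ T, (∀ e ∈ E, (x : MM) *ᵥ e = e) →
      Module.finrank F W ≤ Module.finrank F ↥(W ⊓ E'.comap (Matrix.toLin' (x : MM))) + d →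
      ∃ x' ∈ T, (∀ e ∈ E, (x' : MM) *ᵥ e = e) ∧ ∀ w ∈ W, (x' : MM) *ᵥ w ∈ E' := by
    intro d
    induction d with
    | zero =>
      intro x hx hxE hle
      refine ⟨x, hx, hxE, fun w hw => ?_⟩
      have heq : W ⊓ E'.comap (Matrix.toLin' (x : MM)) = W :=
        Submodule.eq_of_le_of_finrank_le inf_le_left (by rw [add_zero] at hle; exact hle)
      have hw' : w ∈ W ⊓ E'.comap (Matrix.toLin' (x : MM)) := by rw [heq]; exact hw
      have h2 := (Submodule.mem_inf.1 hw').2
      rw [Submodule.mem_comap, Matrix.toLin'_apply] at h2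
      exact h2
    | succ d ih =>
      intro x hx hxE hle
      by_cases hall : ∀ w ∈ W, (x : MM) *ᵥ w ∈ E'
      · exact ⟨x, hx, hxE, hall⟩
      · have xGU := hTG hx
        have hex : ∃ w ∈ W, ∃ p ∈ E, ∃ r ∈ E', (x : MM) *ᵥ w = p + r ∧ hh r p ≠ 0 := by
          by_contra hcon
          have hz : ∀ w ∈ W, ∀ p ∈ E, ∀ r ∈ E', (x : MM) *ᵥ w = p + r → hh r p = 0 := by
            intro w hw p hp r hr hy
            by_contra hne
            exact hcon ⟨w, hw, p, hp, r, hr, hy, hne⟩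
          apply hall
          intro w hw
          obtain ⟨p, hp, r, hr, hy⟩ := hl.span ((x : MM) *ᵥ w)
          have hfixed : ∀ w' ∈ W, ∀ p' ∈ E, ∀ r' ∈ E', (x : MM) *ᵥ w' = p' + r' →
              frob hq (hh p r') = hh p r' := by
            intro w' hw' p' hp' r' hr' hy'
            have hA : hh p r' + hh r p' = 0 := by
              have h1 : hh ((x : MM) *ᵥ w) ((x : MM) *ᵥ w') = 0 := by
                rw [h_map xGU]
                exact hW w hw w' hw'
              rw [hy, hy'] at h1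
              simp only [h_add_left, h_add_right hq, hl.iso p hp p' hp', hl.iso' r hr r' hr',
                zero_add, add_zero] at h1
              linear_combination h1
            have hB : hh r p' + hh r' p = 0 := by
              have h2 := hz (w + w') (W.add_mem hw hw') (p + p') (E.add_mem hp hp') (r + r')
                (E'.add_mem hr hr') (by rw [Matrix.mulVec_add, hy, hy']; abel)
              simp only [h_add_left, h_add_right hq, hz w hw p hp r hr hy,
                hz w' hw' p' hp' r' hr' hy', zero_add, add_zero] at h2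
              linear_combination h2
            rw [h_conj hq]
            linear_combination hB - hA
          have hp0 : p = 0 := by
            apply hl.eq_zero hq
            · intro u hu
              exact hl.iso p hp u hu
            · intro u hu
              obtain ⟨w', hw', e, he, hv⟩ := hsp (((x⁻¹ : GG) : MM) *ᵥ u)
              have hy' : (x : MM) *ᵥ w' = -e + u := by
                have h3 := congrArg (fun v => (x : MM) *ᵥ v) hv
                simp only [Matrix.mulVec_add, Parab.mulVec_inv_mulVec, hxE e he] at h3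
                rw [h3]
                abel
              have hf1 := hfixed w' hw' (-e) (E.neg_mem he) u hu hy'
              obtain ⟨η, hη⟩ := hq.ex
              have hy'' : (x : MM) *ᵥ (η • w') = η • (-e) + η • u := by
                rw [Matrix.mulVec_smul, hy', smul_add]
              have hf2 := hfixed (η • w') (W.smul_mem _ hw') (η • (-e))
                (E.smul_mem _ (E.neg_mem he)) (η • u) (E'.smul_mem _ hu) hy''
              rw [h_smul_right hq, map_mul, frob_frob, hf1] at hf2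
              by_contra hne
              apply hη
              have h4 := mul_right_cancel₀ hne hf2
              rw [← frob_apply hq]
              exact h4.symm
          rw [hy, hp0, zero_add]
          exact hr
        obtain ⟨w, hwW, p, hp, r, hr, hy, hrp⟩ := hex
        have hyy : hh ((x : MM) *ᵥ w) ((x : MM) *ᵥ w) = 0 := by
          rw [h_map xGU]
          exact hW w hwW w hwW
        rw [hy] at hyy
        simp only [h_add_left, h_add_right hq, hl.iso p hp p hp, hl.iso' r hr r hr, zero_add,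
          add_zero] at hyy
        have hsk : frob hq (hh r p) = - hh r p := by
          rw [h_conj hq]
          linear_combination hyy
        obtain ⟨c, hc⟩ : ∃ c : F, c = -(hh r p)⁻¹ := ⟨_, rfl⟩
        have hcsk : frob hq c = -c := by rw [hc, map_neg, map_inv₀, hsk, inv_neg]
        have hcs : c * hh r p = -1 := by rw [hc, neg_mul, inv_mul_cancel₀ hrp]
        have hpp := hl.iso p hp p hp
        have hτT : tvU n q p c ∈ T := hT p c hpp hcsk
        have hτy : ((tvU n q p c : GG) : MM) *ᵥ ((x : MM) *ᵥ w) = r := by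
          rw [tvU_mulVec _ hpp, hy, h_add_left, hpp, zero_add, hcs]
          module
        have hτE : ∀ e ∈ E, ((tvU n q p c : GG) : MM) *ᵥ e = e := by
          intro e he
          rw [tvU_mulVec _ hpp, hl.iso e he p hp, mul_zero, zero_smul, add_zero]
        have hfix : ∀ w' ∈ W, (x : MM) *ᵥ w' ∈ E' →
            ((tvU n q p c : GG) : MM) *ᵥ ((x : MM) *ᵥ w') = (x : MM) *ᵥ w' := by
          intro w' hw' hxw'
          have h1 : hh ((x : MM) *ᵥ w') ((x : MM) *ᵥ w) = 0 := by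
            rw [h_map xGU]
            exact hW w' hw' w hwW
          rw [hy, h_add_right hq, hl.iso' _ hxw' r hr, add_zero] at h1
          rw [tvU_mulVec _ hpp, h1, mul_zero, zero_smul, add_zero]
        have hp0 : p ≠ 0 := by
          intro h
          apply hrp
          rw [h, h_zero_right hq]
        have hnot : (x : MM) *ᵥ w ∉ E' := by
          intro h
          apply hp0
          have hpE' : p ∈ E' := by
            have h6 := E'.sub_mem h hr
            rwa [hy, add_sub_cancel_right] at h6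
          exact hl.eq_zero hq (fun u hu => hl.iso p hp u hu) (fun u hu => hl.iso' p hpE' u hu)
        have hlt : W ⊓ E'.comap (Matrix.toLin' (x : MM)) <
            W ⊓ E'.comap (Matrix.toLin' ((tvU n q p c * x : GG) : MM)) := by
          apply lt_of_le_of_ne
          · intro w' hw'
            obtain ⟨h1, h2⟩ := Submodule.mem_inf.1 hw'
            rw [Submodule.mem_comap, Matrix.toLin'_apply] at h2
            refine Submodule.mem_inf.2 ⟨h1, ?_⟩
            rw [Submodule.mem_comap, Matrix.toLin'_apply, Units.val_mul, ← Matrix.mulVec_mulVec,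
              hfix w' h1 h2]
            exact h2
          · intro heq
            have h3 : w ∈ W ⊓ E'.comap (Matrix.toLin' ((tvU n q p c * x : GG) : MM)) := by
              refine Submodule.mem_inf.2 ⟨hwW, ?_⟩
              rw [Submodule.mem_comap, Matrix.toLin'_apply, Units.val_mul,
                ← Matrix.mulVec_mulVec, hτy]
              exact hr
            rw [← heq] at h3
            have h4 := (Submodule.mem_inf.1 h3).2
            rw [Submodule.mem_comap, Matrix.toLin'_apply] at h4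
            exact hnot h4
        apply ih (tvU n q p c * x) (T.mul_mem hτT hx) (fun e he => by
          rw [Units.val_mul, ← Matrix.mulVec_mulVec, hxE e he, hτE e he])
        have h5 := Submodule.finrank_lt_finrank_of_lt hlt
        omega
  exact key (Module.finrank F W) 1 T.one_mem (fun e _ => by rw [Units.val_one, Matrix.one_mulVec])
    (Nat.le_add_left _ _)

/-! ## The group generated by the unitary transvections -/

/-- The subgroup generated by all unitary transvections. -/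
def TT (hq : QF F q) (n : ℕ) : Subgroup (Matrix.GeneralLinearGroup (Fin n) F) :=
  Subgroup.closure {t | ∃ (a : Fin n → F) (c : F), Cfsg.hermForm n F q a a = 0 ∧
    frob hq c = -c ∧ t = tvU n q a c}

theorem TT_mem (hq : QF F q) (a : VV) (c : F) (ha : hh a a = 0) (hc : frob hq c = -c) :
    tvU n q a c ∈ TT hq n :=
  Subgroup.subset_closure ⟨a, c, ha, hc, rfl⟩

theorem TT_le (hq : QF F q) :
    TT hq n ≤ Cfsg.GU n F q ⊓ Cfsg.Geo.specialLinear (Fin n) F := by
  apply (Subgroup.closure_le _).2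
  rintro t ⟨a, c, -, hc, rfl⟩
  exact Subgroup.mem_inf.2 ⟨tvU_mem_gu hq a c hc, tvU_mem_sl a c⟩

theorem TT_le_of (hq : QF F q) {K : Subgroup GG} (h : ∀ a : VV, hh a a = 0 → a ∈ TK hq K) :
    TT hq n ≤ K := by
  apply (Subgroup.closure_le _).2
  rintro t ⟨a, c, ha, hc, rfl⟩
  exact (h a ha).2 c hc

/-! ## The decomposition into two totally isotropic subspaces -/

section decomp

variable {D : Fin 2 → Submodule F (Fin n → F)} {k : ℕ}

theorem lag (hD : Cfsg.Geo.IsMDecomposition k D)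
    (hts : ∀ i, Cfsg.Geo.IsTotallySingularFor (Cfsg.hermForm n F q) (D i)) {i j : Fin 2}
    (hij : i ≠ j) : UPair q (D i) (D j) := by
  refine ⟨fun u hu v hv => hts i u hu v hv, fun u hu v hv => hts j u hu v hv, fun x => ?_⟩
  obtain ⟨μ, hμ, hx⟩ := SpDecomp.exists_sum D hD.iSup_eq_top x
  rw [Fin.sum_univ_two] at hx
  rcases SpLag.fin2_cases hij with ⟨rfl, rfl⟩ | ⟨rfl, rfl⟩
  · exact ⟨μ 0, hμ 0, μ 1, hμ 1, hx⟩
  · exact ⟨μ 1, hμ 1, μ 0, hμ 0, by rw [hx, add_comm]⟩

theorem RU_mem_stab (hq : QF F q) (hD : Cfsg.Geo.IsMDecomposition k D)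
    (hts : ∀ i, Cfsg.Geo.IsTotallySingularFor (Cfsg.hermForm n F q) (D i)) {i j : Fin 2}
    (hij : i ≠ j) {a b : VV} (ha : a ∈ D i) (hb : b ∈ D j) (hab : hh a b = 0) (l : F) :
    RU hq n a b l ∈ Cfsg.Geo.decompositionStabilizer D := by
  have hl := lag hD hts hij
  have haa := hl.iso a ha a ha
  have hbb := hl.iso' b hb b hb
  show ∃ σ : Equiv.Perm (Fin 2), ∀ l', (D l').map (Matrix.toLin' ((RU hq n a b l : GG) : MM))
    = D (σ l')
  refine ⟨1, fun l' => ?_⟩
  rw [Equiv.Perm.one_apply]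
  apply SpDecomp.map_eq_of_maps _ _ _ _ rfl
  intro x hx
  rw [RU_apply hq a b haa hbb hab]
  by_cases hli : l' = i
  · rw [hli] at hx ⊢
    rw [hl.iso x hx a ha, mul_zero, zero_smul, add_zero]
    exact (D i).sub_mem hx ((D i).smul_mem _ ha)
  · have hlj : l' = j := SpLag.fin2_eq hij hli
    rw [hlj] at hx ⊢
    rw [hl.iso' x hx b hb, mul_zero, zero_smul, sub_zero]
    exact (D j).add_mem hx ((D j).smul_mem _ hb)

theorem S0_mem (hq : QF F q) (hD : Cfsg.Geo.IsMDecomposition k D)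
    (hts : ∀ i, Cfsg.Geo.IsTotallySingularFor (Cfsg.hermForm n F q) (D i))
    {K : Subgroup GG}
    (hK : Cfsg.Geo.decompositionStabilizer D ⊓
      (Cfsg.GU n F q ⊓ Cfsg.Geo.specialLinear (Fin n) F) ≤ K)
    {i j : Fin 2} (hij : i ≠ j) {a b : VV} (ha : a ∈ D i) (hb : b ∈ D j) (hab : hh a b = 0) :
    (a, b) ∈ SK hq K := by
  have hl := lag hD hts hij
  exact (mem_SK hq K a b).2 ⟨hl.iso a ha a ha, hl.iso' b hb b hb, hab, fun l =>
    hK (Subgroup.mem_inf.2 ⟨RU_mem_stab hq hD hts hij ha hb hab l,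
      Subgroup.mem_inf.2 ⟨RU_mem_gu hq a b l, RU_mem_sl hq a b l⟩⟩)⟩

/-- If no non-zero vector of `D i` has all its transvections in `K`, then a pair `(a, b')` of
`SK K` with `a` in `D i` has `b'` in the other subspace. -/
theorem SK_right_mem (hq : QF F q) (hD : Cfsg.Geo.IsMDecomposition k D)
    (hts : ∀ i, Cfsg.Geo.IsTotallySingularFor (Cfsg.hermForm n F q) (D i))
    {K : Subgroup GG}
    (hK : Cfsg.Geo.decompositionStabilizer D ⊓
      (Cfsg.GU n F q ⊓ Cfsg.Geo.specialLinear (Fin n) F) ≤ K)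
    {i j : Fin 2} (hij : i ≠ j) (hT : ∀ y ∈ D i, y ∈ TK hq K → y = 0) {a b' : VV}
    (ha : a ∈ D i) (ha0 : a ≠ 0) (h : (a, b') ∈ SK hq K) : b' ∈ D j := by
  have hl := lag hD hts hij
  obtain ⟨p, hp, r, hr, rfl⟩ := hl.span b'
  obtain ⟨-, -, hab', -⟩ := (mem_SK hq K a (p + r)).1 h
  have har : hh a r = 0 := by
    rw [h_add_right hq, hl.iso a ha p hp, zero_add] at hab'
    exact hab'
  have h1 : ∀ b ∈ D j, hh a b = 0 → hh p b = 0 := by
    intro b hb hab
    by_contra hne
    apply ha0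
    apply hT a ha
    apply SK_tv hq h (S0_mem hq hD hts hK hij ha hb hab)
    rw [h_add_left, hl.iso' r hr b hb, add_zero]
    exact hne
  obtain ⟨bs, hbs, habs⟩ := hl.exists_one hq ha ha0
  have hp' : p = hh p bs • a := by
    have h5 : p - hh p bs • a = 0 := by
      apply hl.eq_zero hq
      · intro u hu
        rw [h_sub_left, h_smul_left, hl.iso p hp u hu, hl.iso a ha u hu, mul_zero, sub_zero]
      · intro u hu
        have h3 := h1 (u - frob hq (hh a u) • bs) ((D j).sub_mem hu ((D j).smul_mem _ hbs)) (by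
          rw [h_sub_right hq, h_smul_right hq, frob_frob, habs, mul_one, sub_self])
        rw [h_sub_right hq, h_smul_right hq, frob_frob] at h3
        rw [h_sub_left, h_smul_left]
        linear_combination h3
    exact sub_eq_zero.1 h5
  have hneg : (a, -r) ∈ SK hq K := by
    have h6 := SK_smul hq (S0_mem hq hD hts hK hij ha hr har) (-1)
    rwa [neg_one_smul] at h6
  have hsum : (a, (p + r) + -r) ∈ SK hq K := by
    apply SK_add hq h hneg
    rw [h_neg_right hq, h_add_left, h1 r hr har, hl.iso' r hr r hr, add_zero, neg_zero]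
  have e : (p + r) + -r = hh p bs • a := by
    rw [add_neg_cancel_right]
    exact hp'
  rw [e] at hsum
  by_cases hμ : hh p bs = 0
  · rw [hp', hμ, zero_smul, zero_add]
    exact hr
  · exact absurd (hT a ha (SK_self hq hμ hsum)) ha0

theorem map_mem_of_inter (hq : QF F q) (hD : Cfsg.Geo.IsMDecomposition k D)
    (hts : ∀ i, Cfsg.Geo.IsTotallySingularFor (Cfsg.hermForm n F q) (D i))
    {K : Subgroup GG}
    (hK : Cfsg.Geo.decompositionStabilizer D ⊓
      (Cfsg.GU n F q ⊓ Cfsg.Geo.specialLinear (Fin n) F) ≤ K)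
    (hT : ∀ l, ∀ y ∈ D l, y ∈ TK hq K → y = 0) (hk3 : 3 ≤ k)
    {g : GG} (hgK : g ∈ K) (hg : g ∈ Cfsg.GU n F q) {i i' j j' : Fin 2} (hii : i ≠ i')
    (hjj : j ≠ j') {a₀ : VV} (ha₀ : a₀ ∈ D i) (ha₀0 : a₀ ≠ 0) (hka : (g : MM) *ᵥ a₀ ∈ D j) :
    (∀ x ∈ D i, (g : MM) *ᵥ x ∈ D j) ∧ ∃ b₀ ∈ D i', b₀ ≠ 0 ∧ (g : MM) *ᵥ b₀ ∈ D j' := by
  have hl := lag (q := q) hD hts hii
  have hl' := hl.symm
  have hinj : ∀ y : VV, (g : MM) *ᵥ y = 0 → y = 0 := fun y h =>
    Parab.gl_mulVec_inj g (by rw [h, Matrix.mulVec_zero])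
  have hka0 : (g : MM) *ᵥ a₀ ≠ 0 := fun h => ha₀0 (hinj _ h)
  have s1 : ∀ b ∈ D i', hh a₀ b = 0 → (g : MM) *ᵥ b ∈ D j' := by
    intro b hb hab
    exact SK_right_mem hq hD hts hK hjj (hT j) hka hka0
      (SK_conj hq hgK hg (S0_mem hq hD hts hK hii ha₀ hb hab))
  obtain ⟨b₀, hb₀, hb₀0, hb₀a⟩ := exists_perp (q := q) (D i') 1 (fun _ => a₀)
    (by rw [hD.finrank_eq]; omega)
  have hb₀a' : hh a₀ b₀ = 0 := h_symm0 hq (hb₀a 0)
  obtain ⟨u, hu, hbu⟩ := hl'.exists_one hq hb₀ hb₀0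
  obtain ⟨b₁, hb₁, hb₁0, hb₁p⟩ := exists_perp (q := q) (D i') 2 ![a₀, u]
    (by rw [hD.finrank_eq]; omega)
  have hb₁a : hh b₁ a₀ = 0 := hb₁p 0
  have hb₁u : hh b₁ u = 0 := hb₁p 1
  have hb₁a' : hh a₀ b₁ = 0 := h_symm0 hq hb₁a
  have hkb₀ := s1 b₀ hb₀ hb₀a'
  have hkb₁ := s1 b₁ hb₁ hb₁a'
  have s3 : ∀ b ∈ D i', b ≠ 0 → (g : MM) *ᵥ b ∈ D j' → ∀ a' ∈ D i, hh b a' = 0 →
      (g : MM) *ᵥ a' ∈ D j := by
    intro b hb hb0 hkb a' ha' hba'
    exact SK_right_mem hq hD hts hK hjj.symm (hT j') hkb (fun h => hb0 (hinj _ h))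
      (SK_conj hq hgK hg (S0_mem hq hD hts hK hii.symm hb ha' hba'))
  have hnm : ∀ μ : F, b₁ ≠ μ • b₀ := by
    intro μ h
    have h3 : hh b₁ u = μ := by
      rw [h, h_smul_left, hbu, mul_one]
    rw [hb₁u] at h3
    apply hb₁0
    rw [h, ← h3, zero_smul]
  obtain ⟨u', hu', hb₀u', hb₁u'⟩ := hl'.exists_sep hq hb₀ hb₁ hnm
  refine ⟨fun x hx => ?_, b₀, hb₀, hb₀0, hkb₀⟩
  have hx' : (g : MM) *ᵥ (x - frob hq (hh b₁ x) • u') ∈ D j := by
    apply s3 b₁ hb₁ hb₁0 hkb₁ _ ((D i).sub_mem hx ((D i).smul_mem _ hu'))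
    rw [h_sub_right hq, h_smul_right hq, frob_frob, hb₁u', mul_one, sub_self]
  have hu'' : (g : MM) *ᵥ u' ∈ D j := s3 b₀ hb₀ hb₀0 hkb₀ u' hu' hb₀u'
  have e : (g : MM) *ᵥ x = (g : MM) *ᵥ (x - frob hq (hh b₁ x) • u') +
      frob hq (hh b₁ x) • ((g : MM) *ᵥ u') := by
    rw [← Matrix.mulVec_smul, ← Matrix.mulVec_add, sub_add_cancel]
  rw [e]
  exact (D j).add_mem hx' ((D j).smul_mem _ hu'')

theorem mem_stab_of_inter (hq : QF F q) (hD : Cfsg.Geo.IsMDecomposition k D)
    (hts : ∀ i, Cfsg.Geo.IsTotallySingularFor (Cfsg.hermForm n F q) (D i))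
    {K : Subgroup GG}
    (hK : Cfsg.Geo.decompositionStabilizer D ⊓
      (Cfsg.GU n F q ⊓ Cfsg.Geo.specialLinear (Fin n) F) ≤ K)
    (hT : ∀ l, ∀ y ∈ D l, y ∈ TK hq K → y = 0) (hk3 : 3 ≤ k)
    {g : GG} (hgK : g ∈ K) (hg : g ∈ Cfsg.GU n F q) {i j : Fin 2} {a₀ : VV} (ha₀ : a₀ ∈ D i)
    (ha₀0 : a₀ ≠ 0) (hka : (g : MM) *ᵥ a₀ ∈ D j) :
    g ∈ Cfsg.Geo.decompositionStabilizer D := by
  obtain ⟨i', hii⟩ := SpLag.exists_ne i
  obtain ⟨j', hjj⟩ := SpLag.exists_ne j
  obtain ⟨h1, b₀, hb₀, hb₀0, hkb₀⟩ :=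
    map_mem_of_inter hq hD hts hK hT hk3 hgK hg hii hjj ha₀ ha₀0 hka
  obtain ⟨h1', -⟩ :=
    map_mem_of_inter hq hD hts hK hT hk3 hgK hg hii.symm hjj.symm hb₀ hb₀0 hkb₀
  have hfr : ∀ a b : Fin 2, Module.finrank F (D a) = Module.finrank F (D b) := fun a b =>
    (hD.finrank_eq a).trans (hD.finrank_eq b).symm
  show ∃ σ : Equiv.Perm (Fin 2), ∀ l, (D l).map (Matrix.toLin' (g : MM)) = D (σ l)
  refine ⟨Equiv.swap i j, fun l => ?_⟩
  by_cases hli : l = i
  · rw [hli, Equiv.swap_apply_left]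
    exact SpDecomp.map_eq_of_maps g _ _ h1 (hfr i j)
  · have hli' : l = i' := SpLag.fin2_eq hii hli
    rw [hli']
    by_cases hij : i = j
    · subst hij
      have e1 : i' = j' := SpLag.fin2_eq hjj hii.symm
      subst e1
      rw [Equiv.swap_self, Equiv.refl_apply]
      exact SpDecomp.map_eq_of_maps g _ _ h1' (hfr _ _)
    · have e1 : i' = j := (SpLag.fin2_eq hii (Ne.symm hij)).symm
      have e2 : j' = i := SpLag.fin2_eq (Ne.symm hij) hjj.symm
      subst e1 e2
      rw [Equiv.swap_apply_right]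
      exact SpDecomp.map_eq_of_maps g _ _ h1' (hfr _ _)

theorem generic_false (hq : QF F q) (hD : Cfsg.Geo.IsMDecomposition k D)
    (hts : ∀ i, Cfsg.Geo.IsTotallySingularFor (Cfsg.hermForm n F q) (D i))
    {K : Subgroup GG}
    (hK : Cfsg.Geo.decompositionStabilizer D ⊓
      (Cfsg.GU n F q ⊓ Cfsg.Geo.specialLinear (Fin n) F) ≤ K)
    (hT : ∀ l, ∀ y ∈ D l, y ∈ TK hq K → y = 0) (hk4 : 4 ≤ k)
    {g : GG} (hgK : g ∈ K) (hg : g ∈ Cfsg.GU n F q)
    (hgen : ∀ i j : Fin 2, ∀ x ∈ D i, x ≠ 0 → (g : MM) *ᵥ x ∉ D j) : False := by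
  have h01 : (0 : Fin 2) ≠ 1 := Fin.zero_ne_one
  have hl := lag (q := q) hD hts h01
  have hl' := hl.symm
  obtain ⟨d₀, hd₀, hd₀0, -⟩ := exists_perp (q := q) (D 1) 0 Fin.elim0
    (by rw [hD.finrank_eq]; omega)
  obtain ⟨p, hp, r, hr, hd⟩ := hl.span ((g : MM) *ᵥ d₀)
  have hr0 : r ≠ 0 := by
    intro h
    apply hgen 1 0 d₀ hd₀ hd₀0
    rw [hd, h, add_zero]
    exact hp
  obtain ⟨a, ha, hra⟩ := hl'.exists_one hq hr hr0
  have hda : hh ((g : MM) *ᵥ d₀) a = 1 := by
    rw [hd, h_add_left, hl.iso p hp a ha, zero_add, hra]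
  obtain ⟨b, hb, hb0, hbp⟩ := exists_perp (q := q) (D 1) 2 ![(g : MM) *ᵥ d₀, a]
    (by rw [hD.finrank_eq]; omega)
  have hbd : hh b ((g : MM) *ᵥ d₀) = 0 := hbp 0
  have hba : hh b a = 0 := hbp 1
  obtain ⟨c₀, hc₀, hc₀0, hcp⟩ := exists_perp (q := q) (D 0) 3
    ![((g⁻¹ : GG) : MM) *ᵥ a, ((g⁻¹ : GG) : MM) *ᵥ b, d₀] (by rw [hD.finrank_eq]; omega)
  have hca : hh ((g : MM) *ᵥ c₀) a = 0 := by
    have h3 : hh c₀ (((g⁻¹ : GG) : MM) *ᵥ a) = 0 := hcp 0
    rw [← h_map hg, Parab.mulVec_inv_mulVec] at h3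
    exact h3
  have hcb : hh ((g : MM) *ᵥ c₀) b = 0 := by
    have h3 : hh c₀ (((g⁻¹ : GG) : MM) *ᵥ b) = 0 := hcp 1
    rw [← h_map hg, Parab.mulVec_inv_mulVec] at h3
    exact h3
  have hcd : hh c₀ d₀ = 0 := hcp 2
  have hab : hh a b = 0 := h_symm0 hq hba
  have hS1 : (a, b) ∈ SK hq K := S0_mem hq hD hts hK h01 ha hb hab
  have hS2 : ((g : MM) *ᵥ c₀, (g : MM) *ᵥ d₀) ∈ SK hq K :=
    SK_conj hq hgK hg (S0_mem hq hD hts hK h01 hc₀ hd₀ hcd)
  have hdb : hh ((g : MM) *ᵥ d₀) b = 0 := h_symm0 hq hbd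
  have hS3 : ((g : MM) *ᵥ c₀, b) ∈ SK hq K :=
    SK_comm hq hS1 hS2 hca hcb hdb (by rw [hda]; exact one_ne_zero)
  have hc : (g : MM) *ᵥ c₀ ∈ D 0 :=
    SK_right_mem hq hD hts hK h01.symm (hT 1) hb hb0 (SK_symm hq hS3)
  exact hgen 0 0 c₀ hc₀ hc₀0 hc

/-- A product of transvections interchanging the two subspaces. -/
theorem exists_swap (hq : QF F q) (hD : Cfsg.Geo.IsMDecomposition k D)
    (hts : ∀ i, Cfsg.Geo.IsTotallySingularFor (Cfsg.hermForm n F q) (D i)) :
    ∃ s ∈ TT hq n, (∀ x ∈ D 0, (s : MM) *ᵥ x ∈ D 1) ∧ (∀ x ∈ D 1, (s : MM) *ᵥ x ∈ D 0) := by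
  have h01 : (0 : Fin 2) ≠ 1 := Fin.zero_ne_one
  have hl := lag (q := q) hD hts h01
  have hTG : TT hq n ≤ Cfsg.GU n F q := (TT_le hq).trans inf_le_left
  obtain ⟨x₁, hx₁, h1⟩ := stage1 hq hl (TT hq n) (fun a c ha hc => TT_mem hq a c ha hc) hTG
    (D 1) hl.iso'
  have x₁GU := hTG hx₁
  obtain ⟨x₂, hx₂, h2, h3⟩ := stage2 hq hl (TT hq n) (fun a c ha hc => TT_mem hq a c ha hc) hTG
    ((D 0).map (Matrix.toLin' (x₁ : MM))) (by
      rintro _ ⟨u, hu, rfl⟩ _ ⟨v, hv, rfl⟩
      rw [Matrix.toLin'_apply, Matrix.toLin'_apply, h_map x₁GU]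
      exact hl.iso u hu v hv) (by
      intro v
      obtain ⟨p, hp, r, hr, hv⟩ := hl.span (((x₁⁻¹ : GG) : MM) *ᵥ v)
      refine ⟨(x₁ : MM) *ᵥ p, ⟨p, hp, by rw [Matrix.toLin'_apply]⟩, (x₁ : MM) *ᵥ r, h1 r hr, ?_⟩
      rw [← Matrix.mulVec_add, ← hv, Parab.mulVec_inv_mulVec])
  refine ⟨x₂ * x₁, (TT hq n).mul_mem hx₂ hx₁, fun x hx => ?_, fun y hy => ?_⟩
  · rw [Units.val_mul, ← Matrix.mulVec_mulVec]
    exact h3 _ ⟨x, hx, by rw [Matrix.toLin'_apply]⟩
  · rw [Units.val_mul, ← Matrix.mulVec_mulVec, h2 _ (h1 y hy)]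
    exact h1 y hy

theorem TK_univ (hq : QF F q) (hD : Cfsg.Geo.IsMDecomposition k D)
    (hts : ∀ i, Cfsg.Geo.IsTotallySingularFor (Cfsg.hermForm n F q) (D i))
    {K : Subgroup GG}
    (hK : Cfsg.Geo.decompositionStabilizer D ⊓
      (Cfsg.GU n F q ⊓ Cfsg.Geo.specialLinear (Fin n) F) ≤ K)
    {j : Fin 2} {a : VV} (ha : a ∈ D j) (ha0 : a ≠ 0) (haT : a ∈ TK hq K) :
    ∀ z : VV, hh z z = 0 → z ∈ TK hq K := by
  obtain ⟨j', hjj⟩ := SpLag.exists_ne j
  have hl := lag (q := q) hD hts hjj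
  obtain ⟨s, hsT, hs01, hs10⟩ := exists_swap hq hD hts
  have hsG := TT_le hq hsT
  have hfr : ∀ a b : Fin 2, Module.finrank F (D a) = Module.finrank F (D b) := fun a b =>
    (hD.finrank_eq a).trans (hD.finrank_eq b).symm
  have hsStab : s ∈ Cfsg.Geo.decompositionStabilizer D := by
    show ∃ σ : Equiv.Perm (Fin 2), ∀ l, (D l).map (Matrix.toLin' (s : MM)) = D (σ l)
    refine ⟨Equiv.swap 0 1, fun l => ?_⟩
    by_cases hl0 : l = 0
    · rw [hl0, Equiv.swap_apply_left]
      exact SpDecomp.map_eq_of_maps s _ _ hs01 (hfr _ _)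
    · have hl1 : l = 1 := SpLag.fin2_eq Fin.zero_ne_one hl0
      rw [hl1, Equiv.swap_apply_right]
      exact SpDecomp.map_eq_of_maps s _ _ hs10 (hfr _ _)
  have hsK : s ∈ K := hK (Subgroup.mem_inf.2 ⟨hsStab, hsG⟩)
  have hsGU : s ∈ Cfsg.GU n F q := (Subgroup.mem_inf.1 hsG).1
  have s1 : ∀ x ∈ D j, x ∈ TK hq K := by
    intro x hx
    by_cases hx' : ∃ μ : F, x = μ • a
    · obtain ⟨μ, rfl⟩ := hx'
      exact TK_smul hq haT μ
    · have hx'' : ∀ μ : F, x ≠ μ • a := fun μ h => hx' ⟨μ, h⟩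
      have hax : ∀ μ : F, a ≠ μ • x := by
        intro μ h
        by_cases hμ : μ = 0
        · apply ha0
          rw [h, hμ, zero_smul]
        · apply hx'' μ⁻¹
          rw [h, smul_smul, inv_mul_cancel₀ hμ, one_smul]
      obtain ⟨b₁, hb₁, hab₁, hxb₁⟩ := hl.exists_sep hq ha hx hx''
      obtain ⟨b₂, hb₂, hxb₂, hab₂⟩ := hl.exists_sep hq hx ha hax
      have hwb : hh (x - a) (b₁ + b₂) = 0 := by
        simp only [h_sub_left, h_add_right hq, hab₁, hxb₁, hxb₂, hab₂]
        ring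
      have hρK : RU hq n (x - a) (b₁ + b₂) (-1) ∈ K :=
        hK (Subgroup.mem_inf.2 ⟨RU_mem_stab hq hD hts hjj ((D j).sub_mem hx ha)
          ((D j').add_mem hb₁ hb₂) hwb (-1),
          Subgroup.mem_inf.2 ⟨RU_mem_gu hq _ _ _, RU_mem_sl hq _ _ _⟩⟩)
      have h3 := TK_map hq hρK (RU_mem_gu hq _ _ _) haT
      have hxa : hh (x - a) (x - a) = 0 :=
        hl.iso _ ((D j).sub_mem hx ha) _ ((D j).sub_mem hx ha)
      have hbb : hh (b₁ + b₂) (b₁ + b₂) = 0 :=
        hl.iso' _ ((D j').add_mem hb₁ hb₂) _ ((D j').add_mem hb₁ hb₂)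
      have h4 : hh a (x - a) = 0 := hl.iso a ha _ ((D j).sub_mem hx ha)
      have h5 : hh a (b₁ + b₂) = 1 := by rw [h_add_right hq, hab₁, hab₂, zero_add]
      have e : a + (-1 * hh a (x - a)) • (b₁ + b₂) - (frob hq (-1) * hh a (b₁ + b₂)) • (x - a)
          = x := by
        rw [h4, h5, map_neg, map_one]
        module
      rw [RU_apply hq _ _ hxa hbb hwb, e] at h3
      exact h3
  have s2 : ∀ y ∈ D j', y ∈ TK hq K := by
    intro y hy
    have hmap : (D j).map (Matrix.toLin' (s : MM)) = D j' := by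
      apply SpDecomp.map_eq_of_maps s _ _ _ ((hD.finrank_eq j).trans (hD.finrank_eq j').symm)
      rcases SpLag.fin2_cases hjj with ⟨rfl, rfl⟩ | ⟨rfl, rfl⟩
      · exact hs01
      · exact hs10
    rw [← hmap] at hy
    obtain ⟨x, hx, rfl⟩ := Submodule.mem_map.1 hy
    rw [Matrix.toLin'_apply]
    exact TK_map hq hsK hsGU (s1 x hx)
  intro z hz
  obtain ⟨p, hp, r, hr, rfl⟩ := hl.span z
  have hskew : hh p r + hh r p = 0 := by
    simp only [h_add_left, h_add_right hq, hl.iso p hp p hp, hl.iso' r hr r hr, zero_add,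
      add_zero] at hz
    linear_combination hz
  have hc := skew0_frob hq
  have hc0 := skew0_ne hq
  by_cases hpr : hh p r = 0
  · by_cases hp0 : p = 0
    · rw [hp0, zero_add]
      exact s2 r hr
    · obtain ⟨r', hr', hpr'⟩ := hl.exists_one hq hp hp0
      have hy : p + (-(skew0 hq)) • r' ∈ TK hq K := by
        have h3 := TK_tv hq (s1 p hp) (s2 ((-(skew0 hq)) • r') ((D j').smul_mem _ hr'))
          (skew0 hq)⁻¹ (by rw [map_inv₀, hc, inv_neg])
        have e : (skew0 hq)⁻¹ * hh p ((-(skew0 hq)) • r') = 1 := by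
          rw [h_smul_right hq, hpr', mul_one, map_neg, hc, neg_neg, inv_mul_cancel₀ hc0]
        rw [e, one_smul] at h3
        exact h3
      have ht : r - (-(skew0 hq)) • r' ∈ TK hq K :=
        s2 _ ((D j').sub_mem hr ((D j').smul_mem _ hr'))
      have h4 := TK_tv hq hy ht (-(skew0 hq)⁻¹) (by rw [map_neg, map_inv₀, hc, inv_neg])
      have h5 : hh r' r = 0 := hl.iso' r' hr' r hr
      have h6 : hh r' r' = 0 := hl.iso' r' hr' r' hr'
      have h7 : hh (p + (-(skew0 hq)) • r') (r - (-(skew0 hq)) • r') = - skew0 hq := by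
        simp only [h_add_left, h_sub_right hq, h_smul_left, h_smul_right hq, hpr, hpr', h5, h6,
          map_neg, hc]
        ring
      have e : -(skew0 hq)⁻¹ * hh (p + (-(skew0 hq)) • r') (r - (-(skew0 hq)) • r') = 1 := by
        rw [h7]
        field_simp
      rw [e, one_smul] at h4
      have e2 : p + (-(skew0 hq)) • r' + (r - (-(skew0 hq)) • r') = p + r := by abel
      rw [e2] at h4
      exact h4
  · have hsk : frob hq (hh p r) = - hh p r := by
      rw [h_conj hq]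
      linear_combination hskew
    have h3 := TK_tv hq (s1 p hp) (s2 r hr) (hh p r)⁻¹ (by rw [map_inv₀, hsk, inv_neg])
    rw [inv_mul_cancel₀ hpr, one_smul] at h3
    exact h3

/-- **Key lemma**: a subgroup of `SU` containing the stabiliser of a pair of complementary
totally isotropic subspaces and an element not stabilising the pair is all of `SU`. -/
theorem su_le_of_lag (hq : QF F q) (hk4 : 4 ≤ k) (hD : Cfsg.Geo.IsMDecomposition k D)
    (hts : ∀ i, Cfsg.Geo.IsTotallySingularFor (Cfsg.hermForm n F q) (D i))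
    (K : Subgroup GG)
    (hK : Cfsg.Geo.decompositionStabilizer D ⊓
      (Cfsg.GU n F q ⊓ Cfsg.Geo.specialLinear (Fin n) F) ≤ K)
    (hK2 : K ≤ Cfsg.GU n F q ⊓ Cfsg.Geo.specialLinear (Fin n) F)
    (hg : ∃ g ∈ K, g ∉ Cfsg.Geo.decompositionStabilizer D) :
    Cfsg.GU n F q ⊓ Cfsg.Geo.specialLinear (Fin n) F ≤ K := by
  have h01 : (0 : Fin 2) ≠ 1 := Fin.zero_ne_one
  have hl := lag (q := q) hD hts h01
  have hTKall : ∀ z : VV, hh z z = 0 → z ∈ TK hq K := by
    by_cases hT : ∃ l, ∃ y ∈ D l, y ≠ 0 ∧ y ∈ TK hq K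
    · obtain ⟨l, y, hy, hy0, hyT⟩ := hT
      exact TK_univ hq hD hts hK hy hy0 hyT
    · exfalso
      have hT' : ∀ l, ∀ y ∈ D l, y ∈ TK hq K → y = 0 := by
        intro l y hy hyT
        by_contra hy0
        exact hT ⟨l, y, hy, hy0, hyT⟩
      obtain ⟨g, hgK, hgS⟩ := hg
      have hgGU := (Subgroup.mem_inf.1 (hK2 hgK)).1
      by_cases hgen : ∃ i j : Fin 2, ∃ x ∈ D i, x ≠ 0 ∧ (g : MM) *ᵥ x ∈ D j
      · obtain ⟨i, j, x, hx, hx0, hgx⟩ := hgen
        exact hgS (mem_stab_of_inter hq hD hts hK hT' (by omega) hgK hgGU hx hx0 hgx)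
      · apply generic_false hq hD hts hK hT' hk4 hgK hgGU
        intro i j x hx hx0 hgx
        exact hgen ⟨i, j, x, hx, hx0, hgx⟩
  have hTT : TT hq n ≤ K := TT_le_of hq hTKall
  have hTG : TT hq n ≤ Cfsg.GU n F q := (TT_le hq).trans inf_le_left
  intro g hg'
  have hgGU := (Subgroup.mem_inf.1 hg').1
  obtain ⟨x₁, hx₁, h1⟩ := stage1 hq hl (TT hq n) (fun a c ha hc => TT_mem hq a c ha hc) hTG
    ((D 0).map (Matrix.toLin' (g : MM))) (by
      rintro _ ⟨u, hu, rfl⟩ _ ⟨v, hv, rfl⟩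
      rw [Matrix.toLin'_apply, Matrix.toLin'_apply, h_map hgGU]
      exact hl.iso u hu v hv)
  have hg₁GU : x₁ * g ∈ Cfsg.GU n F q := Subgroup.mul_mem _ (hTG hx₁) hgGU
  have h1' : ∀ d ∈ D 0, ((x₁ * g : GG) : MM) *ᵥ d ∈ D 0 := by
    intro d hd
    rw [Units.val_mul, ← Matrix.mulVec_mulVec]
    exact h1 _ ⟨d, hd, by rw [Matrix.toLin'_apply]⟩
  obtain ⟨x₂, hx₂, h2, h3⟩ := stage2 hq hl (TT hq n) (fun a c ha hc => TT_mem hq a c ha hc) hTG
    ((D 1).map (Matrix.toLin' ((x₁ * g : GG) : MM))) (by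
      rintro _ ⟨u, hu, rfl⟩ _ ⟨v, hv, rfl⟩
      rw [Matrix.toLin'_apply, Matrix.toLin'_apply, h_map hg₁GU]
      exact hl.iso' u hu v hv) (by
      intro v
      obtain ⟨p, hp, r, hr, hv⟩ := hl.span ((((x₁ * g)⁻¹ : GG) : MM) *ᵥ v)
      refine ⟨((x₁ * g : GG) : MM) *ᵥ r, ⟨r, hr, by rw [Matrix.toLin'_apply]⟩,
        ((x₁ * g : GG) : MM) *ᵥ p, h1' p hp, ?_⟩
      rw [← Matrix.mulVec_add, add_comm r p, ← hv, Parab.mulVec_inv_mulVec])
  have hy0 : ∀ d ∈ D 0, ((x₂ * (x₁ * g) : GG) : MM) *ᵥ d ∈ D 0 := by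
    intro d hd
    rw [Units.val_mul, ← Matrix.mulVec_mulVec, h2 _ (h1' d hd)]
    exact h1' d hd
  have hy1 : ∀ d ∈ D 1, ((x₂ * (x₁ * g) : GG) : MM) *ᵥ d ∈ D 1 := by
    intro d hd
    rw [Units.val_mul, ← Matrix.mulVec_mulVec]
    exact h3 _ ⟨d, hd, by rw [Matrix.toLin'_apply]⟩
  have hyStab : x₂ * (x₁ * g) ∈ Cfsg.Geo.decompositionStabilizer D := by
    show ∃ σ : Equiv.Perm (Fin 2), ∀ l,
      (D l).map (Matrix.toLin' ((x₂ * (x₁ * g) : GG) : MM)) = D (σ l)
    refine ⟨1, fun l => ?_⟩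
    rw [Equiv.Perm.one_apply]
    apply SpDecomp.map_eq_of_maps _ _ _ _ rfl
    by_cases hl0 : l = 0
    · rw [hl0]
      exact hy0
    · have hl1 : l = 1 := SpLag.fin2_eq Fin.zero_ne_one hl0
      rw [hl1]
      exact hy1
  have hyK : x₂ * (x₁ * g) ∈ K :=
    hK (Subgroup.mem_inf.2 ⟨hyStab, Subgroup.mul_mem _ (TT_le hq hx₂)
      (Subgroup.mul_mem _ (TT_le hq hx₁) hg')⟩)
  have e : g = x₁⁻¹ * (x₂⁻¹ * (x₂ * (x₁ * g))) := by group
  rw [e]
  exact K.mul_mem (K.inv_mem (hTT hx₁)) (K.mul_mem (K.inv_mem (hTT hx₂)) hyK)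

/-- Some element of `SU` does not stabilise the pair. -/
theorem exists_su_not_stab (hq : QF F q) (hD : Cfsg.Geo.IsMDecomposition k D)
    (hts : ∀ i, Cfsg.Geo.IsTotallySingularFor (Cfsg.hermForm n F q) (D i)) :
    ∃ g ∈ Cfsg.GU n F q ⊓ Cfsg.Geo.specialLinear (Fin n) F,
      g ∉ Cfsg.Geo.decompositionStabilizer D := by
  have h01 : (0 : Fin 2) ≠ 1 := Fin.zero_ne_one
  have hl := lag (q := q) hD hts h01
  obtain ⟨a, ha, ha0, -⟩ := exists_perp (q := q) (D 0) 0 Fin.elim0
    (by rw [hD.finrank_eq]; exact hD.pos)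
  obtain ⟨x, hx, hax⟩ := hl.exists_one hq ha ha0
  have haa := hl.iso a ha a ha
  have hxa : hh x a = 1 := by rw [← h_conj hq a x, hax, map_one]
  refine ⟨tvU n q a (skew0 hq), Subgroup.mem_inf.2 ⟨tvU_mem_gu hq a _ (skew0_frob hq),
    tvU_mem_sl a _⟩, ?_⟩
  intro hmem
  obtain ⟨σ, hσ⟩ : ∃ σ : Equiv.Perm (Fin 2), ∀ l, (D l).map (Matrix.toLin'
    ((tvU n q a (skew0 hq) : GG) : MM)) = D (σ l) := hmem
  have h1 : ((tvU n q a (skew0 hq) : GG) : MM) *ᵥ x ∈ D (σ 1) := by
    rw [← hσ 1]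
    exact ⟨x, hx, by rw [Matrix.toLin'_apply]⟩
  rw [tvU_mulVec a haa, hxa, mul_one] at h1
  have hca0 : skew0 hq • a ≠ 0 := smul_ne_zero (skew0_ne hq) ha0
  by_cases hσ1 : σ 1 = 1
  · rw [hσ1] at h1
    have h3 : skew0 hq • a ∈ D 1 := by
      have h4 := (D 1).sub_mem h1 hx
      rwa [add_sub_cancel_left] at h4
    have h5 : skew0 hq • a ∈ D 0 := (D 0).smul_mem _ ha
    exact hca0 (hl.eq_zero hq (fun u hu => hl.iso _ h5 u hu) (fun u hu => hl.iso' _ h3 u hu))
  · have hσ0 : σ 1 = 0 := SpLag.fin2_eq h01.symm hσ1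
    rw [hσ0] at h1
    have h3 : x ∈ D 0 := by
      have h4 := (D 0).sub_mem h1 ((D 0).smul_mem (skew0 hq) ha)
      rwa [add_sub_cancel_right] at h4
    have h5 : hh a x = 0 := hl.iso a ha x h3
    rw [hax] at h5
    exact one_ne_zero h5

end decomp

end Cfsg.Agent.Helper8.SULag
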