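import Mathlib
import Cfsg.Prelude.Def_GeometricClasses
import Cfsg.Agent.Helper8.SULag
import Cfsg.Agent.S5643

/-!
# Stabilisers of totally isotropic subspaces in `SU_n(q)`

General position lemmas for the standard Hermitian form, transitivity of the group generated by
the unitary transvections on totally isotropic subspaces, and the maximality argument for the
stabiliser of a totally isotropic subspace.
-/

set_option autoImplicit false

namespace Cfsg.Agent.Helper8.SULag

open Matrix Cfsg.Agent.Helper2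

variable {F : Type*} [Field F] {n q : ℕ}

local notation "VV" => (Fin n → F)
local notation "MM" => Matrix (Fin n) (Fin n) F
local notation "GG" => Matrix.GeneralLinearGroup (Fin n) F
local notation "hh" => Cfsg.hermForm n F q

/-! ## Field lemmas -/

theorem exists_tr (hq : QF F q) (c : F) (hc : frob hq c = c) : ∃ x : F, x + frob hq x = c := by
  have hs0 := skew0_ne hq
  have hsf := skew0_frob hq
  obtain ⟨z, hz⟩ := exists_sub_frob hq (c * skew0 hq) (by rw [map_mul, hc, hsf, mul_neg])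
  refine ⟨z / skew0 hq, ?_⟩
  rw [map_div₀, hsf, div_neg, ← sub_eq_add_neg, ← sub_div, hz, mul_div_cancel_right₀ _ hs0]

/-- `x ↦ x ^ q` as a ring automorphism. -/
def frobE (hq : QF F q) : F ≃+* F :=
  RingEquiv.ofRingHom (frob hq) (frob hq) (RingHom.ext (fun a => frob_frob hq a))
    (RingHom.ext (fun a => frob_frob hq a))

theorem frobE_apply (hq : QF F q) (a : F) : frobE hq a = frob hq a := rfl

theorem isUF (hq : QF F q) : Cfsg.Geo.IsUnitaryForm (frobE hq) (Cfsg.hermForm n F q) where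
  ne_refl := by
    intro h
    obtain ⟨η, hη⟩ := hq.ex
    apply hη
    have h1 := RingEquiv.congr_fun h η
    rw [frobE_apply, frob_apply] at h1
    exact h1
  involutive := fun a => by rw [frobE_apply, frobE_apply, frob_frob]
  add_left := h_add_left
  smul_left := h_smul_left
  herm := fun v w => by rw [frobE_apply, h_conj hq]
  nondegenerate := by
    intro v hv
    have h1 : ∃ x, hh v x ≠ 0 := by
      by_contra hcon
      exact hv (h_nondeg hq v (fun y => by
        by_contra h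
        exact hcon ⟨y, h⟩))
    obtain ⟨x, hx⟩ := h1
    exact ⟨⟨x, fun h => hx (h_symm0 hq h)⟩, ⟨x, hx⟩⟩

/-! ## General position -/

theorem exists_sep_sub (hq : QF F q) (U : Submodule F VV) (w : VV) (hw : w ∉ U) :
    ∃ y : VV, (∀ u ∈ U, hh u y = 0) ∧ hh w y = 1 := by
  obtain ⟨φ, hφw, hφU⟩ := Submodule.exists_dual_map_eq_bot_of_notMem hw inferInstance
  obtain ⟨y0, hy0⟩ := Cfsg.Agent.S5643.exists_riesz (isUF (n := n) hq) φ
  refine ⟨frob hq (φ w)⁻¹ • y0, fun u hu => ?_, ?_⟩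
  · have h1 : φ u ∈ U.map φ := Submodule.mem_map_of_mem hu
    rw [hφU] at h1
    rw [h_smul_right hq, hy0, (Submodule.mem_bot F).1 h1, mul_zero]
  · rw [h_smul_right hq, frob_frob, hy0, inv_mul_cancel₀ hφw]

/-- An isotropic vector orthogonal to `U` pairing to `1` with a given isotropic `w ∉ U`,
`w ⊥ U`. -/
theorem exists_iso_sep (hq : QF F q) (U : Submodule F VV) (w : VV) (hw : w ∉ U)
    (hUw : ∀ u ∈ U, hh u w = 0) (hww : hh w w = 0) :
    ∃ v : VV, hh v v = 0 ∧ (∀ u ∈ U, hh u v = 0) ∧ hh w v = 1 := by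
  obtain ⟨y, hUy, hwy⟩ := exists_sep_sub hq U w hw
  have hyw : hh y w = 1 := by rw [← h_conj hq w y, hwy, map_one]
  obtain ⟨l, hl⟩ := exists_tr hq (-(hh y y)) (by rw [map_neg, h_conj hq])
  refine ⟨y + l • w, ?_, fun u hu => ?_, ?_⟩
  · simp only [h_add_left, h_add_right hq, h_smul_left, h_smul_right hq, hww, hwy, hyw, mul_zero,
      mul_one, add_zero]
    linear_combination hl
  · rw [h_add_right hq, h_smul_right hq, hUy u hu, hUw u hu, mul_zero, add_zero]
  · rw [h_add_right hq, h_smul_right hq, hww, mul_zero, add_zero, hwy]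

/-- An isotropic vector orthogonal to `U` and not orthogonal to two given isotropic vectors. -/
theorem exists_iso_two (hq : QF F q) (U : Submodule F VV) (w w' : VV) (hw : w ∉ U)
    (hw' : w' ∉ U) (hUw : ∀ u ∈ U, hh u w = 0) (hUw' : ∀ u ∈ U, hh u w' = 0)
    (hww : hh w w = 0) (hww' : hh w' w' = 0) :
    ∃ v : VV, hh v v = 0 ∧ (∀ u ∈ U, hh u v = 0) ∧ hh w v ≠ 0 ∧ hh w' v ≠ 0 := by
  obtain ⟨v1, hv1, hU1, h1⟩ := exists_iso_sep hq U w hw hUw hww
  obtain ⟨v2, hv2, hU2, h2⟩ := exists_iso_sep hq U w' hw' hUw' hww'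
  by_cases h3 : hh w' v1 = 0
  swap
  · exact ⟨v1, hv1, hU1, by rw [h1]; exact one_ne_zero, h3⟩
  by_cases h4 : hh w v2 = 0
  swap
  · exact ⟨v2, hv2, hU2, h4, by rw [h2]; exact one_ne_zero⟩
  obtain ⟨l, hl0, hl⟩ : ∃ l : F, l ≠ 0 ∧ l * hh v2 v1 + frob hq (l * hh v2 v1) = 0 := by
    by_cases h5 : hh v2 v1 = 0
    · exact ⟨1, one_ne_zero, by rw [h5, mul_zero, map_zero, add_zero]⟩
    · refine ⟨skew0 hq / hh v2 v1, div_ne_zero (skew0_ne hq) h5, ?_⟩
      rw [div_mul_cancel₀ _ h5, skew0_frob, add_neg_cancel]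
  refine ⟨v1 + l • v2, ?_, fun u hu => ?_, ?_, ?_⟩
  · have e : hh v1 v2 = frob hq (hh v2 v1) := (h_conj hq v2 v1).symm
    simp only [h_add_left, h_add_right hq, h_smul_left, h_smul_right hq, hv1, hv2, e, mul_zero,
      add_zero, zero_add]
    rw [map_mul] at hl
    linear_combination hl
  · rw [h_add_right hq, h_smul_right hq, hU1 u hu, hU2 u hu, mul_zero, add_zero]
  · rw [h_add_right hq, h_smul_right hq, h1, h4, mul_zero, add_zero]
    exact one_ne_zero
  · rw [h_add_right hq, h_smul_right hq, h3, h2, zero_add, mul_one]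
    exact (map_ne_zero (frob hq)).2 hl0

/-! ## Moving isotropic vectors by transvections -/

theorem move1 (hq : QF F q) (y w : VV) (hy : hh y y = 0) (hw : hh w w = 0) (hyw : hh y w ≠ 0) :
    ∃ (a : VV) (c μ : F), hh a a = 0 ∧ frob hq c = -c ∧
      ((tvU n q a c : GG) : MM) *ᵥ y = μ • w ∧
      ∀ u : VV, hh u y = 0 → hh u w = 0 → ((tvU n q a c : GG) : MM) *ᵥ u = u := by
  have hs0 := skew0_ne hq
  have hsf := skew0_frob hq
  obtain ⟨β, hβ⟩ : ∃ β : F, β = hh y w := ⟨_, rfl⟩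
  have hβ0 : β ≠ 0 := by rw [hβ]; exact hyw
  have hwy : hh w y = frob hq β := by rw [hβ, h_conj hq]
  have hfβ0 : frob hq β ≠ 0 := (map_ne_zero (frob hq)).2 hβ0
  obtain ⟨μ, hμ⟩ : ∃ μ : F, μ = frob hq (skew0 hq / β) := ⟨_, rfl⟩
  have hfμ : frob hq μ = skew0 hq / β := by rw [hμ, frob_frob]
  have hμ' : μ = - skew0 hq / frob hq β := by rw [hμ, map_div₀, hsf]
  have e1 : μ * frob hq β = - skew0 hq := by rw [hμ', div_mul_cancel₀ _ hfβ0]
  have e2 : frob hq μ * β = skew0 hq := by rw [hfμ, div_mul_cancel₀ _ hβ0]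
  have hya : hh y (μ • w - y) = skew0 hq := by
    rw [h_sub_right hq, h_smul_right hq, hy, sub_zero, ← hβ, e2]
  have haa : hh (μ • w - y) (μ • w - y) = 0 := by
    rw [h_sub_left, h_smul_left, hya, h_sub_right hq, h_smul_right hq, hw, mul_zero, zero_sub,
      hwy]
    linear_combination (-1 : F) * e1
  have hc : frob hq (skew0 hq)⁻¹ = -(skew0 hq)⁻¹ := by rw [map_inv₀, hsf, inv_neg]
  refine ⟨μ • w - y, (skew0 hq)⁻¹, μ, haa, hc, ?_, ?_⟩
  · rw [tvU_mulVec _ haa, hya, inv_mul_cancel₀ hs0, one_smul]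
    abel
  · intro u huy huw
    rw [tvU_mulVec _ haa, h_sub_right hq, h_smul_right hq, huy, huw, mul_zero, sub_zero, mul_zero,
      zero_smul, add_zero]

theorem move2 (hq : QF F q) (T : Subgroup GG)
    (hT : ∀ (a : VV) (c : F), hh a a = 0 → frob hq c = -c → tvU n q a c ∈ T)
    (U : Submodule F VV) (y w : VV) (hy : hh y y = 0) (hw : hh w w = 0)
    (hyU : y ∉ U) (hwU : w ∉ U) (hUy : ∀ u ∈ U, hh u y = 0) (hUw : ∀ u ∈ U, hh u w = 0) :
    ∃ t ∈ T, (∃ μ : F, ((t : GG) : MM) *ᵥ y = μ • w) ∧ ∀ u ∈ U, ((t : GG) : MM) *ᵥ u = u := by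
  by_cases hyw : hh y w = 0
  · obtain ⟨v, hv, hUv, hyv, hwv⟩ := exists_iso_two hq U y w hyU hwU hUy hUw hy hw
    have hvw : hh v w ≠ 0 := fun h => hwv (h_symm0 hq h)
    obtain ⟨a1, c1, μ1, ha1, hc1, h1, hf1⟩ := move1 hq y v hy hv hyv
    obtain ⟨a2, c2, μ2, ha2, hc2, h2, hf2⟩ := move1 hq v w hv hw hvw
    refine ⟨tvU n q a2 c2 * tvU n q a1 c1, T.mul_mem (hT _ _ ha2 hc2) (hT _ _ ha1 hc1),
      ⟨μ1 * μ2, ?_⟩, ?_⟩
    · rw [Units.val_mul, ← Matrix.mulVec_mulVec, h1, Matrix.mulVec_smul, h2, smul_smul]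
    · intro u hu
      rw [Units.val_mul, ← Matrix.mulVec_mulVec, hf1 u (hUy u hu) (hUv u hu),
        hf2 u (hUv u hu) (hUw u hu)]
  · obtain ⟨a1, c1, μ1, ha1, hc1, h1, hf1⟩ := move1 hq y w hy hw hyw
    exact ⟨tvU n q a1 c1, hT _ _ ha1 hc1, ⟨μ1, h1⟩, fun u hu => hf1 u (hUy u hu) (hUw u hu)⟩

/-- A group containing all unitary transvections moves any isometric image of a totally
isotropic subspace `W` back into `W`. -/
theorem trans_ti (hq : QF F q) (T : Subgroup GG)
    (hT : ∀ (a : VV) (c : F), hh a a = 0 → frob hq c = -c → tvU n q a c ∈ T)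
    (hTG : T ≤ Cfsg.GU n F q) (W : Submodule F VV) (hW : ∀ u ∈ W, ∀ v ∈ W, hh u v = 0)
    (g : GG) (hg : g ∈ Cfsg.GU n F q) :
    ∃ x ∈ T, ∀ w ∈ W, ((x * g : GG) : MM) *ᵥ w ∈ W := by
  have key : ∀ d : ℕ, ∀ x ∈ T,
      Module.finrank F W ≤
        Module.finrank F ↥(W ⊓ W.comap (Matrix.toLin' ((x * g : GG) : MM))) + d →
      ∃ x' ∈ T, ∀ w ∈ W, ((x' * g : GG) : MM) *ᵥ w ∈ W := by
    intro d
    induction d with
    | zero =>
      intro x hx hle
      refine ⟨x, hx, fun w hw => ?_⟩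
      have heq : W ⊓ W.comap (Matrix.toLin' ((x * g : GG) : MM)) = W :=
        Submodule.eq_of_le_of_finrank_le inf_le_left (by rw [add_zero] at hle; exact hle)
      have hw' : w ∈ W ⊓ W.comap (Matrix.toLin' ((x * g : GG) : MM)) := by rw [heq]; exact hw
      have h2 := (Submodule.mem_inf.1 hw').2
      rw [Submodule.mem_comap, Matrix.toLin'_apply] at h2
      exact h2
    | succ d ih =>
      intro x hx hle
      by_cases hall : ∀ w ∈ W, ((x * g : GG) : MM) *ᵥ w ∈ W
      · exact ⟨x, hx, hall⟩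
      · obtain ⟨w0, hw⟩ := not_forall.1 hall
        obtain ⟨hw0W, hw0E⟩ := Classical.not_imp.1 hw
        have xGU : x * g ∈ Cfsg.GU n F q := (Cfsg.GU n F q).mul_mem (hTG hx) hg
        obtain ⟨X, hX⟩ : ∃ X : GG, X = x * g := ⟨_, rfl⟩
        rw [← hX] at xGU hw0E hle
        obtain ⟨y, hydef⟩ : ∃ y : VV, y = (X : MM) *ᵥ w0 := ⟨_, rfl⟩
        have hyy : hh y y = 0 := by
          rw [hydef, h_map xGU]
          exact hW w0 hw0W w0 hw0W
        obtain ⟨U, hU⟩ : ∃ U : Submodule F VV,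
            U = (W ⊓ W.comap (Matrix.toLin' (X : MM))).map (Matrix.toLin' (X : MM)) := ⟨_, rfl⟩
        have hUW : U ≤ W := by
          intro u hu
          rw [hU] at hu
          obtain ⟨w1, hw1, rfl⟩ := Submodule.mem_map.1 hu
          exact (Submodule.mem_inf.1 hw1).2
        have hUy : ∀ u ∈ U, hh u y = 0 := by
          intro u hu
          rw [hU] at hu
          obtain ⟨w1, hw1, rfl⟩ := Submodule.mem_map.1 hu
          rw [Matrix.toLin'_apply, hydef, h_map xGU]
          exact hW w1 (Submodule.mem_inf.1 hw1).1 w0 hw0W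
        have hyU : y ∉ U := fun h => hw0E (by rw [← hydef]; exact hUW h)
        have hlt : Module.finrank F U < Module.finrank F W := by
          have h1 : Module.finrank F U ≤
              Module.finrank F ↥(W ⊓ W.comap (Matrix.toLin' (X : MM))) := by
            rw [hU]
            exact Submodule.finrank_map_le _ _
          have h2 : Module.finrank F ↥(W ⊓ W.comap (Matrix.toLin' (X : MM))) <
              Module.finrank F W := by
            apply Submodule.finrank_lt_finrank_of_lt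
            apply lt_of_le_of_ne inf_le_left
            intro heq
            have h3 : w0 ∈ W ⊓ W.comap (Matrix.toLin' (X : MM)) := by rw [heq]; exact hw0W
            have h4 := (Submodule.mem_inf.1 h3).2
            rw [Submodule.mem_comap, Matrix.toLin'_apply] at h4
            exact hw0E h4
          omega
        obtain ⟨w, hwW, hwU⟩ : ∃ w ∈ W, w ∉ U := by
          by_contra hcon
          have h1 : W ≤ U := fun w hw => by
            by_contra h
            exact hcon ⟨w, hw, h⟩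
          have h2 := Submodule.finrank_mono h1
          omega
        have hww : hh w w = 0 := hW w hwW w hwW
        have hUw : ∀ u ∈ U, hh u w = 0 := fun u hu => hW u (hUW hu) w hwW
        obtain ⟨t, htT, ⟨μ, hμ⟩, htU⟩ := move2 hq T hT U y w hyy hww hyU hwU hUy hUw
        have hlt2 : W ⊓ W.comap (Matrix.toLin' (X : MM)) <
            W ⊓ W.comap (Matrix.toLin' ((t * x * g : GG) : MM)) := by
          apply lt_of_le_of_ne
          · intro w' hw'
            obtain ⟨h1, h2⟩ := Submodule.mem_inf.1 hw'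
            refine Submodule.mem_inf.2 ⟨h1, ?_⟩
            have h3 : (X : MM) *ᵥ w' ∈ U := by
              rw [hU]
              exact Submodule.mem_map.2 ⟨w', hw', Matrix.toLin'_apply _ _⟩
            rw [Submodule.mem_comap, Matrix.toLin'_apply] at h2 ⊢
            rw [mul_assoc, ← hX, Units.val_mul, ← Matrix.mulVec_mulVec, htU _ h3]
            exact h2
          · intro heq
            have h3 : w0 ∈ W ⊓ W.comap (Matrix.toLin' ((t * x * g : GG) : MM)) := by
              refine Submodule.mem_inf.2 ⟨hw0W, ?_⟩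
              rw [Submodule.mem_comap, Matrix.toLin'_apply, mul_assoc, ← hX, Units.val_mul,
                ← Matrix.mulVec_mulVec, ← hydef, hμ]
              exact W.smul_mem _ hwW
            rw [← heq] at h3
            have h4 := (Submodule.mem_inf.1 h3).2
            rw [Submodule.mem_comap, Matrix.toLin'_apply] at h4
            exact hw0E h4
        apply ih (t * x) (T.mul_mem htT hx)
        have h5 := Submodule.finrank_lt_finrank_of_lt hlt2
        omega
  exact key (Module.finrank F W) 1 T.one_mem (Nat.le_add_left _ _)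

/-! ## The point lemma -/

/-- Isotropic vectors `a` all of whose Siegel elements `RU a b l` lie in `K`. -/
def QK (hq : QF F q) (K : Subgroup (Matrix.GeneralLinearGroup (Fin n) F)) : Set (Fin n → F) :=
  {a | Cfsg.hermForm n F q a a = 0 ∧ ∀ (b : Fin n → F) (l : F), Cfsg.hermForm n F q b b = 0 →
    Cfsg.hermForm n F q a b = 0 → RU hq n a b l ∈ K}

theorem QK_TK (hq : QF F q) {K : Subgroup GG} {a : VV} (ha : a ∈ QK hq K) : a ∈ TK hq K := by
  refine ⟨ha.1, fun c hc => ?_⟩
  obtain ⟨z, hz⟩ := exists_sub_frob hq c hc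
  have h1 := ha.2 a z ha.1 ha.1
  have h2 := RU_self hq a ha.1 1 z
  rw [one_smul, mul_one, hz] at h2
  rw [← h2]
  exact h1

theorem QK_map (hq : QF F q) {K : Subgroup GG} {k : GG} (hkK : k ∈ K)
    (hk : k ∈ Cfsg.GU n F q) {a : VV} (ha : a ∈ QK hq K) : (k : MM) *ᵥ a ∈ QK hq K := by
  refine ⟨by rw [h_map hk]; exact ha.1, fun b l hb hab => ?_⟩
  obtain ⟨b0, hb0⟩ : ∃ b0 : VV, b0 = ((k⁻¹ : GG) : MM) *ᵥ b := ⟨_, rfl⟩
  have hkb : (k : MM) *ᵥ b0 = b := by rw [hb0]; exact Parab.mulVec_inv_mulVec k b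
  have h1 : hh b0 b0 = 0 := by rw [← h_map hk, hkb]; exact hb
  have h2 : hh a b0 = 0 := by rw [← h_map hk, hkb]; exact hab
  have h3 := RU_conj hq k hk a b0 l
  rw [hkb] at h3
  rw [h3]
  exact K.mul_mem (K.mul_mem hkK (ha.2 b0 l h1 h2)) (K.inv_mem hkK)

theorem pt_step (hq : QF F q) {K : Subgroup GG} {a : VV} (ha : a ∈ QK hq K) {z : VV}
    (hza : hh z a = 1) {u : VV} {μ : F} (hua : hh u a = 0) (hT : z + u + μ • a ∈ TK hq K)
    {b : VV} (l : F) (hb : hh b b = 0) (hba : hh b a = 0) :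
    ∃ μ' : F, z + (u + l • b) + μ' • a ∈ TK hq K := by
  have hab : hh a b = 0 := h_symm0 hq hba
  have hR := ha.2 b l hb hab
  have h1 := TK_map hq hR (RU_mem_gu hq a b l) hT
  have h2 : hh (z + u + μ • a) a = 1 := by
    rw [h_add_left, h_add_left, h_smul_left, hza, hua, ha.1, mul_zero, add_zero, add_zero]
  rw [RU_apply hq a b ha.1 hb hab, h2, mul_one] at h1
  refine ⟨μ - frob hq l * hh (z + u + μ • a) b, ?_⟩
  have e : z + (u + l • b) + (μ - frob hq l * hh (z + u + μ • a) b) • a =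
      z + u + μ • a + l • b - (frob hq l * hh (z + u + μ • a) b) • a := by module
  rw [e]
  exact h1

theorem point_aux [Finite F] (hq : QF F q) (hn : 7 ≤ n) {K : Subgroup GG}
    {a : VV} (ha : a ∈ QK hq K) {z : VV} (hz : z ∈ TK hq K) (hza : hh z a = 1)
    {z' : VV} (hz' : hh z' z' = 0) (hza' : hh z' a = 1) : z' ∈ TK hq K := by
  have haT := QK_TK hq ha
  have h0 : z + (0 : VV) + (0 : F) • a ∈ TK hq K := by
    rw [add_zero, zero_smul, add_zero]
    exact hz
  have h00 : hh (0 : VV) a = 0 := h_zero_left a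
  obtain ⟨u, hu⟩ : ∃ u : VV, u = z' - z := ⟨_, rfl⟩
  have hua : hh u a = 0 := by rw [hu, h_sub_left, hza, hza', sub_self]
  have key : ∃ μ : F, z' + μ • a ∈ TK hq K := by
    by_cases huu : hh u u = 0
    · obtain ⟨μ, hμ⟩ := pt_step hq ha hza h00 h0 1 huu hua
      refine ⟨μ, ?_⟩
      have e : z + (0 + (1 : F) • u) + μ • a = z' + μ • a := by
        rw [hu]
        module
      rw [← e]
      exact hμ
    · obtain ⟨x1, hx1u, hx1a, -, hiso⟩ := Cfsg.Agent.S5643.exists_iso_compl (isUF (n := n) hq)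
        (by rw [Fintype.card_fin]; exact hn) u a a huu
      obtain ⟨η, hη⟩ := hq.ex
      have hη0 : η ≠ 0 := by
        rintro rfl
        exact hη (zero_pow hq.q0)
      have hfη : frob hq η ≠ η := hη
      have hfη0 : frob hq η ≠ 0 := (map_ne_zero (frob hq)).2 hη0
      obtain ⟨β, hβ⟩ : ∃ β : F, β = frob hq η / η := ⟨_, rfl⟩
      have hβ1 : β - 1 ≠ 0 := by
        rw [hβ]
        intro h
        have h1 : frob hq η / η = 1 := sub_eq_zero.1 h
        rw [div_eq_one_iff_eq hη0] at h1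
        exact hfη h1
      have hN : β * frob hq β = 1 := by
        rw [hβ, map_div₀, frob_frob, div_mul_div_comm, mul_comm η, div_self (mul_ne_zero hfη0 hη0)]
      have hux1 : hh u x1 = 0 := h_symm0 hq hx1u
      have hb1 : hh (u + x1) (u + x1) = 0 := hiso
      have hx1x1 : hh x1 x1 = - hh u u := by
        have hiso2 := hiso
        rw [h_add_left, h_add_right hq, h_add_right hq, hux1, hx1u] at hiso2
        linear_combination hiso2
      have hb2 : hh (u + β • x1) (u + β • x1) = 0 := by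
        simp only [h_add_left, h_add_right hq, h_smul_left, h_smul_right hq, hux1, hx1u, hx1x1,
          mul_zero, add_zero, zero_add]
        linear_combination (- hh u u) * hN
      have hb1a : hh (u + x1) a = 0 := by rw [h_add_left, hua, hx1a, add_zero]
      have hb2a : hh (u + β • x1) a = 0 := by
        rw [h_add_left, h_smul_left, hua, hx1a, mul_zero, add_zero]
      obtain ⟨μ1, hμ1⟩ := pt_step hq ha hza h00 h0 (β / (β - 1)) hb1 hb1a
      have hua1 : hh (0 + (β / (β - 1)) • (u + x1)) a = 0 := by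
        rw [zero_add, h_smul_left, hb1a, mul_zero]
      obtain ⟨μ2, hμ2⟩ := pt_step hq ha hza hua1 hμ1 (-1 / (β - 1)) hb2 hb2a
      refine ⟨μ2, ?_⟩
      have e1 : (β / (β - 1)) • (u + x1) + (-1 / (β - 1)) • (u + β • x1) = u := by
        have c1 : β / (β - 1) + -1 / (β - 1) = 1 := by
          rw [← add_div, ← sub_eq_add_neg, div_self hβ1]
        have c2 : β / (β - 1) + -1 / (β - 1) * β = 0 := by
          rw [div_mul_eq_mul_div, ← add_div, neg_one_mul, add_neg_cancel, zero_div]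
        calc (β / (β - 1)) • (u + x1) + (-1 / (β - 1)) • (u + β • x1)
            = (β / (β - 1) + -1 / (β - 1)) • u + (β / (β - 1) + -1 / (β - 1) * β) • x1 := by
              module
          _ = u := by rw [c1, c2, one_smul, zero_smul, add_zero]
      have e : z + (0 + (β / (β - 1)) • (u + x1) + (-1 / (β - 1)) • (u + β • x1)) + μ2 • a =
          z' + μ2 • a := by
        rw [zero_add, e1, hu]
        abel
      rw [← e]
      exact hμ2
  obtain ⟨μ, hμ⟩ := key
  have hiso := hμ.1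
  have haz' : hh a z' = 1 := by rw [← h_conj hq z' a, hza', map_one]
  have hsk : frob hq μ = -μ := by
    simp only [h_add_left, h_add_right hq, h_smul_left, h_smul_right hq, hz', hza', haz', ha.1,
      mul_zero, mul_one, add_zero, zero_add] at hiso
    linear_combination hiso
  have h3 := TK_tv hq hμ haT (-μ) (by rw [map_neg, hsk])
  have h4 : hh (z' + μ • a) a = 1 := by
    rw [h_add_left, h_smul_left, hza', ha.1, mul_zero, add_zero]
  rw [h4, mul_one] at h3
  have e : z' + μ • a + (-μ) • a = z' := by module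
  rw [e] at h3
  exact h3

/-- **Point lemma**: if all Siegel elements at `a` lie in `K` and some `z ∈ TK` is not
orthogonal to `a`, then every isotropic vector not orthogonal to `a` lies in `TK`. -/
theorem point_lemma [Finite F] (hq : QF F q) (hn : 7 ≤ n) {K : Subgroup GG}
    {a : VV} (ha : a ∈ QK hq K) {z : VV} (hz : z ∈ TK hq K) (hza : hh z a ≠ 0)
    {z' : VV} (hz' : hh z' z' = 0) (hza' : hh z' a ≠ 0) : z' ∈ TK hq K := by
  have h1 : (hh z a)⁻¹ • z ∈ TK hq K := TK_smul hq hz _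
  have h2 : hh ((hh z a)⁻¹ • z) a = 1 := by rw [h_smul_left, inv_mul_cancel₀ hza]
  have h3 : hh ((hh z' a)⁻¹ • z') ((hh z' a)⁻¹ • z') = 0 := by
    rw [h_smul_left, h_smul_right hq, hz', mul_zero, mul_zero]
  have h4 : hh ((hh z' a)⁻¹ • z') a = 1 := by rw [h_smul_left, inv_mul_cancel₀ hza']
  have h5 := TK_smul hq (point_aux hq hn ha h1 h2 h3 h4) (hh z' a)
  rw [smul_smul, mul_inv_cancel₀ hza', one_smul] at h5
  exact h5

/-! ## The stabiliser of a totally isotropic subspace -/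

/-- Over a finite field, an element of `GL` mapping a set into itself stabilises it. -/
theorem stab_of_maps_fin [Finite F] (S : Set VV) (g : GG) (h : ∀ w ∈ S, (g : MM) *ᵥ w ∈ S) :
    g ∈ Cfsg.stabilizing (Cfsg.glToMat (Fin n) F) S := by
  rw [Parab.mem_stab_iff]
  intro v
  refine ⟨h v, fun hv => ?_⟩
  have hinj : Function.Injective (fun s : S => (⟨(g : MM) *ᵥ s.1, h s.1 s.2⟩ : S)) := by
    intro a b hab
    exact Subtype.ext (Parab.gl_mulVec_inj g (congrArg Subtype.val hab))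
  obtain ⟨s, hs⟩ := (Finite.injective_iff_surjective.1 hinj) ⟨_, hv⟩
  have h2 : (g : MM) *ᵥ s.1 = (g : MM) *ᵥ v := congrArg Subtype.val hs
  rw [← Parab.gl_mulVec_inj g h2]
  exact s.2

/-- **Key lemma**: a subgroup of `SU` containing the stabiliser of a non-zero totally isotropic
subspace and an element not stabilising it is all of `SU`. -/
theorem su_le_of_ti [Finite F] (hq : QF F q) (hn : 7 ≤ n) (W : Submodule F VV) (hW0 : W ≠ ⊥)
    (hW : Cfsg.Geo.IsTotallySingularFor (Cfsg.hermForm n F q) W)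
    (K : Subgroup GG)
    (hK : Cfsg.Geo.subspaceStabilizer W ⊓
      (Cfsg.GU n F q ⊓ Cfsg.Geo.specialLinear (Fin n) F) ≤ K)
    (hK2 : K ≤ Cfsg.GU n F q ⊓ Cfsg.Geo.specialLinear (Fin n) F)
    (hg : ∃ g ∈ K, g ∉ Cfsg.Geo.subspaceStabilizer W) :
    Cfsg.GU n F q ⊓ Cfsg.Geo.specialLinear (Fin n) F ≤ K := by
  have hWi : ∀ u ∈ W, ∀ v ∈ W, hh u v = 0 := hW
  have hKG : K ≤ Cfsg.GU n F q := le_trans hK2 inf_le_left
  have hTK1 : ∀ z : VV, hh z z = 0 → (∀ w ∈ W, hh w z = 0) → z ∈ TK hq K := by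
    intro z hz hWz
    refine ⟨hz, fun c hc => ?_⟩
    apply hK
    refine Subgroup.mem_inf.2 ⟨?_, Subgroup.mem_inf.2 ⟨tvU_mem_gu hq z c hc, tvU_mem_sl z c⟩⟩
    show tvU n q z c ∈ Cfsg.stabilizing (Cfsg.glToMat (Fin n) F) (W : Set VV)
    apply Parab.stab_of_fix
    intro w hw
    rw [tvU_mulVec z hz c w, hWz w hw, mul_zero, zero_smul, add_zero]
  have hQ : ∀ a ∈ W, a ∈ QK hq K := by
    intro a ha
    have haa := hWi a ha a ha
    refine ⟨haa, fun b l hb hab => ?_⟩
    apply hK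
    refine Subgroup.mem_inf.2 ⟨?_, Subgroup.mem_inf.2 ⟨RU_mem_gu hq a b l, RU_mem_sl hq a b l⟩⟩
    show RU hq n a b l ∈ Cfsg.stabilizing (Cfsg.glToMat (Fin n) F) (W : Set VV)
    apply stab_of_maps_fin
    intro x hx
    rw [RU_apply hq a b haa hb hab, hWi x hx a ha, mul_zero, zero_smul, add_zero]
    exact W.sub_mem hx (W.smul_mem _ ha)
  obtain ⟨g, hgK, hgS⟩ := hg
  have hgG := hKG hgK
  obtain ⟨w0, hw0, hgw0⟩ : ∃ w0 ∈ W, (g : MM) *ᵥ w0 ∉ W := by
    by_contra hcon
    apply hgS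
    show g ∈ Cfsg.stabilizing (Cfsg.glToMat (Fin n) F) (W : Set VV)
    apply stab_of_maps_fin
    intro w hw
    by_contra h
    exact hcon ⟨w, hw, h⟩
  obtain ⟨y0, hy0⟩ : ∃ y0 : VV, y0 = (g : MM) *ᵥ w0 := ⟨_, rfl⟩
  rw [← hy0] at hgw0
  have hy0Q : y0 ∈ QK hq K := by
    rw [hy0]
    exact QK_map hq hgK hgG (hQ w0 hw0)
  have hy0T := QK_TK hq hy0Q
  obtain ⟨z, hz, a, ha, hza⟩ : ∃ z ∈ TK hq K, ∃ a ∈ W, hh z a ≠ 0 := by
    by_cases hc : ∀ w ∈ W, hh w y0 = 0
    · obtain ⟨w1, hw1, hw10⟩ := Submodule.exists_mem_ne_zero_of_ne_bot hW0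
      have hw1U : w1 ∉ Submodule.span F {y0} := by
        intro h
        obtain ⟨c, hc1⟩ := Submodule.mem_span_singleton.1 h
        have hc0 : c ≠ 0 := by
          rintro rfl
          rw [zero_smul] at hc1
          exact hw10 hc1.symm
        apply hgw0
        have h5 : y0 = c⁻¹ • w1 := by rw [← hc1, smul_smul, inv_mul_cancel₀ hc0, one_smul]
        rw [h5]
        exact W.smul_mem _ hw1
      obtain ⟨b, hb, hUb, hw1b⟩ := exists_iso_sep hq (Submodule.span F {y0}) w1 hw1U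
        (fun u hu => by
          obtain ⟨c, rfl⟩ := Submodule.mem_span_singleton.1 hu
          rw [h_smul_left, h_symm0 hq (hc w1 hw1), mul_zero]) (hWi w1 hw1 w1 hw1)
      have hy0b : hh y0 b = 0 := hUb y0 (Submodule.mem_span_singleton_self y0)
      obtain ⟨t, ht, hWt, hy0t⟩ := exists_iso_sep hq W y0 hgw0 hc hy0Q.1
      have htT : t ∈ TK hq K := hTK1 t ht hWt
      have hR := hy0Q.2 b 1 hb hy0b
      have h1 := TK_map hq hR (RU_mem_gu hq y0 b 1) htT
      have hty0 : hh t y0 = 1 := by rw [← h_conj hq y0 t, hy0t, map_one]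
      rw [RU_apply hq y0 b hy0Q.1 hb hy0b, hty0, mul_one, map_one, one_mul, one_smul] at h1
      refine ⟨_, h1, w1, hw1, ?_⟩
      have e1 : hh t w1 = 0 := h_symm0 hq (hWt w1 hw1)
      have e2 : hh b w1 = 1 := by rw [← h_conj hq w1 b, hw1b, map_one]
      have e3 : hh y0 w1 = 0 := h_symm0 hq (hc w1 hw1)
      rw [h_sub_left, h_add_left, h_smul_left, e1, e2, e3, mul_zero, zero_add, sub_zero]
      exact one_ne_zero
    · obtain ⟨w, hw⟩ := not_forall.1 hc
      obtain ⟨hwW, hwy⟩ := Classical.not_imp.1 hw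
      exact ⟨y0, hy0T, w, hwW, fun h => hwy (h_symm0 hq h)⟩
  have hbot : ∀ (x : VV), ∀ u ∈ (⊥ : Submodule F VV), hh u x = 0 := by
    intro x u hu
    rw [(Submodule.mem_bot F).1 hu]
    exact h_zero_left x
  have hP : ∀ a' ∈ W, a' ≠ 0 → ∀ z' : VV, hh z' z' = 0 → hh z' a' ≠ 0 → z' ∈ TK hq K := by
    intro a' ha' ha'0 z' hz' hz'a'
    have ha0 : a ≠ 0 := by
      rintro rfl
      exact hza (h_zero_right hq z)
    obtain ⟨v, hv, -, hav, ha'v⟩ := exists_iso_two hq ⊥ a a'
      (fun h => ha0 ((Submodule.mem_bot F).1 h)) (fun h => ha'0 ((Submodule.mem_bot F).1 h))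
      (hbot a) (hbot a') (hWi a ha a ha) (hWi a' ha' a' ha')
    have hva : hh v a ≠ 0 := fun h => hav (h_symm0 hq h)
    have hva' : hh v a' ≠ 0 := fun h => ha'v (h_symm0 hq h)
    have hvT : v ∈ TK hq K := point_lemma hq hn (hQ a ha) hz hza hv hva
    exact point_lemma hq hn (hQ a' ha') hvT hva' hz' hz'a'
  have hall : ∀ z' : VV, hh z' z' = 0 → z' ∈ TK hq K := by
    intro z' hz'
    by_cases h : ∀ w ∈ W, hh w z' = 0
    · exact hTK1 z' hz' h
    · obtain ⟨w, hw⟩ := not_forall.1 h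
      obtain ⟨hwW, hwz⟩ := Classical.not_imp.1 hw
      have hw0 : w ≠ 0 := by
        rintro rfl
        exact hwz (h_zero_left z')
      exact hP w hwW hw0 z' hz' (fun h0 => hwz (h_symm0 hq h0))
  have hTT : TT hq n ≤ K := TT_le_of hq hall
  intro g' hg'
  obtain ⟨x, hxT, hx⟩ := trans_ti hq (TT hq n) (fun a c ha hc => TT_mem hq a c ha hc)
    (le_trans (TT_le hq) inf_le_left) W hWi g' (Subgroup.mem_inf.1 hg').1
  have h1 : x * g' ∈ K := by
    apply hK
    refine Subgroup.mem_inf.2 ⟨?_, (Cfsg.GU n F q ⊓ Cfsg.Geo.specialLinear (Fin n) F).mul_mem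
      (TT_le hq hxT) hg'⟩
    show x * g' ∈ Cfsg.stabilizing (Cfsg.glToMat (Fin n) F) (W : Set VV)
    exact stab_of_maps_fin (W : Set VV) (x * g') hx
  have h2 : g' = x⁻¹ * (x * g') := by group
  rw [h2]
  exact K.mul_mem (K.inv_mem (hTT hxT)) h1

theorem exists_su_not_stab_ti (hq : QF F q) (W : Submodule F VV) (hW0 : W ≠ ⊥)
    (hW : Cfsg.Geo.IsTotallySingularFor (Cfsg.hermForm n F q) W) :
    ∃ g ∈ Cfsg.GU n F q ⊓ Cfsg.Geo.specialLinear (Fin n) F,
      g ∉ Cfsg.Geo.subspaceStabilizer W := by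
  obtain ⟨w, hw, hw0⟩ := Submodule.exists_mem_ne_zero_of_ne_bot hW0
  obtain ⟨b, hb, -, hwb⟩ := exists_iso_sep hq ⊥ w (fun h => hw0 ((Submodule.mem_bot F).1 h))
    (fun u hu => by rw [(Submodule.mem_bot F).1 hu]; exact h_zero_left _) (hW w hw w hw)
  refine ⟨tvU n q b (skew0 hq), Subgroup.mem_inf.2 ⟨tvU_mem_gu hq b _ (skew0_frob hq),
    tvU_mem_sl b _⟩, fun hs => ?_⟩
  have hs' := (Parab.mem_stab_iff (W : Set VV) _).1 hs
  have h1 : ((tvU n q b (skew0 hq) : GG) : MM) *ᵥ w ∈ W := (hs' w).1 hw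
  rw [tvU_mulVec b hb, hwb, mul_one] at h1
  have h2 : skew0 hq • b ∈ W := by
    have h3 := W.sub_mem h1 hw
    rwa [add_sub_cancel_left] at h3
  have h3 : b ∈ W := by
    have h4 := W.smul_mem (skew0 hq)⁻¹ h2
    rwa [smul_smul, inv_mul_cancel₀ (skew0_ne hq), one_smul] at h4
  have h4 := hW w hw b h3
  rw [hwb] at h4
  exact one_ne_zero h4

end Cfsg.Agent.Helper8.SULag
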