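import Mathlib
import Cfsg.Prelude.Def_GeometricClasses
import Cfsg.Agent.Helper8.SUPar

/-!
# Non-degenerate subspaces for the standard Hermitian form

Orthogonal complements, non-degeneracy in projection form, and the existence lemmas
(non-isotropic vectors, vectors of prescribed norm, hyperbolic partners) used for the
stabiliser of a non-degenerate subspace in `SU_n(q)`.
-/

set_option autoImplicit false

namespace Cfsg.Agent.Helper8.SUNd

open Matrix Cfsg.Agent.Helper2 Cfsg.Agent.Helper8.SULag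

variable {F : Type*} [Field F] {n q : ℕ}

local notation "VV" => (Fin n → F)
local notation "MM" => Matrix (Fin n) (Fin n) F
local notation "GG" => Matrix.GeneralLinearGroup (Fin n) F
local notation "hh" => Cfsg.hermForm n F q

/-- The orthogonal complement of a subspace. -/
def perp (q : ℕ) (U : Submodule F (Fin n → F)) : Submodule F (Fin n → F) where
  carrier := {x | ∀ u ∈ U, Cfsg.hermForm n F q x u = 0}
  add_mem' := by
    intro a b ha hb u hu
    rw [h_add_left, ha u hu, hb u hu, add_zero]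
  zero_mem' := fun u _ => h_zero_left u
  smul_mem' := by
    intro c x hx u hu
    rw [h_smul_left, hx u hu, mul_zero]

theorem mem_perp (U : Submodule F VV) (x : VV) : x ∈ perp q U ↔ ∀ u ∈ U, hh x u = 0 := Iff.rfl

/-- The vectors `u` with `h(w, u) = 0`. -/
def perpR (hq : QF F q) (w : Fin n → F) : Submodule F (Fin n → F) where
  carrier := {u | Cfsg.hermForm n F q w u = 0}
  add_mem' := by
    intro a b ha hb
    have ha' : Cfsg.hermForm n F q w a = 0 := ha
    have hb' : Cfsg.hermForm n F q w b = 0 := hb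
    show Cfsg.hermForm n F q w (a + b) = 0
    rw [h_add_right hq, ha', hb', add_zero]
  zero_mem' := h_zero_right hq w
  smul_mem' := by
    intro c x hx
    have hx' : Cfsg.hermForm n F q w x = 0 := hx
    show Cfsg.hermForm n F q w (c • x) = 0
    rw [h_smul_right hq, hx', mul_zero]

/-- Non-degeneracy of a subspace, in projection form. -/
def ND (q : ℕ) (U : Submodule F (Fin n → F)) : Prop :=
  ∀ v : Fin n → F, ∃ u ∈ U, v - u ∈ perp q U

theorem ND.inf_perp (hq : QF F q) {U : Submodule F VV} (hU : ND q U) {x : VV} (hx : x ∈ U)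
    (hx' : x ∈ perp q U) : x = 0 := by
  apply h_nondeg hq x
  intro y
  obtain ⟨u, hu, hyu⟩ := hU y
  have e : y = u + (y - u) := by abel
  rw [e, h_add_right hq, (mem_perp U x).1 hx' u hu, h_symm0 hq ((mem_perp U _).1 hyu x hx),
    add_zero]

theorem ND_bot (hq : QF F q) : ND q (⊥ : Submodule F VV) := by
  intro v
  refine ⟨0, Submodule.zero_mem _, ?_⟩
  intro u hu
  rw [(Submodule.mem_bot F).1 hu]
  exact h_zero_right hq _

theorem mem_perp_ext (hq : QF F q) (U : Submodule F VV) (z y : VV) :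
    y ∈ perp q (U ⊔ Submodule.span F {z}) ↔ y ∈ perp q U ∧ hh y z = 0 := by
  constructor
  · intro h
    exact ⟨fun u hu => h u (Submodule.mem_sup_left hu),
      h z (Submodule.mem_sup_right (Submodule.mem_span_singleton_self z))⟩
  · rintro ⟨h1, h2⟩ u hu
    obtain ⟨u1, hu1, u2, hu2, rfl⟩ := Submodule.mem_sup.1 hu
    obtain ⟨c, rfl⟩ := Submodule.mem_span_singleton.1 hu2
    rw [h_add_right hq, h_smul_right hq, h1 u1 hu1, h2, mul_zero, add_zero]

theorem ND_ext1 (hq : QF F q) {U : Submodule F VV} (hU : ND q U) {z : VV} (hz : z ∈ perp q U)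
    (hzz : hh z z ≠ 0) : ND q (U ⊔ Submodule.span F {z}) := by
  intro v
  obtain ⟨u, hu, hvu⟩ := hU v
  refine ⟨u + (hh v z / hh z z) • z, Submodule.add_mem _ (Submodule.mem_sup_left hu)
    (Submodule.mem_sup_right (Submodule.smul_mem _ _ (Submodule.mem_span_singleton_self z))), ?_⟩
  rw [mem_perp_ext hq]
  have huz : hh u z = 0 := h_symm0 hq (hz u hu)
  constructor
  · have e : v - (u + (hh v z / hh z z) • z) = (v - u) - (hh v z / hh z z) • z := by abel
    rw [e]
    exact (perp q U).sub_mem hvu ((perp q U).smul_mem _ hz)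
  · rw [h_sub_left, h_add_left, h_smul_left, huz, div_mul_cancel₀ _ hzz]
    ring

theorem ND_ext2 (hq : QF F q) {U : Submodule F VV} (hU : ND q U) {a f : VV}
    (ha : a ∈ perp q U) (hf : f ∈ perp q U) (haa : hh a a = 0) (hff : hh f f = 0)
    (haf : hh a f = 1) :
    ND q (U ⊔ Submodule.span F {a} ⊔ Submodule.span F {f}) := by
  intro v
  obtain ⟨u, hu, hvu⟩ := hU v
  have hfa : hh f a = 1 := by rw [← h_conj hq a f, haf, map_one]
  have hua : hh u a = 0 := h_symm0 hq (ha u hu)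
  have huf : hh u f = 0 := h_symm0 hq (hf u hu)
  refine ⟨u + hh v f • a + hh v a • f, Submodule.add_mem _ (Submodule.mem_sup_left
    (Submodule.add_mem _ (Submodule.mem_sup_left hu)
      (Submodule.mem_sup_right (Submodule.smul_mem _ _ (Submodule.mem_span_singleton_self a)))))
    (Submodule.mem_sup_right (Submodule.smul_mem _ _ (Submodule.mem_span_singleton_self f))), ?_⟩
  rw [mem_perp_ext hq, mem_perp_ext hq]
  refine ⟨⟨?_, ?_⟩, ?_⟩
  · have e : v - (u + hh v f • a + hh v a • f) = (v - u) - hh v f • a - hh v a • f := by abel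
    rw [e]
    exact (perp q U).sub_mem ((perp q U).sub_mem hvu ((perp q U).smul_mem _ ha))
      ((perp q U).smul_mem _ hf)
  · rw [h_sub_left, h_add_left, h_add_left, h_smul_left, h_smul_left, hua, haa, hfa]
    ring
  · rw [h_sub_left, h_add_left, h_add_left, h_smul_left, h_smul_left, huf, haf, hff]
    ring

theorem finrank_ext_le (U : Submodule F VV) (z : VV) :
    Module.finrank F ↥(U ⊔ Submodule.span F {z}) ≤ Module.finrank F U + 1 := by
  have h1 := Submodule.finrank_add_le_finrank_add_finrank U (Submodule.span F {z})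
  have h2 : Module.finrank F ↥(Submodule.span F ({z} : Set VV)) ≤ 1 := by
    have h3 := finrank_span_le_card (R := F) ({z} : Set VV)
    simpa using h3
  omega

theorem finrank_perp_ge (hq : QF F q) (U : Submodule F VV) :
    n ≤ Module.finrank F U + Module.finrank F (perp q U) := by
  let b := Module.finBasis F U
  let f : VV →ₗ[F] (Fin (Module.finrank F U) → F) :=
    LinearMap.pi (fun i => hL n F q (b i : VV))
  have hker : LinearMap.ker f ≤ perp q U := by
    intro w hw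
    have hw' : ∀ i, hh w (b i : VV) = 0 := fun i => congrFun (LinearMap.mem_ker.1 hw) i
    have hS : (⊤ : Submodule F U) ≤ (perpR hq w).comap U.subtype := by
      rw [← b.span_eq, Submodule.span_le]
      rintro _ ⟨i, rfl⟩
      exact hw' i
    intro u hu
    exact hS (Submodule.mem_top : (⟨u, hu⟩ : U) ∈ (⊤ : Submodule F U))
  have h1 := LinearMap.finrank_range_add_finrank_ker f
  have h2 : Module.finrank F (LinearMap.range f) ≤ Module.finrank F U := by
    have h := Submodule.finrank_le (LinearMap.range f)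
    rw [Module.finrank_fin_fun] at h
    exact h
  have h3 := Submodule.finrank_mono hker
  have h4 : Module.finrank F VV = n := Module.finrank_fin_fun F
  omega

theorem inf_perp_of_nondeg (W : Submodule F VV)
    (hW : Cfsg.Geo.IsNondegenerateOn (Cfsg.hermForm n F q) W) : W ⊓ perp q W = ⊥ := by
  rw [eq_bot_iff]
  intro x hx
  obtain ⟨h1, h2⟩ := Submodule.mem_inf.1 hx
  rw [Submodule.mem_bot]
  by_contra hx0
  obtain ⟨-, y, hy, hxy⟩ := hW x h1 hx0
  exact hxy (h2 y hy)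

theorem ND_of_inf (hq : QF F q) (W : Submodule F VV) (hW : W ⊓ perp q W = ⊥) : ND q W := by
  have h1 := Submodule.finrank_sup_add_finrank_inf_eq W (perp q W)
  rw [hW, finrank_bot, add_zero] at h1
  have h2 := finrank_perp_ge hq W
  have h3 : Module.finrank F VV = n := Module.finrank_fin_fun F
  have h4 : W ⊔ perp q W = ⊤ := by
    apply Submodule.eq_top_of_finrank_eq
    have h5 := Submodule.finrank_le (W ⊔ perp q W)
    omega
  intro v
  have hv : v ∈ W ⊔ perp q W := by rw [h4]; exact Submodule.mem_top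
  obtain ⟨u, hu, p, hp, rfl⟩ := Submodule.mem_sup.1 hv
  refine ⟨u, hu, ?_⟩
  rw [add_sub_cancel_left]
  exact hp

/-- A subspace all of whose vectors are isotropic is totally isotropic. -/
theorem iso_total (hq : QF F q) (X : Submodule F VV) (h : ∀ y ∈ X, hh y y = 0) :
    ∀ y ∈ X, ∀ y' ∈ X, hh y y' = 0 := by
  intro y hy y' hy'
  obtain ⟨η, hη⟩ := hq.ex
  have h1 := h (y + y') (X.add_mem hy hy')
  have h2 := h (y + η • y') (X.add_mem hy (X.smul_mem η hy'))
  simp only [h_add_left, h_add_right hq, h_smul_left, h_smul_right hq, h y hy, h y' hy',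
    mul_zero, add_zero, zero_add] at h1 h2
  have h3 : (frob hq η - η) * hh y y' = 0 := by linear_combination h2 - η * h1
  rcases mul_eq_zero.1 h3 with h4 | h4
  · exact absurd (sub_eq_zero.1 h4) hη
  · exact h4

theorem exists_noniso (hq : QF F q) {U : Submodule F VV} (hU : ND q U)
    (hdim : Module.finrank F U < n) : ∃ y ∈ perp q U, hh y y ≠ 0 := by
  by_contra hcon
  have hall : ∀ y ∈ perp q U, hh y y = 0 := by
    intro y hy
    by_contra h
    exact hcon ⟨y, hy, h⟩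
  have htot := iso_total hq (perp q U) hall
  have hne : perp q U ≠ ⊥ := by
    intro h
    have h2 := finrank_perp_ge hq U
    rw [h, finrank_bot] at h2
    omega
  obtain ⟨y, hy, hy0⟩ := Submodule.exists_mem_ne_zero_of_ne_bot hne
  apply hy0
  apply h_nondeg hq y
  intro v
  obtain ⟨u, hu, hvu⟩ := hU v
  have e : v = u + (v - u) := by abel
  rw [e, h_add_right hq, (mem_perp U y).1 hy u hu, htot y hy (v - u) hvu, add_zero]

theorem exists_scale [Finite F] (hq : QF F q) (y : VV) (hy : hh y y ≠ 0) (c : F)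
    (hc : frob hq c = c) : ∃ m : F, hh (m • y) (m • y) = c := by
  have hfix : frobE hq (c / hh y y) = c / hh y y := by
    rw [frobE_apply, map_div₀, hc, h_conj hq]
  obtain ⟨m, hm⟩ := Cfsg.Agent.S5643.exists_norm (frobE hq) (isUF (n := n) hq).involutive
    (isUF (n := n) hq).ne_refl _ hfix
  refine ⟨m, ?_⟩
  rw [frobE_apply] at hm
  rw [h_smul_left, h_smul_right hq, ← mul_assoc, hm, div_mul_cancel₀ _ hy]

theorem exists_norm_vec [Finite F] (hq : QF F q) {U : Submodule F VV} (hU : ND q U)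
    (hdim : Module.finrank F U < n) (c : F) (hc : frob hq c = c) :
    ∃ y ∈ perp q U, hh y y = c := by
  obtain ⟨y, hy, hyy⟩ := exists_noniso hq hU hdim
  obtain ⟨m, hm⟩ := exists_scale hq y hyy c hc
  exact ⟨m • y, (perp q U).smul_mem m hy, hm⟩

theorem exists_partner (hq : QF F q) {U : Submodule F VV} (hU : ND q U) {a : VV}
    (ha : a ∈ perp q U) (ha0 : a ≠ 0) (haa : hh a a = 0) :
    ∃ f ∈ perp q U, hh f f = 0 ∧ hh a f = 1 := by
  obtain ⟨v, hv, hUv, hav⟩ := exists_iso_sep hq U a (fun h => ha0 (hU.inf_perp hq h ha))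
    (fun u hu => h_symm0 hq (ha u hu)) haa
  exact ⟨v, fun u hu => h_symm0 hq (hUv u hu), hv, hav⟩

theorem exists_iso_npair [Finite F] (hq : QF F q) {U : Submodule F VV} (hU : ND q U)
    (hdim : Module.finrank F U + 1 < n) {x : VV} (hx : x ∈ perp q U) (hx0 : x ≠ 0) :
    ∃ a ∈ perp q U, hh a a = 0 ∧ hh x a ≠ 0 := by
  by_cases hxx : hh x x = 0
  · obtain ⟨f, hf, hff, hxf⟩ := exists_partner hq hU hx hx0 hxx
    exact ⟨f, hf, hff, by rw [hxf]; exact one_ne_zero⟩
  · have hU1 := ND_ext1 hq hU hx hxx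
    have hd1 : Module.finrank F ↥(U ⊔ Submodule.span F {x}) < n := by
      have := finrank_ext_le U x
      omega
    obtain ⟨y, hy, hyy⟩ := exists_norm_vec hq hU1 hd1 (-(hh x x)) (by rw [map_neg, h_conj hq])
    obtain ⟨hyU, hyx⟩ := (mem_perp_ext hq U x y).1 hy
    have hxy : hh x y = 0 := h_symm0 hq hyx
    refine ⟨x + y, (perp q U).add_mem hx hyU, ?_, ?_⟩
    · rw [h_add_left, h_add_right hq, h_add_right hq, hxy, hyx, hyy]
      ring
    · rw [h_add_right hq, hxy, add_zero]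
      exact hxx

theorem beta_split (hq : QF F q) (u y : VV) (huy : hh u y = 0) (hyy : hh y y = - hh u u) :
    ∃ β c₁ c₂ : F, hh (u + y) (u + y) = 0 ∧ hh (u + β • y) (u + β • y) = 0 ∧
      c₁ • (u + y) + c₂ • (u + β • y) = u := by
  have hyu : hh y u = 0 := h_symm0 hq huy
  obtain ⟨η, hη⟩ := hq.ex
  have hη0 : η ≠ 0 := by
    rintro rfl
    exact hη (zero_pow hq.q0)
  have hfη : frob hq η ≠ η := hη
  have hfη0 : frob hq η ≠ 0 := (map_ne_zero (frob hq)).2 hη0
  obtain ⟨β, hβ⟩ : ∃ β : F, β = frob hq η / η := ⟨_, rfl⟩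
  have hβ1 : β - 1 ≠ 0 := by
    rw [hβ]
    intro h
    have h1 : frob hq η / η = 1 := sub_eq_zero.1 h
    rw [div_eq_one_iff_eq hη0] at h1
    exact hfη h1
  have hN : β * frob hq β = 1 := by
    rw [hβ, map_div₀, frob_frob, div_mul_div_comm, mul_comm η, div_self (mul_ne_zero hfη0 hη0)]
  refine ⟨β, β / (β - 1), -1 / (β - 1), ?_, ?_, ?_⟩
  · rw [h_add_left, h_add_right hq, h_add_right hq, huy, hyu, hyy]
    ring
  · simp only [h_add_left, h_add_right hq, h_smul_left, h_smul_right hq, huy, hyu, hyy,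
      mul_zero, add_zero, zero_add]
    linear_combination (- hh u u) * hN
  · have c1 : β / (β - 1) + -1 / (β - 1) = 1 := by
      rw [← add_div, ← sub_eq_add_neg, div_self hβ1]
    have c2 : β / (β - 1) + -1 / (β - 1) * β = 0 := by
      rw [div_mul_eq_mul_div, ← add_div, neg_one_mul, add_neg_cancel, zero_div]
    calc (β / (β - 1)) • (u + y) + (-1 / (β - 1)) • (u + β • y)
        = (β / (β - 1) + -1 / (β - 1)) • u + (β / (β - 1) + -1 / (β - 1) * β) • y := by
          module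
      _ = u := by rw [c1, c2, one_smul, zero_smul, add_zero]

theorem exists_iso_sum [Finite F] (hq : QF F q) {U : Submodule F VV} (hU : ND q U)
    (hdim : Module.finrank F U + 1 < n) {x : VV} (hx : x ∈ perp q U) :
    ∃ z₁ ∈ perp q U, ∃ z₂ ∈ perp q U, hh z₁ z₁ = 0 ∧ hh z₂ z₂ = 0 ∧ z₁ + z₂ = x := by
  by_cases hxx : hh x x = 0
  · exact ⟨x, hx, 0, (perp q U).zero_mem, hxx, h_zero_left 0, add_zero x⟩
  · have hU1 := ND_ext1 hq hU hx hxx
    have hd1 : Module.finrank F ↥(U ⊔ Submodule.span F {x}) < n := by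
      have := finrank_ext_le U x
      omega
    obtain ⟨y, hy, hyy⟩ := exists_norm_vec hq hU1 hd1 (-(hh x x)) (by rw [map_neg, h_conj hq])
    obtain ⟨hyU, hyx⟩ := (mem_perp_ext hq U x y).1 hy
    obtain ⟨β, c₁, c₂, h1, h2, h3⟩ := beta_split hq x y (h_symm0 hq hyx) hyy
    refine ⟨c₁ • (x + y), (perp q U).smul_mem _ ((perp q U).add_mem hx hyU),
      c₂ • (x + β • y),
      (perp q U).smul_mem _ ((perp q U).add_mem hx ((perp q U).smul_mem _ hyU)), ?_, ?_, h3⟩
    · rw [h_smul_left, h_smul_right hq, h1, mul_zero, mul_zero]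
    · rw [h_smul_left, h_smul_right hq, h2, mul_zero, mul_zero]

theorem exists_dec [Finite F] (hq : QF F q) {U : Submodule F VV} (hU : ND q U)
    (hdim : Module.finrank F U + 3 < n) {a : VV} (ha : a ∈ perp q U) (ha0 : a ≠ 0)
    (haa : hh a a = 0) {d : VV} (hd : d ∈ perp q U) (hda : hh d a = 0) :
    ∃ b₁ ∈ perp q U, ∃ b₂ ∈ perp q U, hh b₁ b₁ = 0 ∧ hh b₂ b₂ = 0 ∧ hh b₁ a = 0 ∧
      hh b₂ a = 0 ∧ b₁ + b₂ = d := by
  by_cases hdd : hh d d = 0
  · exact ⟨d, hd, 0, (perp q U).zero_mem, hdd, h_zero_left 0, hda, h_zero_left a, add_zero d⟩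
  · have had : hh a d = 0 := h_symm0 hq hda
    have hU1 := ND_ext1 hq hU hd hdd
    have ha1 : a ∈ perp q (U ⊔ Submodule.span F {d}) := (mem_perp_ext hq U d a).2 ⟨ha, had⟩
    obtain ⟨f, hf, hff, haf⟩ := exists_partner hq hU1 ha1 ha0 haa
    have hU3 := ND_ext2 hq hU1 ha1 hf haa hff haf
    have hd3 : Module.finrank F ↥(U ⊔ Submodule.span F {d} ⊔ Submodule.span F {a} ⊔
        Submodule.span F {f}) < n := by
      have h1 := finrank_ext_le U d
      have h2 := finrank_ext_le (U ⊔ Submodule.span F {d}) a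
      have h3 := finrank_ext_le (U ⊔ Submodule.span F {d} ⊔ Submodule.span F {a}) f
      omega
    obtain ⟨y, hy, hyy⟩ := exists_norm_vec hq hU3 hd3 (-(hh d d)) (by rw [map_neg, h_conj hq])
    obtain ⟨hy2, hyf⟩ := (mem_perp_ext hq _ f y).1 hy
    obtain ⟨hy1, hya⟩ := (mem_perp_ext hq _ a y).1 hy2
    obtain ⟨hyU, hyd⟩ := (mem_perp_ext hq U d y).1 hy1
    obtain ⟨β, c₁, c₂, h1, h2, h3⟩ := beta_split hq d y (h_symm0 hq hyd) hyy
    refine ⟨c₁ • (d + y), (perp q U).smul_mem _ ((perp q U).add_mem hd hyU),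
      c₂ • (d + β • y),
      (perp q U).smul_mem _ ((perp q U).add_mem hd ((perp q U).smul_mem _ hyU)),
      ?_, ?_, ?_, ?_, h3⟩
    · rw [h_smul_left, h_smul_right hq, h1, mul_zero, mul_zero]
    · rw [h_smul_left, h_smul_right hq, h2, mul_zero, mul_zero]
    · rw [h_smul_left, h_add_left, hda, hya, add_zero, mul_zero]
    · rw [h_smul_left, h_add_left, h_smul_left, hda, hya, mul_zero, add_zero, mul_zero]

theorem exists_noniso_in (hq : QF F q) {U W : Submodule F VV} (hU : ND q U) (hUW : U ≤ W)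
    (hW : W ⊓ perp q W = ⊥) (hne : U ≠ W) : ∃ w ∈ W, w ∈ perp q U ∧ hh w w ≠ 0 := by
  by_contra hcon
  have hall : ∀ y ∈ W ⊓ perp q U, hh y y = 0 := by
    intro y hy
    by_contra h
    exact hcon ⟨y, (Submodule.mem_inf.1 hy).1, (Submodule.mem_inf.1 hy).2, h⟩
  have htot := iso_total hq (W ⊓ perp q U) hall
  obtain ⟨w₀, hw₀W, hw₀U⟩ : ∃ w₀ ∈ W, w₀ ∉ U := by
    by_contra h
    apply hne
    apply le_antisymm hUW
    intro w hw
    by_contra h2
    exact h ⟨w, hw, h2⟩
  obtain ⟨u₀, hu₀, hp₀⟩ := hU w₀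
  have hy : w₀ - u₀ ∈ W ⊓ perp q U := Submodule.mem_inf.2 ⟨W.sub_mem hw₀W (hUW hu₀), hp₀⟩
  have hy0 : w₀ - u₀ ≠ 0 := by
    intro h
    apply hw₀U
    rw [sub_eq_zero.1 h]
    exact hu₀
  apply hy0
  have hmem : w₀ - u₀ ∈ W ⊓ perp q W := by
    refine Submodule.mem_inf.2 ⟨(Submodule.mem_inf.1 hy).1, ?_⟩
    intro w hw
    obtain ⟨u, hu, hp⟩ := hU w
    have e : w = u + (w - u) := by abel
    rw [e, h_add_right hq, (mem_perp U _).1 hp₀ u hu,
      htot _ hy (w - u) (Submodule.mem_inf.2 ⟨W.sub_mem hw (hUW hu), hp⟩), add_zero]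
  rw [hW] at hmem
  exact (Submodule.mem_bot F).1 hmem

theorem exists_iso_sum_in [Finite F] (hq : QF F q) {W : Submodule F VV}
    (hW : W ⊓ perp q W = ⊥) (h2 : 2 ≤ Module.finrank F W) {w : VV} (hw : w ∈ W) :
    ∃ v₁ ∈ W, ∃ v₂ ∈ W, hh v₁ v₁ = 0 ∧ hh v₂ v₂ = 0 ∧ v₁ + v₂ = w := by
  by_cases hww : hh w w = 0
  · exact ⟨w, hw, 0, W.zero_mem, hww, h_zero_left 0, add_zero w⟩
  · have hU1 : ND q (⊥ ⊔ Submodule.span F {w}) := ND_ext1 hq (ND_bot hq)
      (fun u hu => by rw [(Submodule.mem_bot F).1 hu]; exact h_zero_right hq w) hww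
    rw [bot_sup_eq] at hU1
    have hle : Submodule.span F {w} ≤ W := (Submodule.span_singleton_le_iff_mem w W).2 hw
    have hne : Submodule.span F {w} ≠ W := by
      intro h
      have h3 := finrank_ext_le (⊥ : Submodule F VV) w
      rw [bot_sup_eq, finrank_bot, h] at h3
      omega
    obtain ⟨y₀, hy₀W, hy₀p, hy₀⟩ := exists_noniso_in hq hU1 hle hW hne
    obtain ⟨m, hm⟩ := exists_scale hq y₀ hy₀ (-(hh w w)) (by rw [map_neg, h_conj hq])
    have hyw : hh (m • y₀) w = 0 := by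
      rw [h_smul_left, (mem_perp _ _).1 hy₀p w (Submodule.mem_span_singleton_self w), mul_zero]
    obtain ⟨β, c₁, c₂, h1, h2', h3⟩ := beta_split hq w (m • y₀) (h_symm0 hq hyw) hm
    refine ⟨c₁ • (w + m • y₀), W.smul_mem _ (W.add_mem hw (W.smul_mem _ hy₀W)),
      c₂ • (w + β • m • y₀),
      W.smul_mem _ (W.add_mem hw (W.smul_mem _ (W.smul_mem _ hy₀W))), ?_, ?_, h3⟩
    · rw [h_smul_left, h_smul_right hq, h1, mul_zero, mul_zero]
    · rw [h_smul_left, h_smul_right hq, h2', mul_zero, mul_zero]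

theorem exists_two [Finite F] (hq : QF F q) {U : Submodule F VV} (hU : ND q U)
    (hdim : Module.finrank F U + 5 < n) (α₁ α₂ s : F) (hα₁ : frob hq α₁ = α₁)
    (hα₂ : frob hq α₂ = α₂) :
    ∃ b₁ ∈ perp q U, ∃ b₂ ∈ perp q U, hh b₁ b₁ = α₁ ∧ hh b₂ b₂ = α₂ ∧ hh b₁ b₂ = s ∧
      b₁ ≠ 0 ∧ b₂ ≠ 0 ∧ b₁ + b₂ ≠ 0 := by
  obtain ⟨z, hz, hzz⟩ := exists_noniso hq hU (by omega)
  have hz0 : z ≠ 0 := by
    rintro rfl
    exact hzz (h_zero_left 0)
  obtain ⟨e₁, he₁, he₁e₁, hze₁⟩ := exists_iso_npair hq hU (by omega) hz hz0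
  have he₁0 : e₁ ≠ 0 := by
    rintro rfl
    exact hze₁ (h_zero_right hq z)
  obtain ⟨f₁, hf₁, hf₁f₁, he₁f₁⟩ := exists_partner hq hU he₁ he₁0 he₁e₁
  have hU2 := ND_ext2 hq hU he₁ hf₁ he₁e₁ hf₁f₁ he₁f₁
  have hd2 : Module.finrank F ↥(U ⊔ Submodule.span F {e₁} ⊔ Submodule.span F {f₁}) + 1 < n := by
    have h1 := finrank_ext_le U e₁
    have h2 := finrank_ext_le (U ⊔ Submodule.span F {e₁}) f₁
    omega
  obtain ⟨z', hz', hz'z'⟩ := exists_noniso hq hU2 (by omega)
  have hz'0 : z' ≠ 0 := by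
    rintro rfl
    exact hz'z' (h_zero_left 0)
  obtain ⟨e₂, he₂, he₂e₂, hz'e₂⟩ := exists_iso_npair hq hU2 hd2 hz' hz'0
  have he₂0 : e₂ ≠ 0 := by
    rintro rfl
    exact hz'e₂ (h_zero_right hq z')
  obtain ⟨f₂, hf₂, hf₂f₂, he₂f₂⟩ := exists_partner hq hU2 he₂ he₂0 he₂e₂
  obtain ⟨he₂', he₂f₁⟩ := (mem_perp_ext hq _ f₁ e₂).1 he₂
  obtain ⟨he₂U, he₂e₁⟩ := (mem_perp_ext hq U e₁ e₂).1 he₂'
  obtain ⟨hf₂', hf₂f₁⟩ := (mem_perp_ext hq _ f₁ f₂).1 hf₂
  obtain ⟨hf₂U, hf₂e₁⟩ := (mem_perp_ext hq U e₁ f₂).1 hf₂'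
  obtain ⟨τ₁, hτ₁⟩ := exists_tr hq α₁ hα₁
  obtain ⟨τ₂, hτ₂⟩ := exists_tr hq α₂ hα₂
  have hf₁e₁ : hh f₁ e₁ = 1 := by rw [← h_conj hq e₁ f₁, he₁f₁, map_one]
  have hf₂e₂ : hh f₂ e₂ = 1 := by rw [← h_conj hq e₂ f₂, he₂f₂, map_one]
  have he₁e₂ := h_symm0 hq he₂e₁
  have hf₁e₂ := h_symm0 hq he₂f₁
  have he₁f₂ := h_symm0 hq hf₂e₁
  have hf₁f₂ := h_symm0 hq hf₂f₁
  refine ⟨e₁ + τ₁ • f₁, (perp q U).add_mem he₁ ((perp q U).smul_mem _ hf₁),
    frob hq s • f₁ + e₂ + τ₂ • f₂,
    (perp q U).add_mem ((perp q U).add_mem ((perp q U).smul_mem _ hf₁) he₂U)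
      ((perp q U).smul_mem _ hf₂U), ?_, ?_, ?_, ?_, ?_, ?_⟩
  · simp only [h_add_left, h_add_right hq, h_smul_left, h_smul_right hq, he₁e₁, hf₁f₁, he₁f₁,
      hf₁e₁, mul_zero, mul_one, add_zero, zero_add]
    linear_combination hτ₁
  · simp only [h_add_left, h_add_right hq, h_smul_left, h_smul_right hq, he₂e₂, hf₂f₂, he₂f₂,
      hf₂e₂, hf₁f₁, hf₁e₂, he₂f₁, hf₁f₂, hf₂f₁, mul_zero, mul_one, add_zero, zero_add]
    linear_combination hτ₂
  · simp only [h_add_left, h_add_right hq, h_smul_left, h_smul_right hq, he₁e₁, hf₁f₁, he₁f₁,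
      hf₁e₁, he₁e₂, he₁f₂, hf₁e₂, hf₁f₂, frob_frob, mul_zero, mul_one, add_zero, zero_add]
  · intro h
    have h1 : hh (e₁ + τ₁ • f₁) f₁ = 1 := by
      rw [h_add_left, h_smul_left, he₁f₁, hf₁f₁, mul_zero, add_zero]
    rw [h, h_zero_left] at h1
    exact zero_ne_one h1
  · intro h
    have h1 : hh (frob hq s • f₁ + e₂ + τ₂ • f₂) f₂ = 1 := by
      rw [h_add_left, h_add_left, h_smul_left, h_smul_left, hf₁f₂, he₂f₂, hf₂f₂, mul_zero,
        mul_zero, zero_add, add_zero]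
    rw [h, h_zero_left] at h1
    exact zero_ne_one h1
  · intro h
    have h1 : hh (e₁ + τ₁ • f₁ + (frob hq s • f₁ + e₂ + τ₂ • f₂)) f₂ = 1 := by
      simp only [h_add_left, h_smul_left, he₁f₂, hf₁f₂, he₂f₂, hf₂f₂, mul_zero, add_zero,
        zero_add]
    rw [h, h_zero_left] at h1
    exact zero_ne_one h1

end Cfsg.Agent.Helper8.SUNd
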