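import Mathlib
import Cfsg.Prelude.Def_GeometricClasses
import Cfsg.Agent.Helper8.SUNd1

/-!
# Transitivity of unitary transvections relative to a non-degenerate subspace

For a non-degenerate subspace `U` with enough room, the transvections with centres orthogonal
to `U` act transitively on the non-zero vectors of `perp U` of each given norm (fixing `U`
pointwise).  Consequently a group containing all transvections and the stabiliser of a
non-degenerate subspace `W` is all of `SU`.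
-/

set_option autoImplicit false

namespace Cfsg.Agent.Helper8.SUNd

open Matrix Cfsg.Agent.Helper2 Cfsg.Agent.Helper8.SULag

variable {F : Type*} [Field F] {n q : ℕ}

local notation "VV" => (Fin n → F)
local notation "MM" => Matrix (Fin n) (Fin n) F
local notation "GG" => Matrix.GeneralLinearGroup (Fin n) F
local notation "hh" => Cfsg.hermForm n F q

/-- `T` contains the transvections with centres in `perp U`. -/
def HasTv (hq : QF F q) (U : Submodule F (Fin n → F))
    (T : Subgroup (Matrix.GeneralLinearGroup (Fin n) F)) : Prop :=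
  ∀ (v : Fin n → F) (c : F), v ∈ perp q U → Cfsg.hermForm n F q v v = 0 → frob hq c = -c →
    tvU n q v c ∈ T

theorem tv_fix (hq : QF F q) {U : Submodule F VV} {v : VV} (hv : v ∈ perp q U)
    (hvv : hh v v = 0) (c : F) {u : VV} (hu : u ∈ U) :
    ((tvU n q v c : GG) : MM) *ᵥ u = u := by
  rw [tvU_mulVec v hvv, h_symm0 hq (hv u hu), mul_zero, zero_smul, add_zero]

theorem RU_fix (hq : QF F q) {U : Submodule F VV} {a b : VV} (ha : a ∈ perp q U)
    (hb : b ∈ perp q U) (haa : hh a a = 0) (hbb : hh b b = 0) (hab : hh a b = 0) (l : F)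
    {u : VV} (hu : u ∈ U) : ((RU hq n a b l : GG) : MM) *ᵥ u = u := by
  rw [RU_apply hq a b haa hbb hab, h_symm0 hq (ha u hu), h_symm0 hq (hb u hu), mul_zero,
    mul_zero, zero_smul, zero_smul, add_zero, sub_zero]

theorem RU_mem_T (hq : QF F q) {U : Submodule F VV} {T : Subgroup GG} (hT : HasTv hq U T)
    {a b : VV} (ha : a ∈ perp q U) (hb : b ∈ perp q U) (haa : hh a a = 0) (hbb : hh b b = 0)
    (hab : hh a b = 0) (l : F) : RU hq n a b l ∈ T := by
  unfold RU rhoU
  have hc' : frob hq (-(skew0 hq)) = -(-(skew0 hq)) := by rw [map_neg, skew0_frob]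
  refine T.mul_mem (T.mul_mem (hT _ _ ?_ ?_ (skew0_frob hq)) (hT _ _ ha haa hc'))
    (hT _ _ ?_ ?_ hc')
  · exact (perp q U).add_mem ha ((perp q U).smul_mem _ hb)
  · simp only [h_add_left, h_add_right hq, h_smul_left, h_smul_right hq, haa, hbb, hab,
      h_symm0 hq hab, mul_zero, add_zero]
  · exact (perp q U).smul_mem _ hb
  · rw [h_smul_left, h_smul_right hq, hbb, mul_zero, mul_zero]

/-- Transitivity of the unipotent radical at an isotropic point `a`. -/
theorem qt [Finite F] (hq : QF F q) {U : Submodule F VV} (hU : ND q U)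
    (hdim : Module.finrank F U + 3 < n) {T : Subgroup GG} (hT : HasTv hq U T)
    {a : VV} (ha : a ∈ perp q U) (haa : hh a a = 0) {x x' : VV} (hd : x' - x ∈ perp q U)
    (hxa : hh x a ≠ 0) (hx'a : hh x' a = hh x a) (hN : hh x' x' = hh x x) :
    ∃ t ∈ T, (∀ u ∈ U, ((t : GG) : MM) *ᵥ u = u) ∧ ((t : GG) : MM) *ᵥ x = x' := by
  have ha0 : a ≠ 0 := by
    rintro rfl
    exact hxa (h_zero_right hq x)
  have hda : hh (x' - x) a = 0 := by rw [h_sub_left, hx'a, sub_self]
  obtain ⟨b₁, hb₁, b₂, hb₂, hb₁b₁, hb₂b₂, hb₁a, hb₂a, hsum⟩ :=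
    exists_dec hq hU hdim ha ha0 haa hd hda
  have hab₁ := h_symm0 hq hb₁a
  have hab₂ := h_symm0 hq hb₂a
  obtain ⟨m₁, hm₁⟩ : ∃ m₁ : F, m₁ = frob hq (hh x a)⁻¹ * hh x b₁ := ⟨_, rfl⟩
  have e1 : ((RU hq n a b₁ (hh x a)⁻¹ : GG) : MM) *ᵥ x = x + b₁ - m₁ • a := by
    rw [RU_apply hq a b₁ haa hb₁b₁ hab₁, inv_mul_cancel₀ hxa, one_smul, hm₁]
  have e2 : hh (x + b₁ - m₁ • a) a = hh x a := by
    rw [h_sub_left, h_add_left, h_smul_left, hb₁a, haa, mul_zero, add_zero, sub_zero]
  obtain ⟨m₂, hm₂⟩ : ∃ m₂ : F, m₂ = frob hq (hh x a)⁻¹ * hh (x + b₁ - m₁ • a) b₂ := ⟨_, rfl⟩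
  obtain ⟨μ, hμ⟩ : ∃ μ : F, μ = -(m₁ + m₂) := ⟨_, rfl⟩
  have e3 : ((RU hq n a b₂ (hh x a)⁻¹ : GG) : MM) *ᵥ (x + b₁ - m₁ • a) = x' + μ • a := by
    rw [RU_apply hq a b₂ haa hb₂b₂ hab₂, e2, inv_mul_cancel₀ hxa, one_smul, ← hm₂, hμ]
    have e : x' = x + (b₁ + b₂) := by rw [hsum]; abel
    rw [e]
    module
  have hax' : hh a x' = frob hq (hh x a) := by rw [← hx'a, h_conj hq]
  have hnorm : hh (x' + μ • a) (x' + μ • a) = hh x x := by
    rw [← e3, ← e1, h_map (RU_mem_gu hq a b₂ _), h_map (RU_mem_gu hq a b₁ _)]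
  have hsk : μ * frob hq (hh x a) + frob hq μ * hh x a = 0 := by
    simp only [h_add_left, h_add_right hq, h_smul_left, h_smul_right hq, haa, hx'a, hax', hN,
      mul_zero, add_zero] at hnorm
    linear_combination hnorm
  obtain ⟨c, hc⟩ : ∃ c : F, c = -μ / hh x a := ⟨_, rfl⟩
  have hfρ : frob hq (hh x a) ≠ 0 := (map_ne_zero (frob hq)).2 hxa
  have hcsk : frob hq c = -c := by
    rw [hc, map_div₀, map_neg, div_eq_iff hfρ, neg_div, neg_neg, div_mul_eq_mul_div,
      eq_div_iff hxa]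
    linear_combination (-1 : F) * hsk
  have e4 : ((tvU n q a c : GG) : MM) *ᵥ (x' + μ • a) = x' := by
    rw [tvU_mulVec a haa, h_add_left, h_smul_left, haa, mul_zero, add_zero, hx'a, hc,
      div_mul_cancel₀ _ hxa]
    module
  refine ⟨tvU n q a c * RU hq n a b₂ (hh x a)⁻¹ * RU hq n a b₁ (hh x a)⁻¹,
    T.mul_mem (T.mul_mem (hT a c ha haa hcsk) (RU_mem_T hq hT ha hb₂ haa hb₂b₂ hab₂ _))
      (RU_mem_T hq hT ha hb₁ haa hb₁b₁ hab₁ _), ?_, ?_⟩
  · intro u hu
    rw [Units.val_mul, Units.val_mul, ← Matrix.mulVec_mulVec, ← Matrix.mulVec_mulVec,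
      RU_fix hq ha hb₁ haa hb₁b₁ hab₁ _ hu, RU_fix hq ha hb₂ haa hb₂b₂ hab₂ _ hu,
      tv_fix hq ha haa c hu]
  · rw [Units.val_mul, Units.val_mul, ← Matrix.mulVec_mulVec, ← Matrix.mulVec_mulVec, e1, e3, e4]

theorem dep_of_smul {x x' d : VV} (hx'd : x' = x + d) {s : F} (h : s • d = x) (hx0 : x ≠ 0) :
    ∃ r : F, x' = r • x := by
  have hs0 : s ≠ 0 := by
    rintro rfl
    rw [zero_smul] at h
    exact hx0 h.symm
  refine ⟨1 + s⁻¹, ?_⟩
  have hd : d = s⁻¹ • x := by rw [← h, smul_smul, inv_mul_cancel₀ hs0, one_smul]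
  rw [hx'd, add_smul, one_smul, ← hd]

theorem rt_indep [Finite F] (hq : QF F q) {U : Submodule F VV} (hU : ND q U)
    (hdim : Module.finrank F U + 4 < n) {T : Subgroup GG} (hT : HasTv hq U T)
    {x x' : VV} (hx : x ∈ perp q U) (hx' : x' ∈ perp q U) (hx0 : x ≠ 0)
    (hN : hh x' x' = hh x x) (hind : ∀ s : F, x' ≠ s • x) :
    ∃ t ∈ T, (∀ u ∈ U, ((t : GG) : MM) *ᵥ u = u) ∧ ((t : GG) : MM) *ᵥ x = x' := by
  obtain ⟨d, hd⟩ : ∃ d : VV, d = x' - x := ⟨_, rfl⟩
  have hdU : d ∈ perp q U := by rw [hd]; exact (perp q U).sub_mem hx' hx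
  have hx'd : x' = x + d := by rw [hd]; abel
  have hdmem : x' - x ∈ perp q U := by rw [← hd]; exact hdU
  have hd0 : d ≠ 0 := by
    intro h
    apply hind 1
    rw [one_smul, hx'd, h, add_zero]
  by_cases hdd : hh d d = 0
  · by_cases hxd : hh x d = 0
    · have hdx : hh d x = 0 := h_symm0 hq hxd
      by_cases hxx : hh x x = 0
      · have hxnot : x ∉ U ⊔ Submodule.span F {d} := by
          intro h
          obtain ⟨u, hu, p, hp, hup⟩ := Submodule.mem_sup.1 h
          obtain ⟨s, rfl⟩ := Submodule.mem_span_singleton.1 hp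
          have hu0 : u = 0 := by
            apply hU.inf_perp hq hu
            have e : u = x - s • d := by rw [← hup]; abel
            rw [e]
            exact (perp q U).sub_mem hx ((perp q U).smul_mem _ hdU)
          rw [hu0, zero_add] at hup
          obtain ⟨r, hr⟩ := dep_of_smul hx'd hup hx0
          exact hind r hr
        obtain ⟨a, haa, hUa, hxa⟩ := exists_iso_sep hq (U ⊔ Submodule.span F {d}) x hxnot
          (fun u hu => h_symm0 hq (((mem_perp_ext hq U d x).2 ⟨hx, hxd⟩) u hu)) hxx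
        have ha1 : a ∈ perp q (U ⊔ Submodule.span F {d}) := fun u hu => h_symm0 hq (hUa u hu)
        obtain ⟨haU, had⟩ := (mem_perp_ext hq U d a).1 ha1
        have hda := h_symm0 hq had
        exact qt hq hU (by omega) hT haU haa hdmem (by rw [hxa]; exact one_ne_zero)
          (by rw [hx'd, h_add_left, hda, add_zero]) hN
      · have hU1 := ND_ext1 hq hU hx hxx
        have hd1 : d ∈ perp q (U ⊔ Submodule.span F {x}) := (mem_perp_ext hq U x d).2 ⟨hdU, hdx⟩
        obtain ⟨f, hf, hff, hdf⟩ := exists_partner hq hU1 hd1 hd0 hdd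
        have hU3 := ND_ext2 hq hU1 hd1 hf hdd hff hdf
        have hdim3 : Module.finrank F ↥(U ⊔ Submodule.span F {x} ⊔ Submodule.span F {d} ⊔
            Submodule.span F {f}) < n := by
          have h1 := finrank_ext_le U x
          have h2 := finrank_ext_le (U ⊔ Submodule.span F {x}) d
          have h3 := finrank_ext_le (U ⊔ Submodule.span F {x} ⊔ Submodule.span F {d}) f
          omega
        obtain ⟨y, hy, hyy⟩ := exists_norm_vec hq hU3 hdim3 (-(hh x x))
          (by rw [map_neg, h_conj hq])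
        obtain ⟨hy2, hyf⟩ := (mem_perp_ext hq _ f y).1 hy
        obtain ⟨hy1, hyd⟩ := (mem_perp_ext hq _ d y).1 hy2
        obtain ⟨hyU, hyx⟩ := (mem_perp_ext hq U x y).1 hy1
        have hxy := h_symm0 hq hyx
        have haU : x + y ∈ perp q U := (perp q U).add_mem hx hyU
        have haa : hh (x + y) (x + y) = 0 := by
          rw [h_add_left, h_add_right hq, h_add_right hq, hxy, hyx, hyy]
          ring
        have hxa : hh x (x + y) = hh x x := by rw [h_add_right hq, hxy, add_zero]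
        have hda : hh d (x + y) = 0 := by rw [h_add_right hq, hdx, h_symm0 hq hyd, add_zero]
        exact qt hq hU (by omega) hT haU haa hdmem (by rw [hxa]; exact hxx)
          (by rw [hx'd, h_add_left, hda, add_zero]) hN
    · have hsk : frob hq (hh x d) = - hh x d := by
        have h1 := hN
        rw [hx'd, h_add_left, h_add_right hq, h_add_right hq, hdd, add_zero] at h1
        rw [h_conj hq]
        linear_combination h1
      refine ⟨tvU n q d (hh x d)⁻¹, hT d _ hdU hdd (by rw [map_inv₀, hsk, inv_neg]),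
        fun u hu => tv_fix hq hdU hdd _ hu, ?_⟩
      rw [tvU_mulVec d hdd, inv_mul_cancel₀ hxd, one_smul, hx'd]
  · have hU1 := ND_ext1 hq hU hdU hdd
    obtain ⟨x₀, hx₀⟩ : ∃ x₀ : VV, x₀ = x - (hh x d / hh d d) • d := ⟨_, rfl⟩
    have hx₀U : x₀ ∈ perp q (U ⊔ Submodule.span F {d}) := by
      rw [mem_perp_ext hq, hx₀]
      refine ⟨(perp q U).sub_mem hx ((perp q U).smul_mem _ hdU), ?_⟩
      rw [h_sub_left, h_smul_left, div_mul_cancel₀ _ hdd, sub_self]
    have hx₀0 : x₀ ≠ 0 := by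
      intro h
      rw [hx₀, sub_eq_zero] at h
      obtain ⟨r, hr⟩ := dep_of_smul hx'd h.symm hx0
      exact hind r hr
    have hdim1 : Module.finrank F ↥(U ⊔ Submodule.span F {d}) + 1 < n := by
      have := finrank_ext_le U d
      omega
    obtain ⟨a, ha1, haa, hx₀a⟩ := exists_iso_npair hq hU1 hdim1 hx₀U hx₀0
    obtain ⟨haU, had⟩ := (mem_perp_ext hq U d a).1 ha1
    have hda := h_symm0 hq had
    have hxa : hh x a = hh x₀ a := by
      rw [hx₀, h_sub_left, h_smul_left, hda, mul_zero, sub_zero]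
    exact qt hq hU (by omega) hT haU haa hdmem (by rw [hxa]; exact hx₀a)
      (by rw [hx'd, h_add_left, hda, add_zero]) hN

/-- **Relative transitivity**: the transvections with centres in `perp U` are transitive on
the non-zero vectors of `perp U` of a given norm. -/
theorem rt [Finite F] (hq : QF F q) {U : Submodule F VV} (hU : ND q U)
    (hdim : Module.finrank F U + 4 < n) {T : Subgroup GG} (hT : HasTv hq U T)
    {x x' : VV} (hx : x ∈ perp q U) (hx' : x' ∈ perp q U) (hx0 : x ≠ 0) (hx'0 : x' ≠ 0)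
    (hN : hh x' x' = hh x x) :
    ∃ t ∈ T, (∀ u ∈ U, ((t : GG) : MM) *ᵥ u = u) ∧ ((t : GG) : MM) *ᵥ x = x' := by
  by_cases hdep : ∃ s : F, x' = s • x
  · obtain ⟨s, hs⟩ := hdep
    obtain ⟨v, hv, hvv, hxv⟩ := exists_iso_npair hq hU (by omega) hx hx0
    obtain ⟨x'', hx''⟩ : ∃ x'' : VV, x'' = ((tvU n q v (skew0 hq) : GG) : MM) *ᵥ x := ⟨_, rfl⟩
    have hx''e : x'' = x + (skew0 hq * hh x v) • v := by rw [hx'', tvU_mulVec v hvv]
    have hc0 : skew0 hq * hh x v ≠ 0 := mul_ne_zero (skew0_ne hq) hxv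
    have hx''U : x'' ∈ perp q U := by
      rw [hx''e]
      exact (perp q U).add_mem hx ((perp q U).smul_mem _ hv)
    have hx''N : hh x'' x'' = hh x x := by
      rw [hx'', h_map (tvU_mem_gu hq v _ (skew0_frob hq))]
    have hnot : ∀ r : F, x'' ≠ r • x := by
      intro r hr
      have h1 : (skew0 hq * hh x v) • v = (r - 1) • x := by
        rw [sub_smul, one_smul, ← hr, hx''e]
        abel
      obtain ⟨k, hk⟩ : ∃ k : F, k = (skew0 hq * hh x v)⁻¹ * (r - 1) := ⟨_, rfl⟩
      have h2 : v = k • x := by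
        rw [hk, ← smul_smul, ← h1, smul_smul, inv_mul_cancel₀ hc0, one_smul]
      have h4 : k * hh x v = 0 := by
        have h5 := hvv
        rw [h2, h_smul_left] at h5
        rw [h2]
        exact h5
      rcases mul_eq_zero.1 h4 with h6 | h6
      · apply hxv
        rw [h2, h6, zero_smul, h_zero_right hq]
      · exact hxv h6
    have hx''0 : x'' ≠ 0 := by
      intro h
      exact hnot 0 (by rw [h, zero_smul])
    have hind : ∀ r : F, x' ≠ r • x'' := by
      intro r hr
      have hr0 : r ≠ 0 := by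
        rintro rfl
        rw [zero_smul] at hr
        exact hx'0 hr
      apply hnot (r⁻¹ * s)
      rw [← smul_smul, ← hs, hr, smul_smul, inv_mul_cancel₀ hr0, one_smul]
    obtain ⟨t, htT, htU, htx⟩ := rt_indep hq hU hdim hT hx''U hx' hx''0 (by rw [hN, hx''N]) hind
    refine ⟨t * tvU n q v (skew0 hq), T.mul_mem htT (hT v _ hv hvv (skew0_frob hq)),
      fun u hu => ?_, ?_⟩
    · rw [Units.val_mul, ← Matrix.mulVec_mulVec, tv_fix hq hv hvv _ hu, htU u hu]
    · rw [Units.val_mul, ← Matrix.mulVec_mulVec, ← hx'', htx]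
  · exact rt_indep hq hU hdim hT hx hx' hx0 hN (fun s hs => hdep ⟨s, hs⟩)

/-- Moving an isometric image of `W` back to `W` pointwise, along an orthogonal chain. -/
theorem chain [Finite F] (hq : QF F q) {W : Submodule F VV} (hW : W ⊓ perp q W = ⊥)
    (hroom : ∀ U : Submodule F VV, U ≤ W → U ≠ W → Module.finrank F U + 4 < n)
    (T : Subgroup GG)
    (hT : ∀ (v : VV) (c : F), hh v v = 0 → frob hq c = -c → tvU n q v c ∈ T)
    (hTG : T ≤ Cfsg.GU n F q) :
    ∀ d : ℕ, ∀ U : Submodule F VV, ND q U → U ≤ W →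
      Module.finrank F W ≤ Module.finrank F U + d → ∀ g : GG, g ∈ Cfsg.GU n F q →
      (∀ u ∈ U, (g : MM) *ᵥ u = u) → ∃ t ∈ T, ∀ w ∈ W, ((t * g : GG) : MM) *ᵥ w = w := by
  intro d
  induction d with
  | zero =>
    intro U hU hUW hfin g hg hfix
    have hUeq : U = W := Submodule.eq_of_le_of_finrank_le hUW (by omega)
    refine ⟨1, T.one_mem, fun w hw => ?_⟩
    rw [one_mul]
    exact hfix w (by rw [hUeq]; exact hw)
  | succ d ih =>
    intro U hU hUW hfin g hg hfix
    by_cases hUeq : U = W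
    · exact ⟨1, T.one_mem, fun w hw => by rw [one_mul]; exact hfix w (by rw [hUeq]; exact hw)⟩
    · obtain ⟨w, hwW, hwU, hww⟩ := exists_noniso_in hq hU hUW hW hUeq
      have hw0 : w ≠ 0 := by
        rintro rfl
        exact hww (h_zero_left 0)
      have hgw : (g : MM) *ᵥ w ∈ perp q U := by
        intro u hu
        have h1 := h_map hg w u
        rw [hfix u hu] at h1
        rw [h1]
        exact hwU u hu
      have hgw0 : (g : MM) *ᵥ w ≠ 0 := by
        intro h
        apply hww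
        rw [← h_map hg w w, h, h_zero_left]
      have hTU : HasTv hq U T := fun v c _ hvv hc => hT v c hvv hc
      obtain ⟨t₁, ht₁, ht₁U, ht₁w⟩ := rt hq hU (hroom U hUW hUeq) hTU hgw hwU hgw0 hw0
        (by rw [h_map hg])
      have hU1 := ND_ext1 hq hU hwU hww
      have hU1W : U ⊔ Submodule.span F {w} ≤ W :=
        sup_le hUW ((Submodule.span_singleton_le_iff_mem w W).2 hwW)
      have hlt : U < U ⊔ Submodule.span F {w} := by
        apply lt_of_le_of_ne le_sup_left
        intro h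
        have hwin : w ∈ U := by
          rw [h]
          exact Submodule.mem_sup_right (Submodule.mem_span_singleton_self w)
        exact hw0 (hU.inf_perp hq hwin hwU)
      have hfin1 := Submodule.finrank_lt_finrank_of_lt hlt
      have hfix1 : ∀ u ∈ U ⊔ Submodule.span F {w}, ((t₁ * g : GG) : MM) *ᵥ u = u := by
        intro u hu
        obtain ⟨u1, hu1, u2, hu2, rfl⟩ := Submodule.mem_sup.1 hu
        obtain ⟨c, rfl⟩ := Submodule.mem_span_singleton.1 hu2
        rw [Units.val_mul, ← Matrix.mulVec_mulVec, Matrix.mulVec_add, Matrix.mulVec_smul,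
          hfix u1 hu1, Matrix.mulVec_add, Matrix.mulVec_smul, ht₁U u1 hu1, ht₁w]
      obtain ⟨t₂, ht₂, ht₂W⟩ := ih (U ⊔ Submodule.span F {w}) hU1 hU1W (by omega) (t₁ * g)
        (Subgroup.mul_mem _ (hTG ht₁) hg) hfix1
      refine ⟨t₂ * t₁, T.mul_mem ht₂ ht₁, fun w' hw' => ?_⟩
      rw [mul_assoc]
      exact ht₂W w' hw'

/-- A subgroup containing all unitary transvections and the stabiliser in `SU` of a
non-degenerate subspace of dimension less than `n / 2` contains `SU`. -/
theorem su_le_of_tt [Finite F] (hq : QF F q) (hn : 13 ≤ n) (W : Submodule F VV)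
    (hW : W ⊓ perp q W = ⊥) (hdim : 2 * Module.finrank F W < n) (K : Subgroup GG)
    (hK : Cfsg.Geo.subspaceStabilizer W ⊓
      (Cfsg.GU n F q ⊓ Cfsg.Geo.specialLinear (Fin n) F) ≤ K)
    (hall : ∀ z : VV, hh z z = 0 → z ∈ TK hq K) :
    Cfsg.GU n F q ⊓ Cfsg.Geo.specialLinear (Fin n) F ≤ K := by
  have hTT : TT hq n ≤ K := TT_le_of hq hall
  intro g hg
  have hroom : ∀ U : Submodule F VV, U ≤ W → U ≠ W → Module.finrank F U + 4 < n := by
    intro U hUW hne
    have := Submodule.finrank_lt_finrank_of_lt (lt_of_le_of_ne hUW hne)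
    omega
  obtain ⟨t, ht, htW⟩ := chain hq hW hroom (TT hq n) (fun v c hv hc => TT_mem hq v c hv hc)
    (le_trans (TT_le hq) inf_le_left) (Module.finrank F W) ⊥ (ND_bot hq) bot_le
    (by rw [finrank_bot, zero_add]) g (Subgroup.mem_inf.1 hg).1
    (fun u hu => by rw [(Submodule.mem_bot F).1 hu, Matrix.mulVec_zero])
  have h1 : t * g ∈ K := by
    apply hK
    refine Subgroup.mem_inf.2 ⟨?_, Subgroup.mul_mem _ (TT_le hq ht) hg⟩
    show t * g ∈ Cfsg.stabilizing (Cfsg.glToMat (Fin n) F) (W : Set VV)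
    exact Parab.stab_of_fix (W : Set VV) (t * g) htW
  have h2 : g = t⁻¹ * (t * g) := by group
  rw [h2]
  exact K.mul_mem (K.inv_mem (hTT ht)) h1

end Cfsg.Agent.Helper8.SUNd
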