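import Mathlib
import Cfsg.Prelude.Def_GeometricClasses
import Cfsg.Agent.Helper8.SUNd2

/-!
# The stabiliser of a non-degenerate subspace in `SU_n(q)`

The closure argument: a subgroup `K` of `SU` containing the stabiliser of a non-degenerate
subspace `W` (of dimension less than `n / 2`) and an element not stabilising `W` contains all
unitary transvections, hence is `SU`.
-/

set_option autoImplicit false

namespace Cfsg.Agent.Helper8.SUNd

open Matrix Cfsg.Agent.Helper2 Cfsg.Agent.Helper8.SULag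

variable {F : Type*} [Field F] {n q : ℕ}

local notation "VV" => (Fin n → F)
local notation "MM" => Matrix (Fin n) (Fin n) F
local notation "GG" => Matrix.GeneralLinearGroup (Fin n) F
local notation "hh" => Cfsg.hermForm n F q

theorem perp_perp (hq : QF F q) {W : Submodule F VV} (hND : ND q W) {y : VV}
    (hy : ∀ x ∈ perp q W, hh y x = 0) : y ∈ W := by
  obtain ⟨u, hu, hp⟩ := hND y
  have hp0 : y - u = 0 := by
    apply h_nondeg hq
    intro v
    obtain ⟨u', hu', hp'⟩ := hND v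
    have e : v = u' + (v - u') := by abel
    rw [e, h_add_right hq, hp u' hu', h_sub_left, hy _ hp', h_symm0 hq (hp' u hu), sub_zero,
      add_zero]
  rw [sub_eq_zero.1 hp0]
  exact hu

theorem norm_of_mixed (hq : QF F q) {W : Submodule F VV} {b b' : VV} (hb : b ∈ W)
    (hb' : b' ∈ perp q W) (h : hh (b + b') (b + b') = 0) : hh b' b' = - hh b b := by
  have h1 : hh b' b = 0 := hb' b hb
  have h2 : hh b b' = 0 := h_symm0 hq h1
  rw [h_add_left, h_add_right hq, h_add_right hq, h1, h2] at h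
  linear_combination h

/-- Saturation: the `perp W`-component of a mixed member of `TK K` may be replaced by any
non-zero vector of `perp W` of the same norm. -/
theorem sat [Finite F] (hq : QF F q) {W : Submodule F VV} (hND : ND q W)
    (hroom : Module.finrank F W + 4 < n) {K : Subgroup GG} (hTW : HasTv hq W K)
    (hKG : K ≤ Cfsg.GU n F q) {b b' b'' : VV} (hb : b ∈ W) (hb' : b' ∈ perp q W)
    (hb'0 : b' ≠ 0) (hT : b + b' ∈ TK hq K) (hb'' : b'' ∈ perp q W) (hb''0 : b'' ≠ 0)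
    (hN : hh b'' b'' = hh b' b') : b + b'' ∈ TK hq K := by
  obtain ⟨t, htK, htW, htb⟩ := rt hq hND hroom hTW hb' hb'' hb'0 hb''0 hN
  have h1 := TK_map hq htK (hKG htK) hT
  rw [Matrix.mulVec_add, htW b hb, htb] at h1
  exact h1

/-- The `W`-components of the mixed members of `TK K`. -/
def AK (hq : QF F q) (W : Submodule F (Fin n → F))
    (K : Subgroup (Matrix.GeneralLinearGroup (Fin n) F)) : Set (Fin n → F) :=
  {b | ∃ b' ∈ perp q W, b' ≠ 0 ∧ b + b' ∈ TK hq K}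

theorem AK_add [Finite F] (hq : QF F q) {W : Submodule F VV} (hND : ND q W)
    (hroom : Module.finrank F W + 5 < n) {K : Subgroup GG} (hTW : HasTv hq W K)
    (hKG : K ≤ Cfsg.GU n F q) {b₁ b₂ : VV} (hb₁ : b₁ ∈ W) (hb₂ : b₂ ∈ W)
    (h₁ : b₁ ∈ AK hq W K) (h₂ : b₂ ∈ AK hq W K) : b₁ + b₂ ∈ AK hq W K := by
  obtain ⟨b₁', hb₁', hb₁'0, hT₁⟩ := h₁
  obtain ⟨b₂', hb₂', hb₂'0, hT₂⟩ := h₂
  have hN₁ := norm_of_mixed hq hb₁ hb₁' hT₁.1
  have hN₂ := norm_of_mixed hq hb₂ hb₂' hT₂.1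
  obtain ⟨c₁, hc₁, c₂, hc₂, hc₁c₁, hc₂c₂, hc₁c₂, hc₁0, hc₂0, hc0⟩ :=
    exists_two hq hND hroom (-(hh b₁ b₁)) (-(hh b₂ b₂)) (skew0 hq - hh b₁ b₂)
      (by rw [map_neg, h_conj hq]) (by rw [map_neg, h_conj hq])
  have hy := sat hq hND (by omega) hTW hKG hb₁ hb₁' hb₁'0 hT₁ hc₁ hc₁0 (by rw [hc₁c₁, hN₁])
  have ht := sat hq hND (by omega) hTW hKG hb₂ hb₂' hb₂'0 hT₂ hc₂ hc₂0 (by rw [hc₂c₂, hN₂])
  have hyt : hh (b₁ + c₁) (b₂ + c₂) = skew0 hq := by
    rw [h_add_left, h_add_right hq, h_add_right hq, hc₁ b₂ hb₂, h_symm0 hq (hc₂ b₁ hb₁), hc₁c₂]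
    ring
  have h3 := TK_tv hq hy ht (skew0 hq)⁻¹ (by rw [map_inv₀, skew0_frob, inv_neg])
  rw [hyt, inv_mul_cancel₀ (skew0_ne hq), one_smul] at h3
  refine ⟨c₁ + c₂, (perp q W).add_mem hc₁ hc₂, hc0, ?_⟩
  have e : b₁ + b₂ + (c₁ + c₂) = b₁ + c₁ + (b₂ + c₂) := by abel
  rw [e]
  exact h3

theorem AK_smul (hq : QF F q) {W : Submodule F VV} {K : Subgroup GG} {b : VV}
    (h : b ∈ AK hq W K) {ν : F} (hν : ν ≠ 0) : ν • b ∈ AK hq W K := by
  obtain ⟨b', hb', hb'0, hT⟩ := h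
  refine ⟨ν • b', (perp q W).smul_mem ν hb', smul_ne_zero hν hb'0, ?_⟩
  rw [← smul_add]
  exact TK_smul hq hT ν

theorem AK_step [Finite F] (hq : QF F q) {W : Submodule F VV} (hND : ND q W)
    (hroom : Module.finrank F W + 5 < n) {K : Subgroup GG} (hTW : HasTv hq W K)
    (hKG : K ≤ Cfsg.GU n F q) (hI : ∀ z ∈ W, hh z z = 0 → z ∈ TK hq K)
    {a v : VV} (ha : a ∈ W) (hA : a ∈ AK hq W K) (hv : v ∈ W) (hvv : hh v v = 0)
    (hav : hh a v ≠ 0) : v ∈ AK hq W K := by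
  obtain ⟨a', ha', ha'0, hT⟩ := hA
  have h1 := TK_tv hq hT (hI v hv hvv) (skew0 hq) (skew0_frob hq)
  have h2 : hh (a + a') v = hh a v := by rw [h_add_left, ha' v hv, add_zero]
  rw [h2] at h1
  obtain ⟨μ, hμ⟩ : ∃ μ : F, μ = skew0 hq * hh a v := ⟨_, rfl⟩
  have hμ0 : μ ≠ 0 := by
    rw [hμ]
    exact mul_ne_zero (skew0_ne hq) hav
  rw [← hμ] at h1
  have hA1 : a + μ • v ∈ AK hq W K := ⟨a', ha', ha'0, by
    have e : a + μ • v + a' = a + a' + μ • v := by abel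
    rw [e]
    exact h1⟩
  have hA2 : (-1 : F) • a ∈ AK hq W K :=
    AK_smul hq ⟨a', ha', ha'0, hT⟩ (neg_ne_zero.2 one_ne_zero)
  have hA3 := AK_add hq hND hroom hTW hKG (W.add_mem ha (W.smul_mem μ hv)) (W.smul_mem _ ha)
    hA1 hA2
  have e : a + μ • v + (-1 : F) • a = μ • v := by module
  rw [e] at hA3
  have hA4 := AK_smul hq hA3 (inv_ne_zero hμ0)
  rw [smul_smul, inv_mul_cancel₀ hμ0, one_smul] at hA4
  exact hA4

theorem AK_all [Finite F] (hq : QF F q) {W : Submodule F VV}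
    (hWnd : Cfsg.Geo.IsNondegenerateOn (Cfsg.hermForm n F q) W) (hND : ND q W)
    (hroom : Module.finrank F W + 5 < n) {K : Subgroup GG} (hTW : HasTv hq W K)
    (hKG : K ≤ Cfsg.GU n F q) (hI : ∀ z ∈ W, hh z z = 0 → z ∈ TK hq K)
    {a₀ : VV} (ha₀ : a₀ ∈ W) (ha₀0 : a₀ ≠ 0) (hA₀ : a₀ ∈ AK hq W K) :
    ∀ b ∈ W, b ≠ 0 → b ∈ AK hq W K := by
  have hW := inf_perp_of_nondeg W hWnd
  by_cases h2 : 2 ≤ Module.finrank F W
  · obtain ⟨x, hxW, hax⟩ := (hWnd a₀ ha₀ ha₀0).2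
    obtain ⟨v₁, hv₁, v₂, hv₂, hv₁v₁, hv₂v₂, hsum⟩ := exists_iso_sum_in hq hW h2 hxW
    obtain ⟨v₀, hv₀, hv₀v₀, hav₀⟩ : ∃ v₀ ∈ W, hh v₀ v₀ = 0 ∧ hh a₀ v₀ ≠ 0 := by
      by_cases h : hh a₀ v₁ = 0
      · refine ⟨v₂, hv₂, hv₂v₂, fun h' => hax ?_⟩
        rw [← hsum, h_add_right hq, h, h', add_zero]
      · exact ⟨v₁, hv₁, hv₁v₁, h⟩
    have hv₀0 : v₀ ≠ 0 := by
      rintro rfl
      exact hav₀ (h_zero_right hq a₀)
    have hAv₀ := AK_step hq hND hroom hTW hKG hI ha₀ hA₀ hv₀ hv₀v₀ hav₀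
    have hiso : ∀ v ∈ W, hh v v = 0 → v ≠ 0 → v ∈ AK hq W K := by
      intro v hv hvv hv0
      by_cases h : hh v₀ v = 0
      · have hnot : ∀ w ∈ W, w ≠ 0 → w ∉ perp q W :=
          fun w hw hw0 hwp => hw0 (hND.inf_perp hq hw hwp)
        have hperpW : ∀ w ∈ W, ∀ u ∈ perp q W, hh u w = 0 := fun w hw u hu => hu w hw
        obtain ⟨v₂', hv₂v₂', hUv₂, hv₀v₂, hvv₂⟩ := exists_iso_two hq (perp q W) v₀ v
          (hnot v₀ hv₀ hv₀0) (hnot v hv hv0) (hperpW v₀ hv₀) (hperpW v hv) hv₀v₀ hvv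
        have hv₂W : v₂' ∈ W := perp_perp hq hND (fun x hx => h_symm0 hq (hUv₂ x hx))
        have hAv₂ := AK_step hq hND hroom hTW hKG hI hv₀ hAv₀ hv₂W hv₂v₂' hv₀v₂
        exact AK_step hq hND hroom hTW hKG hI hv₂W hAv₂ hv hvv (fun h' => hvv₂ (h_symm0 hq h'))
      · exact AK_step hq hND hroom hTW hKG hI hv₀ hAv₀ hv hvv h
    intro b hb hb0
    obtain ⟨w₁, hw₁, w₂, hw₂, hw₁w₁, hw₂w₂, hsum'⟩ := exists_iso_sum_in hq hW h2 hb
    by_cases hw₁0 : w₁ = 0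
    · rw [hw₁0, zero_add] at hsum'
      rw [← hsum']
      exact hiso w₂ hw₂ hw₂w₂ (by rw [hsum']; exact hb0)
    · by_cases hw₂0 : w₂ = 0
      · rw [hw₂0, add_zero] at hsum'
        rw [← hsum']
        exact hiso w₁ hw₁ hw₁w₁ hw₁0
      · rw [← hsum']
        exact AK_add hq hND hroom hTW hKG hw₁ hw₂ (hiso w₁ hw₁ hw₁w₁ hw₁0)
          (hiso w₂ hw₂ hw₂w₂ hw₂0)
  · have h1 : Module.finrank F W ≤ 1 := by omega
    obtain ⟨v, hv⟩ := finrank_le_one_iff.1 h1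
    intro b hb hb0
    obtain ⟨c₀, hc₀⟩ := hv ⟨a₀, ha₀⟩
    obtain ⟨c, hc⟩ := hv ⟨b, hb⟩
    have hc₀' : c₀ • (v : VV) = a₀ := congrArg Subtype.val hc₀
    have hc' : c • (v : VV) = b := congrArg Subtype.val hc
    have hc₀0 : c₀ ≠ 0 := by
      rintro rfl
      rw [zero_smul] at hc₀'
      exact ha₀0 hc₀'.symm
    have hc0 : c ≠ 0 := by
      rintro rfl
      rw [zero_smul] at hc'
      exact hb0 hc'.symm
    have e : b = (c * c₀⁻¹) • a₀ := by
      rw [← hc₀', smul_smul, mul_assoc, inv_mul_cancel₀ hc₀0, mul_one, hc']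
    rw [e]
    exact AK_smul hq hA₀ (mul_ne_zero hc0 (inv_ne_zero hc₀0))

theorem exists_mixed [Finite F] (hq : QF F q) {W : Submodule F VV} (hND : ND q W)
    (hdim : 2 * Module.finrank F W < n) (hroom : Module.finrank F W + 1 < n)
    {K : Subgroup GG} (hKG : K ≤ Cfsg.GU n F q)
    (hI' : ∀ z ∈ perp q W, hh z z = 0 → z ∈ TK hq K)
    (hg : ∃ g ∈ K, g ∉ Cfsg.Geo.subspaceStabilizer W) :
    ∃ a ∈ W, ∃ a' ∈ perp q W, a ≠ 0 ∧ a' ≠ 0 ∧ a + a' ∈ TK hq K := by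
  obtain ⟨g, hgK, hgS⟩ := hg
  have hgG := hKG hgK
  have mixed : ∀ y ∈ TK hq K, y ∉ W → y ∉ perp q W →
      ∃ a ∈ W, ∃ a' ∈ perp q W, a ≠ 0 ∧ a' ≠ 0 ∧ a + a' ∈ TK hq K := by
    intro y hy h1 h2
    obtain ⟨u, hu, hp⟩ := hND y
    refine ⟨u, hu, y - u, hp, ?_, ?_, by rw [add_sub_cancel]; exact hy⟩
    · rintro rfl
      rw [sub_zero] at hp
      exact h2 hp
    · intro h
      rw [sub_eq_zero] at h
      exact h1 (by rw [h]; exact hu)
  have isoS : ∀ (S : Submodule F VV) (x : VV), x ∈ perp q W → (g : MM) *ᵥ x ∉ S →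
      ∃ z ∈ perp q W, hh z z = 0 ∧ (g : MM) *ᵥ z ∉ S := by
    intro S x hx h
    obtain ⟨z₁, hz₁, z₂, hz₂, h1, h2, hsum⟩ := exists_iso_sum hq hND hroom hx
    by_cases hc : (g : MM) *ᵥ z₁ ∈ S
    · refine ⟨z₂, hz₂, h2, fun h' => h ?_⟩
      rw [← hsum, Matrix.mulVec_add]
      exact S.add_mem hc h'
    · exact ⟨z₁, hz₁, h1, hc⟩
  obtain ⟨x₁, hx₁, hgx₁⟩ : ∃ x ∈ perp q W, (g : MM) *ᵥ x ∉ perp q W := by
    by_contra hcon
    have hall : ∀ x ∈ ((perp q W : Submodule F VV) : Set VV),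
        (g : MM) *ᵥ x ∈ ((perp q W : Submodule F VV) : Set VV) := by
      intro x hx
      by_contra h
      exact hcon ⟨x, hx, h⟩
    have hst' := (Parab.mem_stab_iff _ g).1 (stab_of_maps_fin _ g hall)
    apply hgS
    show g ∈ Cfsg.stabilizing (Cfsg.glToMat (Fin n) F) (W : Set VV)
    apply stab_of_maps_fin
    intro w hw
    apply perp_perp hq hND
    intro x hx
    have h1 : ((g⁻¹ : GG) : MM) *ᵥ x ∈ perp q W := by
      apply (hst' _).2
      rw [Parab.mulVec_inv_mulVec]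
      exact hx
    have h2 := h_map hgG w (((g⁻¹ : GG) : MM) *ᵥ x)
    rw [Parab.mulVec_inv_mulVec] at h2
    rw [h2]
    exact h_symm0 hq (h1 w hw)
  obtain ⟨x₂, hx₂, hgx₂⟩ : ∃ x ∈ perp q W, (g : MM) *ᵥ x ∉ W := by
    by_contra hcon
    have hall : ∀ z ∈ perp q W, (Matrix.toLin' (g : MM)) z ∈ W := by
      intro z hz
      rw [Matrix.toLin'_apply]
      by_contra h
      exact hcon ⟨z, hz, h⟩
    have hinj : Function.Injective ((Matrix.toLin' (g : MM)).restrict hall) := by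
      intro a b hab
      apply Subtype.ext
      have h5 : (Matrix.toLin' (g : MM)) a.1 = (Matrix.toLin' (g : MM)) b.1 :=
        congrArg Subtype.val hab
      rw [Matrix.toLin'_apply, Matrix.toLin'_apply] at h5
      exact Parab.gl_mulVec_inj g h5
    have h6 := LinearMap.finrank_le_finrank_of_injective hinj
    have h7 := finrank_perp_ge hq W
    omega
  obtain ⟨z₁, hz₁, hz₁z₁, hgz₁⟩ := isoS (perp q W) x₁ hx₁ hgx₁
  obtain ⟨z₂, hz₂, hz₂z₂, hgz₂⟩ := isoS W x₂ hx₂ hgx₂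
  have hy₁ : (g : MM) *ᵥ z₁ ∈ TK hq K := TK_map hq hgK hgG (hI' z₁ hz₁ hz₁z₁)
  have hy₂ : (g : MM) *ᵥ z₂ ∈ TK hq K := TK_map hq hgK hgG (hI' z₂ hz₂ hz₂z₂)
  by_cases h1 : (g : MM) *ᵥ z₁ ∈ W
  · by_cases h2 : (g : MM) *ᵥ z₂ ∈ perp q W
    · obtain ⟨l, hl0, hl⟩ : ∃ l : F, l ≠ 0 ∧ l * hh z₂ z₁ + frob hq (l * hh z₂ z₁) = 0 := by
        by_cases h5 : hh z₂ z₁ = 0
        · exact ⟨1, one_ne_zero, by rw [h5, mul_zero, map_zero, add_zero]⟩
        · refine ⟨skew0 hq / hh z₂ z₁, div_ne_zero (skew0_ne hq) h5, ?_⟩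
          rw [div_mul_cancel₀ _ h5, skew0_frob, add_neg_cancel]
      have hz₃ : hh (z₁ + l • z₂) (z₁ + l • z₂) = 0 := by
        have e : hh z₁ z₂ = frob hq (hh z₂ z₁) := (h_conj hq z₂ z₁).symm
        simp only [h_add_left, h_add_right hq, h_smul_left, h_smul_right hq, hz₁z₁, hz₂z₂, e,
          mul_zero, add_zero, zero_add]
        rw [map_mul] at hl
        linear_combination hl
      have hy₃ := TK_map hq hgK hgG
        (hI' _ ((perp q W).add_mem hz₁ ((perp q W).smul_mem l hz₂)) hz₃)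
      rw [Matrix.mulVec_add, Matrix.mulVec_smul] at hy₃
      refine ⟨_, h1, _, (perp q W).smul_mem l h2, ?_, ?_, hy₃⟩
      · intro h
        apply hgz₁
        rw [h]
        exact (perp q W).zero_mem
      · intro h
        apply hgz₂
        have h3 : (g : MM) *ᵥ z₂ = 0 := by
          rcases smul_eq_zero.1 h with h4 | h4
          · exact absurd h4 hl0
          · exact h4
        rw [h3]
        exact W.zero_mem
    · exact mixed _ hy₂ hgz₂ h2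
  · exact mixed _ hy₁ h1 hgz₁

/-- **Closure lemma**: all isotropic vectors lie in `TK K`. -/
theorem TK_all [Finite F] (hq : QF F q) (hn : 13 ≤ n) (W : Submodule F VV)
    (hWnd : Cfsg.Geo.IsNondegenerateOn (Cfsg.hermForm n F q) W)
    (hdim : 2 * Module.finrank F W < n) (K : Subgroup GG)
    (hK : Cfsg.Geo.subspaceStabilizer W ⊓
      (Cfsg.GU n F q ⊓ Cfsg.Geo.specialLinear (Fin n) F) ≤ K)
    (hK2 : K ≤ Cfsg.GU n F q ⊓ Cfsg.Geo.specialLinear (Fin n) F)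
    (hg : ∃ g ∈ K, g ∉ Cfsg.Geo.subspaceStabilizer W) :
    ∀ z : VV, hh z z = 0 → z ∈ TK hq K := by
  have hW := inf_perp_of_nondeg W hWnd
  have hND := ND_of_inf hq W hW
  have hKG : K ≤ Cfsg.GU n F q := le_trans hK2 inf_le_left
  have hroom : Module.finrank F W + 6 < n := by omega
  have hI' : ∀ z ∈ perp q W, hh z z = 0 → z ∈ TK hq K := by
    intro z hz hzz
    refine ⟨hzz, fun c hc => ?_⟩
    apply hK
    refine Subgroup.mem_inf.2 ⟨?_, Subgroup.mem_inf.2 ⟨tvU_mem_gu hq z c hc, tvU_mem_sl z c⟩⟩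
    show tvU n q z c ∈ Cfsg.stabilizing (Cfsg.glToMat (Fin n) F) (W : Set VV)
    apply Parab.stab_of_fix
    intro w hw
    exact tv_fix hq hz hzz c hw
  have hI : ∀ z ∈ W, hh z z = 0 → z ∈ TK hq K := by
    intro z hz hzz
    refine ⟨hzz, fun c hc => ?_⟩
    apply hK
    refine Subgroup.mem_inf.2 ⟨?_, Subgroup.mem_inf.2 ⟨tvU_mem_gu hq z c hc, tvU_mem_sl z c⟩⟩
    show tvU n q z c ∈ Cfsg.stabilizing (Cfsg.glToMat (Fin n) F) (W : Set VV)
    apply stab_of_maps_fin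
    intro x hx
    rw [tvU_mulVec z hzz]
    exact W.add_mem hx (W.smul_mem _ hz)
  have hTW : HasTv hq W K := fun v c hv hvv hc => (hI' v hv hvv).2 c hc
  obtain ⟨a₀, ha₀, a₀', ha₀', ha₀0, ha₀'0, hT₀⟩ :=
    exists_mixed hq hND hdim (by omega) hKG hI' hg
  have hA := AK_all hq hWnd hND (by omega) hTW hKG hI ha₀ ha₀0 ⟨a₀', ha₀', ha₀'0, hT₀⟩
  intro z hz
  obtain ⟨u, hu, hp⟩ := hND z
  by_cases hu0 : u = 0
  · rw [hu0, sub_zero] at hp
    exact hI' z hp hz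
  · by_cases hp0 : z - u = 0
    · have hzu : z = u := sub_eq_zero.1 hp0
      rw [hzu]
      exact hI u hu (by rw [← hzu]; exact hz)
    · obtain ⟨b', hb', hb'0, hT⟩ := hA u hu hu0
      have e : z = u + (z - u) := by abel
      have hz' : hh (u + (z - u)) (u + (z - u)) = 0 := by rw [← e]; exact hz
      have h1 := norm_of_mixed hq hu hp hz'
      have h2 := norm_of_mixed hq hu hb' hT.1
      have h3 := sat hq hND (by omega) hTW hKG hu hb' hb'0 hT hp hp0 (by rw [h1, h2])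
      rw [← e] at h3
      exact h3

/-- **Key lemma**: a subgroup of `SU` containing the stabiliser of a non-degenerate subspace
of dimension less than `n / 2` and an element not stabilising it is all of `SU`. -/
theorem su_le_of_nd [Finite F] (hq : QF F q) (hn : 13 ≤ n) (W : Submodule F VV)
    (hWnd : Cfsg.Geo.IsNondegenerateOn (Cfsg.hermForm n F q) W)
    (hdim : 2 * Module.finrank F W < n) (K : Subgroup GG)
    (hK : Cfsg.Geo.subspaceStabilizer W ⊓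
      (Cfsg.GU n F q ⊓ Cfsg.Geo.specialLinear (Fin n) F) ≤ K)
    (hK2 : K ≤ Cfsg.GU n F q ⊓ Cfsg.Geo.specialLinear (Fin n) F)
    (hg : ∃ g ∈ K, g ∉ Cfsg.Geo.subspaceStabilizer W) :
    Cfsg.GU n F q ⊓ Cfsg.Geo.specialLinear (Fin n) F ≤ K :=
  su_le_of_tt hq hn W (inf_perp_of_nondeg W hWnd) hdim K hK
    (TK_all hq hn W hWnd hdim K hK hK2 hg)

theorem exists_su_not_stab_nd [Finite F] (hq : QF F q) (W : Submodule F VV) (hW0 : W ≠ ⊥)
    (hWnd : Cfsg.Geo.IsNondegenerateOn (Cfsg.hermForm n F q) W)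
    (hdim : Module.finrank F W < n) :
    ∃ g ∈ Cfsg.GU n F q ⊓ Cfsg.Geo.specialLinear (Fin n) F,
      g ∉ Cfsg.Geo.subspaceStabilizer W := by
  have hW := inf_perp_of_nondeg W hWnd
  have hND := ND_of_inf hq W hW
  obtain ⟨w, hwW, -, hww⟩ := exists_noniso_in hq (ND_bot hq) bot_le hW (fun h => hW0 h.symm)
  obtain ⟨p, hp, hpp⟩ := exists_norm_vec hq hND hdim (-(hh w w)) (by rw [map_neg, h_conj hq])
  have hpw : hh p w = 0 := hp w hwW
  have hwp : hh w p = 0 := h_symm0 hq hpw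
  have hvv : hh (w + p) (w + p) = 0 := by
    rw [h_add_left, h_add_right hq, h_add_right hq, hwp, hpw, hpp]
    ring
  refine ⟨tvU n q (w + p) (skew0 hq), Subgroup.mem_inf.2 ⟨tvU_mem_gu hq _ _ (skew0_frob hq),
    tvU_mem_sl _ _⟩, fun hs => ?_⟩
  have hs' := (Parab.mem_stab_iff (W : Set VV) _).1 hs
  have h1 : ((tvU n q (w + p) (skew0 hq) : GG) : MM) *ᵥ w ∈ W := (hs' w).1 hwW
  rw [tvU_mulVec _ hvv, h_add_right hq, hwp, add_zero] at h1
  have h2 : (skew0 hq * hh w w) • (w + p) ∈ W := by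
    have h3 := W.sub_mem h1 hwW
    rwa [add_sub_cancel_left] at h3
  have h3 : w + p ∈ W := by
    have h4 := W.smul_mem (skew0 hq * hh w w)⁻¹ h2
    rwa [smul_smul, inv_mul_cancel₀ (mul_ne_zero (skew0_ne hq) hww), one_smul] at h4
  have h4 : p ∈ W := by
    have h5 := W.sub_mem h3 hwW
    rwa [add_sub_cancel_left] at h5
  have h5 : p = 0 := hND.inf_perp hq h4 hp
  rw [h5, h_zero_left] at hpp
  exact hww (neg_eq_zero.1 hpp.symm)

end Cfsg.Agent.Helper8.SUNd
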