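import Mathlib
import Cfsg.Prelude.Def_GeometricClasses
import Cfsg.Agent.Helper8.SUNd3

/-!
# `SU_n(q)` is generated by unitary transvections (`n ≥ 4`)

Coordinates with respect to two orthogonal hyperbolic pairs, transitivity of the transvection
group on hyperbolic pairs inside the four-dimensional hyperbolic space, and the `SL₂`
reduction on the last hyperbolic plane.
-/

set_option autoImplicit false

namespace Cfsg.Agent.Helper8.SUNd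

open Matrix Cfsg.Agent.Helper2 Cfsg.Agent.Helper8.SULag

variable {F : Type*} [Field F] {n q : ℕ}

local notation "VV" => (Fin n → F)
local notation "MM" => Matrix (Fin n) (Fin n) F
local notation "GG" => Matrix.GeneralLinearGroup (Fin n) F
local notation "hh" => Cfsg.hermForm n F q

/-- Two orthogonal hyperbolic pairs. -/
structure Hyp4 (q : ℕ) (e₁ f₁ e₂ f₂ : Fin n → F) : Prop where
  e1e1 : Cfsg.hermForm n F q e₁ e₁ = 0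
  f1f1 : Cfsg.hermForm n F q f₁ f₁ = 0
  e2e2 : Cfsg.hermForm n F q e₂ e₂ = 0
  f2f2 : Cfsg.hermForm n F q f₂ f₂ = 0
  e1f1 : Cfsg.hermForm n F q e₁ f₁ = 1
  f1e1 : Cfsg.hermForm n F q f₁ e₁ = 1
  e2f2 : Cfsg.hermForm n F q e₂ f₂ = 1
  f2e2 : Cfsg.hermForm n F q f₂ e₂ = 1
  e1e2 : Cfsg.hermForm n F q e₁ e₂ = 0
  e2e1 : Cfsg.hermForm n F q e₂ e₁ = 0
  e1f2 : Cfsg.hermForm n F q e₁ f₂ = 0
  f2e1 : Cfsg.hermForm n F q f₂ e₁ = 0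
  f1e2 : Cfsg.hermForm n F q f₁ e₂ = 0
  e2f1 : Cfsg.hermForm n F q e₂ f₁ = 0
  f1f2 : Cfsg.hermForm n F q f₁ f₂ = 0
  f2f1 : Cfsg.hermForm n F q f₂ f₁ = 0

/-- The span of the four vectors. -/
def HS (e₁ f₁ e₂ f₂ : Fin n → F) : Submodule F (Fin n → F) :=
  ⊥ ⊔ Submodule.span F {e₁} ⊔ Submodule.span F {f₁} ⊔ Submodule.span F {e₂} ⊔
    Submodule.span F {f₂}

/-- Coordinate vectors. -/
def cv (e₁ f₁ e₂ f₂ : Fin n → F) (a b c d : F) : Fin n → F :=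
  a • e₁ + b • f₁ + c • e₂ + d • f₂

theorem exists_hyp4 [Finite F] (hq : QF F q) (hn : 4 ≤ n) :
    ∃ e₁ f₁ e₂ f₂ : VV, Hyp4 q e₁ f₁ e₂ f₂ := by
  have hU := ND_bot (n := n) (F := F) hq
  have hb : Module.finrank F (⊥ : Submodule F VV) = 0 := finrank_bot F (Fin n → F)
  obtain ⟨z, hz, hzz⟩ := exists_noniso hq hU (by rw [hb]; omega)
  have hz0 : z ≠ 0 := by
    rintro rfl
    exact hzz (h_zero_left 0)
  obtain ⟨e₁, he₁, he₁e₁, hze₁⟩ := exists_iso_npair hq hU (by rw [hb]; omega) hz hz0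
  have he₁0 : e₁ ≠ 0 := by
    rintro rfl
    exact hze₁ (h_zero_right hq z)
  obtain ⟨f₁, hf₁, hf₁f₁, he₁f₁⟩ := exists_partner hq hU he₁ he₁0 he₁e₁
  have hU2 := ND_ext2 hq hU he₁ hf₁ he₁e₁ hf₁f₁ he₁f₁
  have hd2 : Module.finrank F ↥((⊥ : Submodule F VV) ⊔ Submodule.span F {e₁} ⊔
      Submodule.span F {f₁}) + 1 < n := by
    have h1 := finrank_ext_le (⊥ : Submodule F VV) e₁
    have h2 := finrank_ext_le ((⊥ : Submodule F VV) ⊔ Submodule.span F {e₁}) f₁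
    rw [hb] at h1
    omega
  obtain ⟨z', hz', hz'z'⟩ := exists_noniso hq hU2 (by omega)
  have hz'0 : z' ≠ 0 := by
    rintro rfl
    exact hz'z' (h_zero_left 0)
  obtain ⟨e₂, he₂, he₂e₂, hz'e₂⟩ := exists_iso_npair hq hU2 hd2 hz' hz'0
  have he₂0 : e₂ ≠ 0 := by
    rintro rfl
    exact hz'e₂ (h_zero_right hq z')
  obtain ⟨f₂, hf₂, hf₂f₂, he₂f₂⟩ := exists_partner hq hU2 he₂ he₂0 he₂e₂
  obtain ⟨he₂', he₂f₁⟩ := (mem_perp_ext hq _ f₁ e₂).1 he₂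
  obtain ⟨-, he₂e₁⟩ := (mem_perp_ext hq _ e₁ e₂).1 he₂'
  obtain ⟨hf₂', hf₂f₁⟩ := (mem_perp_ext hq _ f₁ f₂).1 hf₂
  obtain ⟨-, hf₂e₁⟩ := (mem_perp_ext hq _ e₁ f₂).1 hf₂'
  exact ⟨e₁, f₁, e₂, f₂, ⟨he₁e₁, hf₁f₁, he₂e₂, hf₂f₂, he₁f₁,
    by rw [← h_conj hq e₁ f₁, he₁f₁, map_one], he₂f₂,
    by rw [← h_conj hq e₂ f₂, he₂f₂, map_one], h_symm0 hq he₂e₁, he₂e₁, h_symm0 hq hf₂e₁,
    hf₂e₁, h_symm0 hq he₂f₁, he₂f₁, h_symm0 hq hf₂f₁, hf₂f₁⟩⟩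

theorem mem_perp_bot (hq : QF F q) (x : VV) : x ∈ perp q (⊥ : Submodule F VV) := by
  intro u hu
  rw [(Submodule.mem_bot F).1 hu]
  exact h_zero_right hq x

theorem Hyp4.nd (hq : QF F q) {e₁ f₁ e₂ f₂ : VV} (B : Hyp4 q e₁ f₁ e₂ f₂) :
    ND q (HS e₁ f₁ e₂ f₂) := by
  have hU := ND_bot (n := n) (F := F) hq
  have hU2 := ND_ext2 hq hU (mem_perp_bot hq e₁) (mem_perp_bot hq f₁) B.e1e1 B.f1f1 B.e1f1
  have he₂ : e₂ ∈ perp q ((⊥ : Submodule F VV) ⊔ Submodule.span F {e₁} ⊔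
      Submodule.span F {f₁}) := by
    rw [mem_perp_ext hq, mem_perp_ext hq]
    exact ⟨⟨mem_perp_bot hq e₂, B.e2e1⟩, B.e2f1⟩
  have hf₂ : f₂ ∈ perp q ((⊥ : Submodule F VV) ⊔ Submodule.span F {e₁} ⊔
      Submodule.span F {f₁}) := by
    rw [mem_perp_ext hq, mem_perp_ext hq]
    exact ⟨⟨mem_perp_bot hq f₂, B.f2e1⟩, B.f2f1⟩
  exact ND_ext2 hq hU2 he₂ hf₂ B.e2e2 B.f2f2 B.e2f2

theorem mem_HS_iff (e₁ f₁ e₂ f₂ y : VV) :
    y ∈ HS e₁ f₁ e₂ f₂ ↔ ∃ a b c d : F, y = cv e₁ f₁ e₂ f₂ a b c d := by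
  unfold HS cv
  constructor
  · intro h
    obtain ⟨u3, hu3, p4, hp4, rfl⟩ := Submodule.mem_sup.1 h
    obtain ⟨u2, hu2, p3, hp3, rfl⟩ := Submodule.mem_sup.1 hu3
    obtain ⟨u1, hu1, p2, hp2, rfl⟩ := Submodule.mem_sup.1 hu2
    obtain ⟨u0, hu0, p1, hp1, rfl⟩ := Submodule.mem_sup.1 hu1
    obtain ⟨a, rfl⟩ := Submodule.mem_span_singleton.1 hp1
    obtain ⟨b, rfl⟩ := Submodule.mem_span_singleton.1 hp2
    obtain ⟨c, rfl⟩ := Submodule.mem_span_singleton.1 hp3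
    obtain ⟨d, rfl⟩ := Submodule.mem_span_singleton.1 hp4
    rw [(Submodule.mem_bot F).1 hu0, zero_add]
    exact ⟨a, b, c, d, rfl⟩
  · rintro ⟨a, b, c, d, rfl⟩
    exact Submodule.add_mem _ (Submodule.mem_sup_left (Submodule.add_mem _
      (Submodule.mem_sup_left (Submodule.add_mem _
        (Submodule.mem_sup_left (Submodule.mem_sup_right
          (Submodule.smul_mem _ _ (Submodule.mem_span_singleton_self e₁))))
        (Submodule.mem_sup_right (Submodule.smul_mem _ _ (Submodule.mem_span_singleton_self f₁)))))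
      (Submodule.mem_sup_right (Submodule.smul_mem _ _ (Submodule.mem_span_singleton_self e₂)))))
      (Submodule.mem_sup_right (Submodule.smul_mem _ _ (Submodule.mem_span_singleton_self f₂)))

theorem cv_mem (e₁ f₁ e₂ f₂ : VV) (a b c d : F) : cv e₁ f₁ e₂ f₂ a b c d ∈ HS e₁ f₁ e₂ f₂ :=
  (mem_HS_iff e₁ f₁ e₂ f₂ _).2 ⟨a, b, c, d, rfl⟩

theorem Hyp4.form (hq : QF F q) {e₁ f₁ e₂ f₂ : VV} (B : Hyp4 q e₁ f₁ e₂ f₂)
    (a b c d a' b' c' d' : F) :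
    hh (cv e₁ f₁ e₂ f₂ a b c d) (cv e₁ f₁ e₂ f₂ a' b' c' d') =
      a * frob hq b' + b * frob hq a' + c * frob hq d' + d * frob hq c' := by
  unfold cv
  simp only [h_add_left, h_add_right hq, h_smul_left, h_smul_right hq, B.e1e1, B.f1f1, B.e2e2,
    B.f2f2, B.e1f1, B.f1e1, B.e2f2, B.f2e2, B.e1e2, B.e2e1, B.e1f2, B.f2e1, B.f1e2, B.e2f1,
    B.f1f2, B.f2f1, mul_zero, mul_one, add_zero, zero_add]
  ring

theorem cv_e1 (e₁ f₁ e₂ f₂ : VV) : e₁ = cv e₁ f₁ e₂ f₂ 1 0 0 0 := by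
  unfold cv
  module

theorem cv_f1 (e₁ f₁ e₂ f₂ : VV) : f₁ = cv e₁ f₁ e₂ f₂ 0 1 0 0 := by
  unfold cv
  module

theorem cv_e2 (e₁ f₁ e₂ f₂ : VV) : e₂ = cv e₁ f₁ e₂ f₂ 0 0 1 0 := by
  unfold cv
  module

theorem cv_f2 (e₁ f₁ e₂ f₂ : VV) : f₂ = cv e₁ f₁ e₂ f₂ 0 0 0 1 := by
  unfold cv
  module

theorem Hyp4.form_e1 (hq : QF F q) {e₁ f₁ e₂ f₂ : VV} (B : Hyp4 q e₁ f₁ e₂ f₂) (a b c d : F) :
    hh (cv e₁ f₁ e₂ f₂ a b c d) e₁ = b := by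
  unfold cv
  simp only [h_add_left, h_smul_left, B.e1e1, B.f1e1, B.e2e1, B.f2e1, mul_zero, mul_one, add_zero, zero_add]

theorem Hyp4.form_f1 (hq : QF F q) {e₁ f₁ e₂ f₂ : VV} (B : Hyp4 q e₁ f₁ e₂ f₂) (a b c d : F) :
    hh (cv e₁ f₁ e₂ f₂ a b c d) f₁ = a := by
  unfold cv
  simp only [h_add_left, h_smul_left, B.e1f1, B.f1f1, B.e2f1, B.f2f1, mul_zero, mul_one, add_zero, zero_add]

theorem Hyp4.form_e2 (hq : QF F q) {e₁ f₁ e₂ f₂ : VV} (B : Hyp4 q e₁ f₁ e₂ f₂) (a b c d : F) :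
    hh (cv e₁ f₁ e₂ f₂ a b c d) e₂ = d := by
  unfold cv
  simp only [h_add_left, h_smul_left, B.e1e2, B.f1e2, B.e2e2, B.f2e2, mul_zero, mul_one, add_zero, zero_add]

theorem Hyp4.form_f2 (hq : QF F q) {e₁ f₁ e₂ f₂ : VV} (B : Hyp4 q e₁ f₁ e₂ f₂) (a b c d : F) :
    hh (cv e₁ f₁ e₂ f₂ a b c d) f₂ = c := by
  unfold cv
  simp only [h_add_left, h_smul_left, B.e1f2, B.f1f2, B.e2f2, B.f2f2, mul_zero, mul_one, add_zero, zero_add]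

theorem finrank_ext_lt (U : Submodule F VV) (z : VV) (hz : z ∉ U) :
    Module.finrank F U < Module.finrank F ↥(U ⊔ Submodule.span F {z}) := by
  apply Submodule.finrank_lt_finrank_of_lt
  apply lt_of_le_of_ne le_sup_left
  intro h
  apply hz
  rw [h]
  exact Submodule.mem_sup_right (Submodule.mem_span_singleton_self z)

theorem Hyp4.finrank_ge (hq : QF F q) {e₁ f₁ e₂ f₂ : VV} (B : Hyp4 q e₁ f₁ e₂ f₂) :
    4 ≤ Module.finrank F (HS e₁ f₁ e₂ f₂) := by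
  unfold HS
  have hb : Module.finrank F (⊥ : Submodule F VV) = 0 := finrank_bot F (Fin n → F)
  have h1 := finrank_ext_lt (⊥ : Submodule F VV) e₁ (fun h => by
    have h2 := B.e1f1
    rw [(Submodule.mem_bot F).1 h, h_zero_left] at h2
    exact zero_ne_one h2)
  have l1 : (⊥ : Submodule F VV) ⊔ Submodule.span F {e₁} ≤ perpR hq e₁ :=
    sup_le bot_le ((Submodule.span_singleton_le_iff_mem e₁ (perpR hq e₁)).2 B.e1e1)
  have h2 := finrank_ext_lt ((⊥ : Submodule F VV) ⊔ Submodule.span F {e₁}) f₁ (fun h => by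
    have h3 : hh e₁ f₁ = 0 := l1 h
    rw [B.e1f1] at h3
    exact one_ne_zero h3)
  have l2 : (⊥ : Submodule F VV) ⊔ Submodule.span F {e₁} ⊔ Submodule.span F {f₁} ≤
      perpR hq f₂ :=
    sup_le (sup_le bot_le ((Submodule.span_singleton_le_iff_mem e₁ (perpR hq f₂)).2 B.f2e1))
      ((Submodule.span_singleton_le_iff_mem f₁ (perpR hq f₂)).2 B.f2f1)
  have h3 := finrank_ext_lt ((⊥ : Submodule F VV) ⊔ Submodule.span F {e₁} ⊔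
      Submodule.span F {f₁}) e₂ (fun h => by
    have h4 : hh f₂ e₂ = 0 := l2 h
    rw [B.f2e2] at h4
    exact one_ne_zero h4)
  have l3 : (⊥ : Submodule F VV) ⊔ Submodule.span F {e₁} ⊔ Submodule.span F {f₁} ⊔
      Submodule.span F {e₂} ≤ perpR hq e₂ :=
    sup_le (sup_le (sup_le bot_le
      ((Submodule.span_singleton_le_iff_mem e₁ (perpR hq e₂)).2 B.e2e1))
      ((Submodule.span_singleton_le_iff_mem f₁ (perpR hq e₂)).2 B.e2f1))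
      ((Submodule.span_singleton_le_iff_mem e₂ (perpR hq e₂)).2 B.e2e2)
  have h4 := finrank_ext_lt ((⊥ : Submodule F VV) ⊔ Submodule.span F {e₁} ⊔
      Submodule.span F {f₁} ⊔ Submodule.span F {e₂}) f₂ (fun h => by
    have h5 : hh e₂ f₂ = 0 := l3 h
    rw [B.e2f2] at h5
    exact one_ne_zero h5)
  omega

theorem le_perp_perp (hq : QF F q) (U : Submodule F VV) {u : VV} (hu : u ∈ U) :
    u ∈ perp q (perp q U) :=
  fun x hx => h_symm0 hq (hx u hu)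

theorem ND_perp (hq : QF F q) {U : Submodule F VV} (hU : ND q U) : ND q (perp q U) := by
  intro v
  obtain ⟨u, hu, hp⟩ := hU v
  refine ⟨v - u, hp, ?_⟩
  have e : v - (v - u) = u := by abel
  rw [e]
  exact le_perp_perp hq U hu

/-- An isometry fixing `perp H` pointwise maps `H` into itself. -/
theorem maps_of_fix (hq : QF F q) {H : Submodule F VV} (hH : ND q H) {g : GG}
    (hg : g ∈ Cfsg.GU n F q) (hfix : ∀ u ∈ perp q H, (g : MM) *ᵥ u = u) {y : VV} (hy : y ∈ H) :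
    (g : MM) *ᵥ y ∈ H := by
  apply perp_perp hq hH
  intro x hx
  have h1 := h_map hg y x
  rw [hfix x hx] at h1
  rw [h1]
  exact h_symm0 hq (hx y hy)

theorem decomp (hq : QF F q) {e₁ f₁ e₂ f₂ : VV} (B : Hyp4 q e₁ f₁ e₂ f₂) (v : VV) :
    ∃ (a b c d : F) (p : VV), p ∈ perp q (HS e₁ f₁ e₂ f₂) ∧ v = cv e₁ f₁ e₂ f₂ a b c d + p := by
  obtain ⟨u, hu, hp⟩ := B.nd hq v
  obtain ⟨a, b, c, d, rfl⟩ := (mem_HS_iff e₁ f₁ e₂ f₂ u).1 hu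
  exact ⟨a, b, c, d, _, hp, by abel⟩

/-! ## Moving vectors by the transvection group -/

/-- `x` can be moved to `x'` by the transvection group, fixing `U` pointwise. -/
def Mv (hq : QF F q) (U : Submodule F (Fin n → F)) (x x' : Fin n → F) : Prop :=
  ∃ t ∈ TT hq n, (∀ u ∈ U, ((t : GG) : MM) *ᵥ u = u) ∧ ((t : GG) : MM) *ᵥ x = x'

theorem Mv.trans (hq : QF F q) {U : Submodule F VV} {x y z : VV} (h1 : Mv hq U x y)
    (h2 : Mv hq U y z) : Mv hq U x z := by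
  obtain ⟨t1, ht1, hU1, hx1⟩ := h1
  obtain ⟨t2, ht2, hU2, hx2⟩ := h2
  refine ⟨t2 * t1, (TT hq n).mul_mem ht2 ht1, fun u hu => ?_, ?_⟩
  · rw [Units.val_mul, ← Matrix.mulVec_mulVec, hU1 u hu, hU2 u hu]
  · rw [Units.val_mul, ← Matrix.mulVec_mulVec, hx1, hx2]

theorem one_step (hq : QF F q) {U : Submodule F VV} {x x' : VV} (hx : x ∈ perp q U)
    (hx' : x' ∈ perp q U) (hxx : hh x x = 0) (hx'x' : hh x' x' = 0) (hne : hh x x' ≠ 0)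
    (hsk : frob hq (hh x x') = - hh x x') : Mv hq U x x' := by
  have hx'x : hh x' x = - hh x x' := by rw [← h_conj hq, hsk]
  have hdd : hh (x' - x) (x' - x) = 0 := by
    rw [h_sub_left, h_sub_right hq, h_sub_right hq, hxx, hx'x', hx'x]
    ring
  have hdU : x' - x ∈ perp q U := (perp q U).sub_mem hx' hx
  have hc : frob hq (hh x x')⁻¹ = -(hh x x')⁻¹ := by rw [map_inv₀, hsk, inv_neg]
  refine ⟨tvU n q (x' - x) (hh x x')⁻¹, TT_mem hq _ _ hdd hc,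
    fun u hu => tv_fix hq hdU hdd _ hu, ?_⟩
  rw [tvU_mulVec _ hdd, h_sub_right hq, hxx, sub_zero, inv_mul_cancel₀ hne, one_smul]
  abel

theorem e1_mem (e₁ f₁ e₂ f₂ : VV) : e₁ ∈ HS e₁ f₁ e₂ f₂ :=
  (mem_HS_iff e₁ f₁ e₂ f₂ e₁).2 ⟨1, 0, 0, 0, cv_e1 e₁ f₁ e₂ f₂⟩

theorem f1_mem (e₁ f₁ e₂ f₂ : VV) : f₁ ∈ HS e₁ f₁ e₂ f₂ :=
  (mem_HS_iff e₁ f₁ e₂ f₂ f₁).2 ⟨0, 1, 0, 0, cv_f1 e₁ f₁ e₂ f₂⟩

theorem e2_mem (e₁ f₁ e₂ f₂ : VV) : e₂ ∈ HS e₁ f₁ e₂ f₂ :=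
  (mem_HS_iff e₁ f₁ e₂ f₂ e₂).2 ⟨0, 0, 1, 0, cv_e2 e₁ f₁ e₂ f₂⟩

theorem f2_mem (e₁ f₁ e₂ f₂ : VV) : f₂ ∈ HS e₁ f₁ e₂ f₂ :=
  (mem_HS_iff e₁ f₁ e₂ f₂ f₂).2 ⟨0, 0, 0, 1, cv_f2 e₁ f₁ e₂ f₂⟩

theorem stepA_aux (hq : QF F q) {e₁ f₁ e₂ f₂ : VV} (B : Hyp4 q e₁ f₁ e₂ f₂)
    (a b c d a₂ c₂ d₂ : F)
    (hyy : hh (cv e₁ f₁ e₂ f₂ a b c d) (cv e₁ f₁ e₂ f₂ a b c d) = 0)
    (hN : a₂ * frob hq (skew0 hq) + skew0 hq * frob hq a₂ + c₂ * frob hq d₂ +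
      d₂ * frob hq c₂ = 0)
    (hP : a * frob hq (skew0 hq) + b * frob hq a₂ + c * frob hq d₂ + d * frob hq c₂ =
      skew0 hq) :
    Mv hq (perp q (HS e₁ f₁ e₂ f₂)) (cv e₁ f₁ e₂ f₂ a b c d) e₁ := by
  have h1 : hh (cv e₁ f₁ e₂ f₂ a₂ (skew0 hq) c₂ d₂) (cv e₁ f₁ e₂ f₂ a₂ (skew0 hq) c₂ d₂) = 0 := by
    rw [B.form hq]
    exact hN
  have h2 : hh (cv e₁ f₁ e₂ f₂ a b c d) (cv e₁ f₁ e₂ f₂ a₂ (skew0 hq) c₂ d₂) = skew0 hq := by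
    rw [B.form hq]
    exact hP
  have h3 : hh (cv e₁ f₁ e₂ f₂ a₂ (skew0 hq) c₂ d₂) e₁ = skew0 hq := B.form_e1 hq _ _ _ _
  exact (one_step hq (le_perp_perp hq _ (cv_mem e₁ f₁ e₂ f₂ a b c d))
    (le_perp_perp hq _ (cv_mem e₁ f₁ e₂ f₂ a₂ (skew0 hq) c₂ d₂)) hyy h1
    (by rw [h2]; exact skew0_ne hq) (by rw [h2]; exact skew0_frob hq)).trans hq
    (one_step hq (le_perp_perp hq _ (cv_mem e₁ f₁ e₂ f₂ a₂ (skew0 hq) c₂ d₂))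
      (le_perp_perp hq _ (e1_mem e₁ f₁ e₂ f₂)) h1 B.e1e1
      (by rw [h3]; exact skew0_ne hq) (by rw [h3]; exact skew0_frob hq))

theorem stepA_cv (hq : QF F q) {e₁ f₁ e₂ f₂ : VV} (B : Hyp4 q e₁ f₁ e₂ f₂) (a b c d : F)
    (hyy : hh (cv e₁ f₁ e₂ f₂ a b c d) (cv e₁ f₁ e₂ f₂ a b c d) = 0)
    (h0 : ¬ (b = 0 ∧ c = 0 ∧ d = 0)) :
    Mv hq (perp q (HS e₁ f₁ e₂ f₂)) (cv e₁ f₁ e₂ f₂ a b c d) e₁ := by
  have hs0 := skew0_ne hq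
  have hsf := skew0_frob hq
  by_cases hd : d = 0
  · by_cases hc : c = 0
    · have hb : b ≠ 0 := fun hb => h0 ⟨hb, hc, hd⟩
      obtain ⟨ρ, hρ⟩ : ∃ ρ : F, ρ = frob hq ((skew0 hq + a * skew0 hq) / b) := ⟨_, rfl⟩
      have hfρ : frob hq ρ = (skew0 hq + a * skew0 hq) / b := by rw [hρ, frob_frob]
      obtain ⟨τ, hτ⟩ := exists_tr hq (ρ * skew0 hq - skew0 hq * frob hq ρ) (by
        rw [map_sub, map_mul, map_mul, frob_frob, hsf]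
        ring)
      apply stepA_aux hq B a b c d ρ 1 τ hyy
      · rw [hsf, map_one]
        linear_combination hτ
      · rw [hsf, hfρ, hc, hd, mul_div_cancel₀ _ hb]
        ring
    · obtain ⟨ζ, hζ⟩ : ∃ ζ : F, ζ = frob hq ((skew0 hq + a * skew0 hq) / c) := ⟨_, rfl⟩
      have hfζ : frob hq ζ = (skew0 hq + a * skew0 hq) / c := by rw [hζ, frob_frob]
      apply stepA_aux hq B a b c d 0 0 ζ hyy
      · rw [map_zero]
        ring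
      · rw [hsf, hfζ, hd, map_zero, mul_div_cancel₀ _ hc]
        ring
  · obtain ⟨ζ, hζ⟩ : ∃ ζ : F, ζ = frob hq ((skew0 hq + a * skew0 hq) / d) := ⟨_, rfl⟩
    have hfζ : frob hq ζ = (skew0 hq + a * skew0 hq) / d := by rw [hζ, frob_frob]
    apply stepA_aux hq B a b c d 0 ζ 0 hyy
    · rw [map_zero]
      ring
    · rw [hsf, hfζ, map_zero, mul_div_cancel₀ _ hd]
      ring

theorem stepA (hq : QF F q) {e₁ f₁ e₂ f₂ : VV} (B : Hyp4 q e₁ f₁ e₂ f₂) {y : VV}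
    (hy : y ∈ HS e₁ f₁ e₂ f₂) (hyy : hh y y = 0) (hy0 : y ≠ 0) :
    Mv hq (perp q (HS e₁ f₁ e₂ f₂)) y e₁ := by
  obtain ⟨a, b, c, d, rfl⟩ := (mem_HS_iff e₁ f₁ e₂ f₂ y).1 hy
  by_cases h0 : b = 0 ∧ c = 0 ∧ d = 0
  · obtain ⟨rfl, rfl, rfl⟩ := h0
    have ha : a ≠ 0 := by
      rintro rfl
      apply hy0
      unfold cv
      module
    have hs0 := skew0_ne hq
    have hsf := skew0_frob hq
    have hm : Mv hq (perp q (HS e₁ f₁ e₂ f₂)) (cv e₁ f₁ e₂ f₂ a 0 0 0)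
        (cv e₁ f₁ e₂ f₂ a (skew0 hq * a) 0 0) := by
      refine ⟨tvU n q f₁ (skew0 hq), TT_mem hq _ _ B.f1f1 hsf,
        fun u hu => tv_fix hq (le_perp_perp hq _ (f1_mem e₁ f₁ e₂ f₂)) B.f1f1 _ hu, ?_⟩
      rw [tvU_mulVec _ B.f1f1, B.form_f1 hq]
      unfold cv
      module
    apply hm.trans hq
    apply stepA_cv hq B
    · rw [B.form hq, map_mul, hsf, map_zero]
      ring
    · rintro ⟨h1, -, -⟩
      exact mul_ne_zero hs0 ha h1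
  · exact stepA_cv hq B a b c d hyy h0

/-- The unipotent radical argument with an explicit decomposition. -/
theorem qt_core (hq : QF F q) {U : Submodule F VV} {T : Subgroup GG} (hT : HasTv hq U T)
    {a : VV} (ha : a ∈ perp q U) (haa : hh a a = 0) {x x' b₁ b₂ : VV}
    (hb₁ : b₁ ∈ perp q U) (hb₂ : b₂ ∈ perp q U) (hb₁b₁ : hh b₁ b₁ = 0) (hb₂b₂ : hh b₂ b₂ = 0)
    (hb₁a : hh b₁ a = 0) (hb₂a : hh b₂ a = 0) (hsum : b₁ + b₂ = x' - x)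
    (hxa : hh x a ≠ 0) (hx'a : hh x' a = hh x a) (hN : hh x' x' = hh x x) :
    ∃ t ∈ T, (∀ u ∈ U, ((t : GG) : MM) *ᵥ u = u) ∧ ((t : GG) : MM) *ᵥ x = x' ∧
      ((t : GG) : MM) *ᵥ a = a := by
  have hab₁ := h_symm0 hq hb₁a
  have hab₂ := h_symm0 hq hb₂a
  obtain ⟨m₁, hm₁⟩ : ∃ m₁ : F, m₁ = frob hq (hh x a)⁻¹ * hh x b₁ := ⟨_, rfl⟩
  have e1 : ((RU hq n a b₁ (hh x a)⁻¹ : GG) : MM) *ᵥ x = x + b₁ - m₁ • a := by
    rw [RU_apply hq a b₁ haa hb₁b₁ hab₁, inv_mul_cancel₀ hxa, one_smul, hm₁]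
  have e2 : hh (x + b₁ - m₁ • a) a = hh x a := by
    rw [h_sub_left, h_add_left, h_smul_left, hb₁a, haa, mul_zero, add_zero, sub_zero]
  obtain ⟨m₂, hm₂⟩ : ∃ m₂ : F, m₂ = frob hq (hh x a)⁻¹ * hh (x + b₁ - m₁ • a) b₂ := ⟨_, rfl⟩
  obtain ⟨μ, hμ⟩ : ∃ μ : F, μ = -(m₁ + m₂) := ⟨_, rfl⟩
  have e3 : ((RU hq n a b₂ (hh x a)⁻¹ : GG) : MM) *ᵥ (x + b₁ - m₁ • a) = x' + μ • a := by
    rw [RU_apply hq a b₂ haa hb₂b₂ hab₂, e2, inv_mul_cancel₀ hxa, one_smul, ← hm₂, hμ]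
    have e : x' = x + (b₁ + b₂) := by rw [hsum]; abel
    rw [e]
    module
  have hax' : hh a x' = frob hq (hh x a) := by rw [← hx'a, h_conj hq]
  have hnorm : hh (x' + μ • a) (x' + μ • a) = hh x x := by
    rw [← e3, ← e1, h_map (RU_mem_gu hq a b₂ _), h_map (RU_mem_gu hq a b₁ _)]
  have hsk : μ * frob hq (hh x a) + frob hq μ * hh x a = 0 := by
    simp only [h_add_left, h_add_right hq, h_smul_left, h_smul_right hq, haa, hx'a, hax', hN,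
      mul_zero, add_zero] at hnorm
    linear_combination hnorm
  obtain ⟨c, hc⟩ : ∃ c : F, c = -μ / hh x a := ⟨_, rfl⟩
  have hfρ : frob hq (hh x a) ≠ 0 := (map_ne_zero (frob hq)).2 hxa
  have hcsk : frob hq c = -c := by
    rw [hc, map_div₀, map_neg, div_eq_iff hfρ, neg_div, neg_neg, div_mul_eq_mul_div,
      eq_div_iff hxa]
    linear_combination (-1 : F) * hsk
  have e4 : ((tvU n q a c : GG) : MM) *ᵥ (x' + μ • a) = x' := by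
    rw [tvU_mulVec a haa, h_add_left, h_smul_left, haa, mul_zero, add_zero, hx'a, hc,
      div_mul_cancel₀ _ hxa]
    module
  refine ⟨tvU n q a c * RU hq n a b₂ (hh x a)⁻¹ * RU hq n a b₁ (hh x a)⁻¹,
    T.mul_mem (T.mul_mem (hT a c ha haa hcsk) (RU_mem_T hq hT ha hb₂ haa hb₂b₂ hab₂ _))
      (RU_mem_T hq hT ha hb₁ haa hb₁b₁ hab₁ _), ?_, ?_, ?_⟩
  · intro u hu
    rw [Units.val_mul, Units.val_mul, ← Matrix.mulVec_mulVec, ← Matrix.mulVec_mulVec,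
      RU_fix hq ha hb₁ haa hb₁b₁ hab₁ _ hu, RU_fix hq ha hb₂ haa hb₂b₂ hab₂ _ hu,
      tv_fix hq ha haa c hu]
  · rw [Units.val_mul, Units.val_mul, ← Matrix.mulVec_mulVec, ← Matrix.mulVec_mulVec, e1, e3, e4]
  · rw [Units.val_mul, Units.val_mul, ← Matrix.mulVec_mulVec, ← Matrix.mulVec_mulVec,
      RU_apply hq a b₁ haa hb₁b₁ hab₁, haa, hab₁, mul_zero, mul_zero, zero_smul, zero_smul,
      add_zero, sub_zero,
      RU_apply hq a b₂ haa hb₂b₂ hab₂, haa, hab₂, mul_zero, mul_zero, zero_smul, zero_smul,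
      add_zero, sub_zero, tvU_mulVec a haa, haa, mul_zero, zero_smul, add_zero]

theorem stepB (hq : QF F q) {e₁ f₁ e₂ f₂ : VV} (B : Hyp4 q e₁ f₁ e₂ f₂) {f : VV}
    (hf : f ∈ HS e₁ f₁ e₂ f₂) (hff : hh f f = 0) (hfe : hh f e₁ = 1) :
    ∃ t ∈ TT hq n, (∀ u ∈ perp q (HS e₁ f₁ e₂ f₂), ((t : GG) : MM) *ᵥ u = u) ∧
      ((t : GG) : MM) *ᵥ f = f₁ ∧ ((t : GG) : MM) *ᵥ e₁ = e₁ := by
  obtain ⟨a, b, c, d, rfl⟩ := (mem_HS_iff e₁ f₁ e₂ f₂ f).1 hf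
  rw [B.form_e1 hq] at hfe
  subst hfe
  have hT : HasTv hq (perp q (HS e₁ f₁ e₂ f₂)) (TT hq n) :=
    fun v c _ hvv hc => TT_mem hq v c hvv hc
  refine qt_core hq hT (le_perp_perp hq _ (e1_mem e₁ f₁ e₂ f₂)) B.e1e1
    (b₁ := cv e₁ f₁ e₂ f₂ (-a) 0 (-c) 0) (b₂ := cv e₁ f₁ e₂ f₂ 0 0 0 (-d))
    (le_perp_perp hq _ (cv_mem e₁ f₁ e₂ f₂ _ _ _ _))
    (le_perp_perp hq _ (cv_mem e₁ f₁ e₂ f₂ _ _ _ _)) ?_ ?_ (B.form_e1 hq _ _ _ _)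
    (B.form_e1 hq _ _ _ _) ?_ ?_ ?_ ?_
  · rw [B.form hq, map_zero]
    ring
  · rw [B.form hq, map_zero]
    ring
  · unfold cv
    module
  · rw [B.form_e1 hq]
    exact one_ne_zero
  · rw [B.form_e1 hq, B.f1e1]
  · rw [B.f1f1, hff]

/-! ## The last hyperbolic plane -/

/-- State of the final reduction: `g` fixes `perp H`, `e₁`, `f₁` and acts on the last
hyperbolic plane with the given coordinates. -/
def Q (e₁ f₁ e₂ f₂ : Fin n → F) (q : ℕ) (g : Matrix.GeneralLinearGroup (Fin n) F)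
    (c d c' d' : F) : Prop :=
  g ∈ Cfsg.GU n F q ⊓ Cfsg.Geo.specialLinear (Fin n) F ∧
  (∀ u ∈ perp q (HS e₁ f₁ e₂ f₂), (g : Matrix (Fin n) (Fin n) F) *ᵥ u = u) ∧
  (g : Matrix (Fin n) (Fin n) F) *ᵥ e₁ = e₁ ∧ (g : Matrix (Fin n) (Fin n) F) *ᵥ f₁ = f₁ ∧
  (g : Matrix (Fin n) (Fin n) F) *ᵥ e₂ = cv e₁ f₁ e₂ f₂ 0 0 c d ∧
  (g : Matrix (Fin n) (Fin n) F) *ᵥ f₂ = cv e₁ f₁ e₂ f₂ 0 0 c' d'

theorem Q.congr {e₁ f₁ e₂ f₂ : VV} {g : GG} {c d c' d' c₁ d₁ c₁' d₁' : F}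
    (h : Q e₁ f₁ e₂ f₂ q g c d c' d') (h1 : c = c₁) (h2 : d = d₁) (h3 : c' = c₁')
    (h4 : d' = d₁') : Q e₁ f₁ e₂ f₂ q g c₁ d₁ c₁' d₁' := by
  subst h1 h2 h3 h4
  exact h

theorem tE_cv (hq : QF F q) {e₁ f₁ e₂ f₂ : VV} (B : Hyp4 q e₁ f₁ e₂ f₂) (x a b c d : F) :
    ((tvU n q e₂ x : GG) : MM) *ᵥ cv e₁ f₁ e₂ f₂ a b c d = cv e₁ f₁ e₂ f₂ a b (c + x * d) d := by
  rw [tvU_mulVec _ B.e2e2, B.form_e2 hq]
  unfold cv
  module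

theorem tF_cv (hq : QF F q) {e₁ f₁ e₂ f₂ : VV} (B : Hyp4 q e₁ f₁ e₂ f₂) (x a b c d : F) :
    ((tvU n q f₂ x : GG) : MM) *ᵥ cv e₁ f₁ e₂ f₂ a b c d = cv e₁ f₁ e₂ f₂ a b c (d + x * c) := by
  rw [tvU_mulVec _ B.f2f2, B.form_f2 hq]
  unfold cv
  module

theorem Q.stepE (hq : QF F q) {e₁ f₁ e₂ f₂ : VV} (B : Hyp4 q e₁ f₁ e₂ f₂) {g : GG}
    {c d c' d' : F} (h : Q e₁ f₁ e₂ f₂ q g c d c' d') {x : F} (hx : frob hq x = -x) :
    Q e₁ f₁ e₂ f₂ q (tvU n q e₂ x * g) (c + x * d) d (c' + x * d') d' := by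
  obtain ⟨hg, hW, he1, hf1, he2, hf2⟩ := h
  have ht : tvU n q e₂ x ∈ Cfsg.GU n F q ⊓ Cfsg.Geo.specialLinear (Fin n) F :=
    Subgroup.mem_inf.2 ⟨tvU_mem_gu hq _ _ hx, tvU_mem_sl _ _⟩
  refine ⟨Subgroup.mul_mem _ ht hg, fun u hu => ?_, ?_, ?_, ?_, ?_⟩
  · rw [Units.val_mul, ← Matrix.mulVec_mulVec, hW u hu,
      tv_fix hq (le_perp_perp hq _ (e2_mem e₁ f₁ e₂ f₂)) B.e2e2 _ hu]
  · rw [Units.val_mul, ← Matrix.mulVec_mulVec, he1, tvU_mulVec _ B.e2e2, B.e1e2, mul_zero,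
      zero_smul, add_zero]
  · rw [Units.val_mul, ← Matrix.mulVec_mulVec, hf1, tvU_mulVec _ B.e2e2, B.f1e2, mul_zero,
      zero_smul, add_zero]
  · rw [Units.val_mul, ← Matrix.mulVec_mulVec, he2, tE_cv hq B]
  · rw [Units.val_mul, ← Matrix.mulVec_mulVec, hf2, tE_cv hq B]

theorem Q.stepF (hq : QF F q) {e₁ f₁ e₂ f₂ : VV} (B : Hyp4 q e₁ f₁ e₂ f₂) {g : GG}
    {c d c' d' : F} (h : Q e₁ f₁ e₂ f₂ q g c d c' d') {x : F} (hx : frob hq x = -x) :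
    Q e₁ f₁ e₂ f₂ q (tvU n q f₂ x * g) c (d + x * c) c' (d' + x * c') := by
  obtain ⟨hg, hW, he1, hf1, he2, hf2⟩ := h
  have ht : tvU n q f₂ x ∈ Cfsg.GU n F q ⊓ Cfsg.Geo.specialLinear (Fin n) F :=
    Subgroup.mem_inf.2 ⟨tvU_mem_gu hq _ _ hx, tvU_mem_sl _ _⟩
  refine ⟨Subgroup.mul_mem _ ht hg, fun u hu => ?_, ?_, ?_, ?_, ?_⟩
  · rw [Units.val_mul, ← Matrix.mulVec_mulVec, hW u hu,
      tv_fix hq (le_perp_perp hq _ (f2_mem e₁ f₁ e₂ f₂)) B.f2f2 _ hu]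
  · rw [Units.val_mul, ← Matrix.mulVec_mulVec, he1, tvU_mulVec _ B.f2f2, B.e1f2, mul_zero,
      zero_smul, add_zero]
  · rw [Units.val_mul, ← Matrix.mulVec_mulVec, hf1, tvU_mulVec _ B.f2f2, B.f1f2, mul_zero,
      zero_smul, add_zero]
  · rw [Units.val_mul, ← Matrix.mulVec_mulVec, he2, tF_cv hq B]
  · rw [Units.val_mul, ← Matrix.mulVec_mulVec, hf2, tF_cv hq B]

theorem Q.rel (hq : QF F q) {e₁ f₁ e₂ f₂ : VV} (B : Hyp4 q e₁ f₁ e₂ f₂) {g : GG}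
    {c d c' d' : F} (h : Q e₁ f₁ e₂ f₂ q g c d c' d') :
    c * frob hq d + d * frob hq c = 0 ∧ c' * frob hq d' + d' * frob hq c' = 0 ∧
      c * frob hq d' + d * frob hq c' = 1 := by
  obtain ⟨hg, hW, he1, hf1, he2, hf2⟩ := h
  have hgu := (Subgroup.mem_inf.1 hg).1
  have h1 := h_map hgu e₂ e₂
  have h2 := h_map hgu f₂ f₂
  have h3 := h_map hgu e₂ f₂
  rw [he2, B.form hq, B.e2e2] at h1
  rw [hf2, B.form hq, B.f2f2] at h2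
  rw [he2, hf2, B.form hq, B.e2f2] at h3
  simp only [map_zero, mul_zero, zero_mul, zero_add] at h1 h2 h3
  exact ⟨h1, h2, h3⟩

theorem Q.apply (hq : QF F q) {e₁ f₁ e₂ f₂ : VV} {g : GG}
    {c d c' d' : F} (h : Q e₁ f₁ e₂ f₂ q g c d c' d') (a b c₀ d₀ : F) {p : VV}
    (hp : p ∈ perp q (HS e₁ f₁ e₂ f₂)) :
    (g : MM) *ᵥ (cv e₁ f₁ e₂ f₂ a b c₀ d₀ + p) =
      cv e₁ f₁ e₂ f₂ a b (c₀ * c + d₀ * c') (c₀ * d + d₀ * d') + p := by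
  obtain ⟨hg, hW, he1, hf1, he2, hf2⟩ := h
  have e : cv e₁ f₁ e₂ f₂ a b c₀ d₀ = a • e₁ + b • f₁ + c₀ • e₂ + d₀ • f₂ := rfl
  rw [Matrix.mulVec_add, hW p hp, e, Matrix.mulVec_add, Matrix.mulVec_add, Matrix.mulVec_add,
    Matrix.mulVec_smul, Matrix.mulVec_smul, Matrix.mulVec_smul, Matrix.mulVec_smul, he1, hf1,
    he2, hf2]
  unfold cv
  module

theorem Q.one (hq : QF F q) {e₁ f₁ e₂ f₂ : VV} (B : Hyp4 q e₁ f₁ e₂ f₂) {g : GG}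
    (h : Q e₁ f₁ e₂ f₂ q g 1 0 0 1) : g = 1 := by
  apply gl_ext
  intro v
  obtain ⟨a, b, c₀, d₀, p, hp, rfl⟩ := decomp hq B v
  rw [h.apply hq a b c₀ d₀ hp, Units.val_one, Matrix.one_mulVec, mul_one, mul_zero, add_zero,
    mul_zero, mul_one, zero_add]

theorem Q.det (hq : QF F q) {e₁ f₁ e₂ f₂ : VV} (B : Hyp4 q e₁ f₁ e₂ f₂) {g : GG}
    {c d' : F} (h : Q e₁ f₁ e₂ f₂ q g c 0 0 d') : c * d' = 1 := by
  have hdet : (g : MM).det = 1 := (Parab.mem_sl_iff g).1 (Subgroup.mem_inf.1 h.1).2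
  have hmat : (g : MM) = (1 + Matrix.vecMulVec ((c - 1) • e₂) (fun j => f₂ j ^ q)) *
      (1 + Matrix.vecMulVec ((d' - 1) • f₂) (fun j => e₂ j ^ q)) := by
    apply Matrix.toLin'.injective
    apply LinearMap.ext
    intro v
    rw [Matrix.toLin'_apply, Matrix.toLin'_apply]
    obtain ⟨a, b, c₀, d₀, p, hp, rfl⟩ := decomp hq B v
    have hpe : hh p e₂ = 0 := hp e₂ (e2_mem e₁ f₁ e₂ f₂)
    have hpf : hh p f₂ = 0 := hp f₂ (f2_mem e₁ f₁ e₂ f₂)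
    rw [h.apply hq a b c₀ d₀ hp, ← Matrix.mulVec_mulVec, Parab.tmat_mulVec, dot_eq,
      Parab.tmat_mulVec, dot_eq]
    simp only [h_add_left, h_smul_left, B.form_e2 hq, B.form_f2 hq, hpe, hpf, B.f2f2, add_zero,
      mul_zero]
    unfold cv
    module
  rw [hmat, Matrix.det_mul, Parab.tmat_det, Parab.tmat_det, dot_eq, dot_eq, h_smul_left,
    h_smul_left, B.e2f2, B.f2e2] at hdet
  linear_combination hdet

theorem fin_of_mul (hq : QF F q) {g t : GG} (ht : t ∈ TT hq n)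
    (h : ∃ t' ∈ TT hq n, t' * (t * g) = 1) : ∃ t' ∈ TT hq n, t' * g = 1 := by
  obtain ⟨t', ht', h1⟩ := h
  exact ⟨t' * t, (TT hq n).mul_mem ht' ht, by rw [mul_assoc]; exact h1⟩

/-- Diagonal case. -/
theorem Q.fin1 (hq : QF F q) {e₁ f₁ e₂ f₂ : VV} (B : Hyp4 q e₁ f₁ e₂ f₂) {g : GG}
    {k k' : F} (h : Q e₁ f₁ e₂ f₂ q g k 0 0 k') : ∃ t ∈ TT hq n, t * g = 1 := by
  have hkk := h.det hq B
  obtain ⟨-, -, h3⟩ := h.rel hq B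
  rw [map_zero, mul_zero, add_zero] at h3
  have hk0 : k ≠ 0 := by
    rintro rfl
    rw [zero_mul] at hkk
    exact zero_ne_one hkk
  have hfk' : frob hq k' = k' := by
    apply mul_left_cancel₀ hk0
    rw [h3, hkk]
  have hs0 := skew0_ne hq
  have hsf := skew0_frob hq
  have hx0 : frob hq (-(skew0 hq)⁻¹) = -(-(skew0 hq)⁻¹) := by
    rw [map_neg, map_inv₀, hsf, inv_neg]
  have hx1 : frob hq (-(skew0 hq * k')) = -(-(skew0 hq * k')) := by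
    rw [map_neg, map_mul, hsf, hfk']
    ring
  have hfk : frob hq k = k := by
    have h4 : frob hq k * frob hq k' = 1 := by rw [← map_mul, hkk, map_one]
    rw [hfk'] at h4
    have hk'0 : k' ≠ 0 := by
      rintro rfl
      rw [mul_zero] at hkk
      exact zero_ne_one hkk
    apply mul_right_cancel₀ hk'0
    rw [h4, hkk]
  have hx2 : frob hq ((skew0 hq)⁻¹ * k) = -((skew0 hq)⁻¹ * k) := by
    rw [map_mul, map_inv₀, hsf, hfk, inv_neg]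
    ring
  have s1 := (h.stepE hq B hsf).congr (c₁ := k) (d₁ := 0) (c₁' := skew0 hq * k') (d₁' := k')
    (by ring) rfl (by ring) rfl
  have s2 := (s1.stepF hq B hx0).congr (c₁ := k) (d₁ := -(skew0 hq)⁻¹ * k)
    (c₁' := skew0 hq * k') (d₁' := 0) rfl (by ring) rfl (by field_simp; ring)
  have s3 := (s2.stepE hq B hsf).congr (c₁ := 0) (d₁ := -(skew0 hq)⁻¹ * k)
    (c₁' := skew0 hq * k') (d₁' := 0) (by field_simp; ring) rfl (by ring) rfl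
  have s4 := (s3.stepE hq B hx1).congr (c₁ := 1) (d₁ := -(skew0 hq)⁻¹ * k)
    (c₁' := skew0 hq * k') (d₁' := 0) (by field_simp; linear_combination hkk) rfl (by ring) rfl
  have s5 := (s4.stepF hq B hx2).congr (c₁ := 1) (d₁ := 0)
    (c₁' := skew0 hq * k') (d₁' := 1) rfl (by ring)
    rfl (by field_simp; linear_combination hkk)
  have s6 := (s5.stepE hq B hx1).congr (c₁ := 1) (d₁ := 0) (c₁' := 0) (d₁' := 1)
    (by ring) rfl (by ring) rfl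
  have hfin := s6.one hq B
  apply fin_of_mul hq (TT_mem hq e₂ _ B.e2e2 hsf)
  apply fin_of_mul hq (TT_mem hq f₂ _ B.f2f2 hx0)
  apply fin_of_mul hq (TT_mem hq e₂ _ B.e2e2 hsf)
  apply fin_of_mul hq (TT_mem hq e₂ _ B.e2e2 hx1)
  apply fin_of_mul hq (TT_mem hq f₂ _ B.f2f2 hx2)
  apply fin_of_mul hq (TT_mem hq e₂ _ B.e2e2 hx1)
  exact ⟨1, (TT hq n).one_mem, by rw [one_mul]; exact hfin⟩

/-- The case `c ≠ 0`. -/
theorem Q.fin2 (hq : QF F q) {e₁ f₁ e₂ f₂ : VV} (B : Hyp4 q e₁ f₁ e₂ f₂) {g : GG}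
    {c d c' d' : F} (h : Q e₁ f₁ e₂ f₂ q g c d c' d') (hc : c ≠ 0) :
    ∃ t ∈ TT hq n, t * g = 1 := by
  obtain ⟨h1, -, -⟩ := h.rel hq B
  have hfc : frob hq c ≠ 0 := (map_ne_zero (frob hq)).2 hc
  have hx : frob hq (-d / c) = -(-d / c) := by
    rw [map_div₀, map_neg, div_eq_iff hfc, neg_div, neg_neg, div_mul_eq_mul_div, eq_div_iff hc]
    linear_combination (-1 : F) * h1
  have s1 := (h.stepF hq B hx).congr (c₁ := c) (d₁ := 0) (c₁' := c') (d₁' := d' + -d / c * c')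
    rfl (by field_simp; ring) rfl rfl
  obtain ⟨-, h2, h3⟩ := s1.rel hq B
  rw [zero_mul, add_zero] at h3
  obtain ⟨D, hD⟩ : ∃ D : F, D = d' + -d / c * c' := ⟨_, rfl⟩
  rw [← hD] at s1 h2 h3
  have hfD : frob hq D ≠ 0 := by
    intro h0
    rw [h0, mul_zero] at h3
    exact zero_ne_one h3
  have hD0 : D ≠ 0 := fun h0 => hfD (by rw [h0, map_zero])
  have hx' : frob hq (-c' / D) = -(-c' / D) := by
    rw [map_div₀, map_neg, div_eq_iff hfD, neg_div, neg_neg, div_mul_eq_mul_div, eq_div_iff hD0]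
    linear_combination (-1 : F) * h2
  have s2 := (s1.stepE hq B hx').congr (c₁ := c) (d₁ := 0) (c₁' := 0) (d₁' := D)
    (by ring) rfl (by field_simp; ring) rfl
  apply fin_of_mul hq (TT_mem hq f₂ _ B.f2f2 hx)
  apply fin_of_mul hq (TT_mem hq e₂ _ B.e2e2 hx')
  exact s2.fin1 hq B

theorem Q.fin (hq : QF F q) {e₁ f₁ e₂ f₂ : VV} (B : Hyp4 q e₁ f₁ e₂ f₂) {g : GG}
    {c d c' d' : F} (h : Q e₁ f₁ e₂ f₂ q g c d c' d') : ∃ t ∈ TT hq n, t * g = 1 := by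
  by_cases hc : c = 0
  · obtain ⟨-, -, h3⟩ := h.rel hq B
    have hd : d ≠ 0 := by
      rintro rfl
      rw [hc, zero_mul, zero_mul, add_zero] at h3
      exact zero_ne_one h3
    have s1 := h.stepE hq B (skew0_frob hq)
    apply fin_of_mul hq (TT_mem hq e₂ _ B.e2e2 (skew0_frob hq))
    apply s1.fin2 hq B
    rw [hc, zero_add]
    exact mul_ne_zero (skew0_ne hq) hd
  · exact h.fin2 hq B hc

/-- **Generation**: for `n ≥ 4` the special unitary group is generated by the unitary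
transvections. -/
theorem su_le_tt [Finite F] (hq : QF F q) (hn : 4 ≤ n) :
    Cfsg.GU n F q ⊓ Cfsg.Geo.specialLinear (Fin n) F ≤ TT hq n := by
  obtain ⟨e₁, f₁, e₂, f₂, B⟩ := exists_hyp4 hq hn
  intro g hg
  have hHnd := B.nd hq
  have hWnd := ND_perp hq hHnd
  have hW : perp q (HS e₁ f₁ e₂ f₂) ⊓ perp q (perp q (HS e₁ f₁ e₂ f₂)) = ⊥ := by
    rw [eq_bot_iff]
    intro x hx
    obtain ⟨h1, h2⟩ := Submodule.mem_inf.1 hx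
    rw [Submodule.mem_bot]
    exact hWnd.inf_perp hq h1 h2
  have hWH : perp q (HS e₁ f₁ e₂ f₂) ⊓ HS e₁ f₁ e₂ f₂ = ⊥ := by
    rw [eq_bot_iff]
    intro x hx
    obtain ⟨h1, h2⟩ := Submodule.mem_inf.1 hx
    rw [Submodule.mem_bot]
    exact hHnd.inf_perp hq h2 h1
  have hfinW : Module.finrank F ↥(perp q (HS e₁ f₁ e₂ f₂)) + 4 ≤ n := by
    have h1 := Submodule.finrank_sup_add_finrank_inf_eq (perp q (HS e₁ f₁ e₂ f₂))
      (HS e₁ f₁ e₂ f₂)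
    rw [hWH, finrank_bot, add_zero] at h1
    have h2 := B.finrank_ge hq
    have h3 : Module.finrank F VV = n := Module.finrank_fin_fun F
    have h4 := Submodule.finrank_le (perp q (HS e₁ f₁ e₂ f₂) ⊔ HS e₁ f₁ e₂ f₂)
    omega
  have hroom : ∀ U : Submodule F VV, U ≤ perp q (HS e₁ f₁ e₂ f₂) →
      U ≠ perp q (HS e₁ f₁ e₂ f₂) → Module.finrank F U + 4 < n := by
    intro U hUW hne
    have := Submodule.finrank_lt_finrank_of_lt (lt_of_le_of_ne hUW hne)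
    omega
  have hTle : TT hq n ≤ Cfsg.GU n F q ⊓ Cfsg.Geo.specialLinear (Fin n) F := TT_le hq
  obtain ⟨t₀, ht₀, ht₀W⟩ := chain hq hW hroom (TT hq n)
    (fun v c hv hc => TT_mem hq v c hv hc)
    (le_trans hTle inf_le_left) (Module.finrank F ↥(perp q (HS e₁ f₁ e₂ f₂))) ⊥ (ND_bot hq)
    bot_le (by rw [finrank_bot, zero_add]) g (Subgroup.mem_inf.1 hg).1
    (fun u hu => by rw [(Submodule.mem_bot F).1 hu, Matrix.mulVec_zero])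
  have hg₁ : t₀ * g ∈ Cfsg.GU n F q ⊓ Cfsg.Geo.specialLinear (Fin n) F :=
    Subgroup.mul_mem _ (hTle ht₀) hg
  have hg₁u := (Subgroup.mem_inf.1 hg₁).1
  -- step A
  have hyH := maps_of_fix hq hHnd hg₁u ht₀W (e1_mem e₁ f₁ e₂ f₂)
  have hyy : hh (((t₀ * g : GG) : MM) *ᵥ e₁) (((t₀ * g : GG) : MM) *ᵥ e₁) = 0 := by
    rw [h_map hg₁u, B.e1e1]
  have hy0 : ((t₀ * g : GG) : MM) *ᵥ e₁ ≠ 0 := by
    intro h0
    have h1 := h_map hg₁u e₁ f₁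
    rw [h0, h_zero_left, B.e1f1] at h1
    exact zero_ne_one h1
  obtain ⟨t₁, ht₁, ht₁W, ht₁y⟩ := stepA hq B hyH hyy hy0
  have hg₂ : t₁ * (t₀ * g) ∈ Cfsg.GU n F q ⊓ Cfsg.Geo.specialLinear (Fin n) F :=
    Subgroup.mul_mem _ (hTle ht₁) hg₁
  have hg₂u := (Subgroup.mem_inf.1 hg₂).1
  have hg₂W : ∀ u ∈ perp q (HS e₁ f₁ e₂ f₂), ((t₁ * (t₀ * g) : GG) : MM) *ᵥ u = u := by
    intro u hu
    rw [Units.val_mul, ← Matrix.mulVec_mulVec, ht₀W u hu, ht₁W u hu]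
  have hg₂e : ((t₁ * (t₀ * g) : GG) : MM) *ᵥ e₁ = e₁ := by
    rw [Units.val_mul, ← Matrix.mulVec_mulVec, ht₁y]
  -- step B
  have hfH := maps_of_fix hq hHnd hg₂u hg₂W (f1_mem e₁ f₁ e₂ f₂)
  have hff : hh (((t₁ * (t₀ * g) : GG) : MM) *ᵥ f₁) (((t₁ * (t₀ * g) : GG) : MM) *ᵥ f₁) = 0 := by
    rw [h_map hg₂u, B.f1f1]
  have hfe : hh (((t₁ * (t₀ * g) : GG) : MM) *ᵥ f₁) e₁ = 1 := by
    have h1 := h_map hg₂u f₁ e₁
    rw [hg₂e, B.f1e1] at h1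
    exact h1
  obtain ⟨t₂, ht₂, ht₂W, ht₂f, ht₂e⟩ := stepB hq B hfH hff hfe
  have hg₃ : t₂ * (t₁ * (t₀ * g)) ∈ Cfsg.GU n F q ⊓ Cfsg.Geo.specialLinear (Fin n) F :=
    Subgroup.mul_mem _ (hTle ht₂) hg₂
  have hg₃u := (Subgroup.mem_inf.1 hg₃).1
  have hg₃W : ∀ u ∈ perp q (HS e₁ f₁ e₂ f₂), ((t₂ * (t₁ * (t₀ * g)) : GG) : MM) *ᵥ u = u := by
    intro u hu
    rw [Units.val_mul, ← Matrix.mulVec_mulVec, hg₂W u hu, ht₂W u hu]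
  have hg₃e : ((t₂ * (t₁ * (t₀ * g)) : GG) : MM) *ᵥ e₁ = e₁ := by
    rw [Units.val_mul, ← Matrix.mulVec_mulVec, hg₂e, ht₂e]
  have hg₃f : ((t₂ * (t₁ * (t₀ * g)) : GG) : MM) *ᵥ f₁ = f₁ := by
    rw [Units.val_mul, ← Matrix.mulVec_mulVec, ht₂f]
  -- step C
  have key : ∀ z : VV, z ∈ HS e₁ f₁ e₂ f₂ → hh z e₁ = 0 → hh z f₁ = 0 →
      ∃ c d : F, ((t₂ * (t₁ * (t₀ * g)) : GG) : MM) *ᵥ z = cv e₁ f₁ e₂ f₂ 0 0 c d := by
    intro z hz hze hzf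
    have hzH := maps_of_fix hq hHnd hg₃u hg₃W hz
    obtain ⟨a, b, c, d, habcd⟩ := (mem_HS_iff e₁ f₁ e₂ f₂ _).1 hzH
    have h1 := h_map hg₃u z e₁
    have h2 := h_map hg₃u z f₁
    rw [hg₃e, habcd, B.form_e1 hq, hze] at h1
    rw [hg₃f, habcd, B.form_f1 hq, hzf] at h2
    refine ⟨c, d, ?_⟩
    rw [habcd, h1, h2]
  obtain ⟨c, d, hcd⟩ := key e₂ (e2_mem e₁ f₁ e₂ f₂) B.e2e1 B.e2f1
  obtain ⟨c', d', hcd'⟩ := key f₂ (f2_mem e₁ f₁ e₂ f₂) B.f2e1 B.f2f1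
  have hQ : Q e₁ f₁ e₂ f₂ q (t₂ * (t₁ * (t₀ * g))) c d c' d' :=
    ⟨hg₃, hg₃W, hg₃e, hg₃f, hcd, hcd'⟩
  obtain ⟨t₃, ht₃, h3⟩ := hQ.fin hq B
  have hfinal : (t₃ * t₂ * t₁ * t₀) * g = 1 := by
    rw [← h3]
    group
  have hmem : t₃ * t₂ * t₁ * t₀ ∈ TT hq n :=
    (TT hq n).mul_mem ((TT hq n).mul_mem ((TT hq n).mul_mem ht₃ ht₂) ht₁) ht₀
  have hg_eq : g = (t₃ * t₂ * t₁ * t₀)⁻¹ := eq_inv_of_mul_eq_one_right hfinal
  rw [hg_eq]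
  exact (TT hq n).inv_mem hmem

end Cfsg.Agent.Helper8.SUNd
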