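import Mathlib
import Cfsg.Prelude.Def_GeometricClasses
import Cfsg.Agent.Helper8.SUGen

/-!
# From the matrix group `GU ⊓ SL` inside `GL` to the subgroup `SU` of `SL`

The embedding `SU → GL`, the generation statement in `SU`, and two facts about matrices `M`
with `M - 1` of rank one.
-/

set_option autoImplicit false

namespace Cfsg.Agent.Helper8.SUNd

open Matrix Cfsg.Agent.Helper2 Cfsg.Agent.Helper8.SULag

variable {F : Type*} [Field F] {n q : ℕ}

local notation "VV" => (Fin n → F)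
local notation "MM" => Matrix (Fin n) (Fin n) F
local notation "GG" => Matrix.GeneralLinearGroup (Fin n) F
local notation "hh" => Cfsg.hermForm n F q

/-- The embedding of `SU` into `GL`. -/
def suGL (n : ℕ) (F : Type*) [Field F] (q : ℕ) :
    ↥(Cfsg.SU n F q) →* Matrix.GeneralLinearGroup (Fin n) F :=
  Matrix.SpecialLinearGroup.toGL.comp (Cfsg.SU n F q).subtype

theorem suGL_val (A : ↥(Cfsg.SU n F q)) :
    ((suGL n F q A : GG) : MM) = ((A : Matrix.SpecialLinearGroup (Fin n) F) : MM) := rfl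

theorem suGL_inj : Function.Injective (suGL n F q) := by
  intro A B h
  apply Subtype.ext
  apply Subtype.ext
  have h1 := congrArg (fun g : GG => (g : MM)) h
  exact h1

theorem suGL_mem (A : ↥(Cfsg.SU n F q)) :
    suGL n F q A ∈ Cfsg.GU n F q ⊓ Cfsg.Geo.specialLinear (Fin n) F := by
  refine Subgroup.mem_inf.2 ⟨?_, ?_⟩
  · rw [mem_gu_iff]
    intro u v
    exact A.2 u v
  · rw [Parab.mem_sl_iff]
    exact A.1.2

theorem exists_su (g : GG) (hg : g ∈ Cfsg.GU n F q ⊓ Cfsg.Geo.specialLinear (Fin n) F) :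
    ∃ A : ↥(Cfsg.SU n F q), suGL n F q A = g := by
  obtain ⟨h1, h2⟩ := Subgroup.mem_inf.1 hg
  refine ⟨⟨⟨(g : MM), (Parab.mem_sl_iff g).1 h2⟩, fun u v => (mem_gu_iff g).1 h1 u v⟩, ?_⟩
  apply Units.ext
  rfl

theorem tvU_val (a : VV) (ha : hh a a = 0) (c : F) :
    ((tvU n q a c : GG) : MM) = Cfsg.unitaryTransvection n q a c := by
  unfold tvU
  rw [dif_pos ha, Parab.tgl_val]
  unfold Cfsg.unitaryTransvection
  rw [Matrix.smul_vecMulVec]

/-- Generation in `SU`, given generation in `GL`. -/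
theorem closure_top_of (hq : QF F q)
    (hgen : Cfsg.GU n F q ⊓ Cfsg.Geo.specialLinear (Fin n) F ≤ TT hq n)
    (S : Set ↥(Cfsg.SU n F q))
    (h : ∀ (a : VV) (c : F), hh a a = 0 → frob hq c = -c →
      ∃ A ∈ Subgroup.closure S, suGL n F q A = tvU n q a c) : Subgroup.closure S = ⊤ := by
  rw [eq_top_iff]
  intro g _
  have h1 : suGL n F q g ∈ TT hq n := hgen (suGL_mem g)
  have h2 : TT hq n ≤ (Subgroup.closure S).map (suGL n F q) := by
    apply (Subgroup.closure_le _).2
    rintro t ⟨a, c, ha, hc, rfl⟩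
    obtain ⟨A, hA, hAt⟩ := h a c ha hc
    exact Subgroup.mem_map.2 ⟨A, hA, hAt⟩
  obtain ⟨g', hg', hgg⟩ := Subgroup.mem_map.1 (h2 h1)
  rw [← suGL_inj hgg]
  exact hg'

/-- A matrix of determinant one with `M - 1` of rank one has `(M - 1)² = 0`. -/
theorem sq_zero_of_rank_one (M : MM) (hdet : M.det = 1) (hr : (M - 1).rank = 1) :
    (M - 1) * (M - 1) = 0 := by
  obtain ⟨x0, hx0⟩ : ∃ x0, (M - 1) *ᵥ x0 ≠ 0 := by
    by_contra hcon
    push Not at hcon
    have h0 : M - 1 = 0 := by
      apply Matrix.toLin'.injective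
      apply LinearMap.ext
      intro x
      rw [Matrix.toLin'_apply, hcon x, map_zero, LinearMap.zero_apply]
    rw [h0, Matrix.rank_zero] at hr
    exact zero_ne_one hr
  have hspan : ∀ z, ∃ a : F, (M - 1) *ᵥ z = a • ((M - 1) *ᵥ x0) := by
    intro z
    have h1 := (finrank_eq_one_iff_of_nonzero'
      (⟨(M - 1) *ᵥ x0, LinearMap.mem_range_self (M - 1).mulVecLin x0⟩ :
        LinearMap.range (M - 1).mulVecLin) (by
        intro h0; exact hx0 (congrArg Subtype.val h0))).mp hr
        ⟨(M - 1) *ᵥ z, LinearMap.mem_range_self (M - 1).mulVecLin z⟩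
    obtain ⟨a, ha⟩ := h1
    exact ⟨a, (congrArg Subtype.val ha).symm⟩
  obtain ⟨u, hu⟩ : ∃ u : VV, u = (M - 1) *ᵥ x0 := ⟨_, rfl⟩
  rw [← hu] at hspan
  choose φ hφ using fun j : Fin n => hspan (Pi.single j 1)
  have hN : M - 1 = Matrix.vecMulVec u φ := by
    ext i j
    have h1 := congrFun (hφ j) i
    rw [Matrix.mulVec_single_one] at h1
    rw [Matrix.vecMulVec_apply, mul_comm]
    exact h1
  have hM : M = 1 + Matrix.vecMulVec u φ := by
    rw [← hN]
    abel
  have hd : φ ⬝ᵥ u = 0 := by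
    have h1 := hdet
    rw [hM, Parab.tmat_det] at h1
    linear_combination h1
  rw [hN, Matrix.vecMulVec_mul_vecMulVec, hd, zero_smul]
  ext i j
  rw [Matrix.vecMulVec_apply, Pi.zero_apply, mul_zero, Matrix.zero_apply]

/-- `M - 1` has rank one for a non-trivial unitary transvection `M`. -/
theorem rank_tv (hq : QF F q) (u : VV) (hu : u ≠ 0) (c : F) (hc : c ≠ 0) :
    (Cfsg.unitaryTransvection n q u c - 1).rank = 1 := by
  have e : Cfsg.unitaryTransvection n q u c - 1 =
      Matrix.vecMulVec (c • u) (fun j => u j ^ q) := by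
    unfold Cfsg.unitaryTransvection
    rw [Matrix.smul_vecMulVec]
    abel
  have h1 : (Cfsg.unitaryTransvection n q u c - 1).rank ≤ 1 := by
    rw [e]
    exact Matrix.rank_vecMulVec_le _ _
  have h2 : (Cfsg.unitaryTransvection n q u c - 1).rank ≠ 0 := by
    intro h0
    obtain ⟨y, hy⟩ : ∃ y : VV, hh y u ≠ 0 := by
      by_contra hcon
      push Not at hcon
      apply hu
      apply h_nondeg hq u
      intro y
      exact h_symm0 hq (hcon y)
    have h3 : LinearMap.range (Cfsg.unitaryTransvection n q u c - 1).mulVecLin = ⊥ :=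
      Submodule.finrank_eq_zero.1 h0
    have h4 : (Cfsg.unitaryTransvection n q u c - 1) *ᵥ y = 0 := by
      have h5 : (Cfsg.unitaryTransvection n q u c - 1) *ᵥ y ∈
          LinearMap.range (Cfsg.unitaryTransvection n q u c - 1).mulVecLin :=
        LinearMap.mem_range_self (Cfsg.unitaryTransvection n q u c - 1).mulVecLin y
      rw [h3] at h5
      exact (Submodule.mem_bot F).1 h5
    rw [e, Matrix.vecMulVec_mulVec, dot_eq, op_smul_eq_smul, smul_smul] at h4
    rcases smul_eq_zero.1 h4 with h6 | h6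
    · exact mul_ne_zero hy hc h6
    · exact hu h6
  omega

end Cfsg.Agent.Helper8.SUNd
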