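import Mathlib
import Cfsg.Prelude.Def_GeometricClasses
import Cfsg.Agent.Helper8.SUBridge
import Cfsg.Agent.S0278
import Cfsg.Agent.S0285

/-!
# Involutions of `SU_3(q)`, `q` odd

Every involution is `x ↦ (2 h(x,v)/h(v,v)) v - x` for a non-isotropic vector `v`,
determined up to a scalar.
-/

set_option autoImplicit false

namespace Cfsg.Agent.Helper8.SU3I

open Matrix Cfsg.Agent.Helper2 Cfsg.Agent.Helper8.SULag Cfsg.Agent.Helper8.SUNd

variable {F : Type*} [Field F] {n q : ℕ}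

local notation "VV" => (Fin n → F)
local notation "MM" => Matrix (Fin n) (Fin n) F
local notation "hh" => Cfsg.hermForm n F q

theorem mat_ext (A B : MM) (H : ∀ x : VV, A *ᵥ x = B *ᵥ x) : A = B := by
  apply Matrix.toLin'.injective
  apply LinearMap.ext
  intro x
  rw [Matrix.toLin'_apply, Matrix.toLin'_apply]
  exact H x

/-- The involution `x ↦ (2 h(x,v)/h(v,v)) v - x` attached to a non-isotropic vector. -/
noncomputable def ivm (n q : ℕ) {F : Type*} [Field F] (v : Fin n → F) :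
    Matrix (Fin n) (Fin n) F :=
  -(1 + Matrix.vecMulVec ((-(2 / Cfsg.hermForm n F q v v)) • v) (fun j => v j ^ q))

theorem ivm_mulVec (v x : VV) :
    ivm n q v *ᵥ x = (2 * hh x v / hh v v) • v - x := by
  unfold ivm
  rw [Matrix.neg_mulVec, Parab.tmat_mulVec, dot_eq, smul_smul, neg_add, ← neg_smul,
    sub_eq_add_neg, add_comm]
  congr 2
  ring

theorem ivm_isom (hq : QF F q) (v : VV) (hv : hh v v ≠ 0) (x y : VV) :
    hh (ivm n q v *ᵥ x) (ivm n q v *ᵥ y) = hh x y := by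
  rw [ivm_mulVec, ivm_mulVec]
  simp only [h_sub_left, h_sub_right hq, h_smul_left, h_smul_right hq, map_div₀, map_mul,
    h_conj hq, map_ofNat]
  field_simp
  ring

theorem ivm_ivm (v : VV) (hv : hh v v ≠ 0) (x : VV) :
    ivm n q v *ᵥ (ivm n q v *ᵥ x) = x := by
  rw [ivm_mulVec, ivm_mulVec]
  have hc : 2 * hh ((2 * hh x v / hh v v) • v - x) v / hh v v = 2 * hh x v / hh v v := by
    rw [h_sub_left, h_smul_left]
    field_simp
    ring
  rw [hc]
  abel

theorem ivm_sq (v : VV) (hv : hh v v ≠ 0) : ivm n q v * ivm n q v = 1 := by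
  apply mat_ext
  intro x
  rw [← Matrix.mulVec_mulVec, ivm_ivm v hv, Matrix.one_mulVec]

theorem ivm_fix (v : VV) (hv : hh v v ≠ 0) : ivm n q v *ᵥ v = v := by
  rw [ivm_mulVec]
  have hc : 2 * hh v v / hh v v = 2 := by
    field_simp
  rw [hc, two_smul]
  abel

theorem ivm_perp (v x : VV) (hx : hh x v = 0) : ivm n q v *ᵥ x = -x := by
  rw [ivm_mulVec, hx, mul_zero, zero_div, zero_smul, zero_sub]

theorem ivm_smul (hq : QF F q) (v : VV) (hv : hh v v ≠ 0) (c : F) (hc : c ≠ 0) :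
    ivm n q (c • v) = ivm n q v := by
  apply mat_ext
  intro x
  rw [ivm_mulVec, ivm_mulVec, smul_smul]
  have hc' : frob hq c ≠ 0 := (map_ne_zero _).2 hc
  congr 2
  rw [h_smul_left, h_smul_right hq, h_smul_right hq]
  field_simp

theorem ivm_det (v : Fin 3 → F) (hv : Cfsg.hermForm 3 F q v v ≠ 0) : (ivm 3 q v).det = 1 := by
  unfold ivm
  rw [Matrix.det_neg, Parab.tmat_det, dot_eq, h_smul_left, Fintype.card_fin]
  field_simp
  ring

/-- The isometry `x ↦ x + (a - 1) h(x,w) w` for `w` of norm one and `a` of norm one. -/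
noncomputable def qrm (n q : ℕ) {F : Type*} [Field F] (w : Fin n → F) (a : F) :
    Matrix (Fin n) (Fin n) F :=
  1 + Matrix.vecMulVec ((a - 1) • w) (fun j => w j ^ q)

theorem qrm_mulVec (w : VV) (a : F) (x : VV) :
    qrm n q w a *ᵥ x = x + ((a - 1) * hh x w) • w := by
  unfold qrm
  rw [Parab.tmat_mulVec, dot_eq, smul_smul, mul_comm]

theorem qrm_det (w : VV) (hw : hh w w = 1) (a : F) : (qrm n q w a).det = a := by
  unfold qrm
  rw [Parab.tmat_det, dot_eq, h_smul_left, hw]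
  ring

theorem qrm_isom (hq : QF F q) (w : VV) (hw : hh w w = 1) (a : F) (ha : a * frob hq a = 1)
    (x y : VV) : hh (qrm n q w a *ᵥ x) (qrm n q w a *ᵥ y) = hh x y := by
  rw [qrm_mulVec, qrm_mulVec]
  simp only [h_add_left, h_add_right hq, h_smul_left, h_smul_right hq, map_mul, map_sub, map_one,
    h_conj hq, hw]
  linear_combination (hh x w * hh w y) * ha


/-! ## Dimension three -/

local notation "V3" => (Fin 3 → F)
local notation "H3" => Cfsg.hermForm 3 F q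

theorem ne_zero_of_norm {v : VV} (hv : hh v v ≠ 0) : v ≠ 0 := by
  rintro rfl
  exact hv (h_zero_left _)

/-- Three pairwise orthogonal non-isotropic vectors span the 3-space. -/
theorem basis3 (hq : QF F q) {v w u : V3} (hv : H3 v v ≠ 0) (hw : H3 w w ≠ 0) (hu : H3 u u ≠ 0)
    (hwv : H3 w v = 0) (huv : H3 u v = 0) (huw : H3 u w = 0) (x : V3) :
    ∃ a b c : F, x = a • v + b • w + c • u := by
  have h0 := ND_bot (n := 3) (F := F) (q := q) hq
  have h1 := ND_ext1 hq h0 (mem_perp_bot hq v) hv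
  have hw1 : w ∈ perp q ((⊥ : Submodule F V3) ⊔ Submodule.span F {v}) :=
    (mem_perp_ext hq _ _ _).2 ⟨mem_perp_bot hq w, hwv⟩
  have h2 := ND_ext1 hq h1 hw1 hw
  have hu2 : u ∈ perp q ((⊥ : Submodule F V3) ⊔ Submodule.span F {v} ⊔ Submodule.span F {w}) :=
    (mem_perp_ext hq _ _ _).2 ⟨(mem_perp_ext hq _ _ _).2 ⟨mem_perp_bot hq u, huv⟩, huw⟩
  have hv0 : v ∉ (⊥ : Submodule F V3) := by
    intro h
    exact ne_zero_of_norm hv ((Submodule.mem_bot F).1 h)
  have hw0 : w ∉ (⊥ : Submodule F V3) ⊔ Submodule.span F {v} := by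
    intro h
    exact ne_zero_of_norm hw (h1.inf_perp hq h hw1)
  have hu0 : u ∉ (⊥ : Submodule F V3) ⊔ Submodule.span F {v} ⊔ Submodule.span F {w} := by
    intro h
    exact ne_zero_of_norm hu (h2.inf_perp hq h hu2)
  have f1 := finrank_ext_lt _ v hv0
  have f2 := finrank_ext_lt _ w hw0
  have f3 := finrank_ext_lt _ u hu0
  have f4 := Submodule.finrank_le ((⊥ : Submodule F V3) ⊔ Submodule.span F {v} ⊔
    Submodule.span F {w} ⊔ Submodule.span F {u})
  rw [Module.finrank_fin_fun] at f4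
  have htop : (⊥ : Submodule F V3) ⊔ Submodule.span F {v} ⊔ Submodule.span F {w} ⊔
      Submodule.span F {u} = ⊤ := by
    apply Submodule.eq_top_of_finrank_eq
    rw [Module.finrank_fin_fun]
    omega
  have hx : x ∈ (⊥ : Submodule F V3) ⊔ Submodule.span F {v} ⊔ Submodule.span F {w} ⊔
      Submodule.span F {u} := by
    rw [htop]
    exact Submodule.mem_top
  obtain ⟨y, hy, z, hz, rfl⟩ := Submodule.mem_sup.1 hx
  obtain ⟨y1, hy1, z1, hz1, rfl⟩ := Submodule.mem_sup.1 hy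
  obtain ⟨y2, hy2, z2, hz2, rfl⟩ := Submodule.mem_sup.1 hy1
  obtain ⟨c, rfl⟩ := Submodule.mem_span_singleton.1 hz
  obtain ⟨b, rfl⟩ := Submodule.mem_span_singleton.1 hz1
  obtain ⟨a, rfl⟩ := Submodule.mem_span_singleton.1 hz2
  rw [(Submodule.mem_bot F).1 hy2, zero_add]
  exact ⟨a, b, c, rfl⟩

theorem mat_ext3 (hq : QF F q) {v w u : V3} (hv : H3 v v ≠ 0) (hw : H3 w w ≠ 0)
    (hu : H3 u u ≠ 0) (hwv : H3 w v = 0) (huv : H3 u v = 0) (huw : H3 u w = 0)
    (A B : Matrix (Fin 3) (Fin 3) F) (h1 : A *ᵥ v = B *ᵥ v) (h2 : A *ᵥ w = B *ᵥ w)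
    (h3' : A *ᵥ u = B *ᵥ u) : A = B := by
  apply mat_ext
  intro x
  obtain ⟨a, b, c, rfl⟩ := basis3 hq hv hw hu hwv huv huw x
  simp only [Matrix.mulVec_add, Matrix.mulVec_smul, h1, h2, h3']

/-- An eigenvector of non-zero norm for an isometric involution. -/
theorem eig_noniso (hq : QF F q) (h2 : (2 : F) ≠ 0) (T : MM)
    (hT : ∀ x y : VV, hh (T *ᵥ x) (T *ᵥ y) = hh x y) (hsq : T * T = 1) (s : F)
    (hs : s = 1 ∨ s = -1) (hex : ∃ x : VV, x + s • (T *ᵥ x) ≠ 0) :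
    ∃ v : VV, T *ᵥ v = s • v ∧ hh v v ≠ 0 := by
  have hss : s * s = 1 := by
    rcases hs with rfl | rfl <;> ring
  have hfs : frob hq s = s := by
    rcases hs with rfl | rfl
    · exact map_one _
    · rw [map_neg, map_one]
  have hTT : ∀ x : VV, T *ᵥ (T *ᵥ x) = x := by
    intro x
    rw [Matrix.mulVec_mulVec, hsq, Matrix.one_mulVec]
  by_contra hcon
  have hall : ∀ y ∈ Module.End.eigenspace (Matrix.toLin' T) s, hh y y = 0 := by
    intro y hy
    by_contra h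
    apply hcon
    refine ⟨y, ?_, h⟩
    have := Module.End.mem_eigenspace_iff.1 hy
    rwa [Matrix.toLin'_apply] at this
  have htot := iso_total hq _ hall
  obtain ⟨x0, hx0⟩ := hex
  have ha : T *ᵥ (x0 + s • (T *ᵥ x0)) = s • (x0 + s • (T *ᵥ x0)) := by
    rw [Matrix.mulVec_add, Matrix.mulVec_smul, hTT, smul_add, smul_smul, hss, one_smul, add_comm]
  have hamem : x0 + s • (T *ᵥ x0) ∈ Module.End.eigenspace (Matrix.toLin' T) s := by
    rw [Module.End.mem_eigenspace_iff, Matrix.toLin'_apply]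
    exact ha
  apply hx0
  apply h_nondeg hq
  intro y
  have hb : T *ᵥ (y - s • (T *ᵥ y)) = (-s) • (y - s • (T *ᵥ y)) := by
    rw [Matrix.mulVec_sub, Matrix.mulVec_smul, hTT, smul_sub, smul_smul, neg_mul, hss, neg_smul,
      neg_smul, one_smul]
    abel
  have h1 : hh (x0 + s • (T *ᵥ x0)) (y + s • (T *ᵥ y)) = 0 := by
    apply htot _ hamem
    rw [Module.End.mem_eigenspace_iff, Matrix.toLin'_apply, Matrix.mulVec_add,
      Matrix.mulVec_smul, hTT, smul_add, smul_smul, hss, one_smul, add_comm]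
  have h2' : hh (x0 + s • (T *ᵥ x0)) (y - s • (T *ᵥ y)) = 0 := by
    have h3 := hT (x0 + s • (T *ᵥ x0)) (y - s • (T *ᵥ y))
    rw [ha, hb, h_smul_left, h_smul_right hq, map_neg, hfs] at h3
    have h4 : (2 : F) * hh (x0 + s • (T *ᵥ x0)) (y - s • (T *ᵥ y)) = 0 := by
      linear_combination -h3 - hh (x0 + s • (T *ᵥ x0)) (y - s • (T *ᵥ y)) * hss
    rcases mul_eq_zero.1 h4 with h5 | h5
    · exact absurd h5 h2
    · exact h5
  have h5 : (2 : F) * hh (x0 + s • (T *ᵥ x0)) y = 0 := by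
    have e : (2 : F) • y = (y + s • (T *ᵥ y)) + (y - s • (T *ᵥ y)) := by
      rw [two_smul]
      abel
    have h6 : hh (x0 + s • (T *ᵥ x0)) ((2 : F) • y) = 0 := by
      rw [e, h_add_right hq, h1, h2', add_zero]
    rw [h_smul_right hq, map_ofNat] at h6
    exact h6
  rcases mul_eq_zero.1 h5 with h6 | h6
  · exact absurd h6 h2
  · exact h6


/-- **Structure of involutions**: an isometric involution of determinant one in dimension
three is `ivm v` for a non-isotropic `v`. -/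
theorem inv_struct (hq : QF F q) (h2 : (2 : F) ≠ 0) (T : Matrix (Fin 3) (Fin 3) F)
    (hT : ∀ x y : V3, H3 (T *ᵥ x) (T *ᵥ y) = H3 x y) (hdet : T.det = 1) (hsq : T * T = 1)
    (hne : T ≠ 1) : ∃ v : V3, H3 v v ≠ 0 ∧ T = ivm 3 q v := by
  have hTT : ∀ x : V3, T *ᵥ (T *ᵥ x) = x := by
    intro x
    rw [Matrix.mulVec_mulVec, hsq, Matrix.one_mulVec]
  have hex1 : ∃ x : V3, x + (1 : F) • (T *ᵥ x) ≠ 0 := by
    by_contra hcon
    push Not at hcon
    have hT' : T = -1 := by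
      apply mat_ext
      intro x
      have h := hcon x
      rw [one_smul] at h
      rw [Matrix.neg_mulVec, Matrix.one_mulVec]
      exact eq_neg_of_add_eq_zero_right h
    rw [hT', Matrix.det_neg, Matrix.det_one, Fintype.card_fin] at hdet
    apply h2
    linear_combination -hdet
  have hex2 : ∃ x : V3, x + (-1 : F) • (T *ᵥ x) ≠ 0 := by
    by_contra hcon
    push Not at hcon
    apply hne
    apply mat_ext
    intro x
    have h := hcon x
    rw [neg_one_smul] at h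
    rw [Matrix.one_mulVec]
    exact (add_neg_eq_zero.1 h).symm
  obtain ⟨v, hTv, hv⟩ := eig_noniso hq h2 T hT hsq 1 (Or.inl rfl) hex1
  obtain ⟨w, hTw, hw⟩ := eig_noniso hq h2 T hT hsq (-1) (Or.inr rfl) hex2
  rw [one_smul] at hTv
  rw [neg_one_smul] at hTw
  have hwv : H3 w v = 0 := by
    have h := hT w v
    rw [hTv, hTw, h_neg_left] at h
    have h4 : (2 : F) * H3 w v = 0 := by linear_combination -h
    rcases mul_eq_zero.1 h4 with h5 | h5
    · exact absurd h5 h2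
    · exact h5
  have h0 := ND_bot (n := 3) (F := F) (q := q) hq
  have h1 := ND_ext1 hq h0 (mem_perp_bot hq v) hv
  have hw1 : w ∈ perp q ((⊥ : Submodule F V3) ⊔ Submodule.span F {v}) :=
    (mem_perp_ext hq _ _ _).2 ⟨mem_perp_bot hq w, hwv⟩
  have h2' := ND_ext1 hq h1 hw1 hw
  have hdim : Module.finrank F ↥((⊥ : Submodule F V3) ⊔ Submodule.span F {v} ⊔
      Submodule.span F {w}) < 3 := by
    have e1 := finrank_ext_le (⊥ : Submodule F V3) v
    have e2 := finrank_ext_le ((⊥ : Submodule F V3) ⊔ Submodule.span F {v}) w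
    rw [finrank_bot] at e1
    omega
  obtain ⟨u, hu, huu⟩ := exists_noniso hq h2' hdim
  have huw : H3 u w = 0 := ((mem_perp_ext hq _ _ _).1 hu).2
  have huv : H3 u v = 0 := ((mem_perp_ext hq _ _ _).1 ((mem_perp_ext hq _ _ _).1 hu).1).2
  obtain ⟨a, b, c, habc⟩ := basis3 hq hv hw huu hwv huv huw (T *ᵥ u)
  have ha : a = 0 := by
    have h := hT u v
    rw [hTv, habc] at h
    simp only [h_add_left, h_smul_left, hwv, huv, mul_zero, add_zero] at h
    rcases mul_eq_zero.1 h with h5 | h5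
    · exact h5
    · exact absurd h5 hv
  have hb : b = 0 := by
    have h := hT u w
    rw [hTw, habc, h_neg_right hq] at h
    simp only [h_add_left, h_smul_left, huw, h_symm0 hq hwv, mul_zero, add_zero, zero_add,
      neg_zero, neg_eq_zero] at h
    rcases mul_eq_zero.1 h with h5 | h5
    · exact h5
    · exact absurd h5 hw
  rw [ha, hb, zero_smul, zero_smul, zero_add, zero_add] at habc
  have hu0 := ne_zero_of_norm huu
  have hcc : c * c = 1 := by
    have h := hTT u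
    rw [habc, Matrix.mulVec_smul, habc, smul_smul] at h
    by_contra hne1
    apply hu0
    have h6 : (c * c - 1) • u = 0 := by rw [sub_smul, one_smul, h, sub_self]
    rcases smul_eq_zero.1 h6 with h5 | h5
    · exact absurd (sub_eq_zero.1 h5) hne1
    · exact h5
  have hc : c = 1 ∨ c = -1 := by
    have h6 : (c - 1) * (c + 1) = 0 := by linear_combination hcc
    rcases mul_eq_zero.1 h6 with h5 | h5
    · left
      exact sub_eq_zero.1 h5
    · right
      exact eq_neg_of_add_eq_zero_left h5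
  rcases hc with rfl | rfl
  · exfalso
    have hTe : T = 1 + Matrix.vecMulVec ((-(2 / H3 w w)) • w) (fun j => w j ^ q) := by
      apply mat_ext3 hq hv hw huu hwv huv huw
      · rw [hTv, Parab.tmat_mulVec, dot_eq, h_symm0 hq hwv, zero_smul, add_zero]
      · rw [hTw, Parab.tmat_mulVec, dot_eq, smul_smul]
        have e : H3 w w * -(2 / H3 w w) = -2 := by field_simp
        rw [e, neg_smul, two_smul]
        abel
      · rw [habc, one_smul, Parab.tmat_mulVec, dot_eq, huw, zero_smul, add_zero]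
    have hd := hdet
    rw [hTe, Parab.tmat_det, dot_eq, h_smul_left] at hd
    have e : -(2 / H3 w w) * H3 w w = -2 := by field_simp
    rw [e] at hd
    apply h2
    linear_combination -hd
  · refine ⟨v, hv, ?_⟩
    apply mat_ext3 hq hv hw huu hwv huv huw
    · rw [hTv, ivm_fix v hv]
    · rw [hTw, ivm_perp v w hwv]
    · rw [habc, neg_one_smul, ivm_perp v u huv]

theorem ivm_inj (h2 : (2 : F) ≠ 0) (v w : VV) (hv : hh v v ≠ 0) (hw : hh w w ≠ 0)
    (h : ivm n q v = ivm n q w) : ∃ c : F, c ≠ 0 ∧ w = c • v := by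
  have h1 : ivm n q v *ᵥ w = w := by rw [h, ivm_fix w hw]
  rw [ivm_mulVec, mul_div_assoc] at h1
  have h3 : w = (hh w v / hh v v) • v := by
    apply smul_right_injective VV h2
    show (2 : F) • w = (2 : F) • ((hh w v / hh v v) • v)
    rw [smul_smul, two_smul]
    have h4 := sub_eq_iff_eq_add.1 h1
    exact h4.symm
  refine ⟨hh w v / hh v v, ?_, h3⟩
  intro h0
  rw [h0, zero_smul] at h3
  exact ne_zero_of_norm hw h3

theorem comm_cases (hq : QF F q) (h2 : (2 : F) ≠ 0) (v u : VV) (hv : hh v v ≠ 0)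
    (hu : hh u u ≠ 0) (hc : ivm n q v * ivm n q u = ivm n q u * ivm n q v) :
    hh u v = 0 ∨ ∃ c : F, c ≠ 0 ∧ u = c • v := by
  by_cases h0 : hh u v = 0
  · exact Or.inl h0
  right
  have hvu : hh v u ≠ 0 := fun h => h0 (h_symm0 hq h)
  have hz : ivm n q v *ᵥ (ivm n q u *ᵥ v) = ivm n q u *ᵥ v := by
    rw [Matrix.mulVec_mulVec, hc, ← Matrix.mulVec_mulVec, ivm_fix v hv]
  rw [ivm_mulVec v, mul_div_assoc] at hz
  have hz2 : ivm n q u *ᵥ v = (hh (ivm n q u *ᵥ v) v / hh v v) • v := by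
    apply smul_right_injective VV h2
    show (2 : F) • (ivm n q u *ᵥ v) = (2 : F) • ((hh (ivm n q u *ᵥ v) v / hh v v) • v)
    rw [smul_smul, two_smul]
    exact (sub_eq_iff_eq_add.1 hz).symm
  obtain ⟨b, hb⟩ : ∃ b : F, b = hh (ivm n q u *ᵥ v) v / hh v v := ⟨_, rfl⟩
  rw [← hb, ivm_mulVec] at hz2
  have h5 : (2 * hh v u / hh u u) • u = (b + 1) • v := by
    rw [add_smul, one_smul, ← hz2]
    abel
  have hk : 2 * hh v u / hh u u ≠ 0 := div_ne_zero (mul_ne_zero h2 hvu) hu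
  have h6 : u = ((2 * hh v u / hh u u)⁻¹ * (b + 1)) • v := by
    rw [← smul_smul, ← h5, smul_smul, inv_mul_cancel₀ hk, one_smul]
  refine ⟨_, ?_, h6⟩
  intro h7
  rw [h7, zero_smul] at h6
  exact ne_zero_of_norm hu h6

/-! ## The group `SU` -/

/-- The matrix of an element of `SU`. -/
def mt (x : ↥(Cfsg.SU n F q)) : MM := ((x : Matrix.SpecialLinearGroup (Fin n) F) : MM)

theorem mt_mul (x y : ↥(Cfsg.SU n F q)) : mt (x * y) = mt x * mt y := rfl

theorem mt_one : mt (1 : ↥(Cfsg.SU n F q)) = 1 := rfl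

theorem mt_inj : Function.Injective (mt (n := n) (F := F) (q := q)) :=
  fun _ _ h => Subtype.ext (Subtype.ext h)

theorem mt_det (x : ↥(Cfsg.SU n F q)) : (mt x).det = 1 := x.1.2

theorem mt_isom (x : ↥(Cfsg.SU n F q)) (u v : VV) : hh (mt x *ᵥ u) (mt x *ᵥ v) = hh u v :=
  x.2 u v

/-- An element of `SU` from its matrix. -/
def mkSU (M : MM) (hd : M.det = 1) (hi : ∀ u v : VV, hh (M *ᵥ u) (M *ᵥ v) = hh u v) :
    ↥(Cfsg.SU n F q) := ⟨⟨M, hd⟩, hi⟩

theorem mt_mkSU (M : MM) (hd : M.det = 1) (hi : ∀ u v : VV, hh (M *ᵥ u) (M *ᵥ v) = hh u v) :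
    mt (mkSU M hd hi) = M := rfl

theorem inv_struct' (hq : QF F q) (h2 : (2 : F) ≠ 0) (x : ↥(Cfsg.SU 3 F q)) (hx1 : x ≠ 1)
    (hx2 : x * x = 1) : ∃ v : V3, H3 v v ≠ 0 ∧ mt x = ivm 3 q v := by
  apply inv_struct hq h2 (mt x) (mt_isom x) (mt_det x)
  · rw [← mt_mul, hx2, mt_one]
  · intro h
    apply hx1
    apply mt_inj
    rw [h, mt_one]


theorem ivm_conj (G : MM) (hG : ∀ x y : VV, hh (G *ᵥ x) (G *ᵥ y) = hh x y) (v : VV) :
    G * ivm n q v = ivm n q (G *ᵥ v) * G := by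
  apply mat_ext
  intro x
  rw [← Matrix.mulVec_mulVec, ← Matrix.mulVec_mulVec, ivm_mulVec, ivm_mulVec, Matrix.mulVec_sub,
    Matrix.mulVec_smul, hG, hG]

section fin

variable [Fintype F]

/-- A unitary matrix whose first column is a multiple of a given non-isotropic vector. -/
theorem exists_frame (hF : Fintype.card F = q ^ 2) (v : V3) (hv : H3 v v ≠ 0) :
    ∃ A : Matrix (Fin 3) (Fin 3) F, (∀ x y : V3, H3 (A *ᵥ x) (A *ᵥ y) = H3 x y) ∧
      ∃ c : F, c ≠ 0 ∧ A *ᵥ (Pi.single 0 1) = c • v := by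
  have hq := qf_of_card hF
  obtain ⟨m, hm⟩ := exists_scale hq v hv 1 (map_one _)
  have hm0 : m ≠ 0 := by
    rintro rfl
    rw [zero_smul, h_zero_left] at hm
    exact zero_ne_one hm
  obtain ⟨v0, hv0⟩ : ∃ v0 : V3, v0 = m • v := ⟨_, rfl⟩
  rw [← hv0] at hm
  have hv0n : H3 v0 v0 ≠ 0 := by
    rw [hm]
    exact one_ne_zero
  have h0 := ND_bot (n := 3) (F := F) (q := q) hq
  have h1 := ND_ext1 hq h0 (mem_perp_bot hq v0) hv0n
  have d1 : Module.finrank F ↥((⊥ : Submodule F V3) ⊔ Submodule.span F {v0}) < 3 := by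
    have e1 := finrank_ext_le (⊥ : Submodule F V3) v0
    rw [finrank_bot] at e1
    omega
  obtain ⟨v1, hv1, hv1n⟩ := exists_norm_vec hq h1 d1 1 (map_one _)
  have hv1n' : H3 v1 v1 ≠ 0 := by
    rw [hv1n]
    exact one_ne_zero
  have h2 := ND_ext1 hq h1 hv1 hv1n'
  have d2 : Module.finrank F ↥((⊥ : Submodule F V3) ⊔ Submodule.span F {v0} ⊔
      Submodule.span F {v1}) < 3 := by
    have e1 := finrank_ext_le (⊥ : Submodule F V3) v0
    have e2 := finrank_ext_le ((⊥ : Submodule F V3) ⊔ Submodule.span F {v0}) v1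
    rw [finrank_bot] at e1
    omega
  obtain ⟨v2, hv2, hv2n⟩ := exists_norm_vec hq h2 d2 1 (map_one _)
  have h10 : H3 v1 v0 = 0 := ((mem_perp_ext hq _ _ _).1 hv1).2
  have h21 : H3 v2 v1 = 0 := ((mem_perp_ext hq _ _ _).1 hv2).2
  have h20 : H3 v2 v0 = 0 := ((mem_perp_ext hq _ _ _).1 ((mem_perp_ext hq _ _ _).1 hv2).1).2
  obtain ⟨fr, hfr⟩ : ∃ fr : Fin 3 → V3, fr = ![v0, v1, v2] := ⟨_, rfl⟩
  have hort : ∀ i j, S0277.hB hF 3 (fr i) (fr j) = if i = j then 1 else 0 := by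
    intro i j
    rw [S0277.hB_apply, hfr]
    fin_cases i <;> fin_cases j <;>
      simp [hm, hv1n, hv2n, h10, h21, h20, h_symm0 hq h10, h_symm0 hq h21, h_symm0 hq h20]
  obtain ⟨g, hg⟩ := (S0277.guToFr_bij hF 3).2 ⟨fr, hort⟩
  refine ⟨((g : GL (Fin 3) F) : Matrix (Fin 3) (Fin 3) F),
    fun x y => (S0277.mem_GU 3 q g.1).1 g.2 x y, m, hm0, ?_⟩
  have h5 : ((g : GL (Fin 3) F) : Matrix (Fin 3) (Fin 3) F) *ᵥ Pi.single 0 1 = fr 0 :=
    congrFun (congrArg Subtype.val hg) 0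
  rw [h5, hfr, ← hv0]
  rfl

/-- Every `ivm v` is conjugate in `SU_3` to the standard one. -/
theorem conj_std (hF : Fintype.card F = q ^ 2) (v : V3) (hv : H3 v v ≠ 0) :
    ∃ g : ↥(Cfsg.SU 3 F q), mt g * ivm 3 q (Pi.single 0 1) = ivm 3 q v * mt g := by
  classical
  have hq := qf_of_card hF
  obtain ⟨A, hA, c, hc0, hAc⟩ := exists_frame hF v hv
  obtain ⟨d, hd⟩ : ∃ d : F, d = A.det := ⟨_, rfl⟩
  have hdn : d ^ (q + 1) = 1 := by
    rw [hd]
    exact S0278.det_norm hF 3 A hA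
  have hd0 : d ≠ 0 := by
    rintro rfl
    rw [zero_pow (Nat.succ_ne_zero q)] at hdn
    exact zero_ne_one hdn
  obtain ⟨w0, hw0⟩ : ∃ w0 : V3, w0 = A *ᵥ (Pi.single 0 1) := ⟨_, rfl⟩
  have hw0n : H3 w0 w0 = 1 := by
    rw [hw0, hA, h_single hq, Pi.single_eq_same]
  have hdi : d⁻¹ * frob hq d⁻¹ = 1 := by
    rw [frob_apply, ← pow_succ', inv_pow, hdn, inv_one]
  obtain ⟨G, hG⟩ : ∃ G : Matrix (Fin 3) (Fin 3) F, G = qrm 3 q w0 d⁻¹ * A := ⟨_, rfl⟩
  have hGdet : G.det = 1 := by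
    rw [hG, Matrix.det_mul, qrm_det w0 hw0n, ← hd, inv_mul_cancel₀ hd0]
  have hGi : ∀ x y : V3, H3 (G *ᵥ x) (G *ᵥ y) = H3 x y := by
    intro x y
    rw [hG, ← Matrix.mulVec_mulVec, ← Matrix.mulVec_mulVec, qrm_isom hq w0 hw0n _ hdi, hA]
  have hGe : G *ᵥ (Pi.single 0 1) = (d⁻¹ * c) • v := by
    rw [hG, ← Matrix.mulVec_mulVec, ← hw0, qrm_mulVec, hw0n, mul_one, hw0, hAc, smul_smul,
      ← add_smul]
    congr 1
    ring
  refine ⟨mkSU G hGdet hGi, ?_⟩
  rw [mt_mkSU, ivm_conj G hGi, hGe, ivm_smul hq v hv _ (mul_ne_zero (inv_ne_zero hd0) hc0)]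

/-- All involutions of `SU_3(q)`, `q` odd, are conjugate. -/
theorem inv_conj (hF : Fintype.card F = q ^ 2) (h2 : (2 : F) ≠ 0) (t x : ↥(Cfsg.SU 3 F q))
    (ht1 : t ≠ 1) (ht2 : t * t = 1) (hx1 : x ≠ 1) (hx2 : x * x = 1) :
    ∃ g : ↥(Cfsg.SU 3 F q), g * t * g⁻¹ = x := by
  have hq := qf_of_card hF
  obtain ⟨v, hv, htv⟩ := inv_struct' hq h2 t ht1 ht2
  obtain ⟨w, hw, hxw⟩ := inv_struct' hq h2 x hx1 hx2
  obtain ⟨g1, hg1⟩ := conj_std hF v hv
  obtain ⟨g2, hg2⟩ := conj_std hF w hw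
  rw [← htv] at hg1
  rw [← hxw] at hg2
  have a1 : mt (g1⁻¹ * t * g1) = ivm 3 q (Pi.single 0 1) := by
    rw [mt_mul, mt_mul, mul_assoc, ← hg1, ← mul_assoc, ← mt_mul, inv_mul_cancel, mt_one, one_mul]
  have a2 : mt (g2⁻¹ * x * g2) = ivm 3 q (Pi.single 0 1) := by
    rw [mt_mul, mt_mul, mul_assoc, ← hg2, ← mul_assoc, ← mt_mul, inv_mul_cancel, mt_one, one_mul]
  have e1 : g1⁻¹ * t * g1 = g2⁻¹ * x * g2 := mt_inj (a1.trans a2.symm)
  refine ⟨g2 * g1⁻¹, ?_⟩
  have e2 : g2 * g1⁻¹ * t * (g2 * g1⁻¹)⁻¹ = g2 * (g1⁻¹ * t * g1) * g2⁻¹ := by group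
  rw [e2, e1]
  group

end fin


/-! ## Counting -/

theorem exists_perp_noniso (hq : QF F q) (v : V3) (hv : H3 v v ≠ 0) :
    ∃ y : V3, H3 y v = 0 ∧ H3 y y ≠ 0 := by
  have h0 := ND_bot (n := 3) (F := F) (q := q) hq
  have h1 := ND_ext1 hq h0 (mem_perp_bot hq v) hv
  have d1 : Module.finrank F ↥((⊥ : Submodule F V3) ⊔ Submodule.span F {v}) < 3 := by
    have e1 := finrank_ext_le (⊥ : Submodule F V3) v
    rw [finrank_bot] at e1
    omega
  obtain ⟨y, hy, hyy⟩ := exists_noniso hq h1 d1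
  exact ⟨y, ((mem_perp_ext hq _ _ _).1 hy).2, hyy⟩

/-- The involution of `SU_3` attached to a non-isotropic vector. -/
noncomputable def ivs (hq : QF F q) (v : V3) (hv : H3 v v ≠ 0) : ↥(Cfsg.SU 3 F q) :=
  mkSU (ivm 3 q v) (ivm_det v hv) (ivm_isom hq v hv)

theorem mt_ivs (hq : QF F q) (v : V3) (hv : H3 v v ≠ 0) : mt (ivs hq v hv) = ivm 3 q v := rfl

theorem ivs_sq (hq : QF F q) (v : V3) (hv : H3 v v ≠ 0) : ivs hq v hv * ivs hq v hv = 1 := by
  apply mt_inj
  rw [mt_mul, mt_ivs, ivm_sq v hv, mt_one]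

theorem ivs_ne_one (hq : QF F q) (h2 : (2 : F) ≠ 0) (v : V3) (hv : H3 v v ≠ 0) :
    ivs hq v hv ≠ 1 := by
  intro h
  have h1 := congrArg mt h
  rw [mt_ivs, mt_one] at h1
  obtain ⟨y, hyv, hyy⟩ := exists_perp_noniso hq v hv
  have h3 := ivm_perp v y hyv
  rw [h1, Matrix.one_mulVec] at h3
  apply ne_zero_of_norm hyy
  have h4 : (2 : F) • y = 0 := by
    rw [two_smul]
    nth_rewrite 1 [h3]
    exact neg_add_cancel y
  rcases smul_eq_zero.1 h4 with h5 | h5
  · exact absurd h5 h2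
  · exact h5

section fin2

variable [Fintype F]

theorem two_ne_zero_of_odd (hF : Fintype.card F = q ^ 2) (hodd : Odd q) : (2 : F) ≠ 0 := by
  intro h
  have h1 : ringChar F = 2 := CharP.ringChar_of_prime_eq_zero Nat.prime_two (by exact_mod_cast h)
  have h2 := FiniteField.even_card_iff_char_two.1 h1
  rw [hF] at h2
  obtain ⟨k, rfl⟩ := hodd
  have h3 : (2 * k + 1) ^ 2 = 2 * (2 * k * k + 2 * k) + 1 := by ring
  omega

instance finSU : Finite ↥(Cfsg.SU n F q) := by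
  classical
  exact inferInstance

theorem card_inv_mul (hF : Fintype.card F = q ^ 2) (h2 : (2 : F) ≠ 0) :
    Nat.card {x : ↥(Cfsg.SU 3 F q) // x ≠ 1 ∧ x * x = 1} * (q ^ 2 - 1) =
      Nat.card {v : V3 // H3 v v ≠ 0} := by
  classical
  have hq := qf_of_card hF
  obtain ⟨Φ, hΦdef⟩ : ∃ Φ : {v : V3 // H3 v v ≠ 0} → {x : ↥(Cfsg.SU 3 F q) // x ≠ 1 ∧ x * x = 1},
      ∀ v, (Φ v).1 = ivs hq v.1 v.2 :=
    ⟨fun v => ⟨ivs hq v.1 v.2, ivs_ne_one hq h2 v.1 v.2, ivs_sq hq v.1 v.2⟩, fun v => rfl⟩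
  haveI : Fintype {x : ↥(Cfsg.SU 3 F q) // x ≠ 1 ∧ x * x = 1} := Fintype.ofFinite _
  have hcard := Nat.card_congr (Equiv.sigmaFiberEquiv Φ)
  rw [Nat.card_sigma] at hcard
  have hfib : ∀ y, Nat.card {v // Φ v = y} = q ^ 2 - 1 := by
    intro y
    obtain ⟨v0, hv0, hy⟩ := inv_struct' hq h2 y.1 y.2.1 y.2.2
    have hΦ : ∀ v : {v : V3 // H3 v v ≠ 0}, Φ v = y ↔ ivm 3 q v.1 = ivm 3 q v0 := by
      intro v
      constructor
      · intro h
        have h3 := congrArg (fun z : {x : ↥(Cfsg.SU 3 F q) // x ≠ 1 ∧ x * x = 1} => mt z.1) h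
        simp only [hΦdef, mt_ivs] at h3
        exact h3.trans hy
      · intro h
        apply Subtype.ext
        apply mt_inj
        rw [hΦdef, mt_ivs]
        exact h.trans hy.symm
    have hnorm : ∀ c : Fˣ, H3 ((c : F) • v0) ((c : F) • v0) ≠ 0 := by
      intro c
      rw [h_smul_left, h_smul_right hq]
      exact mul_ne_zero c.ne_zero (mul_ne_zero ((map_ne_zero _).2 c.ne_zero) hv0)
    have hv00 := ne_zero_of_norm hv0
    obtain ⟨f, hf⟩ : ∃ f : Fˣ → {v // Φ v = y}, ∀ c, (f c).1.1 = (c : F) • v0 :=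
      ⟨fun c => ⟨⟨(c : F) • v0, hnorm c⟩, (hΦ _).2 (ivm_smul hq v0 hv0 c c.ne_zero)⟩, fun c => rfl⟩
    have hbij : Function.Bijective f := by
      constructor
      · intro c c' h
        have h3 := congrArg (fun z : {v // Φ v = y} => z.1.1) h
        simp only [hf] at h3
        apply Units.ext
        exact smul_left_injective F hv00 h3
      · intro z
        obtain ⟨c, hc0, hc⟩ := ivm_inj h2 v0 z.1.1 hv0 z.1.2 ((hΦ z.1).1 z.2).symm
        refine ⟨Units.mk0 c hc0, ?_⟩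
        apply Subtype.ext
        apply Subtype.ext
        rw [hf, hc]
        rfl
    rw [← Nat.card_congr (Equiv.ofBijective f hbij), Nat.card_units, Nat.card_eq_fintype_card, hF]
  rw [← hcard, Finset.sum_congr rfl (fun y _ => hfib y), Finset.sum_const, Finset.card_univ,
    smul_eq_mul, Nat.card_eq_fintype_card]

theorem card_noniso (hF : Fintype.card F = q ^ 2) :
    Nat.card {v : V3 // H3 v v ≠ 0} = (q ^ 2) ^ 3 - ((q ^ 3 + 1) * (q ^ 2 - 1) + 1) := by
  classical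
  have h1 := S0285.result hF 3
  rw [if_neg (by decide)] at h1
  rw [Nat.card_eq_fintype_card] at h1 ⊢
  simp only [ne_eq]
  rw [Fintype.card_subtype_compl, h1, Fintype.card_fun, Fintype.card_fin, hF]

end fin2


section fin3

variable [Fintype F]

theorem two_le_q (hF : Fintype.card F = q ^ 2) : 2 ≤ q := by
  have h := Fintype.one_lt_card (α := F)
  rw [hF] at h
  by_contra hlt
  have h1 : q = 0 ∨ q = 1 := by omega
  rcases h1 with rfl | rfl <;> simp at h

/-- The number of involutions of `SU_3(q)`, `q` odd. -/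
theorem card_inv (hF : Fintype.card F = q ^ 2) (h2 : (2 : F) ≠ 0) :
    Nat.card {x : ↥(Cfsg.SU 3 F q) // x ≠ 1 ∧ x * x = 1} = q ^ 2 * (q ^ 2 - q + 1) := by
  have h1 := card_inv_mul hF h2
  rw [card_noniso hF] at h1
  have hq2 := two_le_q hF
  obtain ⟨k, rfl⟩ : ∃ k, q = k + 2 := ⟨q - 2, by omega⟩
  have e1 : (k + 2) ^ 2 - 1 = k ^ 2 + 4 * k + 3 := by
    apply Nat.sub_eq_of_eq_add
    ring
  have e2 : (k + 2) ^ 2 - (k + 2) + 1 = k ^ 2 + 3 * k + 3 := by
    have e : (k + 2) ^ 2 - (k + 2) = k ^ 2 + 3 * k + 2 := by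
      apply Nat.sub_eq_of_eq_add
      ring
    rw [e]
  rw [e1] at h1
  rw [e2]
  have e3 : ((k + 2) ^ 2) ^ 3 - (((k + 2) ^ 3 + 1) * (k ^ 2 + 4 * k + 3) + 1) =
      (k + 2) ^ 2 * (k ^ 2 + 3 * k + 3) * (k ^ 2 + 4 * k + 3) := by
    apply Nat.sub_eq_of_eq_add
    ring
  rw [e3] at h1
  exact Nat.eq_of_mul_eq_mul_right (by positivity) h1

theorem card_cent_mul (hF : Fintype.card F = q ^ 2) (h2 : (2 : F) ≠ 0) (t : ↥(Cfsg.SU 3 F q))
    (ht1 : t ≠ 1) (ht2 : t * t = 1) :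
    Nat.card {x : ↥(Cfsg.SU 3 F q) // x ≠ 1 ∧ x * x = 1} *
      Nat.card ↥(Subgroup.centralizer ({t} : Set ↥(Cfsg.SU 3 F q))) =
      Nat.card ↥(Cfsg.SU 3 F q) := by
  classical
  obtain ⟨Ψ, hΨ⟩ : ∃ Ψ : ↥(Cfsg.SU 3 F q) → {x : ↥(Cfsg.SU 3 F q) // x ≠ 1 ∧ x * x = 1},
      ∀ g, (Ψ g).1 = g * t * g⁻¹ := by
    refine ⟨fun g => ⟨g * t * g⁻¹, ?_, ?_⟩, fun g => rfl⟩
    · intro h
      apply ht1
      have h3 : t = g⁻¹ * (g * t * g⁻¹) * g := by group
      rw [h3, h]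
      group
    · have h3 : g * t * g⁻¹ * (g * t * g⁻¹) = g * (t * t) * g⁻¹ := by group
      rw [h3, ht2]
      group
  haveI : Fintype {x : ↥(Cfsg.SU 3 F q) // x ≠ 1 ∧ x * x = 1} := Fintype.ofFinite _
  have hcard := Nat.card_congr (Equiv.sigmaFiberEquiv Ψ)
  rw [Nat.card_sigma] at hcard
  have hfib : ∀ y, Nat.card {g // Ψ g = y} =
      Nat.card ↥(Subgroup.centralizer ({t} : Set ↥(Cfsg.SU 3 F q))) := by
    intro y
    obtain ⟨g0, hg0⟩ := inv_conj hF h2 t y.1 ht1 ht2 y.2.1 y.2.2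
    have hiff : ∀ g : ↥(Cfsg.SU 3 F q), Ψ g = y ↔ g * t * g⁻¹ = g0 * t * g0⁻¹ := by
      intro g
      constructor
      · intro h
        rw [← hΨ, h, hg0]
      · intro h
        apply Subtype.ext
        rw [hΨ, h, hg0]
    apply Nat.card_congr
    refine
      { toFun := fun g => ⟨g0⁻¹ * g.1, ?_⟩
        invFun := fun c => ⟨g0 * c.1, ?_⟩
        left_inv := ?_
        right_inv := ?_ }
    · rw [Subgroup.mem_centralizer_iff]
      intro h hh'
      rw [Set.mem_singleton_iff.1 hh']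
      have h3 := (hiff g.1).1 g.2
      have h4 : t * (g0⁻¹ * g.1) = g0⁻¹ * (g0 * t * g0⁻¹) * g.1 := by group
      rw [h4, ← h3]
      group
    · rw [hiff]
      have h3 := (Subgroup.mem_centralizer_iff.1 c.2) t (Set.mem_singleton t)
      have h4 : g0 * c.1 * t * (g0 * c.1)⁻¹ = g0 * (c.1 * t) * c.1⁻¹ * g0⁻¹ := by group
      rw [h4, ← h3]
      group
    · intro g
      apply Subtype.ext
      show g0 * (g0⁻¹ * g.1) = g.1
      group
    · intro c
      apply Subtype.ext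
      show g0⁻¹ * (g0 * c.1) = c.1
      group
  rw [← hcard, Finset.sum_congr rfl (fun y _ => hfib y), Finset.sum_const, Finset.card_univ,
    smul_eq_mul, Nat.card_eq_fintype_card]

/-- The centraliser of an involution of `SU_3(q)` has the order of `GU_2(q)`. -/
theorem card_cent (hF : Fintype.card F = q ^ 2) (h2 : (2 : F) ≠ 0) (t : ↥(Cfsg.SU 3 F q))
    (ht1 : t ≠ 1) (ht2 : t * t = 1) :
    Nat.card ↥(Subgroup.centralizer ({t} : Set ↥(Cfsg.SU 3 F q))) =
      q * (q + 1) * (q ^ 2 - 1) := by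
  have h1 := card_cent_mul hF h2 t ht1 ht2
  rw [card_inv hF h2] at h1
  have h3 := S0278.result hF 3 (by norm_num)
  rw [← h1] at h3
  have h4 : q ^ (3 * (3 - 1) / 2) * ∏ i ∈ Finset.range 3,
      (if Even i then q ^ (i + 1) + 1 else q ^ (i + 1) - 1) =
      q ^ 3 * ((q + 1) * (q ^ 2 - 1) * (q ^ 3 + 1)) := by
    rw [Finset.prod_range_succ, Finset.prod_range_succ, Finset.prod_range_one]
    have e0 : Even 0 := by decide
    have e1 : ¬ Even 1 := by decide
    have e2 : Even 2 := by decide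
    rw [if_pos e0, if_neg e1, if_pos e2]
    norm_num
  rw [h4] at h3
  have hq2 := two_le_q hF
  obtain ⟨k, rfl⟩ : ∃ k, q = k + 2 := ⟨q - 2, by omega⟩
  have e1 : (k + 2) ^ 2 - 1 = k ^ 2 + 4 * k + 3 := by
    apply Nat.sub_eq_of_eq_add
    ring
  have e2 : (k + 2) ^ 2 - (k + 2) + 1 = k ^ 2 + 3 * k + 3 := by
    have e : (k + 2) ^ 2 - (k + 2) = k ^ 2 + 3 * k + 2 := by
      apply Nat.sub_eq_of_eq_add
      ring
    rw [e]
  rw [e1, e2] at h3
  rw [e1]
  apply Nat.eq_of_mul_eq_mul_left (n := (k + 2 + 1) * ((k + 2) ^ 2 * (k ^ 2 + 3 * k + 3)))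
    (by positivity)
  calc (k + 2 + 1) * ((k + 2) ^ 2 * (k ^ 2 + 3 * k + 3)) *
        Nat.card ↥(Subgroup.centralizer ({t} : Set ↥(Cfsg.SU 3 F (k + 2))))
      = (k + 2 + 1) * ((k + 2) ^ 2 * (k ^ 2 + 3 * k + 3) *
        Nat.card ↥(Subgroup.centralizer ({t} : Set ↥(Cfsg.SU 3 F (k + 2))))) := by ring
    _ = (k + 2) ^ 3 * ((k + 2 + 1) * (k ^ 2 + 4 * k + 3) * ((k + 2) ^ 3 + 1)) := h3
    _ = _ := by ring

/-- Two distinct commuting involutions have exactly one further common commuting involution: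
their product. -/
theorem third_unique (hF : Fintype.card F = q ^ 2) (h2 : (2 : F) ≠ 0)
    (t x y : ↥(Cfsg.SU 3 F q)) (ht1 : t ≠ 1) (ht2 : t * t = 1) (hx1 : x ≠ 1) (hx2 : x * x = 1)
    (hy1 : y ≠ 1) (hy2 : y * y = 1) (hxt : x ≠ t) (hyt : y ≠ t) (hyx : y ≠ x)
    (c1 : Commute t x) (c2 : Commute t y) (c3 : Commute x y) : y = t * x := by
  have hq := qf_of_card hF
  obtain ⟨v, hv, htv⟩ := inv_struct' hq h2 t ht1 ht2
  obtain ⟨w, hw, hxw⟩ := inv_struct' hq h2 x hx1 hx2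
  obtain ⟨u, hu, hyu⟩ := inv_struct' hq h2 y hy1 hy2
  have hwv : H3 w v = 0 := by
    have h := congrArg mt c1.eq
    rw [mt_mul, mt_mul, htv, hxw] at h
    rcases comm_cases hq h2 v w hv hw h with h5 | ⟨c, hc0, hc⟩
    · exact h5
    · exfalso
      apply hxt
      apply mt_inj
      rw [hxw, htv, hc, ivm_smul hq v hv c hc0]
  have huv : H3 u v = 0 := by
    have h := congrArg mt c2.eq
    rw [mt_mul, mt_mul, htv, hyu] at h
    rcases comm_cases hq h2 v u hv hu h with h5 | ⟨c, hc0, hc⟩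
    · exact h5
    · exfalso
      apply hyt
      apply mt_inj
      rw [hyu, htv, hc, ivm_smul hq v hv c hc0]
  have huw : H3 u w = 0 := by
    have h := congrArg mt c3.eq
    rw [mt_mul, mt_mul, hxw, hyu] at h
    rcases comm_cases hq h2 w u hw hu h with h5 | ⟨c, hc0, hc⟩
    · exact h5
    · exfalso
      apply hyx
      apply mt_inj
      rw [hyu, hxw, hc, ivm_smul hq w hw c hc0]
  apply mt_inj
  rw [mt_mul, hyu, htv, hxw]
  apply mat_ext3 hq hv hw hu hwv huv huw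
  · rw [ivm_perp u v (h_symm0 hq huv), ← Matrix.mulVec_mulVec, ivm_perp w v (h_symm0 hq hwv),
      Matrix.mulVec_neg, ivm_fix v hv]
  · rw [ivm_perp u w (h_symm0 hq huw), ← Matrix.mulVec_mulVec, ivm_fix w hw, ivm_perp v w hwv]
  · rw [ivm_fix u hu, ← Matrix.mulVec_mulVec, ivm_perp w u huw, Matrix.mulVec_neg,
      ivm_perp v u huv, neg_neg]

end fin3

end Cfsg.Agent.Helper8.SU3I
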