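import Mathlib
import Cfsg.Prelude.Def_GeometricClasses
import Cfsg.Agent.Helper8.SU3Inv

/-!
# The commuting graph of involutions of `SU_3(q)`, `q` odd

Counting the involutions commuting with a given one, and those at distance two and three.
-/

set_option autoImplicit false

namespace Cfsg.Agent.Helper8.SU3I

open Matrix Cfsg.Agent.Helper2 Cfsg.Agent.Helper8.SULag Cfsg.Agent.Helper8.SUNd

variable {F : Type*} [Field F] {n q : ℕ}

local notation "VV" => (Fin n → F)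
local notation "MM" => Matrix (Fin n) (Fin n) F
local notation "hh" => Cfsg.hermForm n F q
local notation "V3" => (Fin 3 → F)
local notation "H3" => Cfsg.hermForm 3 F q

theorem comm_of_perp (hq : QF F q) (v w : VV) (hwv : hh w v = 0) :
    ivm n q v * ivm n q w = ivm n q w * ivm n q v := by
  have hvw := h_symm0 hq hwv
  apply mat_ext
  intro x
  rw [← Matrix.mulVec_mulVec, ← Matrix.mulVec_mulVec, ivm_mulVec w x, ivm_mulVec v x,
    Matrix.mulVec_sub, Matrix.mulVec_sub, Matrix.mulVec_smul, Matrix.mulVec_smul,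
    ivm_perp v w hwv, ivm_perp w v hvw, ivm_mulVec, ivm_mulVec]
  simp only [smul_neg]
  abel

theorem commute_iff (hq : QF F q) (h2 : (2 : F) ≠ 0) (t x : ↥(Cfsg.SU 3 F q)) {v w : V3}
    (hv : H3 v v ≠ 0) (hw : H3 w w ≠ 0) (htv : mt t = ivm 3 q v) (hxw : mt x = ivm 3 q w) :
    Commute t x ↔ (H3 w v = 0 ∨ x = t) := by
  constructor
  · intro hc
    have h := congrArg mt hc.eq
    rw [mt_mul, mt_mul, htv, hxw] at h
    rcases comm_cases hq h2 v w hv hw h with h5 | ⟨c, hc0, hc⟩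
    · exact Or.inl h5
    · right
      apply mt_inj
      rw [hxw, htv, hc, ivm_smul hq v hv c hc0]
  · rintro (h | rfl)
    · show t * x = x * t
      apply mt_inj
      rw [mt_mul, mt_mul, htv, hxw]
      exact comm_of_perp hq v w h
    · exact Commute.refl _

/-- Two orthonormal vectors orthogonal to a non-isotropic vector. -/
theorem exists_onb [Finite F] (hq : QF F q) (v : V3) (hv : H3 v v ≠ 0) :
    ∃ v1 v2 : V3, H3 v1 v1 = 1 ∧ H3 v2 v2 = 1 ∧ H3 v1 v = 0 ∧ H3 v2 v = 0 ∧ H3 v2 v1 = 0 := by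
  have h0 := ND_bot (n := 3) (F := F) (q := q) hq
  have h1 := ND_ext1 hq h0 (mem_perp_bot hq v) hv
  have d1 : Module.finrank F ↥((⊥ : Submodule F V3) ⊔ Submodule.span F {v}) < 3 := by
    have e1 := finrank_ext_le (⊥ : Submodule F V3) v
    rw [finrank_bot] at e1
    omega
  obtain ⟨v1, hv1, hv1n⟩ := exists_norm_vec hq h1 d1 1 (map_one _)
  have hv1n' : H3 v1 v1 ≠ 0 := by
    rw [hv1n]
    exact one_ne_zero
  have h2 := ND_ext1 hq h1 hv1 hv1n'
  have d2 : Module.finrank F ↥((⊥ : Submodule F V3) ⊔ Submodule.span F {v} ⊔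
      Submodule.span F {v1}) < 3 := by
    have e1 := finrank_ext_le (⊥ : Submodule F V3) v
    have e2 := finrank_ext_le ((⊥ : Submodule F V3) ⊔ Submodule.span F {v}) v1
    rw [finrank_bot] at e1
    omega
  obtain ⟨v2, hv2, hv2n⟩ := exists_norm_vec hq h2 d2 1 (map_one _)
  exact ⟨v1, v2, hv1n, hv2n, ((mem_perp_ext hq _ _ _).1 hv1).2,
    ((mem_perp_ext hq _ _ _).1 ((mem_perp_ext hq _ _ _).1 hv2).1).2,
    ((mem_perp_ext hq _ _ _).1 hv2).2⟩

/-- A third non-isotropic vector orthogonal to two orthogonal non-isotropic vectors. -/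
theorem exists_third (hq : QF F q) {v u : V3} (hv : H3 v v ≠ 0) (hu : H3 u u ≠ 0)
    (huv : H3 u v = 0) : ∃ a : V3, H3 a v = 0 ∧ H3 a u = 0 ∧ H3 a a ≠ 0 := by
  have h0 := ND_bot (n := 3) (F := F) (q := q) hq
  have h1 := ND_ext1 hq h0 (mem_perp_bot hq v) hv
  have hu1 : u ∈ perp q ((⊥ : Submodule F V3) ⊔ Submodule.span F {v}) :=
    (mem_perp_ext hq _ _ _).2 ⟨mem_perp_bot hq u, huv⟩
  have h2 := ND_ext1 hq h1 hu1 hu
  have d2 : Module.finrank F ↥((⊥ : Submodule F V3) ⊔ Submodule.span F {v} ⊔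
      Submodule.span F {u}) < 3 := by
    have e1 := finrank_ext_le (⊥ : Submodule F V3) v
    have e2 := finrank_ext_le ((⊥ : Submodule F V3) ⊔ Submodule.span F {v}) u
    rw [finrank_bot] at e1
    omega
  obtain ⟨a, ha, haa⟩ := exists_noniso hq h2 d2
  exact ⟨a, ((mem_perp_ext hq _ _ _).1 ((mem_perp_ext hq _ _ _).1 ha).1).2,
    ((mem_perp_ext hq _ _ _).1 ha).2, haa⟩

/-- An isotropic vector orthogonal to two orthogonal non-isotropic vectors vanishes. -/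
theorem no_iso_perp (hq : QF F q) {v a u : V3} (hv : H3 v v ≠ 0) (ha : H3 a a ≠ 0)
    (hav : H3 a v = 0) (huv : H3 u v = 0) (hua : H3 u a = 0) (huu : H3 u u = 0) : u = 0 := by
  obtain ⟨b, hbv, hba, hbb⟩ := exists_third hq hv ha hav
  obtain ⟨α, β, γ, he⟩ := basis3 hq hv ha hbb hav hbv hba u
  have hα : α = 0 := by
    have h := huv
    rw [he] at h
    simp only [h_add_left, h_smul_left, hav, hbv, mul_zero, add_zero] at h
    rcases mul_eq_zero.1 h with h5 | h5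
    · exact h5
    · exact absurd h5 hv
  have hβ : β = 0 := by
    have h := hua
    rw [he] at h
    simp only [h_add_left, h_smul_left, h_symm0 hq hav, hba, mul_zero, add_zero, zero_add] at h
    rcases mul_eq_zero.1 h with h5 | h5
    · exact h5
    · exact absurd h5 ha
  rw [hα, hβ, zero_smul, zero_smul, zero_add, zero_add] at he
  have hγ : γ = 0 := by
    have h := huu
    rw [he, h_smul_left, h_smul_right hq] at h
    rcases mul_eq_zero.1 h with h5 | h5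
    · exact h5
    · rcases mul_eq_zero.1 h5 with h6 | h6
      · exact (map_eq_zero _).1 h6
      · exact absurd h6 hbb
  rw [he, hγ, zero_smul]

/-- The vectors orthogonal to `v` with a property, counted in coordinates. -/
theorem card_perp (hq : QF F q) {v v1 v2 : V3} (hv : H3 v v ≠ 0) (h11 : H3 v1 v1 = 1)
    (h22 : H3 v2 v2 = 1) (h1v : H3 v1 v = 0) (h2v : H3 v2 v = 0) (h21 : H3 v2 v1 = 0)
    (P : V3 → Prop) :
    Nat.card {w : V3 // H3 w v = 0 ∧ P w} =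
      Nat.card {a : Fin 2 → F // P (a 0 • v1 + a 1 • v2)} := by
  symm
  have h11' : H3 v1 v1 ≠ 0 := by
    rw [h11]
    exact one_ne_zero
  have h22' : H3 v2 v2 ≠ 0 := by
    rw [h22]
    exact one_ne_zero
  obtain ⟨f, hf⟩ : ∃ f : {a : Fin 2 → F // P (a 0 • v1 + a 1 • v2)} →
      {w : V3 // H3 w v = 0 ∧ P w}, ∀ a, (f a).1 = a.1 0 • v1 + a.1 1 • v2 :=
    ⟨fun a => ⟨a.1 0 • v1 + a.1 1 • v2, by
      rw [h_add_left, h_smul_left, h_smul_left, h1v, h2v, mul_zero, mul_zero, add_zero], a.2⟩,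
      fun a => rfl⟩
  apply Nat.card_congr (Equiv.ofBijective f ⟨?_, ?_⟩)
  · intro a b h
    have h3 := congrArg Subtype.val h
    rw [hf, hf] at h3
    have e1 := congrArg (fun z => H3 z v1) h3
    have e2 := congrArg (fun z => H3 z v2) h3
    simp only [h_add_left, h_smul_left, h11, h22, h21, h_symm0 hq h21, mul_one, mul_zero,
      add_zero, zero_add] at e1 e2
    apply Subtype.ext
    funext i
    fin_cases i
    · exact e1
    · exact e2
  · intro w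
    obtain ⟨a, b, c, habc⟩ := basis3 hq hv h11' h22' h1v h2v h21 w.1
    have ha : a = 0 := by
      have h := w.2.1
      rw [habc] at h
      simp only [h_add_left, h_smul_left, h1v, h2v, mul_zero, add_zero] at h
      rcases mul_eq_zero.1 h with h5 | h5
      · exact h5
      · exact absurd h5 hv
    have e : (![b, c] : Fin 2 → F) 0 • v1 + (![b, c] : Fin 2 → F) 1 • v2 = w.1 := by
      rw [habc, ha, zero_smul, zero_add]
      rfl
    refine ⟨⟨![b, c], ?_⟩, ?_⟩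
    · rw [e]
      exact w.2.2
    · apply Subtype.ext
      rw [hf]
      exact e

theorem herm2 (hq : QF F q) {v1 v2 : V3} (h11 : H3 v1 v1 = 1) (h22 : H3 v2 v2 = 1)
    (h21 : H3 v2 v1 = 0) (a : Fin 2 → F) :
    H3 (a 0 • v1 + a 1 • v2) (a 0 • v1 + a 1 • v2) = Cfsg.hermForm 2 F q a a := by
  simp only [h_add_left, h_add_right hq, h_smul_left, h_smul_right hq, h11, h22, h21,
    h_symm0 hq h21, mul_one, mul_zero, add_zero, zero_add, frob_apply]
  unfold Cfsg.hermForm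
  rw [Fin.sum_univ_two]
  ring

theorem zero2 (hq : QF F q) {v1 v2 : V3} (h11 : H3 v1 v1 = 1) (h22 : H3 v2 v2 = 1)
    (h21 : H3 v2 v1 = 0) (a : Fin 2 → F) : a 0 • v1 + a 1 • v2 = 0 ↔ a = 0 := by
  constructor
  · intro h
    have e1 := congrArg (fun z => H3 z v1) h
    have e2 := congrArg (fun z => H3 z v2) h
    simp only [h_add_left, h_smul_left, h11, h22, h21, h_symm0 hq h21, mul_one, mul_zero,
      add_zero, zero_add, h_zero_left] at e1 e2
    funext i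
    fin_cases i
    · exact e1
    · exact e2
  · rintro rfl
    simp

section fin

variable [Fintype F]

theorem card_V1 (hF : Fintype.card F = q ^ 2) (v : V3) (hv : H3 v v ≠ 0) :
    Nat.card {w : V3 // H3 w v = 0 ∧ H3 w w ≠ 0} =
      (q ^ 2) ^ 2 - ((q ^ 2 - 1) * (q + 1) + 1) := by
  classical
  have hq := qf_of_card hF
  obtain ⟨v1, v2, h11, h22, h1v, h2v, h21⟩ := exists_onb hq v hv
  rw [card_perp hq hv h11 h22 h1v h2v h21 (fun w => H3 w w ≠ 0)]
  simp only [herm2 hq h11 h22 h21]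
  have h1 := S0285.result hF 2
  rw [if_pos (by decide)] at h1
  rw [Nat.card_eq_fintype_card] at h1 ⊢
  simp only [ne_eq]
  rw [Fintype.card_subtype_compl, h1, Fintype.card_fun, Fintype.card_fin, hF]
  norm_num

theorem card_V3 (hF : Fintype.card F = q ^ 2) (v : V3) (hv : H3 v v ≠ 0) :
    Nat.card {u : V3 // H3 u v = 0 ∧ (u ≠ 0 ∧ H3 u u = 0)} = (q ^ 2 - 1) * (q + 1) := by
  classical
  have hq := qf_of_card hF
  obtain ⟨v1, v2, h11, h22, h1v, h2v, h21⟩ := exists_onb hq v hv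
  rw [card_perp hq hv h11 h22 h1v h2v h21 (fun u => u ≠ 0 ∧ H3 u u = 0)]
  simp only [herm2 hq h11 h22 h21, ne_eq, zero2 hq h11 h22 h21]
  have h1 := S0285.result hF 2
  rw [if_pos (by decide)] at h1
  rw [Nat.card_eq_fintype_card] at h1 ⊢
  rw [Fintype.card_subtype] at h1 ⊢
  have e : (Finset.univ.filter (fun a : Fin 2 → F => ¬ a = 0 ∧ Cfsg.hermForm 2 F q a a = 0)) =
      (Finset.univ.filter (fun a : Fin 2 → F => Cfsg.hermForm 2 F q a a = 0)).erase 0 := by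
    ext a
    simp [and_comm]
  rw [e, Finset.card_erase_of_mem (by simp [h_zero_left]), h1]
  norm_num

end fin



/-- Involutions at distance three from `t`: they are the `ivm (u + v)` with `u` a non-zero
isotropic vector orthogonal to `v`. -/
theorem p3_of (hq : QF F q) (h2 : (2 : F) ≠ 0) (t x : ↥(Cfsg.SU 3 F q)) {v : V3} (hv : H3 v v ≠ 0)
    (htv : mt t = ivm 3 q v) (hx1 : x ≠ 1) (hx2 : x * x = 1) (hnc : ¬ Commute t x)
    (hall : ∀ y : ↥(Cfsg.SU 3 F q), y ≠ 1 → y * y = 1 → ¬ (Commute t y ∧ Commute y x)) :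
    ∃ u : V3, H3 u v = 0 ∧ u ≠ 0 ∧ H3 u u = 0 ∧ mt x = ivm 3 q (u + v) := by
  obtain ⟨w, hw, hxw⟩ := inv_struct' hq h2 x hx1 hx2
  have hwv : H3 w v ≠ 0 := fun h => hnc ((commute_iff hq h2 t x hv hw htv hxw).2 (Or.inl h))
  obtain ⟨c, hc⟩ : ∃ c : F, c = H3 v v / H3 w v := ⟨_, rfl⟩
  have hc0 : c ≠ 0 := by
    rw [hc]
    exact div_ne_zero hv hwv
  obtain ⟨u, hu⟩ : ∃ u : V3, u = c • w - v := ⟨_, rfl⟩
  have huv : H3 u v = 0 := by
    rw [hu, h_sub_left, h_smul_left, hc]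
    field_simp
    ring
  have hcw : c • w = u + v := by
    rw [hu]
    abel
  have hxw' : mt x = ivm 3 q (u + v) := by
    rw [← hcw, ivm_smul hq w hw c hc0]
    exact hxw
  have hu0 : u ≠ 0 := by
    rintro rfl
    rw [zero_add] at hxw'
    apply hnc
    have e : x = t := mt_inj (hxw'.trans htv.symm)
    rw [e]
  refine ⟨u, huv, hu0, ?_, hxw'⟩
  by_contra huu
  obtain ⟨a, hav, hau, haa⟩ := exists_third hq hv huu huv
  have hwa : H3 (u + v) a = 0 := by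
    rw [h_add_left, h_symm0 hq hau, h_symm0 hq hav, add_zero]
  have hnorm : H3 (u + v) (u + v) ≠ 0 := by
    rw [← hcw, h_smul_left, h_smul_right hq]
    exact mul_ne_zero hc0 (mul_ne_zero ((map_ne_zero _).2 hc0) hw)
  apply hall (ivs hq a haa) (ivs_ne_one hq h2 a haa) (ivs_sq hq a haa)
  constructor
  · exact (commute_iff hq h2 t _ hv haa htv (mt_ivs hq a haa)).2 (Or.inl hav)
  · exact (commute_iff hq h2 (ivs hq a haa) x haa hnorm (mt_ivs hq a haa) hxw').2 (Or.inl hwa)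

theorem p3_to (hq : QF F q) (h2 : (2 : F) ≠ 0) (t : ↥(Cfsg.SU 3 F q)) {v : V3} (hv : H3 v v ≠ 0)
    (htv : mt t = ivm 3 q v) (u : V3) (huv : H3 u v = 0) (hu0 : u ≠ 0) (huu : H3 u u = 0)
    (x : ↥(Cfsg.SU 3 F q)) (hx : mt x = ivm 3 q (u + v)) :
    ¬ Commute t x ∧ ∀ y : ↥(Cfsg.SU 3 F q), y ≠ 1 → y * y = 1 → ¬ (Commute t y ∧ Commute y x) := by
  have hvu := h_symm0 hq huv
  have hnorm : H3 (u + v) (u + v) = H3 v v := by
    simp only [h_add_left, h_add_right hq, huu, huv, hvu]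
    ring
  have hnorm' : H3 (u + v) (u + v) ≠ 0 := by
    rw [hnorm]
    exact hv
  have hwv : H3 (u + v) v = H3 v v := by rw [h_add_left, huv, zero_add]
  have hxt : x ≠ t := by
    intro h
    have h3 : ivm 3 q (u + v) = ivm 3 q v := by rw [← hx, h, htv]
    obtain ⟨c, hc0, hc⟩ := ivm_inj h2 (u + v) v hnorm' hv h3
    have e := congrArg (fun z => H3 z v) hc
    simp only [h_smul_left, hwv] at e
    have hc1 : c = 1 := by
      have h4 : (c - 1) * H3 v v = 0 := by linear_combination -e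
      rcases mul_eq_zero.1 h4 with h5 | h5
      · exact sub_eq_zero.1 h5
      · exact absurd h5 hv
    rw [hc1, one_smul] at hc
    exact hu0 (add_eq_right.1 hc.symm)
  have hnc : ¬ Commute t x := by
    intro hc
    rcases (commute_iff hq h2 t x hv hnorm' htv hx).1 hc with h | h
    · rw [hwv] at h
      exact hv h
    · exact hxt h
  refine ⟨hnc, ?_⟩
  rintro y hy1 hy2 ⟨c1, c2⟩
  obtain ⟨a, ha, hya⟩ := inv_struct' hq h2 y hy1 hy2
  rcases (commute_iff hq h2 t y hv ha htv hya).1 c1 with hav | hyt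
  · rcases (commute_iff hq h2 y x ha hnorm' hya hx).1 c2 with h | h
    · have hua : H3 u a = 0 := by
        rw [h_add_left, h_symm0 hq hav, add_zero] at h
        exact h
      exact hu0 (no_iso_perp hq hv ha hav huv hua huu)
    · have h3 : ivm 3 q (u + v) = ivm 3 q a := by rw [← hx, h, hya]
      obtain ⟨c, hc0, hc⟩ := ivm_inj h2 (u + v) a hnorm' ha h3
      rw [hc, h_smul_left, hwv] at hav
      rcases mul_eq_zero.1 hav with h5 | h5
      · exact hc0 h5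
      · exact hv h5
  · rw [hyt] at c2
    exact hnc c2

theorem card_split {α : Type*} [Finite α] (p r : α → Prop) :
    Nat.card {x // p x} = Nat.card {x // p x ∧ r x} + Nat.card {x // p x ∧ ¬ r x} := by
  classical
  haveI := Fintype.ofFinite α
  simp only [Nat.card_eq_fintype_card, Fintype.card_subtype]
  rw [← Finset.filter_filter, ← Finset.filter_filter,
    Finset.card_filter_add_card_filter_not]

section fin2

variable [Fintype F]

theorem card_inv_gen (hF : Fintype.card F = q ^ 2) (h2 : (2 : F) ≠ 0) (hq : QF F q)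
    (Pv : V3 → Prop) (Px : ↥(Cfsg.SU 3 F q) → Prop)
    (hinv : ∀ x, Px x → x ≠ 1 ∧ x * x = 1)
    (hsc : ∀ (w : V3) (c : F), c ≠ 0 → Pv w → Pv (c • w))
    (hiff : ∀ (w : V3) (hw : H3 w w ≠ 0), Px (ivs hq w hw) ↔ Pv w) :
    Nat.card {x : ↥(Cfsg.SU 3 F q) // Px x} * (q ^ 2 - 1) = Nat.card {w : V3 // Pv w ∧ H3 w w ≠ 0} := by
  classical
  obtain ⟨Φ, hΦdef⟩ : ∃ Φ : {w : V3 // Pv w ∧ H3 w w ≠ 0} → {x : ↥(Cfsg.SU 3 F q) // Px x},
      ∀ w, (Φ w).1 = ivs hq w.1 w.2.2 :=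
    ⟨fun w => ⟨ivs hq w.1 w.2.2, (hiff w.1 w.2.2).2 w.2.1⟩, fun w => rfl⟩
  haveI : Fintype {x : ↥(Cfsg.SU 3 F q) // Px x} := Fintype.ofFinite _
  have hcard := Nat.card_congr (Equiv.sigmaFiberEquiv Φ)
  rw [Nat.card_sigma] at hcard
  have hfib : ∀ y, Nat.card {w // Φ w = y} = q ^ 2 - 1 := by
    intro y
    obtain ⟨hy1, hy2⟩ := hinv y.1 y.2
    obtain ⟨v0, hv0, hy⟩ := inv_struct' hq h2 y.1 hy1 hy2
    have hyv : y.1 = ivs hq v0 hv0 := mt_inj hy
    have hPv0 : Pv v0 := by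
      have h3 := y.2
      rw [hyv] at h3
      exact (hiff v0 hv0).1 h3
    have hΦ : ∀ w : {w : V3 // Pv w ∧ H3 w w ≠ 0}, Φ w = y ↔ ivm 3 q w.1 = ivm 3 q v0 := by
      intro w
      constructor
      · intro h
        have h3 := congrArg (fun z : {x : ↥(Cfsg.SU 3 F q) // Px x} => mt z.1) h
        simp only [hΦdef, mt_ivs] at h3
        exact h3.trans hy
      · intro h
        apply Subtype.ext
        apply mt_inj
        rw [hΦdef, mt_ivs]
        exact h.trans hy.symm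
    have hnorm : ∀ c : Fˣ, H3 ((c : F) • v0) ((c : F) • v0) ≠ 0 := by
      intro c
      rw [h_smul_left, h_smul_right hq]
      exact mul_ne_zero c.ne_zero (mul_ne_zero ((map_ne_zero _).2 c.ne_zero) hv0)
    have hv00 := ne_zero_of_norm hv0
    obtain ⟨f, hf⟩ : ∃ f : Fˣ → {w // Φ w = y}, ∀ c, (f c).1.1 = (c : F) • v0 :=
      ⟨fun c => ⟨⟨(c : F) • v0, hsc v0 c c.ne_zero hPv0, hnorm c⟩,
        (hΦ _).2 (ivm_smul hq v0 hv0 c c.ne_zero)⟩, fun c => rfl⟩
    have hbij : Function.Bijective f := by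
      constructor
      · intro c c' h
        have h3 := congrArg (fun z : {w // Φ w = y} => z.1.1) h
        simp only [hf] at h3
        apply Units.ext
        exact smul_left_injective F hv00 h3
      · intro z
        obtain ⟨c, hc0, hc⟩ := ivm_inj h2 v0 z.1.1 hv0 z.1.2.2 ((hΦ z.1).1 z.2).symm
        refine ⟨Units.mk0 c hc0, ?_⟩
        apply Subtype.ext
        apply Subtype.ext
        rw [hf, hc]
        rfl
    rw [← Nat.card_congr (Equiv.ofBijective f hbij), Nat.card_units, Nat.card_eq_fintype_card, hF]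
  rw [← hcard, Finset.sum_congr rfl (fun y _ => hfib y), Finset.sum_const, Finset.card_univ,
    smul_eq_mul, Nat.card_eq_fintype_card]

/-- The involutions other than `t` commuting with `t`. -/
theorem card_comm (hF : Fintype.card F = q ^ 2) (h2 : (2 : F) ≠ 0) (t : ↥(Cfsg.SU 3 F q)) (ht1 : t ≠ 1)
    (ht2 : t * t = 1) :
    Nat.card {x : ↥(Cfsg.SU 3 F q) // x ≠ 1 ∧ x * x = 1 ∧ x ≠ t ∧ Commute t x} = q * (q - 1) := by
  have hq := qf_of_card hF
  obtain ⟨v, hv, htv⟩ := inv_struct' hq h2 t ht1 ht2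
  have h1 := card_inv_gen hF h2 hq (fun w => H3 w v = 0)
    (fun x => x ≠ 1 ∧ x * x = 1 ∧ x ≠ t ∧ Commute t x) (fun x hx => ⟨hx.1, hx.2.1⟩)
    (fun w c _ hw => by
      show H3 (c • w) v = 0
      have hw' : H3 w v = 0 := hw
      rw [h_smul_left, hw', mul_zero])
    (fun w hw => by
      constructor
      · rintro ⟨hx1, hx2, hxt, hc⟩
        rcases (commute_iff hq h2 t _ hv hw htv (mt_ivs hq w hw)).1 hc with h | h
        · exact h
        · exact absurd h hxt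
      · intro h
        have h' : H3 w v = 0 := h
        refine ⟨ivs_ne_one hq h2 w hw, ivs_sq hq w hw, ?_,
          (commute_iff hq h2 t _ hv hw htv (mt_ivs hq w hw)).2 (Or.inl h')⟩
        intro he
        have h3 := congrArg mt he
        rw [mt_ivs, htv] at h3
        obtain ⟨c, hc0, hc⟩ := ivm_inj h2 w v hw hv h3
        have e : H3 (c • w) v = 0 := by rw [h_smul_left, h', mul_zero]
        rw [← hc] at e
        exact hv e)
  rw [card_V1 hF v hv] at h1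
  have hq2 := two_le_q hF
  obtain ⟨k, rfl⟩ : ∃ k, q = k + 2 := ⟨q - 2, by omega⟩
  have e1 : (k + 2) ^ 2 - 1 = k ^ 2 + 4 * k + 3 := by
    apply Nat.sub_eq_of_eq_add
    ring
  rw [e1] at h1
  have e3 : ((k + 2) ^ 2) ^ 2 - ((k ^ 2 + 4 * k + 3) * (k + 2 + 1) + 1) =
      (k + 2) * (k + 1) * (k ^ 2 + 4 * k + 3) := by
    apply Nat.sub_eq_of_eq_add
    ring
  rw [e3] at h1
  have e4 : k + 2 - 1 = k + 1 := by omega
  rw [e4]
  exact Nat.eq_of_mul_eq_mul_right (by positivity) h1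

/-- The involutions at distance three from `t`. -/
theorem card_far (hF : Fintype.card F = q ^ 2) (h2 : (2 : F) ≠ 0) (t : ↥(Cfsg.SU 3 F q)) (ht1 : t ≠ 1)
    (ht2 : t * t = 1) :
    Nat.card {x : ↥(Cfsg.SU 3 F q) // x ≠ 1 ∧ x * x = 1 ∧ ¬ Commute t x ∧
      ∀ y : ↥(Cfsg.SU 3 F q), y ≠ 1 → y * y = 1 → ¬ (Commute t y ∧ Commute y x)} =
      (q + 1) * (q ^ 2 - 1) := by
  have hq := qf_of_card hF
  obtain ⟨v, hv, htv⟩ := inv_struct' hq h2 t ht1 ht2
  rw [mul_comm, ← card_V3 hF v hv]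
  symm
  have hn : ∀ u : {u : V3 // H3 u v = 0 ∧ (u ≠ 0 ∧ H3 u u = 0)},
      H3 (u.1 + v) (u.1 + v) ≠ 0 := by
    intro u
    have e : H3 (u.1 + v) (u.1 + v) = H3 v v := by
      simp only [h_add_left, h_add_right hq, u.2.2.2, u.2.1, h_symm0 hq u.2.1]
      ring
    rw [e]
    exact hv
  obtain ⟨f, hf⟩ : ∃ f : {u : V3 // H3 u v = 0 ∧ (u ≠ 0 ∧ H3 u u = 0)} →
      {x : ↥(Cfsg.SU 3 F q) // x ≠ 1 ∧ x * x = 1 ∧ ¬ Commute t x ∧
        ∀ y : ↥(Cfsg.SU 3 F q), y ≠ 1 → y * y = 1 → ¬ (Commute t y ∧ Commute y x)},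
      ∀ u, (f u).1 = ivs hq (u.1 + v) (hn u) :=
    ⟨fun u => ⟨ivs hq (u.1 + v) (hn u), ivs_ne_one hq h2 _ (hn u), ivs_sq hq _ (hn u),
      p3_to hq h2 t hv htv u.1 u.2.1 u.2.2.1 u.2.2.2 _ (mt_ivs hq _ (hn u))⟩, fun u => rfl⟩
  apply Nat.card_congr (Equiv.ofBijective f ⟨?_, ?_⟩)
  · intro u u' h
    have h3 := congrArg (fun z : {x : ↥(Cfsg.SU 3 F q) // x ≠ 1 ∧ x * x = 1 ∧ ¬ Commute t x ∧
        ∀ y : ↥(Cfsg.SU 3 F q), y ≠ 1 → y * y = 1 → ¬ (Commute t y ∧ Commute y x)} => mt z.1) h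
    simp only [hf, mt_ivs] at h3
    obtain ⟨c, hc0, hc⟩ := ivm_inj h2 (u.1 + v) (u'.1 + v) (hn u) (hn u') h3
    have e := congrArg (fun z => H3 z v) hc
    simp only [h_add_left, h_smul_left, u.2.1, u'.2.1, zero_add] at e
    have hc1 : c = 1 := by
      have h4 : (c - 1) * H3 v v = 0 := by linear_combination -e
      rcases mul_eq_zero.1 h4 with h5 | h5
      · exact sub_eq_zero.1 h5
      · exact absurd h5 hv
    rw [hc1, one_smul] at hc
    apply Subtype.ext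
    exact (add_right_cancel hc).symm
  · intro x
    obtain ⟨u, huv, hu0, huu, hxu⟩ :=
      p3_of hq h2 t x.1 hv htv x.2.1 x.2.2.1 x.2.2.2.1 x.2.2.2.2
    refine ⟨⟨u, huv, hu0, huu⟩, ?_⟩
    apply Subtype.ext
    apply mt_inj
    rw [hf, mt_ivs, hxu]

/-- The involutions at distance two from `t`. -/
theorem card_mid (hF : Fintype.card F = q ^ 2) (h2 : (2 : F) ≠ 0) (t : ↥(Cfsg.SU 3 F q)) (ht1 : t ≠ 1)
    (ht2 : t * t = 1) :
    Nat.card {x : ↥(Cfsg.SU 3 F q) // x ≠ 1 ∧ x * x = 1 ∧ ¬ Commute t x ∧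
      ∃ y : ↥(Cfsg.SU 3 F q), y ≠ 1 ∧ y * y = 1 ∧ Commute t y ∧ Commute y x} =
      q * (q - 2) * (q ^ 2 - 1) := by
  have hI := card_inv hF h2
  have s1 := card_split (fun x : ↥(Cfsg.SU 3 F q) => x ≠ 1 ∧ x * x = 1) (fun x => Commute t x)
  have s2 := card_split (fun x : ↥(Cfsg.SU 3 F q) => (x ≠ 1 ∧ x * x = 1) ∧ Commute t x) (fun x => x = t)
  have s3 := card_split (fun x : ↥(Cfsg.SU 3 F q) => (x ≠ 1 ∧ x * x = 1) ∧ ¬ Commute t x)
    (fun x => ∃ y : ↥(Cfsg.SU 3 F q), y ≠ 1 ∧ y * y = 1 ∧ Commute t y ∧ Commute y x)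
  have e1 : Nat.card {x : ↥(Cfsg.SU 3 F q) // ((x ≠ 1 ∧ x * x = 1) ∧ Commute t x) ∧ x = t} = 1 := by
    rw [Nat.card_eq_one_iff_unique]
    exact ⟨⟨fun a b => Subtype.ext (a.2.2.trans b.2.2.symm)⟩,
      ⟨⟨t, ⟨⟨ht1, ht2⟩, Commute.refl t⟩, rfl⟩⟩⟩
  have e2 : Nat.card {x : ↥(Cfsg.SU 3 F q) // ((x ≠ 1 ∧ x * x = 1) ∧ Commute t x) ∧ ¬ x = t} =
      q * (q - 1) := by
    rw [← card_comm hF h2 t ht1 ht2]
    exact Nat.card_congr (Equiv.subtypeEquivRight (fun x => by tauto))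
  have e3 : Nat.card {x : ↥(Cfsg.SU 3 F q) // ((x ≠ 1 ∧ x * x = 1) ∧ ¬ Commute t x) ∧
      ∃ y : ↥(Cfsg.SU 3 F q), y ≠ 1 ∧ y * y = 1 ∧ Commute t y ∧ Commute y x} =
      Nat.card {x : ↥(Cfsg.SU 3 F q) // x ≠ 1 ∧ x * x = 1 ∧ ¬ Commute t x ∧
      ∃ y : ↥(Cfsg.SU 3 F q), y ≠ 1 ∧ y * y = 1 ∧ Commute t y ∧ Commute y x} :=
    Nat.card_congr (Equiv.subtypeEquivRight (fun x =>
      ⟨fun ⟨⟨⟨a, b⟩, c⟩, d⟩ => ⟨a, b, c, d⟩, fun ⟨a, b, c, d⟩ => ⟨⟨⟨a, b⟩, c⟩, d⟩⟩))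
  have e4 : Nat.card {x : ↥(Cfsg.SU 3 F q) // ((x ≠ 1 ∧ x * x = 1) ∧ ¬ Commute t x) ∧
      ¬ ∃ y : ↥(Cfsg.SU 3 F q), y ≠ 1 ∧ y * y = 1 ∧ Commute t y ∧ Commute y x} =
      (q + 1) * (q ^ 2 - 1) := by
    rw [← card_far hF h2 t ht1 ht2]
    apply Nat.card_congr (Equiv.subtypeEquivRight (fun x => ?_))
    constructor
    · rintro ⟨⟨⟨a, b⟩, c⟩, d⟩
      exact ⟨a, b, c, fun y hy1 hy2 hcc => d ⟨y, hy1, hy2, hcc.1, hcc.2⟩⟩
    · rintro ⟨a, b, c, d⟩
      exact ⟨⟨⟨a, b⟩, c⟩, fun ⟨y, hy1, hy2, c1, c2⟩ => d y hy1 hy2 ⟨c1, c2⟩⟩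
  rw [hI, s2, e1, e2, s3, e3, e4] at s1
  have hq2 := two_le_q hF
  obtain ⟨k, rfl⟩ : ∃ k, q = k + 2 := ⟨q - 2, by omega⟩
  have e5 : (k + 2) ^ 2 - 1 = k ^ 2 + 4 * k + 3 := by
    apply Nat.sub_eq_of_eq_add
    ring
  have e6 : (k + 2) ^ 2 - (k + 2) + 1 = k ^ 2 + 3 * k + 3 := by
    have e : (k + 2) ^ 2 - (k + 2) = k ^ 2 + 3 * k + 2 := by
      apply Nat.sub_eq_of_eq_add
      ring
    rw [e]
  have e7 : k + 2 - 1 = k + 1 := by omega
  have e8 : k + 2 - 2 = k := by omega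
  rw [e5, e6, e7] at s1
  rw [e5, e8]
  have h5 : (k + 2) ^ 2 * (k ^ 2 + 3 * k + 3) = 1 + (k + 2) * (k + 1) +
      ((k + 2) * k * (k ^ 2 + 4 * k + 3) + (k + 2 + 1) * (k ^ 2 + 4 * k + 3)) := by ring
  rw [h5] at s1
  exact (Nat.add_right_cancel (Nat.add_left_cancel s1)).symm

/-- The commuting graph on involutions has diameter at most three. -/
theorem diam3 (hF : Fintype.card F = q ^ 2) (h2 : (2 : F) ≠ 0) (t x : ↥(Cfsg.SU 3 F q)) (ht1 : t ≠ 1)
    (ht2 : t * t = 1) (hx1 : x ≠ 1) (hx2 : x * x = 1) :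
    ∃ y z : ↥(Cfsg.SU 3 F q), y ≠ 1 ∧ y * y = 1 ∧ z ≠ 1 ∧ z * z = 1 ∧
      Commute t y ∧ Commute y z ∧ Commute z x := by
  have hq := qf_of_card hF
  by_cases hc : Commute t x
  · exact ⟨t, t, ht1, ht2, ht1, ht2, Commute.refl t, Commute.refl t, hc⟩
  by_cases hE : ∃ y : ↥(Cfsg.SU 3 F q), y ≠ 1 ∧ y * y = 1 ∧ Commute t y ∧ Commute y x
  · obtain ⟨y, hy1, hy2, c1, c2⟩ := hE
    exact ⟨y, y, hy1, hy2, hy1, hy2, c1, Commute.refl y, c2⟩
  have hall : ∀ y : ↥(Cfsg.SU 3 F q), y ≠ 1 → y * y = 1 → ¬ (Commute t y ∧ Commute y x) :=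
    fun y hy1 hy2 hcc => hE ⟨y, hy1, hy2, hcc.1, hcc.2⟩
  obtain ⟨v, hv, htv⟩ := inv_struct' hq h2 t ht1 ht2
  obtain ⟨u, huv, hu0, huu, hxu⟩ := p3_of hq h2 t x hv htv hx1 hx2 hc hall
  have h0 := ND_bot (n := 3) (F := F) (q := q) hq
  have h1 := ND_ext1 hq h0 (mem_perp_bot hq v) hv
  have hu1 : u ∈ perp q ((⊥ : Submodule F V3) ⊔ Submodule.span F {v}) :=
    (mem_perp_ext hq _ _ _).2 ⟨mem_perp_bot hq u, huv⟩
  obtain ⟨f, hf, hff, huf⟩ := exists_partner hq h1 hu1 hu0 huu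
  have hfv : H3 f v = 0 := ((mem_perp_ext hq _ _ _).1 hf).2
  have hfu : H3 f u = 1 := by rw [← h_conj hq u f, huf, map_one]
  have hvu := h_symm0 hq huv
  have hvf := h_symm0 hq hfv
  obtain ⟨N, hN⟩ : ∃ N : F, N = H3 v v := ⟨_, rfl⟩
  have hN0 : N ≠ 0 := by
    rw [hN]
    exact hv
  have hNf : frob hq N = N := by rw [hN, h_conj hq]
  obtain ⟨a, ha⟩ : ∃ a : V3, a = u + N • f := ⟨_, rfl⟩
  obtain ⟨b, hb⟩ : ∃ b : V3, b = u + v - N • f := ⟨_, rfl⟩
  have haa : H3 a a = 2 * N := by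
    rw [ha]
    simp only [h_add_left, h_add_right hq, h_smul_left, h_smul_right hq, huu, hff, huf, hfu, hNf]
    ring
  have hav : H3 a v = 0 := by
    rw [ha]
    simp only [h_add_left, h_smul_left, huv, hfv]
    ring
  have hbb : H3 b b = -N := by
    rw [hb]
    simp only [h_add_left, h_sub_left, h_add_right hq, h_sub_right hq, h_smul_left,
      h_smul_right hq, huu, hff, huf, hfu, hNf, huv, hvu, hfv, hvf, ← hN]
    ring
  have hba : H3 b a = 0 := by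
    rw [hb, ha]
    simp only [h_add_left, h_sub_left, h_add_right hq, h_smul_left,
      h_smul_right hq, huu, hff, huf, hfu, hNf, hvu, hvf]
    ring
  have hwb : H3 (u + v) b = 0 := by
    rw [hb]
    simp only [h_add_left, h_add_right hq, h_sub_right hq, h_smul_right hq, huu, huf, hNf, huv,
      hvu, hvf, ← hN]
    ring
  have haa' : H3 a a ≠ 0 := by
    rw [haa]
    exact mul_ne_zero h2 hN0
  have hbb' : H3 b b ≠ 0 := by
    rw [hbb]
    exact neg_ne_zero.2 hN0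
  have hnorm : H3 (u + v) (u + v) ≠ 0 := by
    have e : H3 (u + v) (u + v) = H3 v v := by
      simp only [h_add_left, h_add_right hq, huu, huv, hvu]
      ring
    rw [e]
    exact hv
  refine ⟨ivs hq a haa', ivs hq b hbb', ivs_ne_one hq h2 a haa', ivs_sq hq a haa',
    ivs_ne_one hq h2 b hbb', ivs_sq hq b hbb', ?_, ?_, ?_⟩
  · exact (commute_iff hq h2 t _ hv haa' htv (mt_ivs hq a haa')).2 (Or.inl hav)
  · exact (commute_iff hq h2 (ivs hq a haa') (ivs hq b hbb') haa' hbb' (mt_ivs hq a haa')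
      (mt_ivs hq b hbb')).2 (Or.inl hba)
  · exact (commute_iff hq h2 (ivs hq b hbb') x hbb' hnorm (mt_ivs hq b hbb') hxu).2 (Or.inl hwb)

end fin2

end Cfsg.Agent.Helper8.SU3I
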